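import Cfsg.Agent.U5.C1
import Cfsg.Agent.S0283
import Cfsg.Agent.S2089
import Cfsg.Agent.Known.Aut.PSURes
import Cfsg.Agent.Classical.Transport2

/-! The matrix bridge; automorphisms of the standard subgroup. -/

set_option autoImplicit false
set_option linter.unusedSectionVars false
set_option linter.unusedVariables false

namespace CF.U5

open Subgroup Equiv CF.Geom Module CF.Loc CF.LX
open scoped commutatorElement Matrix MatrixGroups

variable {K : Type} [Field K] [Fintype K] [CharP K 2] {m q : ℕ} {σ θ θ' : K ≃+* K} {a b c : K}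
  {g p ξ ξ' : Perm (Fin m → K)} {u v w x y : Fin m → K} {H P : Subgroup (Perm (Fin m → K))}
  {G X : Type*} [Group G] [Finite G] [Group X] [Finite X] {ρ ρ₁ ρ₂ : SU σ m →* G} {ρ' : SU σ m →* X} {t h h' : G}

theorem sc_comm (e : Sc ξ) (l : Sem σ 1 g) : ξ * g = g * ξ := by
  obtain ⟨c, e⟩ := e; exact Equiv.ext fun x => by simp [e, l.smul1]
theorem sc_one : Sc (1 : Perm (Fin m → K)) := ⟨1, by simp⟩
theorem E2.map {A B : Type*} [Group A] [Group B] (f : A →* B) {a : A} (e : E2 a) : E2 (f a) := e.imp fun _ e => by rw [← map_pow, e, map_one]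
theorem e2_of {A : Type*} [Group A] {R : Subgroup A} (two : IsPGroup 2 R) {a : A} (h : a ∈ R) : E2 a := isPGroup_iff_forall.1 two a h
theorem e2_inv {A : Type*} [Group A] {a : A} (e : a * a = 1) : E2 a := ⟨1, (pow_two a).trans e⟩
theorem E2.mul {A : Type*} [Group A] {a b : A} (e : E2 a) (f : E2 b) (c : a * b = b * a) : E2 (a * b) := by
  obtain ⟨i, e⟩ := e; obtain ⟨j, f⟩ := f
  exact ⟨i + j, by rw [Commute.mul_pow c, pow_add, pow_mul, e, mul_comm, pow_mul, f]; simp⟩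
theorem E2.inv {A : Type*} [Group A] {a : A} (e : E2 a) : E2 a⁻¹ := e.imp fun _ e => by rw [inv_pow, e, inv_one]
theorem E2.cj {A : Type*} [Group A] {a : A} (e : E2 a) (g : A) : E2 (g * a * g⁻¹) := e.map (MulAut.conj g).toMonoidHom
theorem E2.up {A B : Type*} [Group A] [Group B] {H : Subgroup A} {f : H →* B} {a : A} (e : E2 a) (h : a ∈ H) : E2 (up f a) :=
  up_eq (φ := f) h ▸ E2.map f (e.imp fun _ e => Subtype.ext e)
theorem E2.odd {A : Type*} [Group A] {a : A} (e : E2 a) {n : ℕ} (o : Odd n) (f : a ^ n = 1) : a = 1 := by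
  obtain ⟨j, e⟩ := e
  have := pow_gcd_eq_one.2 ⟨e, f⟩
  rwa [Nat.Coprime.gcd_eq_one (Nat.Coprime.pow_left _ (Nat.coprime_two_left.2 o)), pow_one] at this
theorem hom_eq {A B : Type*} [Group A] [Group B] (pf : _root_.commutator A = ⊤) {f k : A →* B}
    (e : ∀ x y, (f x)⁻¹ * k x * f y = f y * ((f x)⁻¹ * k x)) (e' : ∀ x y, (f x)⁻¹ * k x * k y = k y * ((f x)⁻¹ * k x)) : f = k := by
  refine MonoidHom.eq_of_eqOn_dense (s := commutatorSet A) (by rw [← commutator_eq_closure, pf]) ?_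
  rintro _ ⟨x, y, rfl⟩
  have h1 : ⁅k x, k y⁆ = ⁅f x, k y⁆ := by
    calc ⁅k x, k y⁆ = f x * ((f x)⁻¹ * k x * k y) * ((f x)⁻¹ * k x)⁻¹ * (f x)⁻¹ * (k y)⁻¹ := by rw [commutatorElement_def]; group
      _ = _ := by rw [e', commutatorElement_def]; group
  have h2 : ⁅f y, f x⁆ = ⁅k y, f x⁆ := by
    calc ⁅f y, f x⁆ = f y * (f x * ((f y)⁻¹ * k y)) * ((f y)⁻¹ * k y)⁻¹ * (f y)⁻¹ * (f x)⁻¹ := by rw [commutatorElement_def]; group
      _ = _ := by rw [← e, commutatorElement_def]; group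
  simp only [map_commutatorElement]
  rw [h1, ← commutatorElement_inv, h2, commutatorElement_inv]
theorem up_sur (g : SU σ m) : up ρ g = ρ g := up_coe g
theorem Ind.mul (l : Sem σ θ ξ') (i : Ind ρ h ξ) (j : Ind ρ h' ξ') : Ind ρ (h * h') (ξ * ξ') := fun g k => by
  have := i _ (l.su k)
  rw [← j g k] at this
  simpa only [mul_inv_rev, mul_assoc] using this
theorem Ind.inv (l : Sem σ θ ξ) (i : Ind ρ h ξ) : Ind ρ h⁻¹ ξ⁻¹ := fun g k => by
  have := i _ (l.inv.su k)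
  simp only [inv_inv, mul_assoc, mul_inv_cancel, mul_one, mul_inv_cancel_left] at this ⊢
  rw [← this]; group
theorem ind_up (k : g ∈ SU σ m) : Ind ρ (up ρ g) g := fun _ l => (up_cj k l).symm
theorem ind_one (k : h ∈ 𝐂(ρ.range)) : Ind ρ h 1 := fun g _ => by
  simpa using conj_eq_iff.2 (mem_centralizer_iff'.1 k _ (up_range g)).symm
theorem Ind.pow (l : Sem σ θ ξ) (i : Ind ρ h ξ) (n : ℕ) : Ind ρ (h ^ n) (ξ ^ n) := by
  induction n with
  | zero => simpa using ind_one (one_mem _)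
  | succ n ih => rw [pow_succ, pow_succ]; exact ih.mul l i
theorem Ind.nor (l : Sem σ θ ξ) (i : Ind ρ h ξ) : h ∈ 𝐍(ρ.range) := mem_normalizer_iff.2 fun x => by
  refine ⟨fun k => ?_, fun k => ?_⟩ <;> obtain ⟨g, k, e⟩ := mem_range_up.1 k
  · rw [← e, i g k]; exact up_range _
  · have := i.inv l g k
    rw [e] at this
    simp only [mul_assoc, inv_mul_cancel_left, inv_inv, inv_mul_cancel, mul_one] at this
    exact this ▸ up_range _
theorem Ind.cm (i : Ind ρ h ξ) (k : g ∈ SU σ m) (e : ξ * g = g * ξ) : h * up ρ g = up ρ g * h :=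
  conj_eq_iff.1 (by rw [i g k, conj_eq_iff.2 e])
theorem Ker.cj (k : Ker ρ) (h : G) : Ker ((MulAut.conj h).toMonoidHom.comp ρ) := fun g l e =>
  k g l (conj_eq_one_iff.1 ((up_comp _ g).symm.trans e))

namespace Dm
variable (d : Dm σ q m)
include d
theorem tv_inj (hu : hf σ u u = 0) (hv : hf σ v v = 0) (ha : σ a = a) (hb : σ b = b) (a0 : a ≠ 0) (u0 : u ≠ 0)
    (e : E σ u 0 a = E σ v 0 b) : ∃ c : K, v = c • u ∧ c * σ c * b = a := by
  obtain ⟨y, -, k, -⟩ := d.partner hu u0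
  have f := congrArg (· y) e
  simp only [E_ap (ok_tv d.iv hu ha), E_ap (ok_tv d.iv hv hb), k, smul_zero, add_zero, hf_zero_r, zero_add, mul_one, add_right_inj] at f
  have z : b * hf σ y v ≠ 0 := fun z => smul_ne_zero a0 u0 (by rw [f, z, zero_smul])
  obtain ⟨c, rfl⟩ : ∃ c : K, v = c • u := ⟨(b * hf σ y v)⁻¹ * a, by rw [mul_smul, f, inv_smul_smul₀ z]⟩
  refine ⟨c, rfl, smul_left_injective K u0 ?_⟩
  simp only [f, hf_smul_r, k, smul_smul]; ring_nf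
theorem tv_ne (hu : hf σ u u = 0) (u0 : u ≠ 0) (ha : σ a = a) (a0 : a ≠ 0) : E σ u 0 a ≠ 1 := fun e => by
  obtain ⟨c, -, k⟩ := d.tv_inj hu hu ha (map_zero σ) a0 u0 (e.trans (E_zero u).symm)
  exact a0 (by simpa using k.symm)
theorem sc_fix (e : Sc g) (v0 : v ≠ 0) (f : g v = v) : g = 1 := by
  obtain ⟨c, e⟩ := e
  have : c = 1 := smul_left_injective K v0 (by simpa [e] using f)
  exact Equiv.ext fun x => by simp [e, this]
theorem sc_of (l : ξ ∈ Gam σ m) (e : ∀ g ∈ SU σ m, Sc (ξ * g * ξ⁻¹ * g⁻¹)) : Sem σ 1 ξ ∧ ∃ c : K, c * σ c = 1 ∧ ∀ x, ξ x = c • x := by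
  obtain ⟨θ, l⟩ := l
  obtain ⟨rfl, k⟩ := d.sc_iso l fun v hv => by
    by_cases v0 : v = 0
    · exact ⟨0, by simp [v0, l.zero]⟩
    obtain ⟨w, w0, -, a, b⟩ := d.exists_perp v (ξ v)
    have := e _ (tv_SU v 1)
    rw [tv_cj l, E_inv (ok_tv d.iv hv (map_one σ)), map_one, map_one] at this
    have := d.sc_fix this w0 (by rw [Perm.mul_apply, E_fix (d.sw a) (by simp), E_fix (d.sw b) (by simp)])
    rw [mul_eq_one_iff_eq_inv, E_inv (ok_tv d.iv hv (map_one σ)), map_one] at this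
    exact (d.tv_inj hv (by rw [l.form, hv, map_zero]) (map_one σ) (map_one σ) one_ne_zero v0 this.symm).imp fun _ => And.left
  exact ⟨l, k⟩
theorem sc_sem (l : Sem σ θ ξ) (e : Sc ξ) : θ = 1 ∧ ∃ c : K, c * σ c = 1 ∧ ∀ x, ξ x = c • x :=
  d.sc_iso l fun v _ => e.imp fun _ e => e v
theorem sc_odd (l : ξ ∈ Gam σ m) (e : Sc ξ) : ξ ^ (q + 1) = 1 := by
  obtain ⟨-, c, n, e⟩ := d.sc_sem l.choose_spec e
  have : ∀ j x, (ξ ^ j) x = c ^ j • x := fun j x => by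
    induction j with
    | zero => simp
    | succ j ih => rw [pow_succ', Perm.mul_apply, ih, e, smul_smul, pow_succ']
  exact Equiv.ext fun x => by simp [this, (d.odd n).2]
theorem oddq : Odd (q + 1) := (d.odd (c := 1) (by simp)).1
theorem sc_two (l : ξ ∈ Gam σ m) (e : Sc ξ) (e2 : E2 ξ) : ξ = 1 := e2.odd d.oddq (d.sc_odd l e)
theorem cen_sc (l : ξ ∈ Gam σ m) (e : ξ ∈ 𝐂(SU σ m)) : Sc ξ :=
  let ⟨_, c, _, k⟩ := d.sc_of l fun g k => by rw [← mem_centralizer_iff'.1 e g k]; simpa using sc_one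
  ⟨c, k⟩
theorem center_iff {g : SU σ m} : g ∈ center (SU σ m) ↔ Sc g.1 :=
  ⟨fun e => d.cen_sc (GU_le (SU_le g.2)) (mem_centralizer_iff'.2 fun k l => congrArg Subtype.val (mem_center_iff.1 e ⟨k, l⟩)),
    fun e => mem_center_iff.2 fun k => Subtype.ext (sc_comm e (su_sem k.2)).symm⟩
theorem bridge : ∃ e : (Fin m → K) ≃ₗ[K] (Fin m → K), (∀ x y, Cfsg.hermForm m K q (e x) (e y) = hf σ x y) ∧
    ∃ f : SU σ m ≃* Cfsg.SU m K q, ∀ g x, e (g.1 x) = (f g).1.1 *ᵥ e x := by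
  obtain ⟨e, k⟩ := exists_equiv_hermSesq (d.herm (m := m)).ne_id d.iv d.herm.symm d.ndg finrank_V
  have hσ : ∀ x, (σ : K →+* K) x = x ^ q := d.pw
  let c : UG (sq σ m) ≃* UG (hermSesq (Fin m) (σ : K →+* K)) := isomCongr e k fun x => k x x
  let ψ := (pm σ m).comp (c.symm.toMonoidHom.comp (suToUG m hσ))
  have i : Function.Injective ψ := (show Function.Injective (pm σ m) from fun a b h => Subtype.ext (LinearEquiv.toEquiv_injective h)).comp
    (c.symm.injective.comp (suToUG_injective m hσ))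
  have r : SU σ m = ψ.range := by
    ext g
    rw [d.mem_SU, MonoidHom.range_comp, MonoidHom.range_comp, suToUG_range]
    refine ⟨fun ⟨a, b⟩ => ?_, ?_⟩
    · obtain ⟨g, rfl⟩ := a.pm
      exact ⟨g, ⟨c g, mem_suSub.2 ((det_isomCongr e k _ g).trans ((dt_pm g).symm.trans b)), c.symm_apply_apply g⟩, rfl⟩
    · rintro ⟨_, ⟨g, a, rfl⟩, rfl⟩
      obtain ⟨g, rfl⟩ := c.surjective g
      exact ⟨pm_sem _, (congrArg (fun x => dt σ (pm σ m x)) (c.symm_apply_apply g)).trans ((dt_pm g).trans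
        ((det_isomCongr e k _ g).symm.trans (mem_suSub.1 a)))⟩
  refine ⟨e, fun x y => (hermForm_eq hσ _ _).trans (k y x), (MulEquiv.subgroupCongr r).trans (MonoidHom.ofInjective i).symm,
    fun g x => ?_⟩
  have := MonoidHom.apply_ofInjective_symm i (MulEquiv.subgroupCongr r g)
  rw [show g.1 = _ from this.symm]
  exact e.apply_symm_apply _
theorem perf : _root_.commutator (SU σ m) = ⊤ := by
  apply map_injective (SU σ m).subtype_injective
  rw [map_subtype_commutator, ← MonoidHom.range_eq_map, range_subtype]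
  exact le_antisymm (commutator_le_self _) d.su_perf
theorem qs : Cfsg.IsQuasisimple (SU σ m) := by
  obtain ⟨-, -, f, -⟩ := d.bridge
  have := Cfsg.Agent.S0283.result d.card' m (by have := d.hm; omega) (by have := d.hm; omega)
  exact ⟨⟨d.perf⟩, (CF.Classical.quotientCenterEquiv f).isSimpleGroup⟩
theorem su_simple (l : H ≤ SU σ m) (n : SU σ m ≤ 𝐍(H)) : (∀ g ∈ H, Sc g) ∨ H = SU σ m :=
  (Sig.qs_eq_or_le_centralizer d.qs l n).symm.imp_left fun e g k => d.cen_sc (GU_le (SU_le (l k))) (e k)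
theorem exists_equiv : ∃ f : SU σ m ≃* Cfsg.SU m K q, ∀ β : MulAut (Cfsg.PSU m K q), ∃ ξ ∈ Gam σ m, ∀ g g' : SU σ m,
    (g' : Perm (Fin m → K)) = ξ * g * ξ⁻¹ → β (QuotientGroup.mk (f g)) = QuotientGroup.mk (f g') := by
  obtain ⟨e, k, f, l⟩ := d.bridge
  refine ⟨f, fun β => ?_⟩
  obtain ⟨δ, φ, θ, ⟨M, hM, h1⟩, h2, rfl⟩ := Known.psu_decomp d.card' (by have := d.hm; omega) (by have := d.hm; omega) β
  let ξ : Perm (Fin m → K) := e.toEquiv.trans ((Equiv.piCongrRight fun _ => θ.toEquiv).trans ((glEquiv _ K M).toEquiv.trans e.symm.toEquiv))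
  have hξ : ∀ x, e (ξ x) = M.1 *ᵥ (θ ∘ e x) := fun x => e.apply_symm_apply _
  refine ⟨ξ, ⟨θ, fun x y => e.injective ?_, fun c x => e.injective ?_, fun x y => ?_, d.com θ⟩, fun g g' r => ?_⟩
  · rw [map_add e, hξ, hξ, hξ, ← Matrix.mulVec_add]; congr 1; ext; simp
  · rw [map_smul e, hξ, hξ, ← Matrix.mulVec_smul]; congr 1; ext; simp
  · rw [← k, hξ, hξ, mem_GU.1 hM, CF.Classical.hermForm_comp, k]
  rw [MulAut.mul_apply, h2 _ (CF.Classical.suCongr θ m q (f g)) rfl]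
  refine h1 _ _ (matrix_eq_iff_mulVec.2 fun v => ?_)
  obtain ⟨v, rfl⟩ := e.surjective v
  obtain ⟨v, rfl⟩ := ξ.surjective v
  rw [← l, r, Perm.mul_apply, Perm.mul_apply, show ξ⁻¹ (ξ v) = v from ξ.symm_apply_apply v, hξ, hξ, Matrix.mulVec_mulVec, mul_assoc, ← Units.val_mul,
    inv_mul_cancel, Units.val_one, mul_one, ← Matrix.mulVec_mulVec, l]
  congr 1; ext i; exact RingHom.map_mulVec (θ : K →+* K) _ _ i
theorem exists_aut (β : MulAut (SU σ m ⧸ center (SU σ m))) : ∃ ξ ∈ Gam σ m, ∀ g g' : SU σ m,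
    (g' : Perm (Fin m → K)) = ξ * g * ξ⁻¹ → β (QuotientGroup.mk g) = QuotientGroup.mk g' := by
  obtain ⟨f, k⟩ := d.exists_equiv
  let c := CF.Classical.quotientCenterEquiv f
  obtain ⟨ξ, l, e⟩ := k (c.symm.trans (β.trans c))
  exact ⟨ξ, l, fun g g' r => c.injective ((congrArg (fun x => c (β x)) (c.symm_apply_apply _).symm).trans (e g g' r))⟩
theorem cen_iff (k : Ker ρ) (l : g ∈ SU σ m) : up ρ g ∈ 𝐂(ρ.range) ↔ Sc g := by
  refine ⟨fun e => ?_, fun e => mem_centralizer_iff'.2 fun x i => ?_⟩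
  · obtain ⟨-, c, -, f⟩ := d.sc_of (GU_le (SU_le l)) fun p i => k _ (mul_mem ((su_sem l).su i) (inv_mem i)) (by
      rw [up_mul ((su_sem l).su i) (inv_mem i), up_cj l i, up_inv i, ← mem_centralizer_iff'.1 e _ (up_range p)]; simp)
    exact ⟨c, f⟩
  · obtain ⟨p, j, rfl⟩ := mem_range_up.1 i
    rw [← up_mul j l, ← up_mul l j, sc_comm e (su_sem j)]
theorem psu (k : Ker ρ) {L : Subgroup G} (e : ρ.range = L) : ∃ φ : (SU σ m ⧸ center (SU σ m)) ≃* (L ⧸ center L),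
    ∀ g (h : ρ g ∈ L), φ (QuotientGroup.mk g) = QuotientGroup.mk ⟨ρ g, h⟩ := by
  subst e
  let f := (QuotientGroup.mk' (center ρ.range)).comp ρ.rangeRestrict
  have s : Function.Surjective f := (QuotientGroup.mk'_surjective _).comp ρ.rangeRestrict_surjective
  have e : center (SU σ m) = f.ker := Subgroup.ext fun g => by
    rw [d.center_iff, ← d.cen_iff k g.2, up_coe, MonoidHom.mem_ker, MonoidHom.comp_apply, QuotientGroup.mk'_apply,
      QuotientGroup.eq_one_iff, mem_center_iff, mem_centralizer_iff']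
    exact ⟨fun e x => Subtype.ext (e x x.2), fun e x i => congrArg Subtype.val (e ⟨x, i⟩)⟩
  exact ⟨(QuotientGroup.quotientMulEquivOfEq e).trans (QuotientGroup.quotientKerEquivOfSurjective f s), fun _ _ => rfl⟩
theorem ind2 (k₁ : Ker ρ₁) (k₂ : Ker ρ₂) (e : ρ₁.range = ρ₂.range) :
    ∃ ξ ∈ Gam σ m, ∀ g ∈ SU σ m, up ρ₂ g = up ρ₁ (ξ * g * ξ⁻¹) := by
  obtain ⟨φ₁, h₁⟩ := d.psu k₁ e
  obtain ⟨φ₂, h₂⟩ := d.psu k₂ rfl
  obtain ⟨ξ, ⟨θ, l⟩, r⟩ := d.exists_aut (φ₂.trans φ₁.symm)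
  let c : SU σ m →* SU σ m := ((MulAut.conj ξ).toMonoidHom.comp (SU σ m).subtype).codRestrict _ fun g => l.su g.2
  have z : ∀ g, ∀ y ∈ ρ₂.range, (ρ₂ g)⁻¹ * ρ₁ (c g) * y = y * ((ρ₂ g)⁻¹ * ρ₁ (c g)) := fun g y i => by
    have := r g (c g) rfl
    rw [MulEquiv.trans_apply, MulEquiv.symm_apply_eq, h₁ _ (e ▸ ⟨_, rfl⟩), h₂ _ ⟨_, rfl⟩, QuotientGroup.eq] at this
    exact congrArg Subtype.val (mem_center_iff.1 this ⟨y, i⟩).symm
  have := hom_eq d.perf (f := ρ₂) (k := ρ₁.comp c) (fun x y => z x _ ⟨_, rfl⟩) fun x y => z x _ (e ▸ ⟨_, rfl⟩)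
  exact ⟨ξ, ⟨θ, l⟩, fun g i => by rw [up_eq i, up_eq (l.su i), this]; rfl⟩
theorem ind_of (k₁ : Ker ρ) (n : h ∈ 𝐍(ρ.range)) : ∃ ξ ∈ Gam σ m, Ind ρ h ξ := by
  obtain ⟨ξ, l, e⟩ := d.ind2 k₁ (k₁.cj h) (by rw [MonoidHom.range_comp]; exact (cj_eq_self n).symm)
  exact ⟨ξ, l, fun g i => (up_comp (MulAut.conj h).toMonoidHom g).symm.trans (e g i)⟩
theorem ind_cen (k₁ : Ker ρ) (l : ξ ∈ Gam σ m) (i : Ind ρ h ξ) : h ∈ 𝐂(ρ.range) ↔ Sc ξ := by
  refine ⟨fun e => ?_, fun e => mem_centralizer_iff'.2 fun x k => ?_⟩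
  · obtain ⟨-, c, -, f⟩ := d.sc_of l fun p j => k₁ _ (mul_mem (l.choose_spec.su j) (inv_mem j)) (by
      rw [up_mul (l.choose_spec.su j) (inv_mem j), ← i p j, up_inv j, ← mem_centralizer_iff'.1 e _ (up_range p)]; simp)
    exact ⟨c, f⟩
  · obtain ⟨p, j, rfl⟩ := mem_range_up.1 k
    exact (i.cm j (sc_comm e (su_sem j))).symm
/-- two maps inducing the same element differ by a scalar -/
theorem ind_uq (k₁ : Ker ρ) (l : Sem σ θ ξ) (l' : Sem σ θ' ξ') (i : Ind ρ h ξ) (i' : Ind ρ h ξ') :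
    θ = θ' ∧ ∃ c : K, c * σ c = 1 ∧ ∀ x, ξ x = c • ξ' x := by
  have := i.mul l'.inv (i'.inv l')
  obtain ⟨e, c, n, f⟩ := d.sc_sem (l.mul l'.inv) ((d.ind_cen k₁ ⟨_, l.mul l'.inv⟩ this).1 (by simp))
  exact ⟨mul_inv_eq_one.1 e, c, n, fun x => by simpa using f (ξ' x)⟩
theorem ker_sc (k : Ker ρ) (l : g ∈ SU σ m) (e : up ρ g = 1) (e2 : E2 g) : g = 1 := d.sc_two (GU_le (SU_le l)) (k g l e) e2
theorem up_inj (k : Ker ρ) (two : IsPGroup 2 P) (l : P ≤ SU σ m) (a : g ∈ P) (b : p ∈ P) (e : up ρ g = up ρ p) : g = p :=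
  mul_inv_eq_one.1 (d.ker_sc k (l (mul_mem a (inv_mem b))) (by rw [up_mul (l a) (inv_mem (l b)), up_inv (l b), e, mul_inv_cancel])
    (e2_of two (mul_mem a (inv_mem b))))
theorem lift {f : G →* X} (c : f.ker ≤ center G) (l : ρ'.range ≤ f.range) : ∃ ρ : SU σ m →* G, f.comp ρ = ρ' := by
  obtain ⟨-, -, e, -⟩ := d.bridge
  have hm := d.hm
  obtain ⟨η, k⟩ := Schur.exists_lift_of_trivial (commutator_SU_eq_top d.card' m (by omega) (by omega))
    (Cfsg.Agent.S2089.su d.card' m (by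
      obtain ⟨_ | _ | n, h, r⟩ := d.two
      · omega
      · omega
      · have := Nat.one_le_two_pow (n := n); rw [pow_succ, pow_succ] at r; omega))
    (ξ := f.rangeRestrict) ⟨f.rangeRestrict_surjective, by rwa [MonoidHom.ker_rangeRestrict]⟩
    ((ρ'.codRestrict _ fun g => l ⟨g, rfl⟩).comp e.symm.toMonoidHom)
  exact ⟨η.comp e.toMonoidHom, MonoidHom.ext fun g => (congrArg Subtype.val (DFunLike.congr_fun k (e g))).trans
    (congrArg ρ' (e.symm_apply_apply g))⟩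
theorem th (k₁ : Ker ρ) : ∃ Θ : 𝐍(ρ.range) →* (K ≃+* K), ∀ h ξ θ, Sem σ θ ξ → Ind ρ h.1 ξ → Θ h = θ := by
  choose ξ l i using fun h : 𝐍(ρ.range) => d.ind_of k₁ h.2
  choose θ l using l
  exact ⟨MonoidHom.mk' θ fun a b => (d.ind_uq k₁ (l _) ((l a).mul (l b)) (i _) ((i a).mul (l b) (i b))).1,
    fun h _ _ a b => (d.ind_uq k₁ (l _) a (i _) b).1⟩
theorem lift2 (k₁ : Ker ρ) {R : Subgroup G} (two : IsPGroup 2 R) (n : R ≤ 𝐍(ρ.range)) : ∃ ψ : R →* Perm (Fin m → K),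
    (∀ r, ψ r ∈ Gam σ m ∧ Ind ρ r (ψ r)) ∧ (∀ r, ψ r = 1 ↔ r.1 ∈ 𝐂(ρ.range)) ∧
      ∀ g ∈ SU σ m, E2 g → up ρ g ∈ R → up ψ (up ρ g) = g := by
  let Γ : Subgroup (R × Perm (Fin m → K)) :=
    { carrier := {p | p.2 ∈ Gam σ m ∧ Ind ρ p.1 p.2}
      mul_mem' := fun a b => ⟨mul_mem a.1 b.1, a.2.mul b.1.choose_spec b.2⟩
      one_mem' := ⟨one_mem _, ind_one (one_mem _)⟩
      inv_mem' := fun a => ⟨inv_mem a.1, a.2.inv a.1.choose_spec⟩ }
  obtain ⟨S, hS⟩ := exists_isSyl 2 Γ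
  have e := hS.map (MonoidHom.fst _ _)
  let f := (MonoidHom.fst _ _).comp S.subtype
  have z : ∀ p ∈ S, p.1.1 ∈ 𝐂(ρ.range) → p.2 = 1 := fun p a c =>
    d.sc_two (hS.le a).1 ((d.ind_cen k₁ (hS.le a).1 (hS.le a).2).1 c) ((e2_of hS.isPGroup a).map (MonoidHom.snd _ _))
  have b : Function.Bijective f := ⟨(injective_iff_map_eq_one f).2 fun x k => Subtype.ext (Prod.ext k (z _ x.2 (by
      rw [show x.1.1 = 1 from k]; exact one_mem _))), fun y => by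
    obtain ⟨ξ, l, i⟩ := d.ind_of k₁ (n y.2)
    obtain ⟨x, hx, k⟩ := (e.eq_of_le (two.to_subgroup _) e.le le_rfl).le (⟨(y, ξ), ⟨l, i⟩, rfl⟩ : y ∈ Γ.map (MonoidHom.fst _ _))
    exact ⟨⟨x, hx⟩, k⟩⟩
  let ε := MulEquiv.ofBijective f b
  let ψ := (MonoidHom.snd _ _).comp (S.subtype.comp ε.symm.toMonoidHom)
  have k : ∀ r, (ε.symm r).1.1 = r := ε.apply_symm_apply
  have h : ∀ r, ψ r ∈ Gam σ m ∧ Ind ρ r (ψ r) := fun r => ⟨(hS.le (ε.symm r).2).1, by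
    have := (hS.le (ε.symm r).2).2; rwa [k] at this⟩
  refine ⟨ψ, h, fun r => ⟨fun e => (d.ind_cen k₁ (h r).1 (h r).2).2 (e ▸ sc_one), fun e => z _ (ε.symm r).2 ((k r).symm ▸ e)⟩,
    fun g l e2 i => ?_⟩
  rw [up_eq i]
  obtain ⟨θ, s⟩ := (h ⟨_, i⟩).1
  obtain ⟨rfl, c, -, r⟩ := d.ind_uq k₁ s (su_sem l) (h ⟨_, i⟩).2 (ind_up l)
  have sc : Sc (ψ ⟨_, i⟩ * g⁻¹) := ⟨c, fun x => by simp [r]⟩
  refine mul_inv_eq_one.1 (d.sc_two ⟨_, s.mul (su_sem l).inv⟩ sc (E2.mul (E2.map ψ (two _)) e2.inv ?_))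
  have := sc_comm sc (su_sem l)
  rw [inv_mul_cancel_right] at this
  rw [eq_inv_mul_iff_mul_eq, ← this]
end Dm

end CF.U5
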