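import Cfsg.Agent.U5.C2
import Cfsg.Agent.U5.B2

/-! Centralisers in the semilinear unitary group. -/

set_option autoImplicit false
set_option linter.unusedSectionVars false
set_option linter.unusedVariables false

namespace CF.U5

open Subgroup Equiv CF.Geom Module CF.Loc CF.LX CF.Dbl
open scoped commutatorElement

variable {K : Type} [Field K] [Fintype K] [CharP K 2] {m q : ℕ} {σ θ : K ≃+* K} {a b c ζ ζ' : K}
  {g p k ξ w : Perm (Fin m → K)} {u v x y e n n' u' v' : Fin m → K} {T T' S : Submodule K (Fin m → K)}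
  {H P : Subgroup (Perm (Fin m → K))}

/-- scalars as permutations -/
def sm (c : K) (h : c * σ c = 1) : Perm (Fin m → K) := MulAction.toPerm (Units.mkOfMulEqOne c _ h)

theorem sm_ap (h : c * σ c = 1) (x : Fin m → K) : sm c h x = c • x := rfl
theorem sm_sem (h : c * σ c = 1) : Sem σ 1 (sm (m := m) c h) :=
  ⟨smul_add c, fun a x => smul_comm c a x, fun x y => by
    rw [sm_ap, sm_ap, hf_smul_l, hf_smul_r, ← mul_assoc, h, one_mul]; rfl, fun _ => rfl⟩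
theorem W_fix (i : w ∈ WX σ T) (hx : ∀ z ∈ T, hf σ x z = 0) : w x = x := hf_ext (σ := σ) fun y => by
  obtain ⟨y, rfl⟩ := w.surjective y
  have := hx _ (i.2 y)
  rw [vsub, hf_add_r] at this
  rw [i.1.form1]; grind
theorem W_mono (h : T ≤ T') : WX σ T ≤ WX σ T' := fun _ i => ⟨i.1, fun x => h (i.2 x)⟩
theorem W_add (i : w ∈ WX σ T) (x : Fin m → K) : w x + x ∈ T := vsub (w x) x ▸ i.2 x
theorem W_sa (l : Ti σ T) (i : w ∈ WX σ T) (x y : Fin m → K) : hf σ (w x + x) y = hf σ x (w y + y) := by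
  have := l _ (W_add i x) _ (W_add i y)
  simp only [hf_add_l, hf_add_r, i.1.form1] at *; grind
theorem W_sq (l : Ti σ T) (i : w ∈ WX σ T) : w * w = 1 := Equiv.ext fun x => by
  have := W_fix i (l _ (W_add i x))
  rw [i.1.add, add_comm (w x) x] at this
  exact add_right_cancel this
theorem E_W (hv : v ∈ T) (hn : n ∈ T) (ζ : K) : E σ v n ζ ∈ WX σ T := ⟨E_sem .., fun x => by
  by_cases o : Ok σ v n ζ
  · rw [E_ap o, add_assoc, add_sub_cancel_left]; exact add_mem (T.smul_mem _ hn) (T.smul_mem _ hv)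
  · simp [E_junk o]⟩
theorem W_cj (l : Sem σ θ ξ) (h : ∀ x ∈ T, ξ x ∈ T') (i : w ∈ WX σ T) : ξ * w * ξ⁻¹ ∈ WX σ T' :=
  ⟨l.cj i.1, fun x => by simpa [l.sub] using h _ (i.2 (ξ⁻¹ x))⟩
theorem th_one (l : Sem σ θ ξ) (hn : n ∈ T) (h : n ∉ Submodule.span K {v}) (e : ∀ n ∈ T, ∃ a : K, c • ξ n = n + a • v) : θ = 1 :=
  RingEquiv.ext fun k => by_contra fun z => h (by
    obtain ⟨a, e1⟩ := e n hn
    obtain ⟨b, e2⟩ := e _ (T.smul_mem k hn)
    rw [l.smul, smul_comm, e1] at e2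
    have : θ k - k ≠ 0 := sub_ne_zero.2 z
    exact Submodule.mem_span_singleton.2 ⟨(θ k - k)⁻¹ * (b - θ k * a), by
      rw [mul_smul, inv_smul_eq_iff₀ this]; linear_combination (norm := module) -e2⟩)
theorem exists_out (h : finrank K T < finrank K T') : ∃ x ∈ T', x ∉ T := SetLike.not_le_iff_exists.1 fun l =>
  (Submodule.finrank_mono l).not_gt h
theorem one_dim (v : Fin m → K) : finrank K (Submodule.span K {v}) ≤ 1 := by
  rw [← Matrix.range_cons_empty v ![]]; exact span_dim _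
theorem exists_li (h : 2 ≤ finrank K T) : ∃ u ∈ T, ∃ v ∈ T, LinearIndependent K ![u, v] := by
  obtain ⟨u, a, b⟩ := exists_out (T := ⊥) (T' := T) (by simp; omega)
  obtain ⟨v, c, e⟩ := exists_out ((one_dim u).trans_lt h)
  exact ⟨u, a, v, c, li_two b e⟩
theorem sc_ti (l : Sem σ θ ξ) (h : 2 ≤ finrank K T) (e : ∀ v ∈ T, ∃ c : K, ξ v = c • v) : θ = 1 ∧ ∃ c : K, ∀ v ∈ T, ξ v = c • v := by
  have k : ∀ u ∈ T, ∀ w ∈ T, ∀ a b : K, LinearIndependent K ![u, w] → ξ u = a • u → ξ w = b • w → a = b := fun u i w j a b r t t' => by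
    obtain ⟨c, e⟩ := e (u + w) (add_mem i j)
    rw [l.add, t, t', smul_add] at e
    exact (li_eq r e).1.trans (li_eq r e).2.symm
  obtain ⟨u, i, w, j, r⟩ := exists_li h
  obtain ⟨c, s⟩ := e u i
  have f : ∀ v ∈ T, ξ v = c • v := fun v hv => by
    obtain ⟨b, t⟩ := e w j
    obtain ⟨a, t'⟩ := e v hv
    by_cases z : v ∈ Submodule.span K {u}
    · by_cases v0 : v = 0
      · simp [v0, l.zero]
      rw [t', k u i w j c b r s t, k v hv w j a b (li_two v0 fun y => ?_) t' t]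
      exact (LinearIndependent.pair_iff' (r.ne_zero 0)).1 r _
        (Submodule.mem_span_singleton.1 ((Submodule.span_singleton_le_iff_mem _ _).2 z y)).choose_spec
    · rw [t', k u i v hv c a (li_two (r.ne_zero 0) z) s t']
  have c0 : c ≠ 0 := fun z => l.ne (r.ne_zero 0) (by simpa [z] using s)
  exact ⟨th_one (c := c⁻¹) (v := 0) l i (by simpa using r.ne_zero 0) fun n hn => ⟨0, by simp [f n hn, c0]⟩, c, f⟩
theorem E3_ap (s : Iv σ) (uu : hf σ u u = 0) (vv : hf σ v v = 0) (e : hf σ u v = 0) (ha : σ a = a) (hb : σ b = b) (x : Fin m → K) :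
    (E σ u 0 a * E σ v 0 b * E σ u (c • v) 0) x = x + (a * hf σ x u + σ c * hf σ x v) • u + (c * hf σ x u + b * hf σ x v) • v := by
  have e' := hf_swap s e
  simp only [Perm.mul_apply, E_ap (ok_tv s uu ha), E_ap (ok_tv s vv hb), E_ap (ok_iso s uu (n := c • v) (by simp [vv]) (by simp [e'])),
    hf_add_l, hf_smul_l, hf_smul_r, hf_zero_r, hf_zero_l, uu, vv, e, e']; module

namespace Fd
variable (d : Fd σ q)
include d
theorem mem_W (l : Sem σ 1 g) (h : ∀ x, (∀ z ∈ T, hf σ x z = 0) → g x = x) : g ∈ WX σ T := ⟨l, fun x => d.mem_of_pp fun y i => by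
  rw [vsub, hf_add_l, ← l.form1 x y, h y i, CharTwo.add_self_eq_zero]⟩
theorem W_cent (i : Sem σ 1 g) (e : ∀ x ∈ T, g x = x) : g ∈ 𝐂(WX σ T) := mem_centralizer_iff'.2 fun w j => Equiv.ext fun x => by
  have h1 := W_fix j (x := g x + x) fun z k => by rw [hf_add_l, ← i.form1 x z, e z k, CharTwo.add_self_eq_zero]
  have h2 := e _ (W_add j x)
  rw [j.1.add] at h1; rw [i.add] at h2
  simp only [Perm.mul_apply]
  linear_combination (norm := module) h1 - h2 + vv (g x) - vv (w x)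
theorem tv_W (hv : hf σ v v = 0) (e : σ a = a) (a0 : a ≠ 0) (i : E σ v 0 a ∈ WX σ T) : v ∈ T := by
  by_cases v0 : v = 0
  · exact v0 ▸ zero_mem _
  obtain ⟨y, -, k, -⟩ := d.partner hv v0
  simpa [E_ap (ok_tv d.iv hv e), k, T.smul_mem_iff a0] using i.2 y
theorem ti_max (l : Ti σ T) (h : finrank K T = m / 2) (hx : hf σ x x = 0) (e : ∀ z ∈ T, hf σ x z = 0) : x ∈ T := by
  have : Ti σ (T ⊔ Submodule.span K {x}) := fun a i b j => by
    obtain ⟨a, i0, _, i', rfl⟩ := Submodule.mem_sup.1 i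
    obtain ⟨b, j0, _, j', rfl⟩ := Submodule.mem_sup.1 j
    obtain ⟨_, rfl⟩ := Submodule.mem_span_singleton.1 i'
    obtain ⟨_, rfl⟩ := Submodule.mem_span_singleton.1 j'
    simp [l a i0 b j0, hx, e b j0, d.sw (e a i0)]
  rw [Submodule.eq_of_le_of_finrank_le (le_sup_left : T ≤ T ⊔ Submodule.span K {x}) (h ▸ d.ti_le this)]
  exact Submodule.mem_sup_right (Submodule.mem_span_singleton_self x)
theorem E_inj (o : Ok σ v n ζ) (o' : Ok σ v n' ζ') (v0 : v ≠ 0) (e : E σ v n ζ = E σ v n' ζ') :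
    ∃ a : K, n' = n + a • v ∧ ζ' = ζ + a + σ a := by
  obtain ⟨y, -, k, -⟩ := d.partner o.vv v0
  have f := congrArg (· y) e
  simp only [E_ap o, E_ap o', k, one_smul, mul_one] at f
  have f' : n' = n + (hf σ y n + ζ + (hf σ y n' + ζ')) • v := by
    linear_combination (norm := module) -f - vv ((hf σ y n' + ζ') • v)
  refine ⟨_, f', ?_⟩
  have := congrArg (hf σ y) f'
  rw [hf_add_r, hf_smul_r, k] at this; grind
theorem W_peel (l : Ti σ T) (i : w ∈ WX σ T) (w1 : w ≠ 1) : ∃ v ∈ T, ∃ T' < T, v ∉ T' ∧ w * E σ v 0 1 ∈ WX σ T' := by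
  obtain ⟨x, a0⟩ : ∃ x, hf σ (w x + x) x ≠ 0 := by
    by_contra! z
    refine w1 (Equiv.ext fun x => ?_)
    have := nd (σ := σ) (x := w x + x) fun y => by
      obtain ⟨ω, o⟩ := d.om
      have h1 := z (x + y)
      have h2 := z (x + ω • y)
      have := z x; have := z y
      simp only [i.1.add, i.1.smul1, hf_add_l, hf_add_r, hf_smul_l, hf_smul_r] at *
      grind
    rwa [← vsub, sub_eq_zero] at this
  have s : σ (hf σ (w x + x) x) = hf σ (w x + x) x := by rw [d.sy, W_sa l i]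
  obtain ⟨c, h⟩ := d.nrm (a := (hf σ (w x + x) x)⁻¹) (by rw [map_inv₀, s])
  have hv := T.smul_mem c (W_add i x)
  have j := mul_mem i (E_W (σ := σ) hv (zero_mem _) 1)
  have c0 : c ≠ 0 := fun z => a0 (by simpa [z] using h.symm)
  have nv : c • (w x + x) ∉ pp σ (Submodule.span K {x}) := fun k => mul_ne_zero c0 a0 ((hf_smul_l ..).symm.trans (mem_perp_singleton.1 k))
  refine ⟨_, hv, T ⊓ pp σ (Submodule.span K {x}), lt_of_le_of_ne inf_le_left fun e => nv (e.ge hv).2, fun k => nv k.2,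
    j.1, fun y => ⟨j.2 y, mem_perp_singleton.2 ?_⟩⟩
  rw [sq_ap, vsub, W_sa l j, Perm.mul_apply, E_ap (ok_tv d.iv (l _ hv _ hv) (map_one σ)), hf_smul_r, ← W_sa l i, smul_zero,
    add_zero, hf_zero_r, zero_add, one_mul, smul_smul, mul_right_comm, mul_comm _ c, h, inv_mul_cancel₀ a0, one_smul,
    i.1.add, W_fix i (l _ (W_add i x)), ← add_assoc, vv, zero_add, vv, hf_zero_r]
theorem W_ind {p : Submodule K (Fin m → K) → Perm (Fin m → K) → Prop} (one : ∀ T, p T 1)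
    (st : ∀ T T' w v, Ti σ T → T' < T → v ∈ T → v ∉ T' → w ∈ WX σ T' → p T' w → p T (w * E σ v 0 1)) (l : Ti σ T) (i : w ∈ WX σ T) :
    p T w := by
  induction T using WellFoundedLT.induction generalizing w with | _ T ih
  by_cases w1 : w = 1
  · exact w1 ▸ one T
  obtain ⟨v, a, T', b, c, e⟩ := d.W_peel l i w1
  simpa [mul_assoc, tv_sq] using st T T' _ v l b a c e (ih T' b (fun x i y j => l x (b.le i) y (b.le j)) e)
theorem W_gen (l : Ti σ T) (e : ∀ v ∈ T, E σ v 0 1 ∈ H) : WX σ T ≤ H := fun w i =>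
  d.W_ind (p := fun T w => (∀ v ∈ T, E σ v 0 1 ∈ H) → w ∈ H) (fun _ _ => one_mem _)
    (fun T T' w v _ a b _ _ ih e => mul_mem (ih fun v k => e v (a.le k)) (e v b)) l i e
theorem W_E (l : Ti σ T) (i : w ∈ WX σ T) (hu : u ∈ T) (u0 : u ≠ 0) (o : Ok σ u n ζ) (e : E σ u n ζ * w = w * E σ u n ζ) :
    ∃ c : K, w n + n = c • u := d.perp_perp1 fun x k => d.sw (by
  have := congrArg (· x) e
  have h := l _ (W_add i x) _ hu
  rw [hf_add_l, k, add_zero] at h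
  simp only [Perm.mul_apply, E_ap o, k, h, i.1.add, i.1.smul1, W_fix i (l _ hu), zero_smul, add_zero, mul_zero, add_right_inj] at this
  rw [← W_sa l i, hf_add_l, smul_left_injective K u0 this, CharTwo.add_self_eq_zero])
theorem W2 (hu : LinearIndependent K ![u, v]) (uu : hf σ u u = 0) (vv : hf σ v v = 0) (e : hf σ u v = 0)
    (i : w ∈ WX σ (Submodule.span K {u, v})) : ∃ a b c : K, σ a = a ∧ σ b = b ∧ w = E σ u 0 a * E σ v 0 b * E σ u (c • v) 0 := by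
  have l : Ti σ (Submodule.span K {u, v}) := fun x a y b => by
    obtain ⟨_, _, rfl⟩ := Submodule.mem_span_pair.1 a
    obtain ⟨_, _, rfl⟩ := Submodule.mem_span_pair.1 b
    simp [d.sw e, *]
  obtain ⟨n, h⟩ := d.dual hu ![1, 0]
  obtain ⟨n', h'⟩ := d.dual hu ![0, 1]
  have h1 : hf σ u n = 1 := h 0
  have h2 : hf σ v n = 0 := h 1
  have h3 : hf σ u n' = 0 := h' 0
  have h4 : hf σ v n' = 1 := h' 1
  have f : ∀ x, w x + x = hf σ x (w n + n) • u + hf σ x (w n' + n') • v := fun x => by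
    obtain ⟨a, b, k⟩ := Submodule.mem_span_pair.1 (W_add i x)
    rw [← W_sa l i, ← W_sa l i, ← k]; simp [h1, h2, h3, h4]
  have s : ∀ x, σ (hf σ x (w x + x)) = hf σ x (w x + x) := fun x => by rw [d.sy, W_sa l i]
  refine ⟨_, _, hf σ n (w n' + n'), s n, s n', Equiv.ext fun x => ?_⟩
  rw [E3_ap d.iv uu vv e (s n) (s n'), add_assoc, ← sub_eq_iff_eq_add', vsub, f x]
  rw [congrArg (hf σ x) (f n), congrArg (hf σ x) (f n'), hf_add_r, hf_add_r (_ • u), hf_smul_r, hf_smul_r, hf_smul_r, hf_smul_r,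
    s, s, d.sy n' (w n + n), W_sa l i]
end Fd

namespace Dm
variable (d : Dm σ q m)
include d
theorem l3 : m / 2 = 2 := by have := d.hm; omega
theorem tv_fix (l : Sem σ θ ξ) (hv : hf σ v v = 0) (v0 : v ≠ 0) (e : ξ * E σ v 0 1 = E σ v 0 1 * ξ) :
    ∃ c : K, ξ v = c • v ∧ c * σ c = 1 := by
  have := conj_eq_iff.2 e
  rw [tv_cj l, map_one] at this
  simpa using d.tv_inj hv (by rw [l.form, hv, map_zero]) (map_one σ) (map_one σ) one_ne_zero v0 this.symm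
theorem E_eig (l : Sem σ θ ξ) (e : ξ v = c • v) (h : c * σ c = 1) (o : Ok σ v n ζ) :
    Ok σ v (σ c • ξ n) (θ ζ) ∧ ξ * E σ v n ζ * ξ⁻¹ = E σ v (σ c • ξ n) (θ ζ) := by
  have o' := o.cj l
  rw [e] at o'
  have k : hf σ (ξ n) v = 0 := by have := o'.nv; rw [hf_smul_r] at this; grind
  exact ⟨by simpa [h] using o'.smul o.vv k, by rw [E_cj l, e, E_smul o' o.vv k, h, one_mul]⟩
theorem cX (l : Ti σ T) (T0 : T ≠ ⊥) (i : ξ ∈ Gam σ m) (e : ∀ v ∈ T, ∀ n a, (∀ x ∈ T, hf σ x n = 0) → ξ * E σ v n a = E σ v n a * ξ) :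
    ∃ c : K, ∃ w ∈ WX σ T, c * σ c = 1 ∧ ∀ x, ξ x = c • w x := by
  obtain ⟨θ, s⟩ := i
  obtain ⟨v, hv, v0⟩ := T.ne_bot_iff.1 T0
  have vv := l v hv v hv
  obtain ⟨c, h1, h2⟩ := d.tv_fix s vv v0 (e v hv 0 1 (by simp))
  have k : ∀ n ∈ pp σ T, ∃ a : K, σ c • ξ n = n + a • v ∧ (θ = 1 → a + σ a = 0) := fun n j => by
    obtain ⟨ζ, o⟩ := d.ok vv (j v hv)
    obtain ⟨o', r⟩ := d.E_eig s h1 h2 o
    obtain ⟨a, f, f'⟩ := d.E_inj o o' v0 ((conj_eq_iff.2 (e v hv n ζ fun x k => d.sw (j x k))).symm.trans r)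
    exact ⟨a, f, fun t => by simp only [t, RingAut.one_apply] at f'; grind⟩
  obtain ⟨n, a, b⟩ := exists_out (T := Submodule.span K {v}) (T' := pp σ T) (by
    have := d.pp_dim T; have := d.ti_le l; have := one_dim v; have := d.hm; omega)
  obtain rfl := th_one s a b fun n j => (k n j).imp fun _ => And.left
  have h3 : σ c * σ (σ c) = 1 := by rw [d.iv, mul_comm, h2]
  refine ⟨c, sm _ h3 * ξ, d.mem_W ((sm_sem h3).mul1 s) fun x j => ?_, h2, fun x => by simp [sm_ap, smul_smul, h2]⟩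
  obtain ⟨ω, o⟩ := d.om
  obtain ⟨a, f, f'⟩ := k x j
  obtain ⟨b, r, r'⟩ := k (ω • x) (Submodule.smul_mem _ _ j)
  rw [s.smul1, smul_comm, f, smul_add, add_right_inj, smul_smul] at r
  rw [← smul_left_injective K v0 r, map_mul] at r'
  rw [Perm.mul_apply, sm_ap, f, show a = 0 by grind, zero_smul, add_zero]
theorem W_el (l : Ti σ T) : El (WX σ T) := fun _ => W_sq l
theorem W_cent (l : Ti σ T) (i : Sem σ 1 g) (e : ∀ x ∈ T, g x = x) : g ∈ 𝐂(WX σ T) := d.toFd.W_cent i e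
theorem W_gen (l : Ti σ T) (e : ∀ v ∈ T, E σ v 0 1 ∈ H) : WX σ T ≤ H := d.toFd.W_gen l e
theorem W_SU (l : Ti σ T) : WX σ T ≤ SU σ m := d.W_gen l fun _ _ => tv_SU _ _
theorem ti_one (hv : hf σ v v = 0) : Ti σ (Submodule.span K {v}) := fun x a y b => by
  obtain ⟨_, rfl⟩ := Submodule.mem_span_singleton.1 a
  obtain ⟨_, rfl⟩ := Submodule.mem_span_singleton.1 b
  simp [hv]
theorem W_line (hv : hf σ v v = 0) : WX σ (Submodule.span K {v}) = Z σ v :=
  le_antisymm (d.W_gen (d.ti_one hv) fun x a => by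
    obtain ⟨_, rfl⟩ := Submodule.mem_span_singleton.1 a
    rw [tv_smul d.iv hv (map_one σ)]; exact tv_Z _ _)
    ((closure_le _).2 fun _ ⟨_, e⟩ => e ▸ E_W (Submodule.mem_span_singleton_self v) (zero_mem _) _)
theorem Vl_dim : finrank K (Vf K m (m / 2)) = m / 2 := Vf_dim (by omega)
theorem cW' (i : ξ ∈ Gam σ m) (l : Ti σ T) (h : 2 ≤ finrank K T) (e : ∀ v ∈ T, ξ * E σ v 0 1 = E σ v 0 1 * ξ) :
    Sem σ 1 ξ ∧ ∃ c : K, c * σ c = 1 ∧ ∀ x ∈ T, ξ x = c • x := by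
  obtain ⟨θ, s⟩ := i
  obtain ⟨rfl, c, k⟩ := sc_ti s h fun v j => by
    by_cases v0 : v = 0
    · exact ⟨0, by simp [v0, s.zero]⟩
    · exact (d.tv_fix s (l v j v j) v0 (e v j)).imp fun _ => And.left
  obtain ⟨u, j, _, -, r⟩ := exists_li h
  obtain ⟨c', a, b⟩ := d.tv_fix s (l u j u j) (r.ne_zero 0) (e u j)
  exact ⟨s, c, by rwa [smul_left_injective K (r.ne_zero 0) ((k u j).symm.trans a)], k⟩
theorem cW1 (i : ξ ∈ Gam σ m) (e : ξ ∈ 𝐂(WW σ m)) : Sem σ 1 ξ ∧ ∃ c : K, c * σ c = 1 ∧ ∀ x ∈ Vf K m (m / 2), ξ x = c • x :=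
  d.cW' i (Vf_ti le_rfl) (by have := d.l3; have := d.Vl_dim; omega) fun v j =>
    (mem_centralizer_iff'.1 e _ (E_W j (zero_mem _) 1)).symm
theorem cW (i : ξ ∈ Gam σ m) (e : ξ ∈ 𝐂(WW σ m)) : Sem σ 1 ξ ∧ ∃ c : K, ∀ x ∈ Vf K m (m / 2), ξ x = c • x :=
  let ⟨a, c, _, b⟩ := d.cW1 i e; ⟨a, c, b⟩
theorem b0V : (bv 0 : Fin m → K) ∈ Vf K m (m / 2) := bv_mem (by have := d.l3; omega)
theorem inv_sa (s : Sem σ 1 g) (e : g * g = 1) (x y : Fin m → K) : hf σ (g x + x) y = hf σ x (g y + y) := by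
  rw [hf_add_l, hf_add_r, ← s.form1 (g x), ← Perm.mul_apply, e, Perm.one_apply]
theorem inv_D (s : Sem σ θ g) (e : g * g = 1) (x : Fin m → K) : g (g x + x) = g x + x := by
  rw [s.add, ← Perm.mul_apply, e, Perm.one_apply, add_comm]
theorem cW2' (l : Ti σ T) (h : finrank K T = m / 2) (s : Sem σ 1 g) (e : ∀ x ∈ T, g x = x) (e2 : g * g = 1) : g ∈ WX σ T :=
  ⟨s, fun x => vsub (g x) x ▸ d.ti_max l h (by rw [d.inv_sa s e2, d.inv_D s e2, vv, hf_zero_r]) fun z j => by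
    rw [d.inv_sa s e2, e z j, vv, hf_zero_r]⟩
theorem cW2 (i : ξ ∈ Gam σ m) (e : ξ ∈ 𝐂(WW σ m)) (e2 : ξ * ξ = 1) : ξ ∈ WW σ m := by
  obtain ⟨s, c, k⟩ := d.cW i e
  have := congrArg (· (bv 0)) e2
  simp only [Perm.mul_apply, k _ d.b0V, s.smul1, smul_smul, Perm.one_apply] at this
  have : c = 1 := sq_inj (smul_left_injective K d.b0 (by simpa using this))
  exact d.cW2' (Vf_ti le_rfl) d.Vl_dim s (by simpa [this] using k) e2
theorem cQ (hv : hf σ v v = 0) (v0 : v ≠ 0) (i : ξ ∈ Gam σ m) (e : ξ ∈ 𝐂(Z σ v)) (f : ∀ g ∈ Q σ v, ⁅ξ, g⁆ ∈ Z σ v) :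
    ∃ c : K, ∃ g ∈ Q σ v, c * σ c = 1 ∧ ∀ x, ξ x = c • g x := by
  obtain ⟨θ, s⟩ := i
  obtain ⟨c, h1, h2⟩ := d.tv_fix s hv v0 (mem_centralizer_iff'.1 e _ (tv_Z _ _)).symm
  have k : ∀ n ∈ pp σ (Submodule.span K {v}), ∃ a : K, σ c • ξ n = n + a • v := fun n j => by
    obtain ⟨ζ, o⟩ := d.ok hv (mem_perp_singleton.1 j)
    obtain ⟨o', r⟩ := d.E_eig s h1 h2 o
    obtain ⟨a, ha, t⟩ := (mem_Z d.iv hv).1 (f _ (E_Q v n ζ))
    rw [commutatorElement_def, r, mul_inv_eq_iff_eq_mul, E_mul (ok_tv d.iv hv ha) o] at t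
    obtain ⟨a, f, -⟩ := d.E_inj ((ok_tv d.iv hv ha).mul o) o' v0 t.symm
    exact ⟨a, by simpa using f⟩
  obtain ⟨n, a, -, b, -⟩ := d.out v v nip_self
  obtain rfl := th_one s (mem_perp_singleton.2 b) (by simpa using a) k
  have h3 : σ c * σ (σ c) = 1 := by rw [d.iv, mul_comm, h2]
  exact ⟨c, sm _ h3 * ξ, d.mem_Q_of hv v0 ((sm_sem h3).mul1 s) (by simp [sm_ap, h1, smul_smul, mul_comm, h2])
    fun x j => k x (mem_perp_singleton.2 j), h2, fun x => by simp [sm_ap, smul_smul, h2]⟩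
theorem WX_norm (l : Ti σ T) (i : ξ ∈ Gam σ m) : ξ ∈ 𝐍(WX σ T) ↔ ∀ x ∈ T, ξ x ∈ T := by
  obtain ⟨θ, s⟩ := i
  refine ⟨fun e x j => ?_, fun e => mem_normalizer_fintype fun w => W_cj s e⟩
  have := (mem_normalizer_iff.1 e _).1 (E_W j (zero_mem _) 1)
  rw [tv_cj s, map_one] at this
  exact d.tv_W (by rw [s.form, l x j x j, map_zero]) (map_one σ) one_ne_zero this
theorem W_norm (i : ξ ∈ Gam σ m) : ξ ∈ 𝐍(WW σ m) ↔ ∀ x ∈ Vf K m (m / 2), ξ x ∈ Vf K m (m / 2) := d.WX_norm (Vf_ti le_rfl) i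
theorem mem_PP : g ∈ PP σ m ↔ g ∈ SU σ m ∧ ∀ x ∈ Vf K m (m / 2), g x ∈ Vf K m (m / 2) :=
  and_congr_right fun i => d.W_norm (GU_le (SU_le i))
theorem E_PP (hu : u ∈ Vf K m (m / 2)) (n : Fin m → K) (ζ : K) : E σ u n ζ ∈ PP σ m := d.mem_PP.2 ⟨d.E_SU _ _ _, fun x i => by
  by_cases o : Ok σ u n ζ
  · rw [E_ap o, Vf_ti le_rfl x i u hu, zero_smul, add_zero]; exact add_mem i (Submodule.smul_mem _ _ hu)
  · simpa [E_junk o]⟩
theorem wittP0 (l : Ti σ T) {r : ℕ} {u v : Fin r → T} (hu : LinearIndependent K u) (hv : LinearIndependent K v) :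
    ∃ g ∈ GU σ m, (∀ x ∈ T, g x ∈ T) ∧ ∀ i, g (u i) = v i := by
  obtain ⟨j, h⟩ := Nat.exists_eq_add_of_le (Fintype.card_fin r ▸ hu.fintype_card_le_finrank)
  induction j generalizing r with
  | zero =>
    obtain ⟨g, a, b⟩ := d.witt0 (hu.map' T.subtype T.ker_subtype) (hv.map' T.subtype T.ker_subtype) fun i j =>
      (l _ (u i).2 _ (u j).2).trans (l _ (v i).2 _ (v j).2).symm
    refine ⟨g, a, fun x i => ?_, b⟩
    obtain ⟨c, e⟩ := (Submodule.mem_span_range_iff_exists_fun K).1 ((hu.span_eq_top_of_card_eq_finrank' (by simp [h])).ge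
      (Submodule.mem_top (x := ⟨x, i⟩)))
    rw [show x = _ from congrArg Subtype.val e.symm, Submodule.coe_sum, Sem.sum a]
    exact T.sum_mem fun i _ => by rw [Submodule.coe_smul, Sem.smul1 a]; exact T.smul_mem _ (b i ▸ (v i).2)
  | succ j ih =>
    obtain ⟨x, a⟩ := exists_linearIndependent_cons_of_lt_finrank hu (by omega)
    obtain ⟨y, b⟩ := exists_linearIndependent_cons_of_lt_finrank hv (by omega)
    obtain ⟨g, c, e, f⟩ := ih a b (by omega)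
    exact ⟨g, c, e, fun i => f i.succ⟩
theorem fixP (l : Ti σ T) (s : Sem σ 1 g) (hx : x ∈ T) (h : x ∉ S) (hS : S ≤ T) : ∃ r, ∃ c : K, c * σ c = 1 ∧ r * g ∈ SU σ m ∧
    (∀ z ∈ T, r z ∈ T) ∧ (∀ z ∈ S, r z = z) ∧ r x = c • x := by
  obtain ⟨y, a, b, e⟩ := d.part_iso h (l x hx x hx) fun z i => l x hx z (hS i)
  obtain ⟨r, i, c, h1, h2, -, h3, h4⟩ := d.fix_hyp s a (l x hx x hx) b
  refine ⟨r, c, h1, h4, fun z j => ?_, fun z j => h2 z (d.sw (e z j)) (l z (hS j) x hx), h3⟩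
  have := h2 (z + hf σ z y • x) (by simp [← d.sy y x, b, CharTwo.add_self_eq_zero]) (by simp [l z j x hx, l x hx x hx])
  rw [Sem.add i, Sem.smul1 i, h3, ← eq_sub_iff_add_eq] at this
  exact this ▸ sub_mem (add_mem j (T.smul_mem _ hx)) (T.smul_mem _ (T.smul_mem _ hx))
theorem wittP {r : ℕ} (hr : r < m / 2) {u v : Fin r → Fin m → K} (hu : LinearIndependent K u) (hv : LinearIndependent K v)
    (a : ∀ i, u i ∈ Vf K m (m / 2)) (b : ∀ i, v i ∈ Vf K m (m / 2)) : ∃ g ∈ PP σ m, ∀ i, g (u i) = v i := by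
  obtain ⟨g, s, e, f⟩ := d.wittP0 (Vf_ti le_rfl) (u := fun i => ⟨u i, a i⟩) (v := fun i => ⟨v i, b i⟩)
    (.of_comp (Submodule.subtype _) hu) (.of_comp (Submodule.subtype _) hv)
  obtain ⟨x, i, j⟩ := exists_out (T' := Vf K m (m / 2)) ((span_dim v).trans_lt (d.Vl_dim.symm ▸ hr))
  obtain ⟨r, -, -, h1, h2, h3, -⟩ := d.fixP (Vf_ti le_rfl) s i j (Submodule.span_le.2 (Set.range_subset_iff.2 b))
  exact ⟨r * g, d.mem_PP.2 ⟨h1, fun x i => h2 _ (e x i)⟩, fun i => (congrArg r (f i)).trans (h3 _ (Submodule.subset_span ⟨i, rfl⟩))⟩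
theorem PP_tr (hu : u ∈ Vf K m (m / 2)) (u0 : u ≠ 0) (hv : v ∈ Vf K m (m / 2)) (v0 : v ≠ 0) : ∃ g ∈ PP σ m, g u = v := by
  obtain ⟨g, a, b⟩ := d.wittP (u := ![u]) (v := ![v]) (by have := d.l3; omega) (by simpa) (by simpa) (by simpa) (by simpa)
  exact ⟨g, a, b 0⟩
theorem b1V : (bv 1 : Fin m → K) ∈ Vf K m (m / 2) := bv_mem (by have := d.l3; omega)
theorem Vl_eq : Vf K m (m / 2) = Submodule.span K {bv 0, bv 1} :=
  (Submodule.eq_of_le_of_finrank_eq (Submodule.span_le.2 (Set.pair_subset d.b0V d.b1V)) (by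
    rw [d.Vl_dim, d.l3, dim_li d.fm0.ip.li])).symm
theorem mem_Vl : x ∈ Vf K m (m / 2) ↔ ∃ a b : K, x = a • bv 0 + b • bv 1 := by
  rw [d.Vl_eq, Submodule.mem_span_pair]; simp only [eq_comm]
theorem PP_fix (i : w ∈ WW σ m) (e : w ∈ 𝐂(PP σ m)) : w = 1 := by
  have f := d.fm0
  have k : ∀ s t : K, s ≠ 0 ∨ t ≠ 0 → ∃ c : K, w (σ s • bv 3 + σ t • bv 4) + (σ s • bv 3 + σ t • bv 4) = c • (s • bv 0 + t • bv 1) :=
    fun s t h => d.W_E (Vf_ti le_rfl) i (d.mem_Vl.2 ⟨s, t, rfl⟩) (fun z => by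
      have := LinearIndependent.pair_iff.1 f.ip.li _ _ z; tauto)
      (ok_iso d.iv (by simp [f.h]) (by simp [f.h]) (by simp [f.h, mul_comm, CharTwo.add_self_eq_zero]))
      (mem_centralizer_iff'.1 e _ (d.E_PP (d.mem_Vl.2 ⟨s, t, rfl⟩) _ _))
  obtain ⟨ω, o⟩ := d.om
  obtain ⟨a, h1⟩ := k 1 0 (by simp)
  obtain ⟨b, h2⟩ := k 0 1 (by simp)
  obtain ⟨c, h3⟩ := k 1 1 (by simp)
  obtain ⟨c', h4⟩ := k 1 ω (by simp)
  simp only [map_one, map_zero, one_smul, zero_smul, add_zero, zero_add, i.1.add, i.1.smul1] at h1 h2 h3 h4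
  rw [add_add_add_comm, h1, h2, smul_add] at h3
  rw [add_add_add_comm, ← smul_add, h1, h2, smul_add, smul_smul, smul_smul] at h4
  have := li_eq f.ip.li h3; have := li_eq f.ip.li h4
  obtain rfl : a = 0 := by grind
  obtain rfl : b = 0 := by grind
  have z : ∀ x, x ∈ Vf K m (m / 2) → ∀ y, hf σ y (bv 0) = 0 → hf σ y (bv 1) = 0 → hf σ y x = 0 := fun x j y a b => by
    obtain ⟨_, _, rfl⟩ := d.mem_Vl.1 j; simp [a, b]
  exact d.fext f i.1 sem_one (W_fix i fun x j => z x j _ (by simp [f.h]) (by simp [f.h]))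
    (W_fix i fun x j => z x j _ (by simp [f.h]) (by simp [f.h])) (W_fix i fun x j => z x j _ (by simp [f.h]) (by simp [f.h]))
    (by simpa [← vsub, sub_eq_zero] using h1) (by simpa [← vsub, sub_eq_zero] using h2)
omit d in
theorem _root_.CF.U5.ti_span {ι : Type*} {u : ι → Fin m → K} (e : ∀ i j, hf σ (u i) (u j) = 0) :
    Ti σ (Submodule.span K (Set.range u)) := fun _ a _ b => IsWittPair.span_le_perp_span (B := sq σ m) (fun i j => e j i) a _ b
omit d in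
theorem _root_.CF.U5.li_sub {ι : Type*} {u : ι → Fin m → K} (hu : LinearIndependent K u) {i j : ι} (h : i ≠ j) :
    LinearIndependent K ![u i, u j] := by
  convert hu.comp ![i, j] (by simp [Function.Injective, Fin.forall_fin_two, h, h.symm]) using 1
  ext1 k; fin_cases k <;> rfl
theorem w2inj (hu : LinearIndependent K ![u, v]) (uu : hf σ u u = 0) (vv : hf σ v v = 0) (e : hf σ u v = 0) (ha : σ a = a) (hb : σ b = b)
    (f : E σ u 0 a * E σ v 0 b * E σ u (c • v) 0 = 1) : a = 0 ∧ b = 0 ∧ c = 0 := by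
  have k : ∀ x, a * hf σ x u + σ c * hf σ x v = 0 ∧ c * hf σ x u + b * hf σ x v = 0 := fun x =>
    LinearIndependent.pair_iff.1 hu _ _ (by simpa [f, add_assoc] using E3_ap (c := c) d.iv uu vv e ha hb x)
  obtain ⟨n, h⟩ := d.dual hu ![1, 0]
  obtain ⟨n', h'⟩ := d.dual hu ![0, 1]
  have h1 : hf σ u n = 1 := h 0
  have h2 : hf σ v n = 0 := h 1
  have h3 : hf σ u n' = 0 := h' 0
  have h4 : hf σ v n' = 1 := h' 1
  have k1 := k n; have k2 := k n'
  rw [← d.sy u, ← d.sy v] at k1 k2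
  simp only [h1, h2, h3, h4, map_one, map_zero] at k1 k2
  grind
end Dm

end CF.U5
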