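import Cfsg.Agent.U5.D1

/-! The unitriangular Sylow subgroup. -/

set_option autoImplicit false
set_option linter.unusedSectionVars false
set_option linter.unusedVariables false

namespace CF.U5

open Subgroup Equiv CF.Geom Module CF.Loc CF.LX CF.Dbl
open scoped commutatorElement

section ring
variable {A : Type} [CommRing A] [Finite A] [CharP A 2] {m : ℕ} {σ θ θ' : A ≃+* A} {g p ξ ξ' : Perm (Fin m → A)} {x v n : Fin m → A}
  {ζ : A}

theorem Fl.mul (a : Fl g) (b : Fl p) : Fl (g * p) := fun j x h => a j _ (b j x h)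
theorem Fl.pow (a : Fl g) (n : ℕ) : Fl (g ^ n) := by
  induction n with
  | zero => exact fun _ _ h => h
  | succ n ih => rw [pow_succ]; exact ih.mul a
theorem Fl.inv (a : Fl g) : Fl g⁻¹ := by
  obtain ⟨n, e⟩ := mem_powers_iff_mem_zpowers.2 (inv_mem (mem_zpowers g))
  exact e ▸ a.pow n
theorem fl_of (h : ∀ j, ∀ x ∈ Vf A m (j + 1), g x - x ∈ Vf A m j) (z : g 0 = 0) : Fl g := fun j x i => by
  cases j with
  | zero => rwa [show x = 0 from funext fun k => i k (Nat.zero_le _), z, ← show x = 0 from funext fun k => i k (Nat.zero_le _)]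
  | succ j => simpa using add_mem (Vf_mono j.le_succ (h j x i)) i
theorem mem_UP' (a : ∀ x y, g (x + y) = g x + g y) (s : ∀ (c : A) x, g (c • x) = c • g x)
    (h : ∀ j, ∀ x ∈ Vf A m (j + 1), g x - x ∈ Vf A m j) : g ∈ UP A m := ⟨a, s, h, fun j x i => by
  simpa using neg_mem (h j _ ((fl_of h (by simpa using a 0 0)).inv _ x i))⟩
theorem mem_UT : g ∈ UT σ m ↔ Sem σ 1 g ∧ ∀ j, ∀ x ∈ Vf A m (j + 1), g x - x ∈ Vf A m j :=
  ⟨fun h => ⟨h.1, h.2.2.2.1⟩, fun h => ⟨h.1, mem_UP' h.1.add h.1.smul1 h.2⟩⟩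
theorem UP_fl (h : g ∈ UP A m) : Fl g := fl_of h.2.2.1 (by simpa using h.1 0 0)
theorem UT_fl (h : g ∈ UT σ m) : Fl g := UP_fl h.2
theorem UP_two' : IsPGroup 2 (UP A m) := isPGroup_iff_forall.2 fun g h => by
  have : ∀ k, ∀ j, ∀ x ∈ Vf A m (j + 2 ^ k), (g ^ 2 ^ k) x - x ∈ Vf A m j := fun k => by
    induction k with
    | zero => simpa using h.2.2.1
    | succ k ih =>
      intro j x i
      have := ih j _ (ih (j + 2 ^ k) x (by rwa [add_assoc, ← two_mul, ← pow_succ']))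
      rw [vsub, vsub, (pow_mem h (2 ^ k)).1, add_assoc, ← add_assoc ((g ^ 2 ^ k) x), vv, zero_add] at this
      rwa [pow_succ, pow_mul, pow_two, vsub]
  exact ⟨m, Equiv.ext fun x => sub_eq_zero.1 (funext fun i => this m 0 x (fun i l => absurd (i.2.trans m.lt_two_pow_self) (by omega))
    i (Nat.zero_le _))⟩
theorem UT_two : IsPGroup 2 (UT σ m) := UP_two'.to_le inf_le_right
theorem UP_cj (a : ∀ x y, ξ (x + y) = ξ x + ξ y) (s : ∀ c x, ξ (c • x) = θ c • ξ x) (f : Fl ξ) (i : g ∈ UP A m) :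
    ξ * g * ξ⁻¹ ∈ UP A m := by
  have a' : ∀ x y, ξ⁻¹ (x + y) = ξ⁻¹ x + ξ⁻¹ y := fun x y => ξ.injective (by simp [a])
  have s' : ∀ c x, ξ⁻¹ (c • x) = θ.symm c • ξ⁻¹ x := fun c x => ξ.injective (by simp [s])
  refine mem_UP' (fun x y => by simp [-Perm.coe_inv, a, a', i.1]) (fun c x => by simp [-Perm.coe_inv, s, s', i.2.1]) fun j x k => ?_
  simpa [vsub, a] using f j _ (i.2.2.1 j _ (f.inv _ x k))
theorem UT_cj' (l : Sem σ θ ξ) (f : Fl ξ) (i : g ∈ UT σ m) : ξ * g * ξ⁻¹ ∈ UT σ m := ⟨l.cj i.1, UP_cj l.add l.smul f i.2⟩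
theorem E_UT {a b : ℕ} (hv : v ∈ Vf A m a) (hn : n ∈ Vf A m b) (h : a + b ≤ m) (h' : 2 * a ≤ m) (ζ : A) : E σ v n ζ ∈ UT σ m := by
  by_cases o : Ok σ v n ζ
  · refine mem_UT.2 ⟨E_sem .., fun j x i => ?_⟩
    rw [E_ap o, add_assoc, add_sub_cancel_left]
    by_cases e : j + 1 + a ≤ m
    · rw [hf_Vf i hv e, zero_smul, zero_add, mul_zero, add_zero]
      by_cases e' : j + 1 + b ≤ m
      · simp [hf_Vf i hn e']
      · exact Submodule.smul_mem _ _ (Vf_mono (by omega) hv)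
    · exact add_mem (Submodule.smul_mem _ _ (Vf_mono (by omega) hn)) (Submodule.smul_mem _ _ (Vf_mono (by omega) hv))
  · exact E_junk o ▸ one_mem _
theorem Vf_succ' (j : Fin m) (h : x ∈ Vf A m (j + 1)) : x - x j • bv j ∈ Vf A m j := fun i l => by
  by_cases k : i = j
  · simp [bv, k]
  · simp [bv, Fin.val_inj, k, h i (by have := Fin.val_ne_of_ne k; omega)]
theorem bv_self (j : Fin m) : (bv j : Fin m → A) j = 1 := if_pos rfl
theorem sum_bv' (x : Fin m → A) : ∑ i : Fin m, x i • (bv i.val : Fin m → A) = x := by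
  ext j; simp [bv, Finset.sum_apply, Fin.val_inj]

/-- diagonal entries -/
def dg (ξ : Perm (Fin m → A)) (j : Fin m) : A := ξ (bv j) j

theorem Fl.dg' (f : Fl ξ) (a : ∀ x y, ξ (x + y) = ξ x + ξ y) (s : ∀ c x, ξ (c • x) = θ c • ξ x) (j : Fin m) (h : x ∈ Vf A m (j + 1)) :
    ξ x j = θ (x j) * dg ξ j := by
  rw [← sub_add_cancel x (x j • bv j), a, s, Pi.add_apply, f _ _ (Vf_succ' j h) j le_rfl]; simp [dg, bv]
theorem dg_mul (l : Sem σ θ ξ) (f : Fl ξ) (f' : Fl ξ') (j : Fin m) : dg (ξ * ξ') j = θ (dg ξ' j) * dg ξ j :=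
  f.dg' l.add l.smul j (f' _ _ (bv_mem j.1.lt_succ_self))
theorem UP_dg (h : g ∈ UP A m) (j : Fin m) : dg g j = 1 := by
  simpa [dg, bv_self, sub_eq_zero] using h.2.2.1 j _ (bv_mem j.1.lt_succ_self) j le_rfl
theorem mem_UP_dg (a : ∀ x y, g (x + y) = g x + g y) (s : ∀ (c : A) x, g (c • x) = c • g x) (f : Fl g) (h : ∀ j, dg g j = 1) :
    g ∈ UP A m := mem_UP' a s fun j x i k l => by
  by_cases e : k.val = j
  · subst e; simp [f.dg' (θ := 1) a s k i, h]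
  · simp [f _ _ i k (by omega), i k (by omega)]
theorem mem_UT_dg (l : Sem σ 1 g) (f : Fl g) (h : ∀ j, dg g j = 1) : g ∈ UT σ m := ⟨l, mem_UP_dg l.add l.smul1 f h⟩
theorem dg_nrm (s : Iv σ) (l : Sem σ θ ξ) (f : Fl ξ) (j : Fin m) : dg ξ j * σ (dg ξ j.rev) = 1 := by
  have h := l.form (bv j) (bv j.rev)
  have a := Vf_succ' j (f _ _ (bv_mem j.1.lt_succ_self))
  have b := Vf_succ' j.rev (f _ _ (bv_mem j.rev.1.lt_succ_self))
  rw [hf_bv, bv_self, map_one, ← sub_add_cancel (ξ (bv j.rev)) (ξ (bv j.rev) j.rev • bv j.rev), hf_add_r,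
    hf_Vf (f _ _ (bv_mem j.1.lt_succ_self)) b (by rw [Fin.val_rev]; omega), zero_add, hf_smul_r, hf_bv, mul_comm] at h
  exact h
theorem dg_pow (l : Sem σ 1 g) (f : Fl g) (j : Fin m) (n : ℕ) : dg (g ^ n) j = dg g j ^ n := by
  induction n with
  | zero => simp [dg, bv_self]
  | succ n ih => rw [pow_succ', dg_mul l f (f.pow n), ih, pow_succ]; rfl
theorem Sem.ext_bv (l : Sem σ θ ξ) (l' : Sem σ θ ξ') (h : ∀ j : Fin m, ξ (bv j) = ξ' (bv j)) : ξ = ξ' := Equiv.ext fun x => by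
  rw [← sum_bv' x]
  refine (map_sum (AddMonoidHom.mk' ξ l.add) ..).trans (.trans ?_ (map_sum (AddMonoidHom.mk' ξ' l'.add) ..).symm)
  simp [l.smul, l'.smul, h]
/-- decomposition into unitriangular and diagonal part -/
theorem U_dec' (s : Iv σ) (l : Sem σ θ ξ) (f : Fl ξ) : ∃ r ∈ UT σ m, ∀ j : Fin m, (r * ξ) (bv j) = dg ξ j • bv j := by
  have n := dg_nrm s l f
  let δ : Perm (Fin m → A) := ⟨fun x i => dg ξ i * θ (x i), fun x i => θ.symm (σ (dg ξ i.rev) * x i),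
    fun x => funext fun i => by beta_reduce; rw [← mul_assoc, mul_comm (σ _), n, one_mul, θ.symm_apply_apply], fun x => funext fun i => by simp [← mul_assoc, n]⟩
  have hδ : ∀ x i, δ x i = dg ξ i * θ (x i) := fun _ _ => rfl
  have l' : Sem σ θ δ := ⟨fun x y => funext fun i => by simp [hδ, mul_add], fun c x => funext fun i => by simp [hδ, mul_left_comm],
    fun x y => by
      simp only [hf, map_sum, map_mul, hδ, l.com]
      exact Finset.sum_congr rfl fun i _ => by linear_combination (θ (x i) * σ (θ (y i.rev))) * n i, l.com⟩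
  have f' : Fl δ := fun j x h i k => by simp [hδ, h i k]
  refine ⟨δ * ξ⁻¹, mem_UT_dg (by simpa using l'.mul l.inv) (f'.mul f.inv) fun j => ?_, fun j => funext fun i => ?_⟩
  · have := dg_mul (l'.mul l.inv) (f'.mul f.inv) f j
    rw [inv_mul_cancel_right, mul_inv_cancel, show dg δ j = dg ξ j by simp [dg, hδ, bv_self], RingAut.one_apply] at this
    linear_combination (σ (dg ξ j.rev)) * this.symm + (1 - dg (δ * ξ⁻¹) j) * n j
  · by_cases e : i = j <;> simp [hδ, bv, Fin.val_inj, e]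
end ring

variable {K : Type} [Field K] [Fintype K] [CharP K 2] {m q : ℕ} {σ θ : K ≃+* K} {a b c ζ ζ' : K}
  {g p k ξ w : Perm (Fin m → K)} {u v x y e n n' u' v' : Fin m → K} {T T' S : Submodule K (Fin m → K)}
  {H P : Subgroup (Perm (Fin m → K))}

theorem pow_two_inj {j : ℕ} (h : c ^ 2 ^ j = 1) : c = 1 := (iterateFrobeniusEquiv K 2 j).injective (h.trans (map_one _).symm)
theorem sm_fl (h : c * σ c = 1) : Fl (sm (m := m) c h) := fun _ _ i => Submodule.smul_mem _ _ i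

namespace Dm
variable (d : Dm σ q m)
include d
theorem UP_two : IsPGroup 2 (UP K m) := UP_two'
theorem U_two : IsPGroup 2 (UT σ m) := UT_two
theorem U_SU : UT σ m ≤ SU σ m := fun g i => d.two_SU i.1 (e2_of UT_two i)
theorem W_le : WW σ m ≤ UT σ m := fun w i => mem_UT.2 ⟨i.1, fun j x h => by
  by_cases e : j + 1 + m / 2 ≤ m
  · simp [W_fix i fun z k => hf_Vf h k e]
  · exact Vf_mono (by omega) (i.2 x)⟩
theorem perp0 (h : hf σ n (bv 0) = 0) : n ∈ Vf K m (m - 1) := (Vf_pp (σ := σ) (i := 1) (by have := d.hm; omega)).le fun y i => by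
  obtain ⟨c, rfl⟩ := Vf_one.1 i; simp [sq_ap, h]
theorem Q_le : Q σ (bv 0) ≤ UT σ m := fun g i => by
  obtain ⟨n, ζ, o, rfl⟩ := (mem_Q d.iv d.b00).1 i
  exact E_UT (bv_mem one_pos) (d.perp0 o.nv) (by have := d.hm; omega) (by have := d.hm; omega) ζ
theorem U_le : UT σ m ≤ Y σ (bv 0) := fun g i => ⟨d.U_SU i, sub_eq_zero.1 (Vf_zero.1 ((mem_UT.1 i).2 0 _ (bv_mem one_pos)))⟩
theorem U_of (i : Sem σ 1 g) (f : Fl g) (e : E2 g) : g ∈ UT σ m := mem_UT_dg i f fun j => by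
  obtain ⟨k, e⟩ := e
  exact pow_two_inj (j := k) (by rw [← dg_pow i f, e]; exact bv_self j)
theorem U_norm (i : ξ ∈ Gam σ m) : ξ ∈ 𝐍(UT σ m) ↔ Fl ξ := by
  obtain ⟨θ, s⟩ := i
  refine ⟨fun e j => ?_, fun f => mem_normalizer_fintype fun g => UT_cj' s f⟩
  have key : ∀ i : Fin m, 1 ≤ i.val → ∀ x ∈ Vf K m (i + 1), (∀ u ∈ UT σ m, (u x - x) ⟨i - 1, by omega⟩ = 0) → x i = 0 := by
    intro i h x a b
    have := i.2
    have h1 : hf σ x (bv (m - 1 - i)) = x i := by rw [← hf_bv (σ := σ) x i, Fin.val_rev, Nat.sub_sub, add_comm]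
    have h2 : ∀ a b, a < m → b < m → a + b + 1 ≠ m → hf σ (bv a : Fin m → K) (bv b) = 0 := fun a b _ l n => by rw [hf_bb l, if_neg n]
    rcases lt_trichotomy (2 * i.val) m with l | l | l
    · obtain ⟨ζ, o⟩ := d.ok (v := (bv (i - 1) : Fin m → K)) (n := bv (m - 1 - i)) (h2 _ _ (by omega) (by omega) (by omega))
        (h2 _ _ (by omega) (by omega) (by omega))
      simpa [E_ap o, hf_Vf a (bv_mem (Nat.lt_succ_self (i - 1))) (by omega), h1, bv] using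
        b _ (E_UT (bv_mem (Nat.lt_succ_self (i - 1))) (bv_mem (Nat.lt_succ_self (m - 1 - i))) (by omega) (by omega) ζ)
    · have o := ok_tv (v := (bv (m - 1 - i) : Fin m → K)) d.iv (h2 _ _ (by omega) (by omega) (by omega)) (map_one σ)
      simpa [E_ap o, h1, bv, show i - 1 = m - 1 - i by omega] using
        b _ (E_UT (bv_mem (Nat.lt_succ_self (m - 1 - i))) (zero_mem (Vf K m 0)) (by omega) (by omega) 1)
    · obtain ⟨ζ, o⟩ := d.ok (v := (bv (m - 1 - i) : Fin m → K)) (n := bv (i - 1)) (h2 _ _ (by omega) (by omega) (by omega))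
        (h2 _ _ (by omega) (by omega) (by omega))
      simpa [E_ap o, h1, bv, add_assoc, show i - 1 ≠ m - 1 - i by omega] using
        b _ (E_UT (bv_mem (Nat.lt_succ_self (m - 1 - i))) (bv_mem (Nat.lt_succ_self (i - 1))) (by omega) (by omega) ζ)
  induction j with
  | zero => intro x h; rw [Vf_zero.1 h, s.zero]; exact zero_mem _
  | succ j ih =>
    intro x h
    have r : ∀ u ∈ UT σ m, u (ξ x) - ξ x ∈ Vf K m j := fun u i => by
      simpa [s.sub] using ih _ ((mem_UT.1 ((mem_normalizer_iff''.1 e u).1 i)).2 j x h)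
    have : ∀ k, j + 1 ≤ k → ξ x ∈ Vf K m (k + 1) → ξ x ∈ Vf K m k := fun k l a i b => by
      by_cases z : i.val = k
      · exact key i (by omega) _ (z ▸ a) fun u i => r u i _ (by simp; omega)
      · exact a i (by omega)
    exact Nat.decreasingInduction' (m := j + 1) (n := j + 1 + m) (P := fun k => ξ x ∈ Vf K m k) (fun k _ => this k) (by omega)
      (Vf_mono (by omega) Vf_top)
theorem U_max (two : IsPGroup 2 P) (l : P ≤ GU σ m) (l' : UT σ m ≤ P) : P = UT σ m := by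
  by_contra n
  obtain ⟨g, ⟨a, b⟩, c⟩ := SetLike.exists_of_lt (lt_inf_normalizer two (lt_of_le_of_ne l' (Ne.symm n)))
  exact c (d.U_of (l a) ((d.U_norm (GU_le (l a))).1 b) (e2_of two a))
theorem U_syl : IsSyl 2 (UT σ m) (SU σ m) := ⟨d.U_SU, UT_two, fun _ a b c => d.U_max a (c.trans SU_le) b⟩
theorem U_sc (i : Sem σ 1 g) (f : Fl g) (hp : p ∈ UT σ m) (e : ∀ x, g (g x) = c • p x) : ∃ a : K, ∃ r ∈ UT σ m, ∀ x, g x = a • r x := by
  obtain ⟨a, h⟩ := exists_rt c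
  have k : ∀ j, dg g j = a := fun j => sq_inj ((dg_mul i f f j).symm.trans (by
    rw [h, dg, Perm.mul_apply, e, Pi.smul_apply, show p (bv j) j = 1 from UP_dg hp.2 j, smul_eq_mul, mul_one]))
  have n : σ a * σ (σ a) = 1 := by simpa [k, d.iv a, mul_comm] using dg_nrm d.iv i f ⟨0, by have := d.hm; omega⟩
  rw [d.iv] at n
  exact ⟨a, sm _ (by rwa [d.iv]) * g, mem_UT_dg ((sm_sem _).mul1 i) ((sm_fl _).mul f) fun j => (congrArg (σ a * ·) (k j)).trans n,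
    fun x => by simp [sm_ap, smul_smul, mul_comm a, n]⟩
theorem U_dec (i : ξ ∈ Gam σ m) (f : Fl ξ) : ∃ r ∈ UT σ m, ∀ j, ∃ c : K, (r * ξ) (bv j) = c • bv j := by
  obtain ⟨r, a, b⟩ := U_dec' d.iv i.choose_spec f
  refine ⟨r, a, fun j => ?_⟩
  by_cases h : j < m
  · exact ⟨_, b ⟨j, h⟩⟩
  · exact ⟨0, by rw [show (bv j : Fin m → K) = 0 from funext fun k => if_neg (by omega), (a.1.mul i.choose_spec).zero, smul_zero]⟩
theorem U_inv (i : Sem σ σ ξ) (f : Fl ξ) (e : ξ * ξ ∈ UT σ m) : ∃ r ∈ UT σ m, ξ * r * (ξ * r) = 1 := by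
  obtain ⟨r, a, b⟩ := U_dec' d.iv i f
  have h : r * ξ * (r * ξ) ∈ UT σ m := by simpa [mul_assoc] using mul_mem (mul_mem a (UT_cj' i f a)) e
  have : r * ξ * (r * ξ) = 1 := h.1.ext_bv sem_one fun j => by
    have := UP_dg h.2 j
    rw [dg, Perm.mul_apply, b, (a.1.mul i).smul, b, smul_smul, Pi.smul_apply, bv_self, smul_eq_mul, mul_one] at this
    rw [Perm.mul_apply, b, (a.1.mul i).smul, b, smul_smul, this]; simp
  exact ⟨r, a, by rw [← conj_eq_one_iff (a := ξ⁻¹), ← this]; group⟩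
theorem sc_W (hv : g v = v) (hv' : w v = v) (v0 : v ≠ 0) (e : ∀ x, g x = c • w x) : g = w := by
  have : c = 1 := smul_left_injective K v0 (by simpa [hv, hv'] using (e v).symm)
  exact Equiv.ext fun x => by simp [e, this]
theorem sc_e2 (i : ξ ∈ Gam σ m) (s : Sem σ 1 w) (e : ∀ x, ξ x = c • w x) (a : E2 ξ) (b : E2 w) : ξ = w := by
  have sc : Sc (ξ * w⁻¹) := ⟨c, fun x => by simp [e]⟩
  refine mul_inv_eq_one.1 (d.sc_two (mul_mem i (inv_mem ⟨_, s⟩)) sc (a.mul b.inv ?_))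
  have := sc_comm sc s
  rw [inv_mul_cancel_right] at this
  rw [eq_inv_mul_iff_mul_eq, ← this]
theorem cQ0 (hv : hf σ v v = 0) (v0 : v ≠ 0) (i : ξ ∈ Gam σ m) (e : ξ ∈ 𝐂(Q σ v)) :
    ∃ c : K, ∃ w ∈ Z σ v, c * σ c = 1 ∧ ∀ x, ξ x = c • w x := by
  rw [← d.W_line hv]
  refine d.cX (d.ti_one hv) (by simpa) i fun u j n a k => (mem_centralizer_iff'.1 e _ ?_).symm
  obtain ⟨c, rfl⟩ := Submodule.mem_span_singleton.1 j
  by_cases o : Ok σ (c • v) n a
  · rw [E_smul o hv (d.sw (k _ (Submodule.mem_span_singleton_self v)))]; exact E_Q _ _ _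
  · exact E_junk o ▸ one_mem _
theorem Z_sq (hv : hf σ v v = 0) (i : w ∈ Z σ v) : w * w = 1 := W_sq (d.ti_one hv) (d.W_line hv ▸ i)
theorem cU (i : ξ ∈ Gam σ m) (e : ξ ∈ 𝐂(UT σ m)) (e2 : E2 ξ) : ξ ∈ Z σ (bv 0) := by
  obtain ⟨c, w, a, -, b⟩ := d.cQ0 d.b00 d.b0 i (centralizer_le d.Q_le e)
  rwa [d.sc_e2 i (Q_sem (Z_le_Q a)) b e2 (e2_inv (d.Z_sq d.b00 a))]
theorem E_UC (hv : v ∈ Vf K m (m / 2)) (h : ∀ x ∈ Vf K m (m / 2), hf σ x n = 0) (ζ : K) : E σ v n ζ ∈ UT σ m ⊓ 𝐂(WW σ m) :=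
  ⟨E_UT hv ((Vf_pp (σ := σ) (i := m / 2) (j := m - m / 2) (by omega)).le fun x i => d.sw (h x i)) (by omega) (by omega) ζ,
    d.toFd.W_cent (E_sem ..) fun x i => E_fix (Vf_ti le_rfl x i v hv) (h x i) _⟩
theorem Vl_ne : Vf K m (m / 2) ≠ ⊥ := fun e => d.b0 (by simpa [e] using d.b0V)
theorem zR' (i : g ∈ UT σ m) (e : g ∈ 𝐂(UT σ m ⊓ 𝐂(WW σ m))) : g ∈ WW σ m := by
  obtain ⟨c, w, a, -, b⟩ := d.cX (Vf_ti le_rfl) d.Vl_ne ⟨_, i.1⟩ fun v j n a k => (mem_centralizer_iff'.1 e _ (d.E_UC j k a)).symm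
  rwa [d.sc_W (d.U_le i).2 (d.U_le (d.W_le a)).2 d.b0 b]
theorem zR (i : g ∈ UT σ m ⊓ 𝐂(WW σ m)) (e : g ∈ 𝐂(UT σ m ⊓ 𝐂(WW σ m))) : g * g = 1 := W_sq (Vf_ti le_rfl) (d.zR' i.1 e)
end Dm

end CF.U5
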