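import Cfsg.Agent.U5.B2
import Cfsg.Agent.S1347

/-! The frame attached to a standard unitary subgroup. -/

set_option autoImplicit false

namespace CF.U5

open Cfsg Subgroup Equiv CF.Loc CF.LX

theorem Top.key {K : Type} [Field K] [CharP K 2] {m : ℕ} {σ : K ≃+* K} {G : Type*} [Group G] {ρ : SU σ m →* G} {F Y : Subgroup G}
    (a : Top ρ F) (n : F ≤ 𝐍(Y)) (y : Y ≠ ⊥) : F ≤ Y :=
  have := a.nor
  have := a.sim
  subgroupOf_eq_top.1 ((normal_subgroupOf_of_le_normalizer' n).eq_bot_or_eq_top.resolve_left fun k => y (eq_bot_iff.2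
    (a.cen ▸ commutator_eq_bot_iff_le_centralizer.1 (eq_bot_iff.2 (disjoint_iff.1 (subgroupOf_eq_bot.1 k) ▸
      commutator_le_inf_of_normalize n (le_normalizer_of_normal' Y F))))))

theorem Top.oc {K : Type} [Field K] [CharP K 2] {m : ℕ} {σ : K ≃+* K} {G : Type*} [Group G] [Finite G] {ρ : SU σ m →* G}
    {F : Subgroup G} (a : Top ρ F) : oddCore G = ⊥ := by_contra fun n =>
  have := a.sim
  a.nab ⟨⟨IsSimpleGroup.comm_iff_isSolvable.2 (CF.Hyp.isSolvable_of_odd (Odd.of_dvd_nat Bender.oddCore_odd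
    (card_dvd_of_le (a.key (le_normalizer_of_normal' F _) n))))⟩⟩

theorem exists_fr {G : Type*} [Group G] [Finite G]
    (hF : IsSimpleGroup ↥(generalizedFittingSubgroup G)) (hF' : ¬ IsMulCommutative ↥(generalizedFittingSubgroup G))
    (L : Subgroup G) (hL : IsStandardSubgroup L)
    (hR : ∀ R : Sylow 2 ↥(centralizer (L : Set G)), IsCyclic ↥(R : Subgroup ↥(centralizer (L : Set G))))
    (m n : ℕ) (hm : m = 5) (hn : 1 ≤ n) {F : Type*} [Field F] [Fintype F]
    (hFq : Fintype.card F = (2 ^ n) ^ 2) (hLX : Nonempty ((↥L ⧸ oddCore ↥L) ≃* PSU m F (2 ^ n))) :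
    ∃ (K : Type) (_ : Field K) (_ : Fintype K) (_ : CharP K 2) (σ : K ≃+* K) (ρ : SU σ m →* G) (t : G),
      Dm σ (2 ^ n) m ∧ Fr ρ t ∧ Top ρ (generalizedFittingSubgroup G) := by
  obtain ⟨K, _, _, ⟨φ⟩⟩ := CF.Classical.pn_exists_small_field F
  have hK : Fintype.card K = (2 ^ n) ^ 2 := (Fintype.card_congr φ.toEquiv).symm.trans hFq
  have : CharP K 2 := charP_of_card_eq_prime_pow (p := 2) (f := n * 2) (by rw [hK, pow_mul])
  let σ := iterateFrobeniusEquiv K 2 n
  have d : Dm σ (2 ^ n) m := ⟨⟨Nat.card_eq_fintype_card.trans hK, fun _ => rfl, n, hn, rfl⟩, hm⟩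
  obtain ⟨-, -, f, -⟩ := d.bridge
  obtain ⟨e⟩ := hLX
  let c := (e.trans (CF.Classical.psuCongr φ m _)).trans (CF.Classical.quotientCenterEquiv f).symm
  let π := c.toMonoidHom.comp (QuotientGroup.mk' (oddCore L))
  have s : Function.Surjective π := c.surjective.comp (QuotientGroup.mk'_surjective _)
  have z : π.ker ≤ center L := (Sig.qs_normal hL.1 _ inferInstance).resolve_left fun k => by
    have := d.qs.2.toNontrivial
    obtain ⟨x, x1⟩ := exists_ne (1 : SU σ m ⧸ center _)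
    obtain ⟨x, rfl⟩ := s x
    exact x1 (k.ge (mem_top x))
  obtain ⟨η, k⟩ := d.lift (f := π) (ρ' := QuotientGroup.mk' _) z (MonoidHom.range_eq_top.2 s ▸ le_top)
  have r : η.range = ⊤ := by
    rw [MonoidHom.range_eq_map, ← d.perf, Schur.map_commutator_of_over z (QuotientGroup.mk'_surjective _) k,
      hL.1.1.commutator_eq_top]
  have r' : (L.subtype.comp η).range = L := by rw [MonoidHom.range_comp, r, ← MonoidHom.range_eq_map, range_subtype]
  obtain ⟨t, ht, o⟩ := exists_orderOf_eq_of_dvd_card (p := 2) hL.2.1.1.two_dvd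
  have t2 : t * t = 1 := by rw [← pow_two, ← o, pow_orderOf_eq_one]
  have t1 : t ≠ 1 := fun k => by simp [k] at o
  have cen : 𝐂(generalizedFittingSubgroup G) = ⊥ := by
    rcases (normal_subgroupOf_of_le_normalizer' (le_normalizer_of_normal' (generalizedFittingSubgroup G)
      𝐂(generalizedFittingSubgroup G))).eq_bot_or_eq_top with k | k
    · exact (subgroupOf_eq_bot.1 k).eq_bot_of_le Sig.centralizer_fstar_le
    · exact absurd (le_centralizer_iff_isMulCommutative.1 (subgroupOf_eq_top.1 k)) hF'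
  have top : Top (1 : SU σ m →* G) (generalizedFittingSubgroup G) := ⟨inferInstance, hF, hF', cen, by simp⟩
  refine ⟨K, _, inferInstance, this, σ, L.subtype.comp η, t, d, ⟨t2, t1, fun g i e => ?_, r'.symm ▸ ht, fun g => ?_, fun P => ?_⟩,
    inferInstance, hF, hF', cen, ?_⟩
  · rw [up_eq i] at e
    have := DFunLike.congr_fun k ⟨g, i⟩
    rw [MonoidHom.comp_apply, show η ⟨g, i⟩ = 1 from Subtype.ext e, map_one] at this
    exact d.center_iff.1 ((QuotientGroup.eq_one_iff _).1 this.symm)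
  · rw [r']
    exact fun e => by_contra fun n => t1 (conj_eq_one_iff.1 ((e2_inv (by rw [← conj_mul_conj, t2]; simp)).odd
      (hL.2.1.2 g (hL.2.2.2 ▸ n)) (congrArg Subtype.val (pow_card_eq_one' (x := (⟨_, e, conj_mem_cj g ht⟩ : ↥(𝐂(L) ⊓ cj[g] 𝐂(L))))))))
  · rw [r']
    intro l two
    obtain ⟨S, i⟩ := (isPGroup_subgroupOf (L := 𝐂(L)) two).exists_le_sylow
    have := hR S
    exact isCyclic_of_injective ((inclusion i).comp (subgroupOfEquivOfLe l).symm.toMonoidHom)
      ((inclusion_injective i).comp (MulEquiv.injective _))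
  · rw [r']
    rcases Cfsg.Agent.S1347.result _ hL top.oc t o ht with n | ⟨X, sX, -, -, c, e, l, -⟩ | ⟨l, -⟩
    · exact (Sig.comp_le_layer ⟨n.isSubnormal, hL.1⟩).trans Sig.layer_le_fstar
    · have x0 := (Subgroup.nontrivial_iff_ne_bot X).1 sX.toNontrivial
      have lF := l ▸ top.key (le_normalizer_of_normal' _ (layer G)) fun k => x0 (eq_bot_iff.2 (k ▸ l ▸ le_sup_left))
      have lX := top.key (lF.trans (sup_le le_normalizer fun b hb => centralizer_le_normalizer _
        (mem_centralizer_iff'.2 fun a ha => c a ha b hb))) x0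
      exact absurd (eq_bot_iff.2 (e ▸ le_inf lX ((cj_eq_self (le_normalizer_of_normal' ⊤ _ trivial)).ge.trans
        (cj_mono t lX)))) ((Subgroup.nontrivial_iff_ne_bot _).1 hF.toNontrivial)
    · exact l.trans Sig.layer_le_fstar

end CF.U5
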