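import Cfsg.Agent.U5.N2

/-! The graphs of the doubled groups `Q v` are functional. -/

set_option autoImplicit false
set_option linter.unusedSectionVars false
set_option linter.unusedVariables false

namespace CF.U5

open Subgroup Equiv CF.Geom Module CF.Loc CF.LX CF.Dbl Sx Tx
open scoped commutatorElement IsMulCommutative

theorem comm_closure {G : Type*} [Group G] {s : Set G} {Z : Subgroup G} (cen : closure s ≤ 𝐂(Z)) (h : ∀ a ∈ s, ∀ b ∈ s, ⁅a, b⁆ ∈ Z)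
    {a b : G} (i : a ∈ closure s) (j : b ∈ closure s) : ⁅a, b⁆ ∈ Z := by
  have c : ∀ x ∈ closure s, ∀ z ∈ Z, Commute x z := fun x i z j => (mem_centralizer_iff'.1 (cen i) z j).symm
  induction i, j using closure_induction₂ with
  | mem _ _ a b => exact h _ a _ b
  | one_left => simp
  | one_right => simp
  | mul_left x y z hx _ _ a b => rw [cml (c x hx _ b)]; exact mul_mem b a
  | mul_right y z x hy _ _ a b => rw [cmr (c y hy _ b)]; exact mul_mem a b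
  | inv_left x y hx _ a =>
    rw [show ⁅x⁻¹, y⁆ = x⁻¹ * (⁅x, y⁆⁻¹ * x) by group, ← (c x hx _ (inv_mem a)).eq, inv_mul_cancel_left]; exact inv_mem a
  | inv_right x y _ hy a =>
    rw [show ⁅x, y⁻¹⁆ = y⁻¹ * (⁅x, y⁆⁻¹ * y) by group, ← (c y hy _ (inv_mem a)).eq, inv_mul_cancel_left]; exact inv_mem a
theorem E_one {A : Type} [CommRing A] [CharP A 2] {m : ℕ} {σ : A ≃+* A} {v n x : Fin m → A} {ζ : A} (o : Ok σ v n ζ) (hx : hf σ x v = 1)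
    (e : E σ v n ζ = 1) : n = (hf σ x n + ζ) • v := by
  have := E_ap o x
  rw [e, hx, Perm.one_apply, one_smul, mul_one, add_assoc, left_eq_add, add_eq_zero_iff_eq_neg] at this
  exact this.trans (neg_eq_of_add_eq_zero_left (vv _))
theorem E_line {A : Type} [CommRing A] [CharP A 2] {m : ℕ} {σ : A ≃+* A} {v : Fin m → A} {a ζ : A} (o : Ok σ v (a • v) ζ) :
    Ok σ v 0 (ζ + a + σ a) ∧ E σ v (a • v) ζ = E σ v 0 (ζ + a + σ a) := by
  have := o.shift a; have := E_shift o a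
  simp only [vv] at *; exact ⟨‹_›, this.symm⟩

variable {K : Type} [Field K] [Fintype K] [CharP K 2] {m q : ℕ} {σ θ : K ≃+* K} {a b a' b' r r' ζ ζ' ω k : K}
  {g ξ : Perm (Fin m → K)} {u v w x n u' v' n' : Fin m → K} {T T' S : Submodule K (Fin m → K)}
  {X : Type*} [Group X] [Finite X] {ρ : SU σ m →* X} {t h z z' s : X} {y : (Fin m → K) → X} {hk : σ k = k}
  {p p' : Perm (Fin m → KK k) × X} {N : Fin m → KK k} {η η' : KK k}

/-- model element and group element -/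
noncomputable def pb (hk : σ k = k) (y : (Fin m → K) → X) (v w : Fin m → K) : Perm (Fin m → KK k) × X :=
  py hk y (v + w) * py hk y v * py hk y w

/-- model element and group element -/
noncomputable def zz (hk : σ k = k) (ρ : SU σ m →* X) (y : (Fin m → K) → X) (v : Fin m → K) (a b : K) : Perm (Fin m → KK k) × X :=
  (E (sh σ hk) (mkv k v 0) 0 ⟨b, a * a⟩, y (a • v) * tv ρ v b)

/-- the graph of the doubled root group -/
def ZZ (hk : σ k = k) (ρ : SU σ m →* X) (y : (Fin m → K) → X) (v : Fin m → K) : Subgroup (Perm (Fin m → KK k) × X) :=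
  closure {p | ∃ a b, σ a = a ∧ σ b = b ∧ p = zz hk ρ y v a b}

theorem pr_JJ (i : g ∈ Q σ v) : pr k ρ g ∈ JJ hk ρ y v := subset_closure (.inl ⟨g, i, rfl⟩)
theorem py_JJ (a : K) : py hk y (a • v) ∈ JJ hk ρ y v := subset_closure (.inr (.inl ⟨a, rfl⟩))
theorem pb_JJ (hw : hf σ w w = 0) (e : hf σ w v = 0) : pb hk y v w ∈ JJ hk ρ y v := subset_closure (.inr (.inr ⟨w, hw, e, rfl⟩))
theorem zz_ZZ (ha : σ a = a) (hb : σ b = b) : zz hk ρ y v a b ∈ ZZ hk ρ y v := subset_closure ⟨a, b, ha, hb, rfl⟩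
theorem pr_mul (i : g ∈ SU σ m) (j : ξ ∈ SU σ m) : pr k ρ (g * ξ) = pr k ρ g * pr k ρ ξ :=
  Prod.ext (by simp [pr, ext_mul (su_sem i)]) (up_mul i j)
theorem pr_one : pr k ρ 1 = 1 := Prod.ext ext_one up_one
theorem pr_inv (i : g ∈ SU σ m) : pr k ρ g⁻¹ = (pr k ρ g)⁻¹ := eq_inv_of_mul_eq_one_left (by rw [← pr_mul (inv_mem i) i, inv_mul_cancel, pr_one])
theorem hf_mk0 (hk : σ k = k) (x y : Fin m → K) : hf (sh σ hk) (mkv k x 0) (mkv k y 0) = ⟨hf σ x y, 0⟩ := by simp [hf_mkv]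
theorem iso_mk (hk : σ k = k) (h : hf σ x u = 0) : hf (sh σ hk) (mkv k x 0) (mkv k u 0) = 0 := by rw [hf_mk0, h]; rfl
theorem mk_smul (a : K) (x : Fin m → K) : mkv k (a • x) 0 = (⟨a, 0⟩ : KK k) • mkv k x 0 := by simp [mkv_smul]
theorem py_cj (c : Yd ρ t y) (i : g ∈ SU σ m) (hx : hf σ x x = 0) : pr k ρ g * py hk y x * (pr k ρ g)⁻¹ = py hk y (g x) :=
  Prod.ext ((tv_cj1 ((su_sem i).ext1 hk) _ _).trans (by simp [ext_ap, (su_sem i).zero, py])) (c.eqv g i x hx)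
theorem py_sq (c : Yd ρ t y) (hx : hf σ x x = 0) : py hk y x * py hk y x = 1 := Prod.ext (tv_sq _ _) (c.sq x hx)

namespace Dm
variable (d : Dm σ q m)
include d
theorem okb (hv : hf σ v v = 0) (hw : hf σ w w = 0) (e : hf σ w v = 0) : Ok (sh σ hk) (mkv k v 0) (mkv k 0 w) 0 :=
  ok_iso (iv_sh d.iv hk) (iso_mk hk hv) (by ext <;> simp [hf_mkv, hw]) (by ext <;> simp [hf_mkv, e])
theorem okz (hv : hf σ v v = 0) (ha : σ a = a) (hb : σ b = b) : Ok (sh σ hk) (mkv k v 0) 0 ⟨a, b⟩ :=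
  ok_tv (iv_sh d.iv hk) (iso_mk hk hv) (by rw [sh_ap, ha, hb])
theorem pb_fst (hv : hf σ v v = 0) (hw : hf σ w w = 0) (e : hf σ w v = 0) : (pb hk y v w).1 = E (sh σ hk) (mkv k v 0) (mkv k 0 w) 0 := by
  have := tv_pol (iv_sh d.iv hk) (iso_mk hk hv) (iso_mk hk hw) (iso_mk hk (d.sw e)) (sh_om hk)
  rw [mkv_add, om, mkv_smul] at this
  simpa [pb, py, om] using this
theorem py_com (c : Yd ρ t y) (hu : hf σ u u = 0) (hx : hf σ x x = 0) (e : hf σ u x = 0) : Commute (py hk y u) (py hk y x) :=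
  Prod.ext (conj_eq_iff.1 ((tv_cj1 (E_sem ..) _ _).trans (by rw [E_fix (iso_mk hk (d.sw e)) (hf_zero_r _)]; rfl))) (c.com u x hu hx e)
theorem pb_cj (c : Yd ρ t y) (i : g ∈ SU σ m) (hv : hf σ v v = 0) (hw : hf σ w w = 0) (e : hf σ w v = 0) :
    pr k ρ g * pb hk y v w * (pr k ρ g)⁻¹ = pb hk y (g v) (g w) := by
  simp only [pb, conj_mul_conj]
  rw [py_cj c i hv, py_cj c i hw, py_cj c i (by simp [hv, hw, e, d.sw e]), (su_sem i).add]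
variable (hv : hf σ v v = 0)
include hv
theorem jj_le (i : p ∈ JJ hk ρ y v) : p.1 ∈ Q (sh σ hk) (mkv k v 0) ∧ p.2 ∈ Qh ρ y v := by
  refine (show JJ hk ρ y v ≤ (Q _ _).prod (Qh ρ y v) from (closure_le _).2 ?_) i
  rintro _ (⟨g, j, rfl⟩ | ⟨a, rfl⟩ | ⟨w, a, b, rfl⟩)
  · obtain ⟨n, ζ, o, rfl⟩ := (mem_Q d.iv hv).1 j
    exact ⟨show ext k 0 _ ∈ Q _ _ by rw [(ext_E hk o).2]; exact E_Q _ _ _, d.E_Qh _ _ _⟩
  · refine ⟨?_, Z_Qh (y_Zh _ _)⟩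
    rw [py, mk_smul, tv_smul (iv_sh d.iv hk) (iso_mk hk hv) (sh_om hk)]; exact E_Q _ _ _
  · exact ⟨(d.pb_fst (hk := hk) (y := y) hv a b).symm ▸ E_Q _ _ _, b_Qh a b⟩
theorem zz_eq (ha : σ a = a) (hb : σ b = b) : zz hk ρ y v a b = py hk y (a • v) * pr k ρ (E σ v 0 b) := Prod.ext (by
  simp only [zz, py, pr, Prod.fst_mul, (ext_E hk (ok_tv d.iv hv hb)).2, mk_smul, mkv_zero]
  rw [tv_smul (iv_sh d.iv hk) (iso_mk hk hv) (sh_om hk), tv_mul (iv_sh d.iv hk) (iso_mk hk hv) (by simp [sh_ap, sh_om, ha])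
    (by simp [sh_ap, hb])]
  congr 1; ext <;> simp [sh_ap, om, ha]) rfl
theorem ZZ_le : ZZ hk ρ y v ≤ JJ hk ρ y v := (closure_le _).2 fun _ ⟨a, b, i, j, e⟩ => by
  rw [e, d.zz_eq hv i j]; exact mul_mem (py_JJ a) (pr_JJ (E_Q _ _ _))
theorem ex_zz (o : Ok (sh σ hk) (mkv k v 0) 0 η) : ∃ a b, σ a = a ∧ σ b = b ∧ (zz hk ρ y v a b).1 = E (sh σ hk) (mkv k v 0) 0 η := by
  obtain ⟨b, a⟩ := η
  obtain ⟨r, rfl⟩ := exists_rt a
  have := o.fix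
  rw [sh_ap, QuadraticAlgebra.mk.injEq] at this
  exact ⟨r, b, d.fix_rt this.2, this.1, rfl⟩
theorem jj_sur (o : Ok (sh σ hk) (mkv k v 0) N η) : ∃ p ∈ JJ hk ρ y v, p.1 = E (sh σ hk) (mkv k v 0) N η := by
  obtain ⟨n, n', rfl⟩ := exists_mkv N
  obtain ⟨h1, h2⟩ : hf σ n v = 0 ∧ hf σ n' v = 0 := by simpa [hf_mkv, QuadraticAlgebra.ext_iff] using o.nv
  obtain ⟨ζ, o1⟩ := d.ok hv h1
  obtain ⟨p, i, η', o2, e⟩ := d.span_iso1 (p := fun n => ∃ p ∈ JJ hk ρ y v, ∃ η, Ok (sh σ hk) (mkv k v 0) (mkv k 0 n) η ∧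
    p.1 = E (sh σ hk) (mkv k v 0) (mkv k 0 n) η) (fun x z ⟨p, i, _, o, e⟩ ⟨p', i', _, o', e'⟩ => ⟨_, mul_mem i i', _, by
      simpa [mkv_add] using o.mul o', by simpa [mkv_add, e, e'] using E_mul o o'⟩)
    (fun x a b => ⟨_, pb_JJ a b, 0, d.okb hv a b, d.pb_fst hv a b⟩) h2
  have o3 := (ext_E hk o1).1.mul o2
  have e3 := E_mul (ext_E hk o1).1 o2
  rw [mkv_add, add_zero, zero_add] at o3 e3
  have o4 := o3.inv.mul o
  have e4 := E_mul o3.inv o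
  rw [vv] at o4 e4
  obtain ⟨a, b, ha, hb, f⟩ := d.ex_zz (ρ := ρ) (y := y) hv o4
  refine ⟨_, mul_mem (mul_mem (pr_JJ (E_Q v n ζ)) i) (d.ZZ_le hv (zz_ZZ ha hb)), ?_⟩
  rw [Prod.fst_mul, Prod.fst_mul, f, e, ← e4, ← E_inv o3, pr, (ext_E hk o1).2, e3, mul_inv_cancel_left]
omit hv in
theorem jj_fst (hk : σ k = k) (hv : hf σ v v = 0) (v0 : v ≠ 0) :
    (JJ hk ρ y v).map (MonoidHom.fst _ _) = Q (sh σ hk) (mkv k v 0) := le_antisymm (by rintro _ ⟨p, i, rfl⟩; exact (d.jj_le hv i).1)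
  fun g i => by
    obtain ⟨N, η, o, rfl⟩ := (mem_Q (iv_sh d.iv hk) (iso_mk hk hv)).1 i
    exact d.jj_sur hv o
theorem zz_mul (c : Yd ρ t y) (ha : σ a = a) (hb : σ b = b) (ha' : σ a' = a') (hb' : σ b' = b') :
    zz hk ρ y v a b * zz hk ρ y v a' b' = zz hk ρ y v (a + a') (b + b') := Prod.ext (by
  refine (tv_mul (iv_sh d.iv hk) (iso_mk hk hv) (by simp [sh_ap, *]) (by simp [sh_ap, *])).trans ?_
  simp only [zz]; congr 1; ext <;> simp; grind) (d.zmul c hv ha hb ha' hb')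
omit d hv in
theorem zz0 (c : Yd ρ t y) : zz hk ρ y v 0 0 = 1 := Prod.ext (by simp only [zz, mul_zero]; exact E_zero _) (by simp [zz, c.zero, tv0])
theorem mem_ZZ (c : Yd ρ t y) : p ∈ ZZ hk ρ y v ↔ ∃ a b, σ a = a ∧ σ b = b ∧ p = zz hk ρ y v a b := by
  refine ⟨fun i => ?_, fun i => subset_closure i⟩
  induction i using closure_induction with
  | mem _ e => exact e
  | one => exact ⟨0, 0, map_zero σ, map_zero σ, (zz0 c).symm⟩
  | mul _ _ _ _ i j =>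
    obtain ⟨a, b, ha, hb, rfl⟩ := i; obtain ⟨a', b', ha', hb', rfl⟩ := j
    exact ⟨_, _, by simp [*], by simp [*], d.zz_mul hv c ha hb ha' hb'⟩
  | inv _ _ i =>
    obtain ⟨a, b, ha, hb, rfl⟩ := i
    exact ⟨a, b, ha, hb, inv_eq_of_mul_eq_one_left (by simp [d.zz_mul hv c ha hb ha hb, CharTwo.add_self_eq_zero, zz0 c])⟩
theorem ZZ_snd (i : p ∈ ZZ hk ρ y v) : p.2 ∈ Zh ρ y v := (show ZZ hk ρ y v ≤ (Zh ρ y v).comap (.snd _ _) from
  (closure_le _).2 fun _ ⟨a, b, _, _, e⟩ => e ▸ mul_mem (y_Zh _ _) (tv_Zh _ _)) i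
theorem py_ZZ (c : Yd ρ t y) (a : K) : py hk y (a • v) ∈ ZZ hk ρ y v := by
  obtain ⟨b, i, e, f⟩ := d.yR c hv a
  convert zz_ZZ (hk := hk) (ρ := ρ) (y := y) (v := v) i (map_zero σ) using 1
  refine Prod.ext ?_ (by simp [py, zz, f, tv0])
  simp only [py, zz, mk_smul, tv_smul (iv_sh d.iv hk) (iso_mk hk hv) (sh_om hk)]
  congr 1; ext <;> simp [sh_ap, om, e]
theorem tv_ZZ (c : Yd ρ t y) (o : Ok σ v (a • v) ζ) : pr k ρ (E σ v (a • v) ζ) ∈ ZZ hk ρ y v := by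
  have := zz_ZZ (hk := hk) (ρ := ρ) (y := y) (v := v) (map_zero σ) (E_line o).1.fix
  rwa [d.zz_eq hv (map_zero σ) (E_line o).1.fix, show py hk y ((0 : K) • v) = 1 from Prod.ext (by simp [py, mkv_zero, E_zero_v])
    (by simp [py, c.zero]), one_mul, ← (E_line o).2] at this
theorem pb_ZZ (c : Yd ρ t y) (a : K) : pb hk y v (a • v) ∈ ZZ hk ρ y v := by
  simpa [pb, add_smul] using mul_mem (mul_mem (d.py_ZZ (hk := hk) hv c (1 + a)) (d.py_ZZ hv c 1)) (d.py_ZZ hv c a)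
variable (v0 : v ≠ 0)
include v0
theorem tvK (o : Ok (sh σ hk) (mkv k v 0) 0 η) (e : E (sh σ hk) (mkv k v 0) 0 η = 1) : η = 0 := by
  obtain ⟨x, -, h, -⟩ := d.partner hv v0
  obtain ⟨a, b⟩ := η
  have := E_one o (x := mkv k x 0) (by rw [hf_mk0, h]; rfl) e
  rw [hf_zero_r, zero_add, mkv_smul, ← mkv_zero, mkv_inj] at this
  simpa [v0, QuadraticAlgebra.ext_iff, eq_comm (a := (0 : Fin m → K))] using this
theorem JJ_cZ (c : Yd ρ t y) : JJ hk ρ y v ≤ 𝐂(ZZ hk ρ y v) := fun p i z j => by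
  obtain ⟨a, b, ha, hb, rfl⟩ := (d.mem_ZZ hv c).1 j
  obtain ⟨h1, h2⟩ := d.jj_le hv i
  obtain ⟨N, η, o, e⟩ := (mem_Q (iv_sh d.iv hk) (iso_mk hk hv)).1 h1
  refine Prod.ext ?_ (d.qc c hv v0 h2 (d.ZZ_snd hv j)).symm
  rw [Prod.fst_mul, Prod.fst_mul, e, ← commutatorElement_eq_one_iff_mul_comm, zz, E_comm (d.okz hv hb (by simp [ha])) o]; simp
theorem JJ_com (c : Yc ρ t y k) (i : p ∈ JJ hk ρ y v) (j : p' ∈ JJ hk ρ y v) : ⁅p, p'⁆ ∈ ZZ hk ρ y v := by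
  have c' := c.toYd
  have rt : ∀ x z : Fin m → K, ∃ r, σ r = r ∧ r * r = hf σ x z + hf σ z x := fun x z => (exists_rt _).imp fun r e =>
    ⟨d.fix_rt (by rw [e, map_add, d.sy, d.sy, add_comm]), e⟩
  have B : ∀ a : K, ∀ p ∈ JJ hk ρ y v, ⁅py hk y (a • v), p⁆ ∈ ZZ hk ρ y v := fun a p i => by
    rw [commutatorElement_eq_one_iff_mul_comm.2 (d.JJ_cZ hv v0 c' i _ (d.py_ZZ hv c' a))]; exact one_mem _
  have C : ∀ g ∈ Q σ v, ∀ w, hf σ w w = 0 → hf σ w v = 0 → ⁅pr k ρ g, pb hk y v w⁆ ∈ ZZ hk ρ y v := fun g i w a b => by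
    obtain ⟨n, ζ, o, rfl⟩ := (mem_Q d.iv hv).1 i
    obtain ⟨r, h, e⟩ := rt w n
    convert zz_ZZ (hk := hk) (ρ := ρ) (y := y) (v := v) h (map_zero σ) using 1
    refine Prod.ext ?_ ((d.Eb c' hv o a b e).trans (by simp [zz, tv0]))
    change ⁅ext k 0 (E σ v n ζ), (pb hk y v w).1⁆ = _
    rw [(ext_E hk o).2, d.pb_fst hv a b, E_comm (ext_E hk o).1 (d.okb hv a b), zz]
    congr 1; ext <;> simp [hf_mkv, e, add_comm]
  have S : ∀ {p p'}, ⁅p, p'⁆ ∈ ZZ hk ρ y v → ⁅p', p⁆ ∈ ZZ hk ρ y v := fun i => by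
    rw [← commutatorElement_inv]; exact inv_mem i
  refine comm_closure (d.JJ_cZ hv v0 c') ?_ i j
  rintro _ (⟨g, i, rfl⟩ | ⟨a, rfl⟩ | ⟨w, a, b, rfl⟩) p' j
  · obtain ⟨g', j, rfl⟩ | ⟨a, rfl⟩ | ⟨w, a, b, rfl⟩ := j
    · rw [commutatorElement_def, ← pr_inv (d.Q_SU i), ← pr_inv (d.Q_SU j), ← pr_mul (d.Q_SU i) (d.Q_SU j),
        ← pr_mul (d.Q_SU (mul_mem i j)) (d.Q_SU (inv_mem i)), ← pr_mul (d.Q_SU (mul_mem (mul_mem i j) (inv_mem i))) (d.Q_SU (inv_mem j))]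
      obtain ⟨n, ζ, o, rfl⟩ := (mem_Q d.iv hv).1 i; obtain ⟨n', ζ', o', rfl⟩ := (mem_Q d.iv hv).1 j
      rw [← commutatorElement_def, E_comm o o', ← zero_smul K v]
      exact d.tv_ZZ hv c' (by rw [zero_smul]; exact ok_tv d.iv hv (by simp [d.sy, add_comm]))
    exacts [S (B a _ (pr_JJ i)), C g i w a b]
  · exact B a _ (subset_closure j)
  obtain ⟨g', j, rfl⟩ | ⟨a', rfl⟩ | ⟨w', a', b', rfl⟩ := j
  · exact S (C g' j w a b)
  · exact S (B a' _ (pb_JJ a b))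
  obtain ⟨r, h, e⟩ := rt w w'
  convert zz_ZZ (hk := hk) (ρ := ρ) (y := y) (v := v) (b := k * (r * r)) h (by simp [hk, h]) using 1
  refine Prod.ext ?_ (c.cf v w w' r hv a a' b b' e)
  change ⁅(pb hk y v w).1, (pb hk y v w').1⁆ = _
  rw [d.pb_fst hv a b, d.pb_fst hv a' b', E_comm (d.okb hv a b) (d.okb hv a' b'), zz]
  congr 1; ext <;> simp [hf_mkv, e, mul_add]
theorem cQZ (c : Yd ρ t y) (i : s ∈ im ρ (Q σ v) ⊔ Zh ρ y v) (h : s ∈ 𝐂(im ρ (Q σ v))) : s ∈ Zh ρ y v := by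
  obtain ⟨n, ζ, o, z, k, rfl⟩ := (d.mem_M c hv).1 i
  have zc : z ∈ 𝐂(im ρ (Q σ v)) := le_centralizer_iff.1 ((im_mono d.Q_Y).trans (d.Z_cY c hv)) k
  have h5 := (mul_mem_cancel_right zc).1 h
  have e := E_Q (σ := σ) v n ζ
  obtain ⟨a, w, j, -, f⟩ := d.cQ0 hv v0 ⟨_, E_sem v n ζ⟩ fun p l => d.s_ker2 c.ker (d.Q_SU (mul_mem l e)) (d.Q_SU (mul_mem e l))
    (e2_of (d.Q_two hv) (mul_mem l e)) (e2_of (d.Q_two hv) (mul_mem e l)) (by
      rw [up_mul (d.Q_SU l) (d.Q_SU e), up_mul (d.Q_SU e) (d.Q_SU l)]; exact h5 _ (up_im l (d.Q_SU l)))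
  rw [d.sc_W (d.Q_Y e).2 (d.Q_Y (Z_le_Q j)).2 v0 f]
  obtain ⟨b, -, rfl⟩ := (mem_Z d.iv hv).1 j
  exact mul_mem (tv_Zh _ _) k
theorem cQh (c : Yd ρ t y) (i : s ∈ Qh ρ y v) (h : s ∈ 𝐂(im ρ (Q σ v))) : s ∈ Zh ρ y v := by
  obtain ⟨n, j, ζ, o, z, k, e⟩ := d.la_ex c hv (d.Q_Nn c hv i)
  have tc : t ∈ 𝐂(im ρ (Q σ v)) := centralizer_anti im_le c.cm
  have h1 := d.cQZ hv v0 c j.2.2 (mul_mem (inv_mem tc) (mul_mem (mul_mem h tc) (inv_mem h)))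
  rw [e, mul_mem_cancel_right k] at h1
  obtain ⟨a, ha, f⟩ := d.upZ c hv v0 (d.E_SU _ _ _) (e2_E ..) h1
  exact d.cQZ hv v0 c (d.la_M c hv v0 ⟨j, a, ok_tv d.iv hv ha, z, k, f ▸ e⟩) h
theorem zz_one (c : Yd ρ t y) (i : p ∈ ZZ hk ρ y v) (e : p.1 = 1) : p = 1 := by
  obtain ⟨a, b, ha, hb, rfl⟩ := (d.mem_ZZ hv c).1 i
  obtain ⟨rfl, rfl⟩ : b = 0 ∧ a = 0 := by simpa [QuadraticAlgebra.ext_iff] using d.tvK hv v0 (d.okz hv hb (by simp [ha])) e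
  exact zz0 c
theorem k0 (c : Yc ρ t y k) (i : p ∈ JJ hk ρ y v) (e : p.1 = 1) : p.2 ∈ Zh ρ y v :=
  d.cQh hv v0 c.toYd (d.jj_le hv i).2 fun x j => by
    obtain ⟨g, j', -, rfl⟩ := mem_im.1 j
    have := d.zz_one hv v0 c.toYd (d.JJ_com hv v0 c (pr_JJ j') i) (by
      change ⁅(pr k ρ g).1, p.1⁆ = 1
      rw [e, commutatorElement_one_right])
    exact congrArg Prod.snd (commutatorElement_eq_one_iff_mul_comm.1 this)
theorem k1 (c : Yc ρ t y k) (i : p ∈ JJ hk ρ y v) (e : p.1 = 1) : p.2 = 1 := by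
  classical
  have c' := c.toYd
  have : ((ZZ hk ρ y v).subgroupOf (JJ hk ρ y v)).Normal := (normal_subgroupOf_iff_le_normalizer (d.ZZ_le hv)).2
    ((d.JJ_cZ hv v0 c').trans (centralizer_le_normalizer _))
  let π := QuotientGroup.mk' ((ZZ hk ρ y v).subgroupOf (JJ hk ρ y v))
  have k1 : ∀ z, π z = 1 ↔ z.1 ∈ ZZ hk ρ y v := fun z => QuotientGroup.eq_one_iff z
  have : IsMulCommutative (JJ hk ρ y v ⧸ (ZZ hk ρ y v).subgroupOf (JJ hk ρ y v)) := ⟨⟨fun a b => by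
    obtain ⟨a, rfl⟩ := QuotientGroup.mk'_surjective _ a; obtain ⟨b, rfl⟩ := QuotientGroup.mk'_surjective _ b
    rw [← commutatorElement_eq_one_iff_mul_comm, ← map_commutatorElement]; exact (k1 _).2 (d.JJ_com hv v0 c a.2 b.2)⟩⟩
  have pa : ∀ u w, hf σ u u = 0 → hf σ w w = 0 → hf σ u v = 0 → hf σ w v = 0 → hf σ u w = 0 →
      pb hk y v (u + w) = pb hk y v u * pb hk y v w := fun u w a b i j e => by
    refine Prod.ext ?_ (c.add v u w hv a b (d.sw i) (d.sw j) e)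
    rw [Prod.fst_mul, d.pb_fst hv a i, d.pb_fst hv b j, d.pb_fst hv (by simp [a, b, e, d.sw e]) (by simp [i, j]),
      E_mul (d.okb hv a i) (d.okb hv b j), mkv_add]
    congr 1
    · simp
    · ext <;> simp [hf_mkv, d.sw e]
  let F : (Fin m → K) → _ := fun w => if h : hf σ w w = 0 ∧ hf σ w v = 0 then π ⟨_, pb_JJ (hk := hk) (ρ := ρ) (y := y) h.1 h.2⟩ else 1
  have Fa : ∀ u w, hf σ u u = 0 → hf σ w w = 0 → hf σ u v = 0 → hf σ w v = 0 → hf σ u w = 0 → F (u + w) = F u * F w :=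
    fun u w a b i j e => by
      simp only [F]
      rw [dif_pos ⟨by simp [a, b, e, d.sw e], by simp [i, j]⟩, dif_pos ⟨a, i⟩, dif_pos ⟨b, j⟩, ← map_mul]
      exact congrArg π (Subtype.ext (pa u w a b i j e))
  have F0 : F 0 = 1 := by simpa using Fa 0 0
  have F2 : ∀ u, hf σ u u = 0 → hf σ u v = 0 → F u * F u = 1 := fun u a i => by rw [← Fa u u a a i i a, vv, F0]
  obtain ⟨f, h1, h2⟩ := d.ua hv F fun u w a b i j e => by
    by_cases z : hf σ u w = 0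
    · exact Fa u w a b i j z
    obtain ⟨l, l1, l0⟩ := d.one
    have l2 : l ≠ 0 := fun z => by simp [z] at l1
    have l3 : 1 + l ≠ 0 := fun e => l0 (CharTwo.add_eq_zero.1 e).symm
    obtain ⟨x, w', v', G, r⟩ := d.fm3' hv v0 a b i j z
    obtain ⟨g, gk, g0, g1, -, g2, -⟩ := d.dia G (a := 1) (b := l) (c := σ l / l) one_ne_zero l2 (by field_simp; simp)
    rw [one_smul] at g0
    have s := su_sem gk
    have g3 : g w = l • w := by rw [r, s.smul1, g2, inv_eq_of_mul_eq_one_left l1, smul_comm]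
    have g4 : g (u + w) = l • (u + w) := by rw [s.add, g1, g3, smul_add]
    generalize hx : u + w = x at e g4
    have i' : hf σ x v = 0 := by simp [← hx, i, j]
    have key : ∀ c₁ : K, F ((c₁ * l) • u) * F ((c₁ * l) • w) * F ((c₁ * l) • x) = F (c₁ • u) * F (c₁ • w) * F (c₁ • x) := fun c₁ => by
      have a1 : hf σ (c₁ • u) (c₁ • u) = 0 := by simp [a]
      have a2 : hf σ (c₁ • w) (c₁ • w) = 0 := by simp [b]
      have a3 : hf σ (c₁ • x) (c₁ • x) = 0 := by simp [e]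
      have b1 : hf σ (c₁ • u) v = 0 := by simp [i]
      have b2 : hf σ (c₁ • w) v = 0 := by simp [j]
      have b3 : hf σ (c₁ • x) v = 0 := by simp [i']
      have o := ((d.okb (hk := hk) hv a1 b1).mul (d.okb hv a2 b2)).mul (d.okb hv a3 b3)
      have e1 := E_mul ((d.okb (hk := hk) hv a1 b1).mul (d.okb hv a2 b2)) (d.okb hv a3 b3)
      rw [← E_mul (d.okb hv a1 b1) (d.okb hv a2 b2), ← d.pb_fst (y := y) hv a1 b1, ← d.pb_fst (y := y) hv a2 b2,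
        ← d.pb_fst (y := y) hv a3 b3, ← Prod.fst_mul, ← Prod.fst_mul] at e1
      have n0 : mkv k 0 (c₁ • u) + mkv k 0 (c₁ • w) + mkv k 0 (c₁ • x) = 0 := by
        rw [mkv_add, mkv_add, ← smul_add, hx, vv (c₁ • x), add_zero, add_zero, mkv_zero]
      rw [n0] at o e1
      obtain ⟨α, β, hα, hβ, e2⟩ := d.ex_zz (ρ := ρ) (y := y) hv o
      have J := mul_mem (mul_mem (pb_JJ (hk := hk) (ρ := ρ) (y := y) a1 b1) (pb_JJ a2 b2)) (pb_JJ a3 b3)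
      have z1 := d.k0 hv v0 c (mul_mem (inv_mem (d.ZZ_le hv (zz_ZZ hα hβ))) J) (by rw [Prod.fst_mul, Prod.fst_inv, e2, e1, inv_mul_cancel])
      rw [Prod.snd_mul, Prod.snd_inv, mul_mem_cancel_left (inv_mem (d.ZZ_snd hv (zz_ZZ hα hβ)))] at z1
      have e3 : pr k ρ g * (pb hk y v (c₁ • u) * pb hk y v (c₁ • w) * pb hk y v (c₁ • x)) * (pr k ρ g)⁻¹ =
          pb hk y v (c₁ • u) * pb hk y v (c₁ • w) * pb hk y v (c₁ • x) := Prod.ext (by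
        rw [Prod.fst_mul, Prod.fst_mul (pr _ ρ g), Prod.fst_inv, e1, pr, tv_cj1 (s.ext1 hk), ext_ap, g0, s.zero, smul_zero, add_zero])
        (conj_eq_iff.2 (mem_centralizer_iff'.1 (d.Z_cY c' hv (up_im (mem_Y.2 ⟨gk, g0⟩) gk)) _ z1).symm)
      rw [conj_mul_conj, conj_mul_conj, d.pb_cj c' gk hv a1 b1, d.pb_cj c' gk hv a2 b2, d.pb_cj c' gk hv a3 b3, g0, s.smul1, s.smul1, s.smul1,
        g1, g3, g4, smul_smul, smul_smul, smul_smul] at e3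
      simp only [F]
      rw [dif_pos ⟨by simp [a], by simp [i]⟩, dif_pos ⟨by simp [b], by simp [j]⟩, dif_pos ⟨by simp [e], by simp [i']⟩,
        dif_pos ⟨a1, b1⟩, dif_pos ⟨a2, b2⟩, dif_pos ⟨a3, b3⟩, ← map_mul π, ← map_mul π, ← map_mul π, ← map_mul π]
      exact congrArg π (Subtype.ext e3)
    have sp : ∀ z, hf σ z z = 0 → hf σ z v = 0 → F z = F ((1 + l)⁻¹ • z) * F (((1 + l)⁻¹ * l) • z) := fun z a i => by
      rw [← Fa _ _ (by simp [a]) (by simp [a]) (by simp [i]) (by simp [i]) (by simp [a]), ← add_smul, ← mul_one_add, inv_mul_cancel₀ l3, one_smul]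
    have e4 : F u * F w * F x = 1 := by
      rw [sp u a i, sp w b j, sp x e i', mul_mul_mul_comm (F ((1 + l)⁻¹ • u)), mul_mul_mul_comm (F _ * F _), key, mul_mul_mul_comm,
        mul_mul_mul_comm (F ((1 + l)⁻¹ • u)), F2 _ (by simp [a]) (by simp [i]), F2 _ (by simp [b]) (by simp [j]),
        F2 _ (by simp [e]) (by simp [i']), one_mul, one_mul]
    rw [← one_mul (F x), ← e4, mul_assoc, F2 x e i', mul_one]
  simp only [F] at h2
  have f0 : f 0 = 1 := by simpa using h1 0 0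
  have : ∀ p (i : p ∈ JJ hk ρ y v), ∃ n n' ζ η, Ok σ v n ζ ∧ Ok (sh σ hk) (mkv k v 0) (mkv k n n') η ∧
      p.1 = E (sh σ hk) (mkv k v 0) (mkv k n n') η ∧ π ⟨p, i⟩ = π ⟨_, pr_JJ (E_Q v n ζ)⟩ * f n' := fun p i => by
    have o0 := ok_tv d.iv hv (map_zero σ)
    have p0 : π ⟨_, pr_JJ (E_Q v 0 0)⟩ = 1 := (k1 _).2 (by simp [pr_one])
    induction i using closure_induction with
    | mem _ e =>
      obtain ⟨g, j, rfl⟩ | ⟨a, rfl⟩ | ⟨w, a, b, rfl⟩ := e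
      · obtain ⟨n, ζ, o, rfl⟩ := (mem_Q d.iv hv).1 j
        exact ⟨n, 0, ζ, _, o, (ext_E hk o).1, (ext_E hk o).2, by rw [f0, mul_one]⟩
      · obtain ⟨b, b', i, j, e⟩ := (d.mem_ZZ hv c').1 (d.py_ZZ (hk := hk) hv c' a)
        exact ⟨0, 0, 0, _, o0, d.okz hv j (by simp [i]), congrArg Prod.fst e, by rw [f0, p0, mul_one]; exact (k1 _).2 (d.py_ZZ hv c' a)⟩
      · exact ⟨0, w, 0, 0, o0, d.okb hv a b, d.pb_fst hv a b, by rw [p0, one_mul, h2 w a b, dif_pos ⟨a, b⟩]; rfl⟩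
    | one => exact ⟨0, 0, 0, 0, o0, d.okz hv (map_zero σ) (map_zero σ), (E_zero _).symm, by rw [f0, p0, mul_one]; exact map_one π⟩
    | mul p p' i j a b =>
      obtain ⟨n, n', ζ, η, o, o', e, e'⟩ := a; obtain ⟨n₁, n₁', ζ₁, η₁, o₁, o₁', e₁, e₁'⟩ := b
      refine ⟨n + n₁, n' + n₁', _, _, o.mul o₁, o'.mul o₁', by rw [Prod.fst_mul, e, e₁, E_mul o' o₁']; rfl,
        (map_mul π ⟨p, i⟩ ⟨p', j⟩).trans ?_⟩
      rw [e', e₁', h1, mul_mul_mul_comm, ← map_mul]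
      exact congrArg (π · * _) (Subtype.ext ((pr_mul (d.E_SU _ _ _) (d.E_SU _ _ _)).symm.trans (congrArg _ (E_mul o o₁))))
    | inv p i a =>
      obtain ⟨n, n', ζ, η, o, o', e, e'⟩ := a
      refine ⟨_, _, _, _, o.inv, o'.inv, by rw [Prod.fst_inv, e, E_inv o'], (map_inv π ⟨p, i⟩).trans ?_⟩
      rw [e', mul_inv, ← map_inv, inv_eq_of_mul_eq_one_left (show f n' * f n' = 1 by rw [← h1, vv, f0])]
      exact congrArg (π · * _) (Subtype.ext ((pr_inv (d.E_SU _ _ _)).symm.trans (congrArg _ (E_inv o))))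
  obtain ⟨n, n', ζ, η, o, o', h3, h4⟩ := this p i
  obtain ⟨x, -, h, -⟩ := d.partner hv v0
  have h5 := E_one o' (x := mkv k x 0) (by rw [hf_mk0, h]; rfl) (h3.symm.trans e)
  generalize hf (sh σ hk) _ _ + η = s at h5
  obtain ⟨a, b⟩ := s
  obtain ⟨rfl, rfl⟩ : n = a • v ∧ n' = b • v := by simpa [mkv_smul, mkv_inj] using h5
  rw [h2 _ (by simp [hv]) (by simp [hv]), dif_pos ⟨by simp [hv], by simp [hv]⟩, (k1 ⟨pr k ρ _, _⟩).2 (d.tv_ZZ hv c' o), (k1 ⟨pb .., _⟩).2 (d.pb_ZZ hv c' b),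
    mul_one, k1] at h4
  obtain ⟨a, b, ha, hb, rfl⟩ := (d.mem_ZZ hv c').1 h4
  obtain ⟨rfl, rfl⟩ : b = 0 ∧ a = 0 := by simpa [QuadraticAlgebra.ext_iff] using d.tvK hv v0 (d.okz hv hb (by simp [ha])) e
  rw [zz0 c']; rfl
end Dm

end CF.U5
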