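import Cfsg.Agent.U5.J1

/-! Elementary abelian subgroups of the semilinear unitary group: the Thompson subgroup. -/

set_option autoImplicit false
set_option linter.unusedSectionVars false
set_option linter.unusedVariables false

namespace CF.U5

open Subgroup Equiv CF.Geom Module CF.Loc CF.LX CF.Dbl
open scoped commutatorElement

variable {K : Type} [Field K] [Fintype K] [CharP K 2] {m q j : ℕ} {σ θ θ' : K ≃+* K} {c ζ ζ' ω : K}
  {g p k ξ α w w' a b : Perm (Fin m → K)} {u v x y n n' u' v' : Fin m → K} {T T' S : Submodule K (Fin m → K)}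
  {A B H P O : Subgroup (Perm (Fin m → K))}

theorem cj_c1 {G : Type*} [Group G] (g x : G) : cj[g] 𝐂₁(x) = 𝐂₁(g * x * g⁻¹) := by
  ext y; rw [mem_cj, mem_c1, mem_c1, ← (MulAut.conj g).injective.eq_iff]; simp [mul_assoc]

namespace Dm
variable (d : Dm σ q m)
include d
theorem W_low (h : j ≤ m / 2) : q ^ j ^ 2 ≤ Nat.card (WX σ (Vf K m j)) := by
  induction j with
  | zero => exact Nat.card_pos
  | succ j ih =>
    have hy : ∀ x ∈ Vf K m j, hf σ (bv (m - (j + 1))) x = 0 := fun x i => hf_Vf (bv_mem (Nat.lt_succ_self _)) i (by omega)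
    have h1 : hf σ (bv (m - (j + 1)) : Fin m → K) (bv j) = 1 := by rw [hf_bb (by omega), if_pos (by omega)]
    have t := Vf_ti (σ := σ) (m := m) h
    have b : (bv j : Fin m → K) ∈ Vf K m (j + 1) := bv_mem j.lt_succ_self
    have o : ∀ (n : Vf K m j) (a : {a : K // σ a = a}), Ok σ (bv j) n.1 a.1 := fun n a =>
      ⟨d.iv, t _ b _ b, t _ (Vf_mono j.le_succ n.2) _ b, by
        rw [a.2, t _ (Vf_mono j.le_succ n.2) _ (Vf_mono j.le_succ n.2), CharTwo.add_self_eq_zero]⟩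
    have k : ∀ (w : WX σ (Vf K m j)) (n : Vf K m j) (a : {a : K // σ a = a}), (w * E σ (bv j) n.1 a.1) (bv (m - (j + 1))) =
        bv (m - (j + 1)) + n.1 + a.1 • bv j := fun w n a => by
      rw [Perm.mul_apply, E_ap (o n a), h1, hy _ n.2, one_smul, zero_add, mul_one]
      exact W_fix w.2 fun z i => by
        simp [hy z i, t _ (Vf_mono j.le_succ n.2) _ (Vf_mono j.le_succ i), t _ b _ (Vf_mono j.le_succ i)]
    refine le_trans ?_ (Nat.card_le_card_of_injective (fun p : WX σ (Vf K m j) × Vf K m j × {a : K // σ a = a} =>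
      (⟨p.1 * E σ (bv j) p.2.1.1 p.2.2.1, mul_mem (W_mono (Vf_mono j.le_succ) p.1.2) (E_W b (Vf_mono j.le_succ p.2.1.2) _)⟩ :
        WX σ (Vf K m (j + 1)))) fun ⟨w, n, a⟩ ⟨w', n', a'⟩ f => ?_)
    · rw [Nat.card_prod, Nat.card_prod, d.card_V (by omega), d.card_fix, ← pow_succ,
        show (j + 1) ^ 2 = j ^ 2 + (2 * j + 1) by ring, pow_add]
      exact Nat.mul_le_mul_right _ (ih (by omega))
    have f := congrArg Subtype.val f
    have f1 := (k w n a).symm.trans ((congrArg (· (bv (m - (j + 1)))) f).trans (k w' n' a'))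
    obtain rfl : a = a' := Subtype.ext (by simpa [hy _ n.2, hy _ n'.2, h1, a.2, a'.2] using congrArg (hf σ (bv (m - (j + 1)))) f1)
    obtain rfl : n = n' := Subtype.ext (by simpa using f1)
    exact congrArg (·, n, a) (Subtype.ext (mul_right_cancel f))
theorem card_W : Nat.card (WW σ m) = q ^ ((m / 2) ^ 2) := le_antisymm (d.jU d.W_le (d.W_el (Vf_ti le_rfl))) (d.W_low le_rfl)
theorem jF (l : ∀ a ∈ A, a ∈ Gam σ m ∧ Fl a) (e : El A) : Nat.card A ≤ q ^ (m / 2) ^ 2 ∧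
    (A ≤ GU σ m → q ^ (m / 2) ^ 2 ≤ Nat.card A → A = WW σ m) := by
  have u : A ⊓ GU σ m ≤ UT σ m := fun a i => d.U_of i.2 (l a i.1).2 (e2_inv (e a i.1))
  by_cases z : A ≤ GU σ m
  · rw [inf_eq_left.2 z] at u
    exact ⟨d.jU u e, fun _ c => eq_of_le_of_card_ge (d.jE u e c) (d.card_W ▸ c)⟩
  obtain ⟨α, a, b⟩ := SetLike.not_le_iff_exists.1 z
  have s : ∀ a ∈ A, a ∉ GU σ m → Sem σ σ a := fun a i j => by
    obtain ⟨θ, s⟩ := (l a i).1
    obtain rfl | rfl := d.inv_th s (e a i); exacts [absurd s j, s]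
  have h1 := d.jG u (el_mono e inf_le_left) (s α a b) (e α a) (l α a).2 fun x i => el_cm e i.1 a
  have h2 : (GU σ m).relIndex A ≤ 2 := Nat.le_of_dvd two_pos (relIndex_dvd_two_iff.2 ⟨α, a, fun x i => or_iff_not_imp_right.2 fun j =>
    show Sem σ 1 _ from (show σ * σ = 1 from RingEquiv.ext d.iv) ▸ (s x i j).mul (s α a b)⟩)
  have h3 := card_ri A (GU σ m)
  exact ⟨le_trans (h3 ▸ Nat.mul_le_mul_left _ (h2.trans d.two_le)) h1, fun c => absurd c z⟩
theorem j1 (l : A ≤ Gam σ m) (e : El A) : Nat.card A ≤ q ^ ((m / 2) ^ 2) := by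
  obtain ⟨g, -, b⟩ := d.fl_cj l (el_two e)
  exact card_cj g A ▸ (d.jF b (el_cj e g)).1
omit d in
theorem _root_.CF.U5.GU_cj (i : g ∈ SU σ m) (l : A ≤ GU σ m) : cj[g] A ≤ GU σ m := by
  rintro _ ⟨w, j, rfl⟩; exact (su_sem i).cj (l j)
theorem j2 (l : A ≤ GU σ m) (e : El A) (c : q ^ ((m / 2) ^ 2) ≤ Nat.card A) : ∃ T, Ti σ T ∧ finrank K T = m / 2 ∧ A = WX σ T := by
  obtain ⟨g, a, b⟩ := d.fl_cj (l.trans GU_le) (el_two e)
  have f := (d.jF b (el_cj e g)).2 (GU_cj a l) (card_cj g A ▸ c)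
  have s := su_sem a
  refine ⟨(Vf K m (m / 2)).comap (lin s), fun x i y j => s.form1 x y ▸ Vf_ti le_rfl _ i _ j,
    (dim_eq g fun _ => .rfl).trans d.Vl_dim, cj_inj.1 (f.trans (le_antisymm (fun w i => mem_cj.2 ?_) ?_))⟩
  · simpa using W_cj s.inv1 (fun x j => by simpa [lin_ap] using j) i
  · rintro _ ⟨w, i, rfl⟩; exact W_cj s (fun _ => id) i
theorem ju (l : P ≤ Gam σ m) (two : IsPGroup 2 P) (a : A ≤ P) (a' : A ≤ GU σ m) (e : El A) (c : q ^ ((m / 2) ^ 2) ≤ Nat.card A)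
    (b : B ≤ P) (b' : B ≤ GU σ m) (e' : El B) (c' : q ^ ((m / 2) ^ 2) ≤ Nat.card B) : A = B := by
  obtain ⟨g, i, f⟩ := d.fl_cj l two
  exact cj_inj.1 (((d.jF (fun x i => f x (cj_mono g a i)) (el_cj e g)).2 (GU_cj i a') (card_cj g A ▸ c)).trans
    ((d.jF (fun x i => f x (cj_mono g b i)) (el_cj e' g)).2 (GU_cj i b') (card_cj g B ▸ c')).symm)
theorem g1 (i : Sem σ θ α) (e : α * α = 1) (f : Fl α) : ∃ B ≤ UT σ m ⊓ 𝐂₁(α), El B ∧ 2 * q ^ ((m / 2) ^ 2) ≤ Nat.card B ^ 2 ∧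
    (θ = 1 → 4 * q ^ ((m / 2) ^ 2) ≤ Nat.card B ^ 2) := by
  have t := Vf_ti (σ := σ) (m := m) le_rfl
  obtain ⟨h1, h2⟩ := half (d.W_el t) ((d.W_norm ⟨_, i⟩).2 (f _)) e
  rw [d.card_W] at h1 h2
  have el := el_mono (d.W_el t) (inf_le_left (b := 𝐂₁(α)))
  obtain rfl | rfl := d.inv_th i e
  · suffices ∃ B ≤ UT σ m ⊓ 𝐂₁(α), El B ∧ 4 * q ^ ((m / 2) ^ 2) ≤ Nat.card B ^ 2 from
      this.imp fun B h => ⟨h.1, h.2.1, le_trans (by omega) h.2.2, fun _ => h.2.2⟩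
    by_cases z : α ∈ WW σ m
    · refine ⟨WW σ m, le_inf d.W_le fun w j => mem_c1.2 (el_cm (d.W_el t) j z), d.W_el t, ?_⟩
      rw [d.card_W, pow_two (q ^ _)]
      exact Nat.mul_le_mul_right _ (le_trans (by have := d.two_le; nlinarith) (Nat.pow_le_pow_right d.q1.le
        (show 2 ≤ _ by have := d.l3; nlinarith)))
    have n : zpowers α ≤ 𝐂(WW σ m ⊓ 𝐂₁(α)) := zpowers_le.2 (mem_centralizer_iff'.2 fun x j => mem_c1.1 j.2)
    refine ⟨(WW σ m ⊓ 𝐂₁(α)) ⊔ zpowers α, sup_le (inf_le_inf_right _ d.W_le) (zpowers_le.2 ⟨d.U_of i f (e2_inv e), mem_c1.2 rfl⟩),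
      fun x j => ?_, ?_⟩
    · obtain ⟨w, a, y, b, rfl⟩ := (mem_sup_of_le_normalizer (n.trans (centralizer_le_normalizer _))).1 j
      rw [mul_assoc, ← mul_assoc y, ← mem_centralizer_iff'.1 (n b) w a, mul_assoc, ← mul_assoc w, el w a, one_mul]
      obtain ⟨s, rfl⟩ := b
      rw [← Commute.mul_zpow rfl, e, one_zpow]
    obtain ⟨s, r⟩ := card_dvd_of_le (le_sup_left (a := WW σ m ⊓ 𝐂₁(α)) (b := zpowers α))
    have : s ≠ 1 := fun u => z (mem_inf.1 ((eq_of_le_of_card_ge le_sup_left (by rw [r, u, mul_one])).ge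
      (mem_sup_right (mem_zpowers α)))).1
    have : s ≠ 0 := fun u => Nat.card_pos.ne' (r.trans (by rw [u, mul_zero]))
    rw [r, mul_pow, mul_comm]
    exact Nat.mul_le_mul h1 (Nat.pow_le_pow_left (show 2 ≤ s by omega) 2)
  obtain ⟨u, a, u0, b⟩ := d.fix_out (T' := ⊥) i e (f (m / 2)) (by have := d.l3; rw [d.Vl_dim]; simp; omega)
  obtain ⟨x, -, c, s⟩ := d.fix_out (T := ⊤) (T' := pp θ (Submodule.span K {u})) i e (by simp) (by
    have := d.pp_dim (Submodule.span K {u}); rw [finrank_span_singleton u0] at this; simp; omega)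
  refine ⟨_, inf_le_inf_right _ d.W_le, el, h2 (E θ u 0 1) ⟨E_W a (zero_mem _) _, mem_c1.2 (conj_eq_iff.1 (by
    rw [tv_cj i, b, map_one])).symm⟩ fun w j k => c (mem_perp_singleton.2 ?_), fun z => absurd z d.ne⟩
  have j' := W_cj i (f _) j
  have k := congrArg (fun p : Perm _ => hf θ (p x + x) x) k
  have s' : α.symm x = x := (symm_apply_eq α).2 s.symm
  have h3 : (α * w * α⁻¹) (w x) = w x + x + α (w x) := by
    rw [show w x = w x + x + x by rw [add_assoc, vv, add_zero], j'.1.add, W_fix j' (t _ (W_add j x))]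
    simp [s', add_assoc, vv]
  have h4 : hf θ (α (w x) + x) x = hf θ (w x + x) x := by
    rw [W_sa t j, ← d.sy (w x + x), ← i.form, i.add, s]
  simp only [Perm.mul_apply _ w, h3, E_ap (ok_tv d.iv (t _ a _ a) (map_one θ)), add_assoc (w x + x), hf_add_l (w x + x), h4,
    CharTwo.add_self_eq_zero] at k
  simpa [sq_ap, add_right_comm x, vv, ← d.sy x u, eq_comm (a := (0 : K))] using k
end Dm

end CF.U5
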