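import Cfsg.Agent.U5.N1

/-! The commutator formula in the doubled group `Q v`, the action of `C(t)`. -/

set_option autoImplicit false
set_option linter.unusedSectionVars false
set_option linter.unusedVariables false

namespace CF.U5

open Subgroup Equiv CF.Geom Module CF.Loc CF.LX CF.Dbl Sx Tx
open scoped commutatorElement IsMulCommutative

variable {K : Type} [Field K] [Fintype K] [CharP K 2] {m q : ℕ} {σ θ : K ≃+* K} {a b a' b' r r' ζ ζ' ω k : K}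
  {g p ξ : Perm (Fin m → K)} {u v w x n u' v' n' : Fin m → K} {T T' S : Submodule K (Fin m → K)}
  {X : Type*} [Group X] [Finite X] {ρ : SU σ m →* X} {t h z z' s : X} {y : (Fin m → K) → X}

theorem cj_comm {G : Type*} [Group G] (g a b : G) : g * ⁅a, b⁆ * g⁻¹ = ⁅g * a * g⁻¹, g * b * g⁻¹⁆ := by group

namespace Dm
variable (d : Dm σ q m)
include d
theorem E_Qh (v n : Fin m → K) (ζ : K) : up ρ (E σ v n ζ) ∈ Qh ρ y v := M_Qh (mem_sup_left (up_im (E_Q _ _ _) (d.E_SU _ _ _)))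
section yd
variable (c : Yd ρ t y) (hv : hf σ v v = 0) (v0 : v ≠ 0)
include c hv v0
theorem qZ (i : z ∈ Qh ρ y v) (j : z' ∈ Qh ρ y v) : ⁅z, z'⁆ ∈ Zh ρ y v := (d.qab c hv v0).1 (commutator_mem_commutator i j)
theorem qc (i : z ∈ Qh ρ y v) (j : s ∈ Zh ρ y v) : Commute z s := (mem_centralizer_iff'.1 ((d.qab c hv v0).2 i) _ j).symm
theorem qcl (i : z ∈ Qh ρ y v) (j : z' ∈ Qh ρ y v) (l : s ∈ Qh ρ y v) : ⁅z * z', s⁆ = ⁅z, s⁆ * ⁅z', s⁆ := by
  rw [cml (d.qc c hv v0 i (d.qZ c hv v0 j l)), el_cm (d.Z_el c hv) (d.qZ c hv v0 j l) (d.qZ c hv v0 i l)]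
theorem qcr (i : z ∈ Qh ρ y v) (j : z' ∈ Qh ρ y v) (l : s ∈ Qh ρ y v) : ⁅s, z * z'⁆ = ⁅s, z⁆ * ⁅s, z'⁆ :=
  cmr (d.qc c hv v0 i (d.qZ c hv v0 l j))
theorem qsym (i : z ∈ Qh ρ y v) (j : z' ∈ Qh ρ y v) : ⁅z, z'⁆ = ⁅z', z⁆ := by
  rw [← commutatorElement_inv, inv_eq_of_mul_eq_one_left (d.Z_el c hv _ (d.qZ c hv v0 j i))]
theorem cEb (o : Ok σ v n ζ) (o' : Ok σ v n' ζ') (hu : hf σ u u = 0) (hw : hf σ w w = 0) (e : hf σ u v = 0) (e' : hf σ w v = 0)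
    (f : r * r = hf σ w n + hf σ n w) (f' : r' * r' = hf σ u n' + hf σ n' u) :
    ⁅up ρ (E σ v n ζ) * bb y v u, up ρ (E σ v n' ζ') * bb y v w⁆ =
      tv ρ v (hf σ n n' + hf σ n' n) * y (r • v) * (y (r' • v) * ⁅bb y v u, bb y v w⁆) := by
  have := fun n ζ => d.E_Qh (ρ := ρ) (y := y) v n ζ
  rw [d.qcl c hv v0 (this _ _) (b_Qh hu e) (mul_mem (this _ _) (b_Qh hw e')), d.qcr c hv v0 (this _ _) (b_Qh hw e') (this _ _),
    d.qcr c hv v0 (this _ _) (b_Qh hw e') (b_Qh hu e), d.qsym c hv v0 (b_Qh hu e) (this _ _), d.Eb c hv o hw e' f, d.Eb c hv o' hu e f',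
    ← up_comm (d.E_SU _ _ _) (d.E_SU _ _ _), E_comm o o']
omit c in
theorem fm3 (hu : hf σ u u = 0) (hw : hf σ w w = 0) (i : hf σ u v = 0) (j : hf σ w v = 0) (e : hf σ u w = 1) :
    ∃ x v', Fm σ v u x w v' := by
  have e' : hf σ w u = 1 := by rw [← d.sy, e, map_one]
  obtain ⟨v', a, b, f⟩ := d.part_iso (T := Submodule.span K {u, w}) (x := v) (fun k => by
    obtain ⟨s, r, rfl⟩ := Submodule.mem_span_pair.1 k
    obtain rfl : r = 0 := by simpa [hu, e] using i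
    obtain rfl : s = 0 := by simpa [e'] using j
    simp at v0) hv fun z k => by
      obtain ⟨s, r, rfl⟩ := Submodule.mem_span_pair.1 k; simp [d.sw i, d.sw j]
  have f1 := f _ (mem_l u w); have f2 := f _ (mem_r u w)
  have b' : hf σ v v' = 1 := by rw [← d.sy, b, map_one]
  have := d.sw i; have := d.sw j; have := d.sw f1; have := d.sw f2
  have G := d.fm0.h
  have li : ∀ {v u w v' : Fin m → K}, hf σ v v = 0 → hf σ v u = 0 → hf σ v w = 0 → hf σ v v' = 1 → hf σ u v = 0 → hf σ u u = 0 →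
      hf σ u w = 1 → hf σ u v' = 0 → hf σ w v = 0 → hf σ w u = 1 → hf σ w w = 0 → hf σ w v' = 0 → hf σ v' v = 1 → hf σ v' u = 0 →
      hf σ v' w = 0 → hf σ v' v' = 0 → LinearIndependent K ![v, u, w, v'] := by
    intro v u w v' _ _ _ _ _ _ _ _ _ _ _ _ _ _ _ _
    rw [Fintype.linearIndependent_iff]
    intro c h i
    have k := fun y => congrArg (hf σ · y) h
    simp only [Fin.sum_univ_four] at k
    fin_cases i
    exacts [by simpa [*] using k v', by simpa [*] using k w, by simpa [*] using k u, by simpa [*] using k v]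
  obtain ⟨g, l, k⟩ := d.witt0 (u := ![bv 0, bv 1, bv 3, bv 4]) (v := ![v, u, w, v']) (by apply li <;> simp [G]) (by apply li <;> assumption)
    fun i j => by fin_cases i <;> fin_cases j <;> simp [*]
  have := d.fm0.cj l
  rw [show g (bv 0) = v from k 0, show g (bv 1) = u from k 1, show g (bv 3) = w from k 2, show g (bv 4) = v' from k 3] at this
  exact ⟨_, _, this⟩
omit c in
theorem fm3' (hu : hf σ u u = 0) (hw : hf σ w w = 0) (i : hf σ u v = 0) (j : hf σ w v = 0) (e : hf σ u w ≠ 0) :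
    ∃ x w' v', Fm σ v u x w' v' ∧ w = σ (hf σ u w) • w' := by
  have e' : σ (hf σ u w) ≠ 0 := by simpa
  obtain ⟨x, v', f⟩ := d.fm3 hv v0 (w := (σ (hf σ u w))⁻¹ • w) hu (by simp [hw]) i (by simp [j]) (by simp [d.iv _, e])
  exact ⟨x, _, v', f, by rw [smul_smul, mul_inv_cancel₀ e', one_smul]⟩
theorem bcom (hu : hf σ u u = 0) (hw : hf σ w w = 0) (i : hf σ u v = 0) (j : hf σ w v = 0) (e : hf σ u w = 0) :
    ⁅bb y v u, bb y v w⁆ = 1 := by
  obtain ⟨T, l, r, r', r''⟩ := d.ti3 hv hu hw (d.sw i) (d.sw j) e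
  exact commutatorElement_eq_one_iff_mul_comm.2 (d.bcm' c.y0 c.ci l r r'' r r').eq
theorem yc0 : ∃ k, σ k = k ∧ ∀ u w (r : K), hf σ u u = 0 → hf σ w w = 0 → hf σ u v = 0 → hf σ w v = 0 →
    r * r = hf σ u w + hf σ w u → ⁅bb y v u, bb y v w⁆ = y (r • v) * tv ρ v (k * (r * r)) := by
  obtain ⟨u0, e0, w0, v', F⟩ := d.fm_one hv v0
  obtain ⟨f, hf'⟩ : ∃ f : K → X, ∀ s, f s = ⁅bb y v u0, bb y v (σ s • w0)⁆ := ⟨_, fun _ => rfl⟩
  have h3 : ∀ s s', f (s + s') = f s * f s' := fun s s' => by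
    rw [hf', hf', hf', map_add, add_smul, c.add _ _ _ hv (by simp [F.h]) (by simp [F.h]) (by simp [F.h]) (by simp [F.h]) (by simp [F.h]),
      d.qcr c hv v0 (b_Qh (by simp [F.h]) (by simp [F.h])) (b_Qh (by simp [F.h]) (by simp [F.h])) (b_Qh (by simp [F.h]) (by simp [F.h]))]
  have h5 : ∀ u w, hf σ u u = 0 → hf σ w w = 0 → hf σ u v = 0 → hf σ w v = 0 → ⁅bb y v u, bb y v w⁆ = f (hf σ u w) :=
    fun u w a b i j => by
    by_cases z : hf σ u w = 0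
    · rw [d.bcom c hv v0 a b i j z, z, hf', d.bcom c hv v0] <;> simp [F.h]
    obtain ⟨x, w', v'', F', e⟩ := d.fm3' hv v0 a b i j z
    obtain ⟨g, l, g0, g1, g2, -⟩ := d.ftr F F'
    have k := d.qZ c hv v0 (b_Qh (w := u0) (by simp [F.h]) (by simp [F.h])) (b_Qh (w := σ (hf σ u w) • w0) (by simp [F.h]) (by simp [F.h]))
    rw [hf', ← conj_eq_iff.2 (mem_centralizer_iff'.1 (d.Z_cY c hv (up_im (mem_Y.2 ⟨l, g0⟩) l)) _ k).symm, cj_comm,
      d.beqv c l hv (by simp [F.h]) (by simp [F.h]), d.beqv c l hv (by simp [F.h]) (by simp [F.h]), g0, g1, (su_sem l).smul1, g2, ← e]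
  have : ∀ s, ∃ a, σ a = a ∧ ∀ r, r * r = s + σ s → f s = y (r • v) * tv ρ v a := fun s => by
    obtain ⟨u, w, h3, h4, i, j, rfl⟩ := d.exists_hyp v s
    obtain ⟨a, b, ha, hb, e⟩ := (d.mem_Zh c hv).1 (d.qZ c hv v0 (b_Qh h3 i) (b_Qh h4 j))
    refine ⟨b, hb, fun r f => ?_⟩
    have h6 := cj_comm t⁻¹ (bb y v u) (bb y v w)
    rw [d.sy] at f
    have tb : ∀ x, hf σ x x = 0 → hf σ x v = 0 → t⁻¹ * bb y v x * t = up ρ (E σ v x 0) * bb y v x := fun x a b => by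
      rw [← d.tb c hv a b]; group
    rw [inv_inv, tb u h3 i, tb w h4 j, d.cEb c hv v0 (ok_iso d.iv hv h3 i) (ok_iso d.iv hv h4 j) h3 h4 i j (f.trans (add_comm _ _)) f,
      mul_assoc (tv ρ _ _), ← mul_assoc (y _), c.sq _ (by simp [hv]), one_mul, e, d.zt c hv ha hb, ← mul_assoc,
      el_cm (d.Z_el c hv) (tv_Zh _ _) (y_Zh _ _), mul_assoc, d.tvm hv (by simp [d.sy, add_comm]) hb] at h6
    rw [← h5 u w h3 h4 i j, e, sq_inj (f.trans (add_right_cancel (d.zinj c hv v0 ha (by simp [ha, hb]) ha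
      (by simp [d.sy, add_comm, hb]) h6).2).symm)]
  choose A a1 a2 using this
  have rt : ∀ s, ∃ r, σ r = r ∧ r * r = s + σ s := fun s => (exists_rt (s + σ s)).imp fun r e =>
    ⟨d.fix_rt (by rw [e, map_add, d.iv, add_comm]), e⟩
  have A1 : ∀ s s', A (s + s') = A s + A s' := fun s s' => by
    obtain ⟨r, i, e⟩ := rt s; obtain ⟨r', i', e'⟩ := rt s'
    have := h3 s s'
    rw [a2 s r e, a2 s' r' e', a2 _ (r + r') (by rw [map_add]; grind), d.zmul c hv i (a1 _) i' (a1 _)] at this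
    exact (d.zinj c hv v0 (by simp [*]) (a1 _) (by simp [*]) (by simp [a1]) this).2
  have A2 : ∀ s, σ s = s → A s = 0 := fun s i => by
    obtain ⟨s, rfl⟩ := d.trc i
    obtain ⟨r, i', e⟩ := rt s
    obtain ⟨u, w, h3, h4, j, j', rfl⟩ := d.exists_hyp v s
    have := d.qsym c hv v0 (b_Qh h3 j) (b_Qh h4 j')
    rw [h5 u w h3 h4 j j', h5 w u h4 h3 j' j, a2 _ r e, ← d.sy u w, a2 _ r (by rw [e, d.iv, add_comm])] at this
    rw [A1, (d.zinj c hv v0 i' (a1 _) i' (a1 _) this).2, CharTwo.add_self_eq_zero]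
  have A3 : ∀ a s, σ a = a → A (a * a * s) = a * a * A s := fun a s i => by
    by_cases a0 : a = 0
    · simpa [a0] using A2 0 (map_zero σ)
    obtain ⟨r, i', e⟩ := rt s
    obtain ⟨g, j, u, w, g1, g2, g3, h3, h4, l, l', rfl⟩ := d.torus hv v0 i a0 s
    have := cj_comm (up ρ g) (bb y v u) (bb y v w)
    rw [d.beqv c j hv h3 (d.sw l), d.beqv c j hv h4 (d.sw l'), g1, g2, g3, c.adj v u a hv h3 (d.sw l), c.adj v w a hv h4 (d.sw l'), i,
      h5 u w h3 h4 l l', h5 _ _ (by simp [h3]) (by simp [h4]) (by simp [l]) (by simp [l']), a2 _ r e, conj_mul_conj,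
      c.eqv g j _ (by simp [hv]), ← up_cj j (tv_SU _ _), tv_cj1 (su_sem j), (su_sem j).smul1, g1, smul_smul, ← tv, d.tvs hv (a1 _), i,
      hf_smul_l, hf_smul_r, i, ← mul_assoc, a2 _ (r * a) (by simp only [map_mul, i]; grind)] at this
    exact (d.zinj c hv v0 (by simp [*]) (by simp [i, a1]) (by simp [*]) (a1 _) this).2.symm
  obtain ⟨ω, o⟩ := d.om
  refine ⟨A ω, a1 _, fun u w r a b i j e => ?_⟩
  rw [← d.sy u w] at e
  have hr := d.fix_rt (c := r) (by rw [e, map_add, d.iv, add_comm])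
  rw [h5 u w a b i j, a2 _ r e, mul_comm (A ω), ← A3 r ω hr, show hf σ u w = hf σ u w + r * r * ω + r * r * ω by grind, A1,
    A2 _ (by simp only [map_add, map_mul, hr]; grind), zero_add]
end yd
theorem yc (c : Yd ρ t y) : ∃ k, Yc ρ t y k := by
  obtain ⟨k, hk, f⟩ := d.yc0 c d.b00 d.b0
  refine ⟨k, c, hk, fun v u w r hv hu hw e e' h => ?_⟩
  by_cases z : v = 0
  · simp [z, bb, c.zero, c.sq u hu, tv, E_zero_v]
  obtain ⟨g, i, rfl⟩ := d.witt1 d.b00 d.b0 hv z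
  obtain ⟨u, rfl⟩ := g.surjective u
  obtain ⟨w, rfl⟩ := g.surjective w
  simp only [(su_sem i).form1] at hu hw e e' h
  rw [← d.beqv c i d.b00 hu (d.sw e), ← d.beqv c i d.b00 hw (d.sw e'), ← cj_comm, f u w r hu hw e e' h, conj_mul_conj,
    c.eqv g i _ (by simp [d.b00]), (su_sem i).smul1, ← up_cj i (tv_SU _ _), tv_cj1 (su_sem i)]
theorem act (c : Yc ρ t y k) {z : X} (i : z ∈ 𝐂₁(t)) (l : Sem σ θ ξ) (e : Ind ρ z ξ) :
    ∃ μ, σ μ = μ ∧ μ * μ + μ + k + θ k = 0 ∧ Ac ρ y z ξ μ := by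
  have c' := c.toYd
  have iso : ∀ v, hf σ v v = 0 → hf σ (ξ v) (ξ v) = 0 := fun v h => by rw [l.form, h, map_zero]
  obtain ⟨μ, hμ, s, hs, f⟩ : ∃ μ, σ μ = μ ∧ ∃ s, (s = 1 ∨ s = t) ∧ ∀ v, hf σ v v = 0 → v ≠ 0 →
      z * y v * z⁻¹ = y (ξ v) * (s * tv ρ (ξ v) μ) := by
    have hv := iso _ d.b00
    have l' := d.ti_one hv
    have A := d.ab c.toCS l' (by simpa using l.ne d.b0)
    have h1 : Lm (im ρ (RT σ (Submodule.span K {ξ (bv 0)}))) (im ρ (WX σ (Submodule.span K {ξ (bv 0)}))) t (z * y (bv 0) * z⁻¹)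
        (tv ρ (ξ (bv 0)) 1) := ⟨fun x j => by
      obtain ⟨g, j', j1, rfl⟩ := mem_im.1 j
      have := d.RT_Y l' (Submodule.mem_span_singleton_self _) j'
      have k : ξ⁻¹ * g * ξ⁻¹⁻¹ ∈ Y σ (bv 0) := mem_Y.2 ⟨l.inv.su j1, by simp [(mem_Y.1 this).2]⟩
      rw [show g = ξ * (ξ⁻¹ * g * ξ⁻¹⁻¹) * ξ⁻¹ by group, ← e _ k.1, ← conj_mul_conj, ← conj_mul_conj,
        mem_centralizer_iff'.1 (c'.y0.cY d.b00) _ (up_im k k.1)], (d.lm c'.y0 l' (Submodule.mem_span_singleton_self _)).i, by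
      rw [← conj_eq_iff.2 (mem_c1.1 i), conj_inv, ← conj_mul_conj, ← conj_mul_conj, c.tw _ d.b00, conj_mul_conj, e _ (tv_SU _ _),
        tv_cj l, map_one]⟩
    have h2 := A.mul (A.inv (d.lm c'.y0 l' (Submodule.mem_span_singleton_self _))) h1
    rw [s_tvsq] at h2
    obtain ⟨s, hs, j⟩ : ∃ s, (s = 1 ∨ s = t) ∧ s * ((y (ξ (bv 0)))⁻¹ * (z * y (bv 0) * z⁻¹)) ∈ im ρ (WX σ (Submodule.span K {ξ (bv 0)})) :=
      (A.one' h2).elim (fun j => ⟨1, .inl rfl, by rwa [one_mul]⟩) fun j => ⟨t, .inr rfl, j⟩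
    obtain ⟨w, j', j1, f⟩ := mem_im.1 j
    obtain ⟨μ, hμ, rfl⟩ := (mem_Z d.iv hv).1 (d.W_line hv ▸ j')
    have s2 : s * s = 1 := by obtain rfl | rfl := hs; exacts [mul_one _, c.t2]
    refine ⟨μ, hμ, s, hs, fun v a b => ?_⟩
    obtain ⟨g, k, rfl⟩ := d.witt1 d.b00 d.b0 a b
    have sc : up ρ (ξ * g * ξ⁻¹) * s * (up ρ (ξ * g * ξ⁻¹))⁻¹ = s := by
      obtain rfl | rfl := hs; exacts [by simp, by rw [tv_cm c.cm, mul_inv_cancel_right]]
    rw [← c.eqv g k _ d.b00, conj_mul_conj, conj_mul_conj z, ← conj_inv, e g k, ← mul_inv_cancel_left (y (ξ (bv 0))) (z * _ * _),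
      ← one_mul ((y (ξ (bv 0)))⁻¹ * _), ← s2, mul_assoc s, ← f, conj_mul_conj, conj_mul_conj, c.eqv _ (l.su k) _ hv, sc,
      ← up_cj (l.su k) (tv_SU _ _), tv_cj1 (su_sem (l.su k))]
    simp
  obtain rfl : s = 1 := hs.resolve_right (by
    rintro rfl
    obtain ⟨u, v, h⟩ := d.ex_ip
    have h' : Ip σ (ξ u) (ξ v) := ⟨iso _ h.1, iso _ h.2, by rw [l.form, h.3, map_zero], by rw [l.form, h.4, map_zero],
      LinearIndependent.pair_iff.2 fun a b f => by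
        simpa using LinearIndependent.pair_iff.1 h.li (θ.symm a) (θ.symm b) (ξ.injective (by simpa [l.add, l.smul, l.zero] using f))⟩
    have A := d.ab2 c.toCS h'
    have mu := d.lm c'.y0 h'.ti (mem_l _ _)
    have mv := d.lm c'.y0 h'.ti (mem_r _ _)
    have wu := A.ofW (up_im (φ := ρ) (E_W (mem_l (ξ u) (ξ v)) (zero_mem _) μ) (tv_SU _ _))
    have wv := A.ofW (up_im (φ := ρ) (E_W (mem_r (ξ u) (ξ v)) (zero_mem _) μ) (tv_SU _ _))
    have z1 : ∀ {g k w}, Lm _ _ s g w → k ∈ im ρ (WX σ (Submodule.span K {ξ u, ξ v})) → ⁅g, k⁆ = 1 := fun i j =>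
      commutatorElement_eq_one_iff_mul_comm.2 (A.cw i j)
    have h1 := cj_comm z (y u) (y v)
    rw [commutatorElement_eq_one_iff_mul_comm.2 (c'.ci u v h), f u h.1 h.u0, f v h.2 h.symm.u0, ← mul_assoc (y _), ← mul_assoc (y _),
      A.cr (A.mul mv A.lt) wv (A.mul (A.mul mu A.lt) wu), z1 (A.mul (A.mul mu A.lt) wu) (up_im (E_W (mem_r _ _) (zero_mem _) μ) (tv_SU _ _)),
      A.cl (A.mul mu A.lt) wu (A.mul mv A.lt), ← commutatorElement_inv _ (tv ρ _ μ),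
      z1 (A.mul mv A.lt) (up_im (E_W (mem_l _ _) (zero_mem _) μ) (tv_SU _ _)), A.cl mu A.lt (A.mul mv A.lt), A.cr mv A.lt mu,
      A.cr mv A.lt A.lt, commutatorElement_eq_one_iff_mul_comm.2 (c'.ci _ _ h'), A.ct' mv, ← commutatorElement_inv, A.ct' mu,
      inv_eq_of_mul_eq_one_left (s_tvsq ρ (ξ u) 1)] at h1
    have := d.E3_inj (a := 0) (b := 0) (c := 0) (a' := 1) (b' := 1) (c' := 0) h' c.ker (map_zero σ) (map_zero σ) (map_one σ) (map_one σ) (by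
      simpa [E3, up_mul (tv_SU _ _) (tv_SU _ _)] using h1)
    exact zero_ne_one this.1)
  have ac : Ac ρ y z ξ μ := fun v hv => by
    by_cases v0 : v = 0
    · simp [v0, l.zero, c.zero, tv, E_zero_v]
    · rw [f v hv v0, one_mul]
  refine ⟨μ, hμ, ?_, ac⟩
  obtain ⟨ω, o⟩ := d.om
  obtain ⟨u, w, h3, h4, j, j', h5⟩ := d.exists_hyp (bv 0) ω
  have hv := iso _ d.b00
  have v0 := l.ne d.b0
  have p : ∀ x, hf σ x (bv 0) = 0 → hf σ (ξ x) (ξ (bv 0)) = 0 := fun x h => by rw [l.form, h, map_zero]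
  have bz : ∀ x, hf σ x x = 0 → hf σ x (bv 0) = 0 → z * bb y (bv 0) x * z⁻¹ = up ρ (E σ (ξ (bv 0)) (μ • ξ x) 0) * bb y (ξ (bv 0)) (ξ x) :=
    fun x a b => by
      obtain ⟨T, r, i1, i2, -⟩ := d.ti3 hv (iso _ a) (iso _ a) (d.sw (p x b)) (d.sw (p x b)) (iso _ a)
      have k := fun v (i : v ∈ T) w (j : w ∈ T) => d.yE c' (r _ j _ j) (r _ j _ i) (hf_zero_r w) μ
      rw [bb, conj_mul_conj, conj_mul_conj, ac _ d.b00, ac _ a, ac _ (by simp [d.b00, a, b, d.sw b]), l.add,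
        ← tv_pol d.iv hv (iso _ a) (d.sw (p x b)) hμ, up_mul (mul_mem (tv_SU _ _) (tv_SU _ _)) (tv_SU _ _), up_mul (tv_SU _ _) (tv_SU _ _), bb]
      simp only [mul_assoc, tv, ← (k _ (add_mem i1 i2) _ (add_mem i1 i2)).left_comm, ← (k _ i1 _ i1).left_comm, ← (k _ i2 _ i2).eq,
        ← (k _ i1 _ (add_mem i1 i2)).left_comm, ← (k _ i2 _ (add_mem i1 i2)).left_comm, ← (k _ i2 _ i1).left_comm]
  have t1 : hf σ u w + hf σ w u = 1 := by rw [← d.sy u w, h5, o]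
  have t2 : hf σ (ξ u) (ξ w) + hf σ (ξ w) (ξ u) = 1 := by rw [l.form, l.form, ← map_add, t1, map_one]
  obtain ⟨r, hr⟩ := exists_rt μ
  have h6 := cj_comm z (bb y (bv 0) u) (bb y (bv 0) w)
  rw [bz u h3 j, bz w h4 j', d.cEb c' hv v0 (r := r) (r' := r) (ok_iso d.iv hv (by simp [iso _ h3]) (by simp [p u j]))
    (ok_iso d.iv hv (by simp [iso _ h4]) (by simp [p w j'])) (iso _ h3) (iso _ h4) (p u j) (p w j') (by simp [hμ]; grind) (by simp [hμ]; grind),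
    c.cf _ u w 1 d.b00 h3 h4 j j' (by simp [t1]), c.cf _ _ _ 1 hv (iso _ h3) (iso _ h4) (p u j) (p w j') (by simp [t2]), mul_assoc (tv ρ _ _),
    ← mul_assoc (y (r • _)), c.sq (r • _) (by simp [hv]), one_mul (y _ * _), conj_mul_conj, ac _ (by simp [d.b00]), e _ (tv_SU _ _), tv_cj l, ← tv,
    ← mul_assoc (tv ρ _ _), el_cm (d.Z_el c' hv) (tv_Zh _ _) (y_Zh _ _), one_smul, one_smul, mul_assoc, mul_assoc, mul_right_inj,
    d.tvm hv hμ (by simp [← l.com, c.hk]), d.tvm hv (by simp [d.sy, hμ, add_comm]) (by simp [c.hk])] at h6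
  have := d.tvi c' hv v0 (by simp [← l.com, c.hk, hμ]) (by simp [d.sy, hμ, add_comm, c.hk]) h6
  simp only [hf_smul_l, hf_smul_r, hμ, mul_one] at this
  grind
end Dm

end CF.U5
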