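import Cfsg.Agent.U5.P1

/-! Doubled transvections: construction. -/

set_option autoImplicit false
set_option linter.unusedSectionVars false
set_option linter.unusedVariables false

namespace CF.U5

open Subgroup Equiv CF.Geom Module CF.Loc CF.LX CF.Dbl Sx Tx
open scoped commutatorElement IsMulCommutative

variable {K : Type} [Field K] [Fintype K] [CharP K 2] {m q : ℕ} {σ θ : K ≃+* K} {a b a' b' ζ ω : K}
  {g p k ξ w w' : Perm (Fin m → K)} {u v x n u' v' : Fin m → K} {T T' S : Submodule K (Fin m → K)}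
  {X : Type*} [Group X] [Finite X] {ρ : SU σ m →* X} {t h : X} {y : (Fin m → K) → X}

/-- first step -/
structure Y0 (ρ : SU σ m →* X) (t : X) (y : (Fin m → K) → X) : Prop extends CS ρ t where
  zero : y 0 = 1
  eqv : ∀ g ∈ SU σ m, ∀ v, hf σ v v = 0 → up ρ g * y v * (up ρ g)⁻¹ = y (g v)
  tw : ∀ v, hf σ v v = 0 → y v * t * (y v)⁻¹ = t * tv ρ v 1

theorem tv_seven (s : Iv σ) (l : Ti σ T) (hu : u ∈ T) (hv : v ∈ T) (hx : x ∈ T) (e : σ a = a) :
    E σ (u + v + x) 0 a * E σ (u + v) 0 a * E σ (u + x) 0 a * E σ (v + x) 0 a * E σ u 0 a * E σ v 0 a * E σ x 0 a = 1 :=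
  Equiv.ext fun z => by
  have o := fun y (i : y ∈ T) => E_ap (ok_tv s (l _ i _ i) e)
  simp only [Perm.mul_apply, o _ hu, o _ hv, o _ hx, o _ (add_mem hu hv), o _ (add_mem hu hx), o _ (add_mem hv hx),
    o _ (add_mem (add_mem hu hv) hx), hf_add_l, hf_add_r, hf_smul_l, l _ hu _ hu, l _ hu _ hv, l _ hu _ hx, l _ hv _ hu, l _ hv _ hv,
    l _ hv _ hx, l _ hx _ hu, l _ hx _ hv, l _ hx _ hx]
  ext i; simp; grind
theorem tv_cm (c : t ∈ 𝐂(ρ.range)) (g : Perm (Fin m → K)) : up ρ g * t = t * up ρ g := mem_centralizer_iff'.1 c _ (up_range g)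
theorem Y0.cY (c : Y0 ρ t y) (hv : hf σ v v = 0) : y v ∈ 𝐂(im ρ (Y σ v)) := fun x i => by
  obtain ⟨g, j, k, rfl⟩ := mem_im.1 i
  exact conj_eq_iff.1 ((c.eqv g k v hv).trans (congrArg y j.2))
open _root_.Classical in
theorem Y0.flip (c : Y0 ρ t y) : Y0 ρ t fun v => if v = 0 then 1 else y v * t := ⟨c.toCS, if_pos rfl, fun g i v hv => by
  by_cases z : v = 0
  · simp [z, (su_sem i).zero]
  · rw [if_neg z, if_neg ((su_sem i).ne z), conj_mul_conj, c.eqv g i v hv, tv_cm c.cm, mul_inv_cancel_right], fun v hv => by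
  by_cases z : v = 0
  · simp [z, tv, E_zero_v]
  · rw [if_neg z, ← c.tw v hv]; group⟩

namespace Dm
variable (d : Dm σ q m)
include d
theorem y0 (c : CS ρ t) : ∃ y, Y0 ρ t y := by
  classical
  obtain ⟨x, i, e⟩ := c.ex
  choose! γ h1 h2 using fun v (h : hf σ v v = 0 ∧ v ≠ 0) => d.witt1 d.b00 d.b0 h.1 h.2
  refine ⟨fun v => if v = 0 then 1 else up ρ (γ v) * x * (up ρ (γ v))⁻¹, c, if_pos rfl, fun g j v hv => ?_, fun v hv => ?_⟩ <;>
    by_cases z : v = 0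
  · simp [z, (su_sem j).zero]
  · have k : hf σ (g v) (g v) = 0 ∧ g v ≠ 0 := ⟨((su_sem j).form1 ..).trans hv, (su_sem j).ne z⟩
    have s := mul_mem (inv_mem (h1 _ k)) (mul_mem j (h1 v ⟨hv, z⟩))
    have := mem_centralizer_iff'.1 i _ (up_im ⟨s, show (γ (g v))⁻¹ (g (γ v (bv 0))) = bv 0 by
      rw [h2 v ⟨hv, z⟩, Perm.inv_eq_iff_eq, h2 _ k]⟩ s)
    rw [up_mul (inv_mem (h1 _ k)) (mul_mem j (h1 v ⟨hv, z⟩)), up_inv (h1 _ k), up_mul j (h1 v ⟨hv, z⟩), ← conj_eq_iff] at this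
    rw [if_neg z, if_neg k.2]; nth_rw 2 [← this]; group
  · simp [z, tv, E_zero_v]
  · rw [if_neg z, show ∀ a : X, a * x * a⁻¹ * t * (a * x * a⁻¹)⁻¹ = a * (x * (a⁻¹ * t * a) * x⁻¹) * a⁻¹ from fun a => by group,
      mul_assoc _ t, ← tv_cm c.cm, inv_mul_cancel_left, e, conj_mul_conj, tv_cm c.cm, mul_inv_cancel_right,
      ← up_cj (h1 v ⟨hv, z⟩) (tv_SU _ _), tv_cj1 (su_sem (h1 v ⟨hv, z⟩)), h2 v ⟨hv, z⟩]
theorem lm (c : Y0 ρ t y) (l : Ti σ T) (i : v ∈ T) : Lm (im ρ (RT σ T)) (im ρ (WX σ T)) t (y v) (tv ρ v 1) :=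
  ⟨centralizer_anti (im_mono (d.RT_Y l i)) (c.cY (l _ i _ i)), up_im (E_W i (zero_mem _) _) (tv_SU _ _), c.tw v (l _ i _ i)⟩
theorem nrm0 (c : Y0 ρ t y) (hv : hf σ v v = 0) (e : a * σ a = 1) : y (a • v) = y v := by
  by_cases z : v = 0
  · simp [z]
  have a0 : a ≠ 0 := left_ne_zero_of_mul_eq_one e
  have l := d.ti_one hv
  have A := d.ab c.toCS l (by simpa)
  have i := Submodule.mem_span_singleton_self (R := K) v
  obtain ⟨g, j, k⟩ := d.witt1 hv z (v := a • v) (by simp [hv]) (smul_ne_zero a0 z)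
  have h1 := A.mul (A.inv (d.lm c l i)) (d.lm c l (Submodule.smul_mem _ a i))
  rw [tv, tv, tv_smul d.iv hv (map_one σ), e, one_mul, ← up_mul (tv_SU _ _) (tv_SU _ _), tv_sq, up_one] at h1
  have cg : ∀ x ∈ im ρ (WX σ (Submodule.span K {v})), up ρ g * x = x * up ρ g := fun x i => by
    obtain ⟨w, i', j', rfl⟩ := mem_im.1 i
    obtain ⟨b, r, rfl⟩ := (mem_Z d.iv hv).1 (d.W_line hv ▸ i')
    rw [← conj_eq_iff, ← up_cj j j', tv_cj1 (su_sem j), k, tv_smul d.iv hv r, e, one_mul]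
  obtain ⟨s, hs⟩ : ∃ s, y (a • v) = y v * s := ⟨_, (mul_inv_cancel_left _ _).symm⟩
  rw [hs, inv_mul_cancel_left] at h1
  have h2 : up ρ g * s = s * up ρ g ∧ s * s = 1 := by
    obtain f | f := A.one' h1
    · exact ⟨cg _ f, A.el _ f⟩
    have := cg _ f
    rw [← mul_assoc, tv_cm c.cm, mul_assoc, mul_assoc, mul_right_inj] at this
    refine ⟨this, ?_⟩
    have := A.el _ f
    rwa [mul_assoc, ← mul_assoc s, conj_eq_iff.1 (h1.e.trans (mul_one t)), ← mul_assoc, ← mul_assoc, A.t2, one_mul] at this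
  have h3 : ∀ n : ℕ, y (a ^ n • v) = y v * s ^ n := fun n => by
    induction n with
    | zero => simp
    | succ n ih =>
      have := c.eqv g j (a ^ n • v) (by simp [hv])
      rw [(su_sem j).smul1, k, smul_smul, ← pow_succ, ih, conj_mul_conj, c.eqv g j v hv, k, hs,
        ((show Commute _ _ from h2.1).pow_right n).eq, mul_inv_cancel_right] at this
      rw [← this, pow_succ', mul_assoc]
  have := h3 (q + 1)
  rw [(d.odd e).2, one_smul, left_eq_mul] at this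
  rw [hs, (e2_inv h2.2).odd d.oddq this, mul_one]
theorem kap (c : Y0 ρ t y) : ∃ κ, σ κ = κ ∧ ∀ v, hf σ v v = 0 → y v * y v = tv ρ v κ := by
  have l := d.ti_one d.b00
  obtain ⟨w, i, j, e⟩ := mem_im.1 ((d.ab c.toCS l (by simpa using d.b0)).sq (d.lm c l (Submodule.mem_span_singleton_self _)))
  obtain ⟨b, r, rfl⟩ := (mem_Z d.iv d.b00).1 (d.W_line d.b00 ▸ i)
  refine ⟨b, r, fun v hv => ?_⟩
  by_cases z : v = 0
  · simp [z, c.zero, tv, E_zero_v]
  obtain ⟨g, k, rfl⟩ := d.witt1 d.b00 d.b0 hv z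
  rw [← c.eqv g k _ d.b00, ← conj_mul_conj, ← e, ← up_cj k j, tv_cj1 (su_sem k)]
theorem ab2 (c : CS ρ t) (h : Ip σ u v) : Ab (im ρ (RT σ (Submodule.span K {u, v}))) (im ρ (WX σ (Submodule.span K {u, v}))) t :=
  d.ab c h.ti fun z => h.u0 (by simpa [z] using mem_l u v)
theorem alp (c : Y0 ρ t y) : ∃ α, σ α = α ∧ ∀ u v, Ip σ u v → ⁅y u, y v⁆ = tv ρ u α * tv ρ v α := by
  obtain ⟨α, β, γ, ha, hb, f⟩ := d.wconst (ρ := ρ) (fun u v => ⁅y u, y v⁆) (fun g i u v h => by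
    rw [← c.eqv g i u h.1, ← c.eqv g i v h.2]; group) fun u v h =>
    (d.ab2 c.toCS h).comm (d.lm c h.ti (mem_l u v)) (d.lm c h.ti (mem_r u v))
  obtain ⟨u, v, h⟩ := d.ex_ip
  obtain ⟨s, s1, s2⟩ := d.one
  have s0 : s ≠ 0 := left_ne_zero_of_mul_eq_one s1
  have h1 := f (s • u) ((1 : K) • v) (by simpa using h.comb (a := s) (b := 0) (a' := 0) (b' := 1) (by simpa))
  rw [d.E3_smul h ha hb s0 one_ne_zero, one_smul, d.nrm0 c h.1 s1, f u v h] at h1
  obtain rfl : γ = 0 := by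
    have := (d.E3_inj h c.ker ha hb (by simp [s1, ha]) (by simpa) h1).2.2
    have : σ s ≠ 1 := fun e => s2 (by simpa [e] using s1)
    grind
  have h2 := f v u h.symm
  rw [← commutatorElement_inv, f u v h, d.E3_swap h ha hb, inv_eq_of_mul_eq_one_left ((d.ab2 c.toCS h).el _
    (up_im (E3_W (mem_l u v) (mem_r u v) ..) (d.W_SU h.ti (E3_W (mem_l u v) (mem_r u v) ..))))] at h2
  obtain rfl := (d.E3_inj h c.ker ha hb hb ha h2).1
  exact ⟨α, ha, fun u v h => by rw [f u v h, ← up_mul (tv_SU _ _) (tv_SU _ _)]; simp [E3]⟩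
theorem g5 (c : Y0 ρ t y) (l : Ti σ T) (T0 : T ≠ ⊥) (hu : u ∈ T) (hv : v ∈ T) (o : ω + σ ω = 1) :
    Lm (im ρ (RT σ T)) (im ρ (WX σ T)) t (y v * y (u + v) * y (ω • u + v) * y (σ ω • u + v) * y u) 1 := by
  have A := d.ab c.toCS l T0
  have := A.mul (A.mul (A.mul (A.mul (d.lm c l hv) (d.lm c l (add_mem hu hv))) (d.lm c l (add_mem (T.smul_mem ω hu) hv)))
    (d.lm c l (add_mem (T.smul_mem (σ ω) hu) hv))) (d.lm c l hu)
  rwa [tv, tv, tv, tv, ← up_mul (tv_SU _ _) (tv_SU _ _), ← up_mul (mul_mem (tv_SU _ _) (tv_SU _ _)) (tv_SU _ _),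
    ← up_mul (mul_mem (mul_mem (tv_SU _ _) (tv_SU _ _)) (tv_SU _ _)) (tv_SU _ _), tv_five d.iv (l _ hu _ hu) (l _ hv _ hv) (l _ hu _ hv)
    (map_one σ) o, ← up_mul (tv_SU _ _) (tv_SU _ _), tv_sq, up_one] at this
section com
variable (c : Y0 ρ t y) (ci : ∀ u v, Ip σ u v → y u * y v = y v * y u)
include c ci
theorem comY (hu : hf σ u u = 0) (hv : hf σ v v = 0) (e : hf σ u v = 0) : y u * y v = y v * y u := by
  by_cases u0 : u = 0
  · simp [u0, c.zero]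
  by_cases k : v ∈ Submodule.span K {u}
  swap; · exact ci _ _ ⟨hu, hv, e, d.sw e, li_two u0 k⟩
  obtain ⟨s, rfl⟩ := Submodule.mem_span_singleton.1 k
  by_cases s0 : s = 0
  · simp [s0, c.zero]
  obtain ⟨x, r, -, h1, h2, -⟩ := d.out' u0 u0
  have h : Ip σ u x := ⟨hu, h1, d.sw h2, h2, r⟩
  obtain ⟨ω, o⟩ := d.om
  have A := d.ab2 c.toCS h
  have h1 := d.g5 c h.ti (fun z => u0 (by simpa [z] using mem_l u x)) (mem_l u x) (mem_r u x) o
  have w0 : ω ≠ 0 := by rintro rfl; simp at o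
  have c1 : ∀ a : K, a ≠ 0 → Commute (y x) (y (a • u + x)) := fun a n => show _ = _ by
    simpa using ci _ _ (h.comb (a := 0) (b := 1) (a' := a) (b' := 1) (by simpa using n.symm))
  have c2 : ∀ a : K, Commute (y (s • u)) (y (a • u + x)) := fun a => show _ = _ by
    simpa using ci _ _ (h.comb (a := s) (b := 0) (a' := a) (b' := 1) (by simpa))
  have h2 := A.cw (d.lm c h.ti (Submodule.smul_mem _ s (mem_l u x))) (A.mem h1 (d.lm c h.ti (mem_r u x))
    (d.s_tv1 c.ker h.2 h.symm.u0 (map_one σ) one_ne_zero) ((((((Commute.refl _).mul_right (by simpa using c1 1 one_ne_zero)).mul_right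
      (c1 _ w0)).mul_right (c1 _ (by simpa))).mul_right (ci _ _ h.symm)).eq))
  rw [← mul_assoc, (((Commute.mul_right (by simpa using c2 0) (by simpa using c2 1)).mul_right (c2 _)).mul_right (c2 _)).eq,
    mul_assoc, mul_assoc _ (y u), mul_right_inj] at h2
  exact h2.symm
theorem lmb (l : Ti σ T) (T0 : T ≠ ⊥) (hu : u ∈ T) (hv : v ∈ T) : Lm (im ρ (RT σ T)) (im ρ (WX σ T)) t (bb y u v) (up ρ (E σ u v 0)) := by
  have A := d.ab c.toCS l T0
  have := A.mul (A.mul (d.lm c l (add_mem hu hv)) (d.lm c l hu)) (d.lm c l hv)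
  rwa [← up_mul (tv_SU _ _) (tv_SU _ _), ← up_mul (mul_mem (tv_SU _ _) (tv_SU _ _)) (tv_SU _ _),
    tv_pol d.iv (l _ hu _ hu) (l _ hv _ hv) (l _ hu _ hv) (map_one σ), one_smul] at this
theorem bcm (l : Ti σ T) (hu : u ∈ T) (hv : v ∈ T) (hx : x ∈ T) : Commute (y x) (bb y u v) :=
  have k : ∀ z ∈ T, Commute (y x) (y z) := fun z i => d.comY c ci (l _ hx _ hx) (l _ i _ i) (l _ hx _ i)
  ((k _ (add_mem hu hv)).mul_right (k _ hu)).mul_right (k _ hv)
theorem bcm' (l : Ti σ T) (hu : u ∈ T) (hv : v ∈ T) (hu' : u' ∈ T) (hv' : v' ∈ T) : Commute (bb y u' v') (bb y u v) :=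
  ((d.bcm c ci l hu hv (add_mem hu' hv')).mul_left (d.bcm c ci l hu hv hu')).mul_left (d.bcm c ci l hu hv hv')
end com
end Dm

end CF.U5
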