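import Cfsg.Agent.U5.P3c

/-! Doubled transvections: the relations. -/

set_option autoImplicit false
set_option linter.unusedSectionVars false
set_option linter.unusedVariables false

namespace CF.U5

open Subgroup Equiv CF.Geom Module CF.Loc CF.LX CF.Dbl Sx Tx
open scoped commutatorElement IsMulCommutative

variable {K : Type} [Field K] [Fintype K] [CharP K 2] {m q : ℕ} {σ θ : K ≃+* K} {a b a' b' ζ ω : K}
  {g p k ξ w w' : Perm (Fin m → K)} {u v x n u' v' : Fin m → K} {T T' S : Submodule K (Fin m → K)}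
  {X : Type*} [Group X] [Finite X] {ρ : SU σ m →* X} {t h : X} {y : (Fin m → K) → X}

namespace Dm
variable (d : Dm σ q m)
include d
theorem y1 (c : CS ρ t) : ∃ y, Y0 ρ t y ∧ ∀ u v, Ip σ u v → y u * y v = y v * y u := by
  classical
  obtain ⟨y, c⟩ := d.y0 c
  obtain ⟨α, ha, f⟩ := d.alp c
  obtain ⟨u, v, h⟩ := d.ex_ip
  obtain ⟨ω, o⟩ := d.om
  have l := h.ti
  have mu := mem_l u v
  have mv := mem_r u v
  have A := d.ab2 c.toCS h
  have ip : ∀ a : K, ⁅y (a • u + v), y u⁆ = tv ρ (a • u + v) α * tv ρ u α := fun a =>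
    f _ _ (by simpa using h.comb (a := a) (b := 1) (a' := 1) (b' := 0) (by simp))
  have m := fun a : K => d.lm c l (add_mem (Submodule.smul_mem _ a mu) mv)
  have m1 := d.lm c l (add_mem mu mv)
  have h1 := d.g5 c l (fun z => h.u0 (by simpa [z] using mu)) mu mv o
  have n := d.lm c l mu
  have h2 : ⁅y v * y (u + v) * y (ω • u + v) * y (σ ω • u + v) * y u, y u⁆ = tv ρ u α := by
    have k := fun x (i : x ∈ Submodule.span K {u, v}) => up_im (φ := ρ) (E_W i (zero_mem _) α) (tv_SU _ _)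
    rw [A.cl (A.mul (A.mul (A.mul (d.lm c l mv) m1) (m _)) (m _)) n n, A.cl (A.mul (A.mul (d.lm c l mv) m1) (m _))
      (m _) n, A.cl (A.mul (d.lm c l mv) m1) (m _) n, A.cl (d.lm c l mv) m1 n]
    have a1 := ip 0; have a2 := ip 1
    simp only [one_smul, zero_smul, zero_add] at a1 a2
    rw [a1, a2, ip, ip, commutatorElement_self, ← A.el _ (k _ mu)]
    refine five_c ?_ (A.el _ (k _ mu)) (el_cm A.el (k _ mu) (k _ (add_mem mu mv)))
      (el_cm A.el (k _ mu) (k _ (add_mem (Submodule.smul_mem _ _ mu) mv))) (el_cm A.el (k _ mu) (k _ (add_mem (Submodule.smul_mem _ _ mu) mv))) rfl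
    rw [tv, tv, tv, tv, ← up_mul (tv_SU _ _) (tv_SU _ _), ← up_mul (mul_mem (tv_SU _ _) (tv_SU _ _)) (tv_SU _ _),
      ← up_mul (mul_mem (mul_mem (tv_SU _ _) (tv_SU _ _)) (tv_SU _ _)) (tv_SU _ _), tv_five d.iv h.1 h.2 h.3 ha o,
      ← up_mul (tv_SU _ _) (tv_SU _ _), tv_sq, up_one]
  have z : ∀ x ∈ im ρ (WX σ (Submodule.span K {u, v})), ⁅x, y u⁆ = 1 := fun x i =>
    commutatorElement_eq_one_iff_mul_comm.2 (A.cw n i).symm
  obtain k | k := A.one' h1
  · obtain rfl : α = 0 := by_contra fun n => d.s_tv1 c.ker h.1 h.u0 ha n (h2.symm.trans (z _ k))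
    exact ⟨y, c, fun u v h => commutatorElement_eq_one_iff_mul_comm.1 (by simpa [tv] using f u v h)⟩
  obtain rfl : α = 1 := by
    have := z _ k
    rw [A.cl A.lt h1 n, h2, A.ct' n, ← up_mul (tv_SU _ _) (tv_SU _ _), tv_mul d.iv h.1 (map_one σ) ha] at this
    exact (CharTwo.add_eq_zero.1 (by_contra fun n => d.s_tv1 c.ker h.1 h.u0 (by simp [ha]) n this)).symm
  refine ⟨_, c.flip, fun u v h => commutatorElement_eq_one_iff_mul_comm.1 ?_⟩
  have A := d.ab2 c.toCS h
  have mu := d.lm c h.ti (mem_l u v)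
  have mv := d.lm c h.ti (mem_r u v)
  rw [if_neg h.u0, if_neg h.symm.u0, A.cl mu A.lt (A.mul mv A.lt), A.cr mv A.lt mu, A.cr mv A.lt A.lt, f u v h, A.ct' mv,
    ← commutatorElement_inv, A.ct' mu, commutatorElement_self, mul_one, el_cm A.el mu.i mv.i, mul_inv_cancel_right, A.el _ mv.i]
section com
variable (c : Y0 ρ t y) (ci : ∀ u v, Ip σ u v → y u * y v = y v * y u)
include c ci
theorem sqY (hv : hf σ v v = 0) : y v * y v = 1 := by
  obtain ⟨κ, hk, f⟩ := d.kap c
  obtain rfl : κ = 0 := by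
    by_cases two : ∀ s, σ s = s → s = 0 ∨ s = 1
    · exact (two κ hk).resolve_right fun e => d.q2 c ci (e ▸ f) two
    push Not at two
    obtain ⟨s, h, s0, s1⟩ := two
    exact d.kq c ci hk f h s0 s1
  rw [f v hv, tv, E_zero, up_one]
theorem addY (hu : hf σ u u = 0) (hv : hf σ v v = 0) (hx : hf σ x x = 0) (e1 : hf σ u v = 0) (e2 : hf σ u x = 0) (e3 : hf σ v x = 0) :
    bb y u (v + x) = bb y u v * bb y u x := d.add0 c ci (fun _ => d.sqY c ci) hu hv hx e1 e2 e3
theorem b0r (hu : hf σ u u = 0) : bb y u 0 = 1 := by rw [bb, add_zero, c.zero, mul_one, d.sqY c ci hu]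
theorem bsq (hu : hf σ u u = 0) (hv : hf σ v v = 0) (e : hf σ u v = 0) : bb y u v * bb y u v = 1 := by
  rw [← d.addY c ci hu hv hv e e hv, vv, d.b0r c ci hu]
theorem adj0 (a0 : a ≠ 0) : ∃ s : K, ∀ u v, Ip σ u v → bb y (a • u) v * bb y u (σ a • v) = up ρ (E σ u (s • v) 0) := by
  obtain ⟨α, β, γ, ha, hb, f⟩ := d.wconst (ρ := ρ) (fun u v => bb y (a • u) v * bb y u (σ a • v)) (fun g i u v h => by
    have s := su_sem i
    simp only [bb, conj_mul_conj]
    rw [c.eqv g i, c.eqv g i, c.eqv g i, c.eqv g i, c.eqv g i, c.eqv g i] <;> simp [s.add, s.smul1, h.1, h.2, h.3, h.4]) fun u v h => by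
      have T0 : Submodule.span K {u, v} ≠ ⊥ := fun z => h.u0 (by simpa [z] using mem_l u v)
      have au := Submodule.smul_mem _ a (mem_l u v)
      have av := Submodule.smul_mem _ (σ a) (mem_r u v)
      have A := d.ab2 c.toCS h
      have := A.mul (d.lmb c ci h.ti T0 au (mem_r u v)) (d.lmb c ci h.ti T0 (mem_l u v) av)
      rw [E_smul (ok_iso d.iv (by simp [h.1]) h.2 (by simp [h.4])) h.1 h.4, mul_zero, A.el _ (d.lmb c ci h.ti T0 (mem_l u v) av).i] at this
      exact A.mem this (d.lm c h.ti (mem_l u v)) (d.s_tv1 c.ker h.1 h.u0 (map_one σ) one_ne_zero)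
        ((d.bcm c ci h.ti au (mem_r u v) (mem_l u v)).mul_right (d.bcm c ci h.ti (mem_l u v) av (mem_l u v))).eq
  obtain ⟨u, v, h⟩ := d.ex_ip
  obtain ⟨ω, o⟩ := d.om
  have w0 : ω ≠ 0 := by rintro rfl; simp at o
  have w1 : σ ω ≠ 0 := by simpa
  have k := fun (s : K) (n : s ≠ 0) => f ((1 : K) • u) (s • v) (by simpa using h.comb (a := 1) (b := 0) (a' := 0) (b' := s) (by simpa))
  have h1 := k 1 one_ne_zero; have h2 := k _ w0; have h3 := k _ w1
  rw [d.E3_smul h ha hb one_ne_zero (by first | assumption | simp), one_smul] at h1 h2 h3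
  have s := fun a : K => Submodule.smul_mem _ a (mem_l u v)
  have s' := fun a : K => Submodule.smul_mem _ a (mem_r u v)
  have w := fun a b c => d.W_SU h.ti (E3_W (σ := σ) (mem_l u v) (mem_r u v) a b c)
  have h4 := congrArg₂ (· * ·) h2 h3
  rw [mul_assoc, ← mul_assoc (bb y u _), (d.bcm' c ci h.ti (s _) (s' _) (mem_l u v) (Submodule.smul_mem _ _ (s' _))).eq, mul_assoc,
    ← mul_assoc, ← d.addY c ci, ← d.addY c ci, ← smul_add, ← add_smul, o, h1, ← up_mul (w _ _ _) (w _ _ _), d.E3_mul h] at h4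
  · have := d.E3_inj h c.ker (by simpa) (by simpa) (by simp [ha]) (by simp [hb, d.iv ω, mul_comm]) h4
    obtain ⟨rfl, rfl⟩ : α = 0 ∧ β = 0 := by
      simp only [map_one, d.iv ω] at this; grind
    exact ⟨γ, fun u v h => by simpa [E3] using f u v h⟩
  all_goals simp [h.1, h.2, h.3, ha, hb, d.iv ω, mul_comm]
theorem adj1 (h : Ip σ u v) : bb y (a • u) v = bb y u (σ a • v) := by
  by_cases a0 : a = 0
  · simp [a0, bb, c.zero, d.sqY c ci h.1, d.sqY c ci h.2]
  obtain ⟨r, rfl⟩ := exists_rt a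
  have r0 : r ≠ 0 := left_ne_zero_of_mul a0
  obtain ⟨s, f⟩ := d.adj0 c ci r0
  have h1 := f (r • u) v (by simpa using h.comb (a := r) (b := 0) (a' := 0) (b' := 1) (by simpa))
  have h2 := f u (σ r • v) (by simpa using h.comb (a := 1) (b := 0) (a' := 0) (b' := σ r) (by simpa))
  rw [E_smul (ok_iso d.iv (by simp [h.1]) (by simp [h.2]) (by simp [h.4])) h.1 (by simp [h.4]), mul_zero, smul_comm (σ r), ← h2,
    smul_smul, smul_smul, ← map_mul] at h1
  have s := fun a : K => Submodule.smul_mem _ a (mem_l u v)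
  have s' := fun a : K => Submodule.smul_mem _ a (mem_r u v)
  rwa [(d.bcm' c ci h.ti (s _) (s' _) (s _) (mem_r u v)).eq, mul_right_inj] at h1
theorem adjY (hu : hf σ u u = 0) (hv : hf σ v v = 0) (e : hf σ u v = 0) : bb y (a • u) v = bb y u (σ a • v) := by
  by_cases u0 : u = 0
  · simp [u0, bb, c.zero, d.sqY c ci hv, d.sqY c ci (show hf σ (σ a • v) (σ a • v) = 0 by simp [hv])]
  obtain ⟨s, rfl⟩ | h := d.ip_or hu u0 hv (d.sw e)
  swap; · exact d.adj1 c ci h
  obtain ⟨x, r, -, h1, h2, -⟩ := d.out' u0 u0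
  have := d.sw h2
  have i1 : Ip σ u x := ⟨hu, h1, this, h2, r⟩
  have i2 : Ip σ u (s • u + x) := by simpa using i1.comb (a := 1) (b := 0) (a' := s) (b' := 1) (by simp)
  rw [show s • u = s • u + x + x by rw [add_assoc, vv, add_zero], smul_add, d.addY c ci (v := s • u + x), d.addY c ci (v := σ a • (s • u + x)),
    d.adj1 c ci i1, d.adj1 c ci i2] <;> simp [*]
end com
theorem yd (c : CS ρ t) : ∃ y, Yd ρ t y := by
  obtain ⟨y, c, ci⟩ := d.y1 c
  exact ⟨y, c.toCS, c.zero, fun _ => d.sqY c ci, c.eqv, c.tw, fun _ _ => d.comY c ci, fun _ _ _ => d.addY c ci, fun _ _ _ => d.adjY c ci,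
    fun _ _ => d.nrm0 c⟩
end Dm

end CF.U5
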