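import Cfsg.Agent.U5.P2

/-! Doubled transvections of a plane: the abstract module. -/

set_option autoImplicit false
set_option linter.unusedSectionVars false
set_option linter.unusedVariables false

namespace CF.U5

variable {K : Type} {M : Type*} [Field K] [Fintype K] [CharP K 2] [AddCommGroup M] {q : ℕ} {σ : K ≃+* K} {κ ω : K}
  {Y Y' : K → K → M} {e e' : K × K × K →+ M}

/-- an extension of the hermitian matrices by themselves -/
structure Mq (σ : K ≃+* K) (κ : K) (Y : K → K → M) (e : K × K × K →+ M) : Prop where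
  hk : σ κ = κ
  inj : ∀ a b c, σ a = a → σ b = b → e (a, b, c) = 0 → a = 0 ∧ b = 0 ∧ c = 0
  ker : ∃ l : M →+ M, (∀ α β, l (Y α β) = e (α * σ α, β * σ β, σ α * β)) ∧
    ∀ x, l x = 0 → ∃ a b c, σ a = a ∧ σ b = b ∧ x = e (a, b, c)
  two : ∀ α β, Y α β + Y α β = e (κ * (α * σ α), κ * (β * σ β), κ * (σ α * β))
  zero : Y 0 0 = 0
  nrm : ∀ s α β, s * σ s = 1 → Y (s * α) (s * β) = Y α β
  un : ∀ s, ∃ φ : M →+ M, (∀ α β, φ (Y α β) = Y (α + s * β) β) ∧ ∀ a b c, σ a = a → σ b = b →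
    φ (e (a, b, c)) = e (a + (c * s + σ c * σ s) + b * (s * σ s), b, c + b * σ s)
  tor : ∀ p, p ≠ 0 → ∃ φ : M →+ M, (∀ α β, φ (Y α β) = Y (p * α) β) ∧ ∀ a, σ a = a → φ (e (a, 0, 0)) = e (p * σ p * a, 0, 0)

/-- second differences -/
def Dq (Y : K → K → M) (c c' : K) : M := Y (c + c') 1 - Y c 1 - Y c' 1 + Y 0 1

theorem Dq_sym (Y : K → K → M) (c c' : K) : Dq Y c c' = Dq Y c' c := by rw [Dq, Dq, add_comm c]; abel
theorem e_ext (e : K × K × K →+ M) {a b c a' b' c' : K} (h : a = a' ∧ b = b' ∧ c = c') : e (a, b, c) = e (a', b', c') := by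
  rw [h.1, h.2.1, h.2.2]

namespace Mq
variable (d : Fd σ q) (m : Mq σ κ Y e)
include d m
theorem inj' {a b c a' b' c' : K} (ha : σ a = a) (hb : σ b = b) (ha' : σ a' = a') (hb' : σ b' = b') (h : e (a, b, c) = e (a', b', c')) :
    a = a' ∧ b = b' ∧ c = c' := by
  have := m.inj (a - a') (b - b') (c - c') (by simp [*]) (by simp [*]) (by rw [← sub_eq_zero, ← map_sub] at h; exact h)
  simpa only [sub_eq_zero] using this
theorem tri : ∃ f : K → K → K, (∀ c c', ∃ a b, a * σ a = c * σ c' + σ c * c' ∧ σ b = b ∧ Dq Y c c' = Y a 0 + e (b, 0, f c c')) ∧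
    (∀ c c' s, Dq Y (c + s) c' = Dq Y c c' + Dq Y s c' + e (f c c' * s + σ (f c c') * σ s, 0, 0)) ∧
    (∀ c c' s, f c c' * s + σ (f c c') * σ s = f s c' * c + σ (f s c') * σ c) ∧
    (∀ c c' s, f c c' * s + σ (f c c') * σ s = f c' c * s + σ (f c' c) * σ s) ∧
    ∀ c s, f c c * s + σ (f c c) * σ s = κ * (c * σ s + σ c * s) := by
  have iv := d.iv
  obtain ⟨l, l1, l2⟩ := m.ker
  have h0 : ∀ c c', ∃ a b g f, a * σ a = c * σ c' + σ c * c' ∧ σ b = b ∧ σ g = g ∧ Dq Y c c' = Y a 0 + e (b, g, f) := fun c c' => by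
    obtain ⟨a, ha⟩ := d.nrm (a := c * σ c' + σ c * c') (by simp [iv c, iv c']; ring)
    obtain ⟨b, g, f, h1, h2, h3⟩ := l2 (Dq Y c c' - Y a 0) (by
      simp only [Dq, map_sub l, map_add l, l1]
      rw [← map_sub, ← map_sub, ← map_add, ← map_sub, ← map_zero e]
      exact e_ext e (by simp; grind))
    exact ⟨a, b, g, f, ha, h1, h2, by rw [← h3]; abel⟩
  choose a b g f ha hb hg h0 using h0
  have h1 : ∀ c c' s, Dq Y (c + s) c' - Dq Y c c' - Dq Y s c' =
      e (f c c' * s + σ (f c c') * σ s + g c c' * (s * σ s), 0, g c c' * σ s) := fun c c' s => by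
    obtain ⟨φ, p1, p2⟩ := m.un s
    have k := congrArg φ (h0 c c')
    rw [map_add, p1, p2 _ _ _ (hb ..) (hg ..), mul_zero, add_zero] at k
    simp only [Dq, map_add φ, map_sub φ, p1, mul_one, zero_add] at k
    have : e (b c c' + (f c c' * s + σ (f c c') * σ s) + g c c' * (s * σ s), g c c', f c c' + g c c' * σ s) = e (b c c', g c c', f c c') +
      e (f c c' * s + σ (f c c') * σ s + g c c' * (s * σ s), 0, g c c' * σ s) := by rw [← map_add]; exact e_ext e (by simp [add_assoc])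
    have k' := h0 c c'
    simp only [Dq, add_right_comm c s c', add_comm s c'] at k' ⊢
    linear_combination (norm := abel) k - k' + this
  have fx : ∀ c c' s, σ (f c c' * s + σ (f c c') * σ s + g c c' * (s * σ s)) = f c c' * s + σ (f c c') * σ s + g c c' * (s * σ s) :=
    fun c c' s => by simp [iv _, hg]; ring
  have s1 := fun c c' s => m.inj' d (fx c c' s) (map_zero σ) (fx s c' c) (map_zero σ) (by rw [← h1, ← h1, add_comm c]; abel)
  have g0 : ∀ c c', g c c' = 0 := fun c c' => by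
    obtain ⟨ω, o⟩ := d.om
    by_cases c0 : c = 0
    · simpa [c0] using (s1 c c' 1).2.2
    have k := (s1 c c' (ω * c)).2.2
    rw [map_mul, ← mul_assoc, mul_left_inj' (by simpa)] at k
    have := congrArg σ k
    rw [map_mul, hg, hg, iv] at this
    grind
  simp only [g0, zero_mul, add_zero] at h0 h1 fx s1
  refine ⟨f, fun c c' => ⟨_, _, ha c c', hb c c', h0 c c'⟩, fun c c' s => by rw [← h1]; abel, fun c c' s => (s1 c c' s).1,
    fun c c' s => (m.inj' d (c := 0) (c' := 0) (fx c c' s) (map_zero σ) (fx c' c s) (map_zero σ) ?_).1, fun c s =>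
      (m.inj' d (c := 0) (c' := 0) (fx c c s) (map_zero σ) (by simp only [map_mul, map_add, iv _, m.hk]; ring) (map_zero σ) ?_).1⟩
  · rw [← h1, ← h1]
    simp only [Dq, add_right_comm c s c', add_right_comm c' s c, add_comm s, add_comm c' c]; abel
  · have : e (κ * (c * σ s + σ c * s), 0, 0) = e (κ * (s * σ s), κ * (1 * σ 1), κ * (σ s * 1)) -
        e (κ * ((c + s) * σ (c + s)), κ * (1 * σ 1), κ * (σ (c + s) * 1)) - e (κ * (0 * σ 0), κ * (1 * σ 1), κ * (σ 0 * 1)) +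
        e (κ * (c * σ c), κ * (1 * σ 1), κ * (σ c * 1)) := by
      rw [← map_sub, ← map_sub, ← map_add]; exact e_ext e (by simp; grind)
    rw [← h1, this, ← m.two, ← m.two, ← m.two, ← m.two]
    simp only [Dq, add_right_comm c s c, add_comm s, CharTwo.add_self_eq_zero, zero_add]; abel
theorem k0 {s : K} (h : σ s = s) (s0 : s ≠ 0) (s1 : s ≠ 1) : κ = 0 := by
  obtain ⟨f, -, -, h1, h2, h3⟩ := m.tri d
  obtain ⟨ω, o⟩ := d.om
  have a1 := h1 1 ω s; have a2 := h2 1 ω 1; have a3 := h1 ω 1 1; have a4 := h3 1 ω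
  have a5 := h2 s ω s; have a6 := h1 ω s s; have a7 := h3 s ω
  simp only [map_one, mul_one, one_mul, h] at *
  have : κ * s * (s + 1) = 0 := by grind
  grind
theorem five (o : ω + σ ω = 1) : ∃ b, σ b = b ∧ Y (1 + ω) 1 + Y ω 1 = Y 1 1 + Y 0 1 + Y 1 0 + e (b, 0, κ) := by
  obtain ⟨f, h0, -, h1, h2, h3⟩ := m.tri d
  obtain ⟨a, b, ha, hb, k⟩ := h0 1 ω
  have a2 := h2 1 ω 1; have a3 := h1 ω 1 1; have a4 := h3 1 ω; have a5 := h1 1 ω ω; have a6 := h3 ω 1
  simp only [map_one, mul_one, one_mul] at *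
  have hf : f 1 ω = κ * ω := by grind
  have n := m.nrm a 1 0 (by grind)
  rw [mul_one, mul_zero] at n
  refine ⟨b + κ * (ω * σ ω), by simp only [map_mul, map_add, hb, m.hk, d.iv ω]; ring, ?_⟩
  have : e (b + κ * (ω * σ ω), 0, κ) = e (b, 0, κ * ω) + e (κ * (ω * σ ω), κ * (1 * σ 1), κ * (σ ω * 1)) -
      e (κ * (0 * σ 0), κ * (1 * σ 1), κ * (σ 0 * 1)) := by
    rw [← map_add, ← map_sub]; exact e_ext e (by simp; grind)
  rw [this, ← m.two, ← m.two]
  rw [hf, n, Dq] at k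
  linear_combination (norm := abel) k
omit m in
theorem half (m : Mq σ 0 Y e) : (∃ J : K → M, (∀ r r', J (r + r') = J r + J r') ∧ ∀ a, Y a 0 = J (a * σ a)) ∧
    ∃ ε, σ ε = ε ∧ ∃ b : K → M, (∀ c c', b (c + c') = b c + b c') ∧ ∀ c, Y c 1 = Y 0 1 + Y c 0 + b c + e (c * σ c * ε, 0, 0) := by
  obtain ⟨f, h0, ad, h1, h2, h3⟩ := m.tri d
  obtain ⟨ω, o⟩ := d.om
  have iv := d.iv
  simp only [zero_mul] at h3
  have z : ∀ c c', f c c' * 1 + σ (f c c') * σ 1 = 0 → f c c' * ω + σ (f c c') * σ ω = 0 → f c c' = 0 := fun c c' a b => by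
    rw [map_one] at a; grind
  have f1 : f 1 ω = 0 := z _ _ (by rw [h2, h1, h3]) (by rw [h1, h3])
  have f2 : f ω 1 = 0 := z _ _ (by rw [h1, h3]) (by rw [h2, h1, h3])
  have f3 : ∀ c, f 1 c = 0 := fun c => z _ _ (by rw [h2, h1, h3]) (by rw [h2, h1, f2]; simp)
  have f4 : ∀ c, f ω c = 0 := fun c => z _ _ (by rw [h2, h1, f1]; simp) (by rw [h2, h1, h3])
  have f0 : ∀ c c', f c c' = 0 := fun c c' => z _ _ (by rw [h1, f3]; simp) (by rw [h1, f4]; simp)
  simp only [f0, zero_mul, map_zero, add_zero, Prod.mk_zero_zero] at h0 ad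
  have ad' : ∀ c c' s, Dq Y c (c' + s) = Dq Y c c' + Dq Y c s := fun c c' s => by rw [Dq_sym, ad, Dq_sym, Dq_sym Y s]
  have D0 : ∀ c, Dq Y 0 c = 0 := fun c => by simp [Dq]
  have D2 : ∀ c c', Dq Y c c' + Dq Y c c' = 0 := fun c c' => by rw [← ad, CharTwo.add_self_eq_zero, D0]
  have ea : ∀ a b, e (a + b, 0, 0) = e (a, 0, 0) + e (b, 0, 0) := fun a b => by rw [← map_add]; exact e_ext e (by simp)
  have tr : ∀ a s x b, σ b = b → Dq Y 1 s = Y x 0 + e (b, 0, 0) → Dq Y a (a * s) = Y (a * x) 0 + e (a * σ a * b, 0, 0) := fun a s x b hb k => by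
    by_cases a0 : a = 0
    · simp [a0, D0, m.zero, Prod.mk_zero_zero]
    obtain ⟨φ, p1, p2⟩ := m.tor a a0
    simpa only [Dq, map_add φ, map_sub φ, p1, p2 _ hb, mul_add, mul_one, mul_zero] using congrArg φ k
  have hp : ∀ r, σ r = r → ∃ p, ∀ a, Dq Y a (a * r) = e (a * σ a * p, 0, 0) := fun r hr => by
    obtain ⟨a, b, ha, hb, k⟩ := h0 1 r
    obtain rfl : a = 0 := by simpa [hr, CharTwo.add_self_eq_zero] using ha
    exact ⟨b, fun a => by simpa [m.zero] using tr a _ _ _ hb k⟩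
  have bal : ∀ r p, (∀ a, Dq Y a (a * r) = e (a * σ a * p, 0, 0)) → ∀ a a', Dq Y a (a' * r) + Dq Y (a * r) a' = e ((a * σ a' + σ a * a') * p, 0, 0) :=
    fun r p k a a' => by
    have := k (a + a')
    rw [add_mul, ad, ad', ad', k, k, show (a + a') * σ (a + a') * p = a * σ a * p + a' * σ a' * p + (a * σ a' + σ a * a') * p by
      rw [map_add]; ring, ea, ea, Dq_sym Y a'] at this
    linear_combination (norm := abel) this
  have p0 : ∀ r, σ r = r → ∀ a, Dq Y a (a * r) = 0 := fun r hr => by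
    obtain ⟨r, rfl⟩ := exists_rt r
    obtain ⟨p, k⟩ := hp r (d.fix_rt hr)
    obtain ⟨p', k'⟩ := hp _ hr
    have a1 := bal _ _ k 1 (ω * r); have a2 := bal _ _ k r ω; have a3 := bal _ _ k' 1 ω
    simp only [one_mul, map_one, map_mul, d.fix_rt hr, mul_assoc, mul_comm (σ ω) r, add_comm (σ ω), o, mul_comm r ω] at a1 a2 a3
    have e2 := ea ((r * σ ω + ω * r) * p) ((r * σ ω + ω * r) * p)
    rw [CharTwo.add_self_eq_zero, show e (0, 0, 0) = 0 from map_zero e] at e2
    have : e (p', 0, 0) = 0 := by linear_combination (norm := abel) a1 + a2 - a3 - D2 r (ω * r) - e2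
    intro a
    by_cases a0 : a = 0
    · simp [a0, D0]
    have := tr a (r * r) 0 0 (map_zero σ) (by
      have := k' 1
      simp only [one_mul, map_one] at this
      rw [this, ‹e (p', 0, 0) = 0›, m.zero, zero_add]; exact (map_zero e).symm)
    simpa [m.zero, Prod.mk_zero_zero] using this
  have bl : ∀ r, σ r = r → ∀ a a', Dq Y a (a' * r) = Dq Y (a * r) a' := fun r hr a a' => by
    have := bal r 0 (by simpa [Prod.mk_zero_zero] using p0 r hr) a a'
    rw [mul_zero, show e (0, 0, 0) = 0 from map_zero e] at this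
    linear_combination (norm := abel) this - D2 (a * r) a'
  have dc : ∀ c : K, ∃ x y, σ x = x ∧ σ y = y ∧ c = x + ω * y := fun c =>
    ⟨c + ω * (c + σ c), c + σ c, by simp only [map_add, map_mul, iv _]; grind, by rw [map_add, iv, add_comm], by grind⟩
  have hj : ∀ c c', Dq Y c c' = Dq Y 1 (ω * (c * σ c' + σ c * c')) := fun c c' => by
    obtain ⟨x, y, hx, hy, rfl⟩ := dc c
    obtain ⟨x', y', hx', hy', rfl⟩ := dc c'
    have a1 := bl x hx 1 x'; have a2 := bl x hx 1 (ω * y'); have a3 := bl x' hx' 1 (ω * y); have a4 := bl y hy ω (ω * y')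
    have a5 := p0 (x' * x) (by simp [*]) 1; have a6 := p0 (y' * y) (by simp [*]) ω
    simp only [one_mul, mul_assoc] at a1 a2 a3 a4 a5 a6
    rw [show ω * ((x + ω * y) * σ (x' + ω * y') + σ (x + ω * y) * (x' + ω * y')) = ω * (y' * x) + ω * (y * x') by
      simp only [map_add, map_mul, hx, hy, hx', hy']; grind, ad, ad', ad', ad', Dq_sym Y (ω * y) x', ← a1, ← a2, ← a3, ← a4, a5, a6]
    abel
  obtain ⟨a, ε, ha, hε, k⟩ := h0 1 ω
  have n := m.nrm a 1 0 (by rw [ha, map_one]; grind)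
  rw [mul_one, mul_zero] at n
  have hY : ∀ a, Dq Y 1 (ω * (a * σ a)) = Y a 0 + e (a * σ a * ε, 0, 0) := fun a => by
    have := tr a _ _ _ hε (n ▸ k)
    rw [mul_one] at this
    rw [← this, hj a, map_mul]
    congr 2; grind
  refine ⟨⟨fun r => Dq Y 1 (ω * r) - e (r * ε, 0, 0), fun r r' => by simp only [mul_add, add_mul, ad', ea]; abel, fun a => by simp [hY]⟩,
    ε, hε, fun c => Y c 1 - Y 0 1 - Dq Y 1 (ω * (c * σ c)), fun c c' => ?_, fun c => by simp only [hY]; abel⟩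
  have := hj c c'
  rw [Dq] at this
  simp only [show ω * ((c + c') * σ (c + c')) = ω * (c * σ c) + ω * (c' * σ c') + ω * (c * σ c' + σ c * c') by rw [map_add]; ring, ad']
  linear_combination (norm := abel) this
omit m in
theorem badd (m : Mq σ 0 Y e) (m' : Mq σ 0 Y' e') (hY : ∀ a b, Y' a b = Y b a) (he : ∀ a, e' (a, 0, 0) = e (0, a, 0)) (a a' p : K) :
    Y (a + a') p - Y (a + a') 0 = Y a p - Y a 0 + (Y a' p - Y a' 0) - Y 0 p := by
  by_cases p0 : p = 0
  · simp [p0, m.zero]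
  obtain ⟨-, ε, hε, b, ad, k⟩ := m.half d
  obtain ⟨-, ε', hε', b', ad', k'⟩ := m'.half d
  obtain ⟨c, c1, c2⟩ := d.one
  have h : ∀ n : ℕ, b (c ^ n) - b' (σ (c ^ n)) = e (0, ε', 0) - e (ε, 0, 0) := fun n => by
    have N : c ^ n * σ (c ^ n) = 1 := by rw [map_pow, ← mul_pow, c1, one_pow]
    have N' : σ (c ^ n) * σ (σ (c ^ n)) = 1 := by rw [← map_mul, N, map_one]
    have a1 := k (c ^ n); have a2 := k' (σ (c ^ n)); have a3 := m.nrm _ (c ^ n) 1 N'; have a4 := m.nrm _ 1 0 N; have a5 := m.nrm _ 0 1 N'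
    simp only [N, N', hY, he, one_mul, mul_one, mul_zero, zero_mul, mul_comm (σ (c ^ n))] at a1 a2 a3 a4 a5
    linear_combination (norm := abel) a2 - a1 - a3 - a4 + a5
  have s : ∀ n : ℕ, b (∑ i ∈ Finset.range n, c ^ i) - b' (σ (∑ i ∈ Finset.range n, c ^ i)) = n • (e (0, ε', 0) - e (ε, 0, 0)) := fun n => by
    induction n with
    | zero =>
      have a1 := ad 0 0; have a2 := ad' 0 0
      simp only [add_zero, left_eq_add] at a1 a2
      simp [a1, a2]
    | succ n ih => rw [Finset.sum_range_succ, map_add, ad, ad', succ_nsmul]; linear_combination (norm := abel) ih + h n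
  have := s (q + 1)
  rw [show ∑ i ∈ Finset.range (q + 1), c ^ i = ∑ i ∈ Finset.range 0, c ^ i by
    rw [geom_sum_eq c2, (d.odd c1).2, sub_self, zero_div]; rfl, s, zero_nsmul, ← map_sub, ← map_nsmul] at this
  obtain rfl : ε = 0 := by
    obtain ⟨n, hn⟩ := (d.odd c1).1
    exact (m.inj ε ε' 0 hε hε' (this.trans (e_ext e (by simp [hn, CharTwo.two_eq_zero, CharTwo.neg_eq]))).symm).1
  obtain ⟨φ, p1, -⟩ := m'.tor p p0
  have : ∀ a, Y a p = Y 0 p + Y a 0 + φ (b a) := fun a => by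
    simpa [← hY, p1, Prod.mk_zero_zero] using congrArg φ (k a)
  rw [this (a + a'), this a, this a', ad, map_add]; abel
omit m in
theorem quad (m : Mq σ 0 Y e) (m' : Mq σ 0 Y' e') (hY : ∀ a b, Y' a b = Y b a) (he : ∀ a, e' (a, 0, 0) = e (0, a, 0))
    (he' : ∀ a, e (a, 0, 0) = e' (0, a, 0)) (a b a' b' a'' b'' : K) :
    Y (a + (a' + a'')) (b + (b' + b'')) + Y a b + Y (a' + a'') (b' + b'') =
      Y (a + a') (b + b') + Y a b + Y a' b' + (Y (a + a'') (b + b'') + Y a b + Y a'' b'') := by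
  obtain ⟨⟨J, ad, k⟩, -⟩ := m.half d
  obtain ⟨⟨J', ad', k'⟩, -⟩ := m'.half d
  obtain ⟨B, hB⟩ : ∃ B : K → K → M, ∀ a b, Y a b = B a b + J (a * σ a) + J' (b * σ b) :=
    ⟨fun a b => Y a b - Y a 0 - Y 0 b, fun a b => by rw [← k, ← k', hY]; beta_reduce; abel⟩
  have two : ∀ a b, Y a b + Y a b = 0 := fun a b => by simpa [Prod.mk_zero_zero] using m.two a b
  have l : ∀ a a' b, B (a + a') b = B a b + B a' b := fun a a' b => by
    have := badd d m m' hY he a a' b
    rw [k, k, k, ← hY b 0, k', hB, hB, hB] at this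
    linear_combination (norm := abel) this
  have r : ∀ a b b', B a (b + b') = B a b + B a b' := fun a b b' => by
    have := badd d m' m (fun a b => (hY b a).symm) he' b b' a
    rw [k', k', k', hY 0 a, k, hY, hY, hY, hB, hB, hB] at this
    linear_combination (norm := abel) this
  have t := two a b
  have t1 := two (a' + a'') (b' + b'')
  have t2 := two a' b'
  have t3 := two a'' b''
  simp only [hB, map_add, mul_add, add_mul, ad, ad', l, r] at t t1 t2 t3 ⊢
  linear_combination (norm := abel) t1 - t - t2 - t3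
end Mq

end CF.U5
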