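import Cfsg.Agent.U5.P3a

/-! Doubled transvections of a plane: the module. -/

set_option autoImplicit false
set_option linter.unusedSectionVars false
set_option linter.unusedVariables false

namespace CF.U5

open Subgroup Equiv CF.Geom Module CF.Loc CF.LX CF.Dbl Sx Tx
open scoped commutatorElement IsMulCommutative

/-- additive notation for an abelian subgroup -/
structure Lg {X M : Type*} [Group X] [AddCommGroup M] (H : Subgroup X) (L : X → M) : Prop where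
  add : ∀ x ∈ H, ∀ y ∈ H, L (x * y) = L x + L y
  inj : ∀ x ∈ H, ∀ y ∈ H, L x = L y → x = y
  sur : ∀ z, ∃ x ∈ H, L x = z

theorem exLg {X : Type*} [Group X] (H : Subgroup X) [IsMulCommutative H] : ∃ L : X → Additive H, Lg H L := by
  classical
  refine ⟨fun x => if h : x ∈ H then .ofMul ⟨x, h⟩ else 0, fun x i y j => ?_, fun x i y j e => ?_, fun z => ⟨z.toMul, z.toMul.2, by simp⟩⟩
  · rw [dif_pos i, dif_pos j, dif_pos (mul_mem i j)]; rfl
  · rw [dif_pos i, dif_pos j] at e; exact congrArg (fun z => (z.toMul : X)) e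
theorem Lg.one {X M : Type*} [Group X] [AddCommGroup M] {H : Subgroup X} {L : X → M} (l : Lg H L) : L 1 = 0 := by
  simpa using l.add 1 (one_mem H) 1 (one_mem H)
theorem Lg.map {X M : Type*} [Group X] [AddCommGroup M] {H : Subgroup X} {L : X → M} (l : Lg H L) (F : X → X) (h : ∀ x ∈ H, F x ∈ H)
    (k : ∀ x ∈ H, ∀ y ∈ H, F (x * y) = F x * F y) : ∃ φ : M →+ M, ∀ x ∈ H, φ (L x) = L (F x) := by
  choose s s1 s2 using l.sur
  have e : ∀ x ∈ H, s (L x) = x := fun x i => l.inj _ (s1 _) _ i (s2 _)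
  refine ⟨AddMonoidHom.mk' (fun z => L (F (s z))) fun a b => ?_, fun x i => by simp [e x i]⟩
  rw [← l.add _ (h _ (s1 a)) _ (h _ (s1 b)), ← k _ (s1 a) _ (s1 b), ← e _ (mul_mem (s1 a) (s1 b)), l.add _ (s1 a) _ (s1 b), s2, s2]

variable {K : Type} [Field K] [Fintype K] [CharP K 2] {m q : ℕ} {σ θ : K ≃+* K} {a b a' b' ζ ω κ : K}
  {g p k ξ : Perm (Fin m → K)} {u v w x n u' v' : Fin m → K} {T T' S : Submodule K (Fin m → K)}
  {X : Type*} [Group X] [Finite X] {ρ : SU σ m →* X} {t h : X} {y : (Fin m → K) → X}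

/-- the doubled group `WX T` -/
def Wh (ρ : SU σ m →* X) (y : (Fin m → K) → X) (T : Submodule K (Fin m → K)) : Subgroup X :=
  closure {x | (∃ v ∈ T, x = y v) ∨ x ∈ im ρ (WX σ T)}

theorem y_Wh (i : v ∈ T) : y v ∈ Wh ρ y T := subset_closure (.inl ⟨v, i, rfl⟩)
theorem W_Wh (i : h ∈ im ρ (WX σ T)) : h ∈ Wh ρ y T := subset_closure (.inr i)

namespace Dm
variable (d : Dm σ q m)
include d
theorem E3_un (h : Ip σ v w) (ha : σ a = a) (hb : σ b = b) (s c : K) :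
    E3 σ v (w + s • v) a b c = E3 σ v w (a + (c * s + σ c * σ s) + b * (s * σ s)) b (c + b * σ s) := Equiv.ext fun x => by
  rw [d.E3_ap' (by simpa [add_comm] using h.comb (a := 1) (b := 0) (a' := s) (b' := 1) (by simp)) ha hb,
    d.E3_ap' h (by simp only [map_add, map_mul, ha, hb, d.iv _]; ring) hb]
  simp only [hf_smul_r, hf_add_r, map_mul, map_add, d.iv s, hb]; module
theorem tv_E3 (h : Ip σ v w) (ha : σ a = a) (α β : K) :
    E σ (α • v + β • w) 0 a = E3 σ v w (a * (α * σ α)) (a * (β * σ β)) (a * (σ α * β)) := Equiv.ext fun x => by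
  rw [E_ap (ok_tv d.iv (by simp [h.1, h.2, h.3, h.4]) ha), d.E3_ap' h (by simp only [map_mul, ha, d.iv _]; ring)
    (by simp only [map_mul, ha, d.iv _]; ring)]
  simp only [hf_smul_r, hf_add_r, map_mul, map_add, d.iv α, ha, hf_zero_r]; module
variable (c : Y0 ρ t y) (ci : ∀ u v, Ip σ u v → y u * y v = y v * y u)
include c ci
theorem Wh_ab (l : Ti σ T) (T0 : T ≠ ⊥) : IsMulCommutative (Wh ρ y T) := isMulCommutative_closure (by
  have A := d.ab c.toCS l T0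
  rintro _ (⟨u, i, rfl⟩ | i) _ (⟨v, j, rfl⟩ | j)
  exacts [d.comY c ci (l _ i _ i) (l _ j _ j) (l _ i _ j), A.cw (d.lm c l i) j, (A.cw (d.lm c l j) i).symm, el_cm A.el i j])
omit ci in
theorem Wh_lm (l : Ti σ T) (T0 : T ≠ ⊥) (i : h ∈ Wh ρ y T) : Lm (im ρ (RT σ T)) (im ρ (WX σ T)) t h (t⁻¹ * (h * t * h⁻¹)) := by
  have A := d.ab c.toCS l T0
  suffices ∃ w, Lm (im ρ (RT σ T)) (im ρ (WX σ T)) t h w by obtain ⟨w, k⟩ := this; rwa [k.e, inv_mul_cancel_left]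
  induction i using closure_induction with
  | mem _ e => obtain ⟨v, j, rfl⟩ | j := e; exacts [⟨_, d.lm c l j⟩, ⟨_, A.ofW j⟩]
  | one => exact ⟨_, A.ofW (one_mem _)⟩
  | mul a b _ _ p q => exact ⟨_, A.mul p.choose_spec q.choose_spec⟩
  | inv a _ p => exact ⟨_, A.inv p.choose_spec⟩
omit ci in
theorem Wh_cj (l : Ti σ T) (i : g ∈ SU σ m) (e : ∀ x ∈ T, g x ∈ T) : Wh ρ y T ≤ (Wh ρ y T).comap (MulAut.conj (up ρ g)).toMonoidHom :=
  (closure_le _).2 (by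
    rintro _ (⟨u, j, rfl⟩ | j)
    · exact ((c.eqv g i u (l _ j _ j)).symm ▸ y_Wh (y := y) (ρ := ρ) (e _ j) : up ρ g * y u * (up ρ g)⁻¹ ∈ _)
    obtain ⟨w, i', j', rfl⟩ := mem_im.1 j
    exact (up_cj (φ := ρ) i j' ▸ W_Wh (up_im (W_cj (su_sem i) e i') ((su_sem i).su j')) : up ρ g * up ρ w * (up ρ g)⁻¹ ∈ _))
theorem md {M : Type*} [AddCommGroup M] {L : X → M} (hk : σ κ = κ) (f : ∀ v, hf σ v v = 0 → y v * y v = tv ρ v κ) (o : ω + σ ω = 1)
    (h : Ip σ v w) (eT : Submodule.span K {v, w} = T) (l : Lg (Wh ρ y T) L) : ∃ e : K × K × K →+ M,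
      (∀ a b c, e (a, b, c) = L (up ρ (E3 σ v w (ω * a + σ (ω * a)) (ω * b + σ (ω * b)) c))) ∧
      Mq σ κ (fun α β => L (y (α • v + β • w))) e := by
  subst eT
  have A := d.ab2 c.toCS h
  have T0 : Submodule.span K {v, w} ≠ ⊥ := fun z => h.u0 (by simpa [z] using mem_l v w)
  have mT : ∀ α β : K, α • v + β • w ∈ Submodule.span K {v, w} := fun α β =>
    add_mem (Submodule.smul_mem _ _ (mem_l v w)) (Submodule.smul_mem _ _ (mem_r v w))
  have iso := fun α β => h.ti _ (mT α β) _ (mT α β)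
  have w0 := fun a b c => E3_W (σ := σ) (mem_l v w) (mem_r v w) a b c
  have w1 := fun a b c => d.W_SU h.ti (w0 a b c)
  have w2 := fun a b c => W_Wh (y := y) (up_im (φ := ρ) (w0 a b c) (w1 a b c))
  have fx : ∀ a, σ (ω * a + σ (ω * a)) = ω * a + σ (ω * a) := fun a => by rw [map_add, d.iv, add_comm]
  obtain ⟨e, he⟩ : ∃ e : K × K × K →+ M, ∀ a b c, e (a, b, c) = L (up ρ (E3 σ v w (ω * a + σ (ω * a)) (ω * b + σ (ω * b)) c)) :=
    ⟨AddMonoidHom.mk' (fun p => L (up ρ (E3 σ v w (ω * p.1 + σ (ω * p.1)) (ω * p.2.1 + σ (ω * p.2.1)) p.2.2))) fun p r => by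
      rw [← l.add _ (w2 _ _ _) _ (w2 _ _ _), ← up_mul (w1 _ _ _) (w1 _ _ _), d.E3_mul h (fx _) (fx _) (fx _) (fx _)]
      simp only [Prod.fst_add, Prod.snd_add, mul_add, map_add, add_add_add_comm (ω * p.1), add_add_add_comm (ω * p.2.1)], fun _ _ _ => rfl⟩
  have he' : ∀ a b c, σ a = a → σ b = b → e (a, b, c) = L (up ρ (E3 σ v w a b c)) := fun a b c ha hb => by
    rw [he, map_mul, map_mul, ha, hb, ← add_mul, ← add_mul, o, one_mul, one_mul]
  have nf : ∀ a r : K, σ a = a → σ (a * (r * σ r)) = a * (r * σ r) := fun a r ha => by simp only [map_mul, ha, d.iv _]; ring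
  have act : ∀ g ∈ SU σ m, ∀ a b a' b' : K, g v = a • v + b • w → g w = a' • v + b' • w → ∃ φ : M →+ M,
      (∀ α β, φ (L (y (α • v + β • w))) = L (y ((α * a + β * a') • v + (α * b + β * b') • w))) ∧
        ∀ a b c, φ (L (up ρ (E3 σ v w a b c))) = L (up ρ (E3 σ (g v) (g w) a b c)) := fun g i a b a' b' e1 e2 => by
    have s := su_sem i
    have k : ∀ α β : K, g (α • v + β • w) = (α * a + β * a') • v + (α * b + β * b') • w := fun α β => by
      rw [s.add, s.smul1, s.smul1, e1, e2]; module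
    obtain ⟨φ, hφ⟩ := l.map (fun x => up ρ g * x * (up ρ g)⁻¹) (fun x j => d.Wh_cj c h.ti i (fun x j => by
      obtain ⟨α, β, rfl⟩ := Submodule.mem_span_pair.1 j; exact k α β ▸ mT _ _) j) fun _ _ _ _ => conj_mul_conj ..
    exact ⟨φ, fun α β => by rw [hφ _ (y_Wh (mT _ _)), c.eqv g i _ (iso _ _), k],
      fun a b c => by rw [hφ _ (w2 _ _ _), ← up_cj i (w1 _ _ _), E3_cj s]⟩
  refine ⟨e, he, hk, fun a b c' ha hb z => ?_, ?_, fun α β => ?_, by simp [c.zero, l.one], fun s α β n => ?_, fun s => ?_, fun p p0 => ?_⟩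
  · rw [he' _ _ _ ha hb, ← l.one] at z
    exact d.E3_inj h c.ker ha hb (map_zero σ) (map_zero σ) ((l.inj _ (w2 _ _ _) _ (one_mem _) z).trans (by simp [E3]))
  · obtain ⟨φ, hφ⟩ := l.map (fun x => t⁻¹ * (x * t * x⁻¹)) (fun x j => W_Wh (d.Wh_lm c h.ti T0 j).i) fun x i z j => by
      rw [(A.mul (d.Wh_lm c h.ti T0 i) (d.Wh_lm c h.ti T0 j)).e, inv_mul_cancel_left]
    refine ⟨φ, fun α β => ?_, fun x z => ?_⟩
    · rw [hφ _ (y_Wh (mT _ _)), c.tw _ (iso _ _), inv_mul_cancel_left, tv, d.tv_E3 h (map_one σ), ← he' _ _ _ (nf _ _ (map_one σ))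
        (nf _ _ (map_one σ)), one_mul, one_mul, one_mul]
    obtain ⟨x, i, rfl⟩ := l.sur x
    have j := d.Wh_lm c h.ti T0 i
    rw [hφ _ i, ← l.one] at z
    rw [l.inj _ (W_Wh j.i) _ (one_mem _) z] at j
    have := d.Wh_ab c ci h.ti T0
    obtain ⟨w, i', j', rfl⟩ := mem_im.1 (A.mem j (d.lm c h.ti (mem_l v w)) (d.s_tv1 c.ker h.1 h.u0 (map_one σ) one_ne_zero)
      (congrArg Subtype.val (mul_comm (⟨_, y_Wh (mem_l v w)⟩ : Wh ρ y _) ⟨_, i⟩)))
    obtain ⟨a, b, c, ha, hb, rfl⟩ := d.W2 h.li h.1 h.2 h.3 i'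
    exact ⟨a, b, c, ha, hb, (he' _ _ _ ha hb).symm⟩
  · rw [← l.add _ (y_Wh (mT _ _)) _ (y_Wh (mT _ _)), f _ (iso _ _), tv, d.tv_E3 h hk, he' _ _ _ (nf _ _ hk) (nf _ _ hk)]
  · rw [mul_smul, mul_smul, ← smul_add, d.nrm0 c (iso _ _) n]
  · have h' : Ip σ v (w + s • v) := by simpa [add_comm] using h.comb (a := 1) (b := 0) (a' := s) (b' := 1) (by simp)
    obtain ⟨g, i, e1, e2⟩ := d.witt2 h.li h'.li rfl (h.2.trans h'.2.symm) (h.3.trans h'.3.symm)
    obtain ⟨φ, p1, p2⟩ := act g i 1 0 s 1 (by simp [e1]) (by simp [e2, add_comm])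
    exact ⟨φ, fun α β => by simp [p1, mul_comm], fun a b c ha hb => by
      rw [he' _ _ _ ha hb, p2, e1, e2, d.E3_un h ha hb, he' _ _ _ (by simp only [map_add, map_mul, ha, hb, d.iv _]; ring) hb]⟩
  · have h' : Ip σ (p • v) ((1 : K) • w) := by simpa using h.comb (a := p) (b := 0) (a' := 0) (b' := 1) (by simpa)
    obtain ⟨g, i, e1, e2⟩ := d.witt2 h.li h'.li (h.1.trans h'.1.symm) (h.2.trans h'.2.symm) (h.3.trans h'.3.symm)
    obtain ⟨φ, p1, p2⟩ := act g i p 0 0 1 (by simp [e1]) (by simp [e2])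
    exact ⟨φ, fun α β => by simp [p1, mul_comm], fun a ha => by
      rw [he' _ _ _ ha (map_zero σ), p2, e1, e2, d.E3_smul h ha (map_zero σ) p0 one_ne_zero, mul_zero, mul_zero,
        he' _ _ _ (by simp only [map_mul, ha, d.iv _]; ring) (map_zero σ)]⟩
theorem kq (hk : σ κ = κ) (f : ∀ v, hf σ v v = 0 → y v * y v = tv ρ v κ) {s : K} (h : σ s = s) (s0 : s ≠ 0) (s1 : s ≠ 1) : κ = 0 := by
  obtain ⟨v, w, i⟩ := d.ex_ip
  obtain ⟨ω, o⟩ := d.om
  have := d.Wh_ab c ci i.ti fun z => i.u0 (by simpa [z] using mem_l v w)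
  obtain ⟨L, l⟩ := exLg (Wh ρ y (Submodule.span K {v, w}))
  obtain ⟨e, -, M⟩ := d.md c ci hk f o i rfl l
  exact M.k0 d.toFd h s0 s1
theorem y5 (hk : σ κ = κ) (f : ∀ v, hf σ v v = 0 → y v * y v = tv ρ v κ) (o : ω + σ ω = 1) (i : Ip σ v w) :
    ∃ b, σ b = b ∧ y ((1 + ω) • v + w) * y (ω • v + w) = y (v + w) * y w * y v * up ρ (E σ v (κ • w) b) := by
  have := d.Wh_ab c ci i.ti fun z => i.u0 (by simpa [z] using mem_l v w)
  obtain ⟨L, l⟩ := exLg (Wh ρ y (Submodule.span K {v, w}))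
  obtain ⟨e, he, M⟩ := d.md c ci hk f o i rfl l
  obtain ⟨b, hb, k⟩ := M.five d.toFd o
  have s := fun a : K => y_Wh (y := y) (ρ := ρ) (add_mem (Submodule.smul_mem _ a (mem_l v w)) (mem_r v w))
  have s1 := y_Wh (y := y) (ρ := ρ) (add_mem (mem_l v w) (mem_r v w))
  have s2 := y_Wh (y := y) (ρ := ρ) (mem_l v w)
  have s3 := y_Wh (y := y) (ρ := ρ) (mem_r v w)
  have s4 := W_Wh (y := y) (up_im (φ := ρ) (E_W (mem_l v w) (Submodule.smul_mem _ κ (mem_r v w)) b) (d.E_SU _ _ _))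
  refine ⟨b, hb, l.inj _ (mul_mem (s _) (s _)) _ (mul_mem (mul_mem (mul_mem s1 s3) s2) s4) ?_⟩
  rw [l.add _ (s _) _ (s _), l.add _ (mul_mem (mul_mem s1 s3) s2) _ s4, l.add _ (mul_mem s1 s3) _ s2, l.add _ s1 _ s3]
  rw [he, map_mul, hb, ← add_mul, o, one_mul, mul_zero, map_zero, add_zero, E3, E_zero, mul_one,
    E_mul (ok_tv d.iv i.1 hb) (ok_iso d.iv i.1 (by simp [i.2]) (by simp [i.4]))] at k
  simpa using k
theorem add0 (f : ∀ v, hf σ v v = 0 → y v * y v = 1) (hu : hf σ u u = 0) (hv : hf σ v v = 0) (hx : hf σ x x = 0) (e1 : hf σ u v = 0)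
    (e2 : hf σ u x = 0) (e3 : hf σ v x = 0) : bb y u (v + x) = bb y u v * bb y u x := by
  have := d.sw e1; have := d.sw e2; have := d.sw e3
  obtain ⟨T, l, i, r⟩ := d.ex_T (ti_span (σ := σ) (u := ![u, v, x]) (by simp [Fin.forall_fin_succ, *]))
  have b : ∀ j, ![u, v, x] j ∈ T := fun j => i (Submodule.subset_span ⟨j, rfl⟩)
  obtain ⟨v₀, i0, w₀, i1, li⟩ := exists_li (T := T) (by rw [r, d.l3])
  have h : Ip σ v₀ w₀ := ⟨l _ i0 _ i0, l _ i1 _ i1, l _ i0 _ i1, l _ i1 _ i0, li⟩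
  have eT : Submodule.span K {v₀, w₀} = T := Submodule.eq_of_le_of_finrank_eq (Submodule.span_le.2 (by
    rintro _ (rfl | rfl) <;> assumption)) (by rw [r, d.l3, dim_li li])
  obtain ⟨ω, o⟩ := d.om
  have := d.Wh_ab c ci l fun z => h.u0 (by simpa [z] using i0)
  obtain ⟨L, lg⟩ := exLg (Wh ρ y T)
  have f' : ∀ v, hf σ v v = 0 → y v * y v = tv ρ v 0 := fun v j => by rw [f v j, tv, E_zero, up_one]
  obtain ⟨e, he, M⟩ := d.md c ci (map_zero σ) f' o h eT lg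
  obtain ⟨e', he', M'⟩ := d.md c ci (map_zero σ) f' o h.symm (by rw [Set.pair_comm, eT]) lg
  have fx : ∀ a, σ (ω * a + σ (ω * a)) = ω * a + σ (ω * a) := fun a => by rw [map_add, d.iv, add_comm]
  obtain ⟨a, a', rfl⟩ := Submodule.mem_span_pair.1 (show u ∈ _ from eT ▸ b 0)
  obtain ⟨s, s', rfl⟩ := Submodule.mem_span_pair.1 (show v ∈ _ from eT ▸ b 1)
  obtain ⟨z, z', rfl⟩ := Submodule.mem_span_pair.1 (show x ∈ _ from eT ▸ b 2)
  have k := Mq.quad d.toFd M M' (fun a b => by rw [add_comm]) (fun a => by rw [he, he', d.E3_swap h (fx _) (fx _), map_zero])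
    (fun a => by rw [he, he', d.E3_swap h (fx _) (fx _), map_zero]) a a' s s' z z'
  have j := fun z (i : z ∈ T) => y_Wh (y := y) (ρ := ρ) i
  have jb : ∀ u ∈ T, ∀ v ∈ T, bb y u v ∈ Wh ρ y T ∧ L (bb y u v) = L (y (u + v)) + L (y u) + L (y v) := fun u i v i' =>
    ⟨mul_mem (mul_mem (j _ (add_mem i i')) (j _ i)) (j _ i'), by
      rw [bb, lg.add _ (mul_mem (j _ (add_mem i i')) (j _ i)) _ (j _ i'), lg.add _ (j _ (add_mem i i')) _ (j _ i)]⟩
  refine lg.inj _ (jb _ (b 0) _ (add_mem (b 1) (b 2))).1 _ (mul_mem (jb _ (b 0) _ (b 1)).1 (jb _ (b 0) _ (b 2)).1) ?_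
  refine (jb _ (b 0) _ (add_mem (b 1) (b 2))).2.trans (.trans ?_ (lg.add _ (jb _ (b 0) _ (b 1)).1 _ (jb _ (b 0) _ (b 2)).1).symm)
  rw [(jb _ (b 0) _ (b 1)).2, (jb _ (b 0) _ (b 2)).2]
  have n : ∀ a b a' b' : K, (a + a') • v₀ + (b + b') • w₀ = a • v₀ + b • w₀ + (a' • v₀ + b' • w₀) := fun _ _ _ _ => by module
  simpa only [n, Matrix.cons_val] using k
end Dm

end CF.U5
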