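import Cfsg.Agent.U5.P3b

/-! Doubled transvections are involutions. -/

set_option autoImplicit false
set_option linter.unusedSectionVars false
set_option linter.unusedVariables false

namespace CF.U5

open Subgroup Equiv CF.Geom Module CF.Loc CF.LX CF.Dbl Sx Tx
open scoped commutatorElement IsMulCommutative

variable {K : Type} [Field K] [Fintype K] [CharP K 2] {m q : ℕ} {σ θ : K ≃+* K} {b ζ ω κ : K}
  {g p k ξ : Perm (Fin m → K)} {u v w x n n' u' v' : Fin m → K} {T T' S : Submodule K (Fin m → K)}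
  {X : Type*} [Group X] [Finite X] {ρ : SU σ m →* X} {t h a a' s : X} {y : (Fin m → K) → X}

/-- elements of `Q v` modulo `y v` -/
def Rq (ρ : SU σ m →* X) (y : (Fin m → K) → X) (v n : Fin m → K) (a : X) : Prop :=
  ∃ ζ, Ok σ v n ζ ∧ ∃ s ∈ zpowers (y v), a = up ρ (E σ v n ζ) * s

theorem rq_E (o : Ok σ v n ζ) : Rq ρ y v n (up ρ (E σ v n ζ)) := ⟨ζ, o, 1, one_mem _, (mul_one _).symm⟩

namespace Dm
variable (d : Dm σ q m) (c : Y0 ρ t y) (hv : hf σ v v = 0)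
include c hv
theorem rq_zc (i : s ∈ zpowers (y v)) (j : g ∈ SU σ m) (e : g v = v) : up ρ g * s = s * up ρ g :=
  mem_centralizer_iff'.1 (zpowers_le.2 (c.cY hv) i) _ (up_im ⟨j, e⟩ j)
include d
theorem rq_mul (i : Rq ρ y v n a) (j : Rq ρ y v n' a') : Rq ρ y v (n + n') (a * a') := by
  obtain ⟨ζ, o, s, k, rfl⟩ := i
  obtain ⟨ζ', o', s', k', rfl⟩ := j
  refine ⟨_, o.mul o', _, mul_mem k k', ?_⟩
  rw [← E_mul o o', up_mul (d.E_SU _ _ _) (d.E_SU _ _ _), mul_assoc, ← mul_assoc s, ← rq_zc c hv k (d.E_SU _ _ _) (E_self ..)]; group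
theorem rq_cj (j : g ∈ SU σ m) (e : g v = v) (i : Rq ρ y v n a) : Rq ρ y v (g n) (up ρ g * a * (up ρ g)⁻¹) := by
  obtain ⟨ζ, o, s, k, rfl⟩ := i
  refine ⟨ζ, e ▸ o.cj (su_sem j), s, k, ?_⟩
  rw [conj_mul_conj, ← up_cj j (d.E_SU _ _ _), E_cj1 (su_sem j), e, rq_zc c hv k j e, mul_inv_cancel_right]
theorem rq_inj (v0 : v ≠ 0) (i : Rq ρ y v n a) (j : Rq ρ y v n' a) : ∃ r : K, n' = n + r • v := by
  obtain ⟨ζ, o, s, k, rfl⟩ := i
  obtain ⟨ζ', o', s', k', e⟩ := j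
  have l := d.ti_one hv
  have A := d.ab c.toCS l (by simpa)
  have L := d.lm c l (Submodule.mem_span_singleton_self v)
  have e' : s * s'⁻¹ = up ρ ((E σ v n ζ)⁻¹ * E σ v n' ζ') := by
    rw [up_mul (inv_mem (d.E_SU _ _ _)) (d.E_SU _ _ _), up_inv (d.E_SU _ _ _), eq_inv_mul_iff_mul_eq, ← mul_assoc, e, mul_inv_cancel_right]
  have k'' := mul_mem k (inv_mem k')
  obtain ⟨w, i', j', f⟩ := mem_im.1 (A.mem ⟨zpowers_le.2 L.c k'', one_mem _, by rw [e', tv_cm c.cm]; group⟩ L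
    (d.s_tv1 c.ker hv v0 (map_one σ) one_ne_zero) (by obtain ⟨j, f⟩ := k''; rw [← f]; exact (Commute.zpow_right rfl j).eq))
  obtain ⟨b, r, rfl⟩ := (mem_Z d.iv hv).1 (d.W_line hv ▸ i')
  have := d.up_inj c.ker (d.Q_two hv) d.Q_SU (E_Q _ _ _) (mul_mem (inv_mem (E_Q _ _ _)) (E_Q _ _ _)) (f.trans e')
  rw [eq_inv_mul_iff_mul_eq, E_mul o (ok_tv d.iv hv r)] at this
  obtain ⟨r, f, -⟩ := d.E_inj (o.mul (ok_tv d.iv hv r)) o' v0 this
  exact ⟨r, by simpa using f⟩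
variable (ci : ∀ u v, Ip σ u v → y u * y v = y v * y u) (f : ∀ v, hf σ v v = 0 → y v * y v = tv ρ v 1)
  (two : ∀ s, σ s = s → s = 0 ∨ s = 1)
include ci f two
omit hv in
theorem rq_b (h : Ip σ v w) (i : Rq ρ y v n a) : Rq ρ y v (n + (hf σ w n + hf σ n w) • w) ((bb y v w)⁻¹ * a * bb y v w) := by
  obtain ⟨ζ, o, s, k, rfl⟩ := i
  have cm : ∀ a b a' b' : K, Commute (y (a • v + b • w)) (y (a' • v + b' • w)) := fun a b a' b' =>
    d.comY c ci (by simp [h.1, h.2, h.3, h.4]) (by simp [h.1, h.2, h.3, h.4]) (by simp [h.1, h.2, h.3, h.4])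
  have c1 : Commute (bb y v w) s := by
    obtain ⟨j, rfl⟩ := k; exact (d.bcm c ci h.ti (mem_l v w) (mem_r v w) (mem_l v w)).symm.zpow_right j
  have e1 : up ρ (E σ v n ζ) * bb y v w * (up ρ (E σ v n ζ))⁻¹ = y ((1 + hf σ w n) • v + w) * y (hf σ w n • v + w) * y v := by
    have e2 : E σ v n ζ w = hf σ w n • v + w := by simp [E_ap o, h.4, add_comm]
    rw [bb, conj_mul_conj, conj_mul_conj, c.eqv _ (d.E_SU _ _ _) _ h.1, c.eqv _ (d.E_SU _ _ _) _ h.2, c.eqv _ (d.E_SU _ _ _) _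
      (by simp [h.1, h.2, h.3, h.4]), (E_sem ..).add, E_self, e2, mul_assoc, mul_assoc, add_smul, one_smul, add_assoc]
    simpa using (cm 1 0 (hf σ w n) 1).eq
  have c2 : y v * y w = y w * y v := ci _ _ h
  suffices ∃ δ, Rq ρ y v ((hf σ w n + hf σ n w) • w) δ ∧ up ρ (E σ v n ζ) * bb y v w * (up ρ (E σ v n ζ))⁻¹ = bb y v w * δ by
    obtain ⟨δ, j, e⟩ := this
    rw [add_comm n, show (bb y v w)⁻¹ * (up ρ (E σ v n ζ) * s) * bb y v w = δ * (up ρ (E σ v n ζ) * s) by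
      rw [mul_assoc, mul_assoc, ← c1.eq, ← inv_mul_cancel_left (bb y v w) δ, ← e]; group]
    exact d.rq_mul c h.1 j ⟨ζ, o, s, k, rfl⟩
  rw [e1, ← d.sy w n]
  obtain e | e := two (hf σ w n + σ (hf σ w n)) (by rw [map_add, d.iv, add_comm])
  · refine ⟨1, by simpa [e] using rq_E (y := y) (ρ := ρ) (ok_tv d.iv h.1 (map_zero σ)), ?_⟩
    obtain e | e := two (hf σ w n) (CharTwo.add_eq_zero.1 e).symm
    · simp [e, bb, mul_assoc, c2]
    · have := cm 0 1 1 1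
      simp only [zero_smul, one_smul, zero_add] at this
      simp [e, bb, CharTwo.add_self_eq_zero, this.eq, mul_assoc, c2]
  obtain ⟨b, hb, j⟩ := d.y5 c ci (map_one σ) f e h
  refine ⟨_, ⟨b, ⟨d.iv, h.1, by simp [h.4], by simp [h.2, hb, CharTwo.add_self_eq_zero]⟩, _, mem_zpowers _, rfl⟩, ?_⟩
  rw [j, e, bb, mul_assoc (y _) (y v), c2]; group
omit hv in
theorem q2 : False := by
  obtain ⟨v, w, ip⟩ := d.ex_ip
  obtain ⟨e, w', v', F⟩ := d.fm_ip ip
  obtain ⟨ω, o⟩ := d.om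
  have w0 : ω ≠ 0 := by rintro rfl; simp at o
  have ip' : Ip σ v (ω • w') := by simpa using F.rev.ip.comb (a := 1) (b := 0) (a' := 0) (b' := ω) (by simpa using w0)
  obtain ⟨x, hx⟩ : ∃ x, x = w + ω • w' := ⟨_, rfl⟩
  obtain ⟨g, hg⟩ : ∃ g, g = bb y v w * bb y v (ω • w') * bb y v w := ⟨_, rfl⟩
  have h1 : ∀ n a, Rq ρ y v n a → Rq ρ y v (n + (hf σ x n + hf σ n x) • x) (g⁻¹ * a * g) := fun n a i => by
    convert d.rq_b c ci f two ip (d.rq_b c ci f two ip' (d.rq_b c ci f two ip i)) using 1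
    · have := d.sy w n; have := d.sy n w; have := d.sy w' n; have := d.sy n w'; have := d.iv ω
      simp only [hx, hf_add_l, hf_add_r, hf_smul_l, hf_smul_r, F.h, map_add, map_mul, *]
      match_scalars <;> grind
    · rw [hg]; group
  have tb : ∀ w, Ip σ v w → (bb y v w)⁻¹ * t * bb y v w = t * up ρ (E σ v w 0) := fun w i => by
    simpa using ((d.ab2 c.toCS i).inv (d.lmb c ci i.ti (fun z => i.u0 (by simpa [z] using mem_l v w)) (mem_l v w) (mem_r v w))).e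
  have h2 : ∃ s, Rq ρ y v 0 s ∧ g⁻¹ * t * g = t * s := by
    have r := fun w (i : Ip σ v w) => rq_E (y := y) (ρ := ρ) (ok_iso d.iv i.1 i.2 i.4)
    have k := d.rq_mul c ip.1 (r w ip) (d.rq_b c ci f two ip (d.rq_mul c ip.1 (r _ ip') (d.rq_b c ci f two ip' (r w ip))))
    refine ⟨_, by
      convert k using 1
      have := d.iv ω
      simp only [hf_add_l, hf_add_r, hf_smul_l, hf_smul_r, F.h, map_add, map_mul, *]
      match_scalars <;> grind, ?_⟩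
    · rw [← mul_assoc t, ← tb w ip, show ∀ a b : X, b⁻¹ * t * b * (b⁻¹ * a * b) = b⁻¹ * (t * a) * b from fun _ _ => by group,
        ← mul_assoc t, ← tb _ ip', show ∀ a b : X, b⁻¹ * t * b * (b⁻¹ * a * b) = b⁻¹ * (t * a) * b from fun _ _ => by group, ← tb w ip, hg]
      group
  obtain ⟨_, ⟨b, ob, s, ks, rfl⟩, h2⟩ := h2
  have xx : hf σ x x = 1 := by simp [hx, F.h, add_comm, o]
  have li : ∀ x, hf σ x x = 1 → LinearIndependent K ![v, x] := fun x e => li_two ip.u0 fun i => by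
    obtain ⟨a, rfl⟩ := Submodule.mem_span_singleton.1 i; simp [ip.1] at e
  obtain ⟨p, i, p1, p2⟩ := d.witt2 (li x xx) (li e (by simp [F.h])) rfl (by simp [xx, F.h]) (by simp [hx, F.h])
  have sp := su_sem i
  have kt : g * up ρ p * g⁻¹ ∈ 𝐂₁(t) := mem_c1.2 (conj_eq_iff.1 (by
    rw [show g * up ρ p * g⁻¹ * t * (g * up ρ p * g⁻¹)⁻¹ = g * (up ρ p * (g⁻¹ * t * g) * (up ρ p)⁻¹) * g⁻¹ by group, h2, conj_mul_conj (up ρ p),
      conj_mul_conj (up ρ p), tv_cm c.cm, ← up_cj i (tv_SU _ _), tv_cj1 sp, p1, rq_zc c ip.1 ks i p1, mul_inv_cancel_right,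
      mul_inv_cancel_right, ← h2]; group))
  obtain ⟨ξ, ⟨θ, sx⟩, j⟩ := d.ind_of c.ker (c.ct kt)
  have gy : Commute (y v) g := by
    have := fun w (i : Ip σ v w) => d.bcm c ci i.ti (mem_l v w) (mem_r v w) (mem_l v w)
    exact hg ▸ ((this _ ip).mul_right (this _ ip')).mul_right (this _ ip)
  have ky : Commute (y v) (g * up ρ p * g⁻¹) := (gy.mul_right (rq_zc c ip.1 (mem_zpowers _) i p1).symm).mul_right gy.inv_right
  obtain ⟨r, r1, r2⟩ := d.tv_fix sx ip.1 ip.u0 (icm d c.ker sx j (tv_SU _ _) (e2_E ..) (by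
    have := (ky.mul_left ky).eq; rw [f v ip.1] at this; exact this.symm))
  have key : ∀ n, hf σ n v = 0 → ∃ a b : K, p (n + (hf σ x n + hf σ n x) • x) = σ r • ξ n + a • x + b • v := fun n e => by
    obtain ⟨ζ, o⟩ := d.ok ip.1 e
    obtain ⟨o', k⟩ := d.E_eig sx r1 r2 o
    have a1 := h1 _ _ (rq_E o')
    rw [← k, ← j _ (d.E_SU _ _ _), show ∀ a : X, g⁻¹ * (g * up ρ p * g⁻¹ * a * (g * up ρ p * g⁻¹)⁻¹) * g =
      up ρ p * (g⁻¹ * a * g) * (up ρ p)⁻¹ from fun _ => by group] at a1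
    obtain ⟨b, k⟩ := d.rq_inj c ip.1 ip.u0 a1 (d.rq_cj c ip.1 i p1 (h1 _ _ (rq_E o)))
    exact ⟨_, b, k⟩
  have xe : hf σ x e = 0 := by simp [hx, F.h]
  have xv : hf σ x v = 0 := by simp [hx, F.h]
  have th : θ ω = ω + 1 := by
    obtain ⟨_, _, a1⟩ := key x xv
    obtain ⟨_, _, a2⟩ := key (ω • x) (by simp [xv])
    have a1 := congrArg (hf σ · e) a1
    have a2 := congrArg (hf σ · e) a2
    simp only [sp.add, sp.smul1, sx.smul, p2, hf_add_l, hf_add_r, hf_smul_l, hf_smul_r, xx, xe, F.h] at a1 a2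
    grind
  have pl : ∀ n, hf σ n v = 0 → hf σ n x = 0 → ∃ a b : K, p n = a • x + b • v := fun n e e' => by
    obtain ⟨a, b, a1⟩ := key n e
    obtain ⟨a', b', a2⟩ := key (ω • n) (by simp [e])
    simp only [sp.smul1, sx.smul, hf_smul_l, hf_smul_r, e', d.sw e', mul_zero, add_zero, zero_smul, th] at a1 a2
    exact ⟨(ω + 1) * a - a', (ω + 1) * b - b', by linear_combination (norm := module) (ω + 1) • a1 - a2⟩
  obtain ⟨a, b, a1⟩ := pl e (by simp [F.h]) (d.sw xe)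
  obtain ⟨a', b', a2⟩ := pl (w + σ ω • w') (by simp [F.h]) (by simp [hx, F.h, CharTwo.add_self_eq_zero])
  have b1 := sp.form1 e e
  have b2 := sp.form1 (w + σ ω • w') (w + σ ω • w')
  have b3 := sp.form1 e (w + σ ω • w')
  simp only [a1, a2, hf_add_l, hf_add_r, hf_smul_l, hf_smul_r, xx, xv, d.sw xv, F.h, d.iv ω] at b1 b2 b3
  grind
end Dm

end CF.U5
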