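import Cfsg.Agent.U5.D2
import Cfsg.Agent.Ab2.Hy

/-! Data for the split endgame. -/

set_option autoImplicit false
set_option linter.unusedSectionVars false
set_option linter.unusedVariables false

namespace CF.U5

open Subgroup Equiv CF.Geom Module CF.Loc CF.LX CF.Dbl
open scoped commutatorElement

variable {K : Type} [Field K] [Fintype K] [CharP K 2] {m q : ℕ} {σ θ : K ≃+* K} {a b c ζ ζ' : K}
  {g p k ξ w : Perm (Fin m → K)} {u v x y e n n' u' v' : Fin m → K} {T T' S : Submodule K (Fin m → K)}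
  {H P O : Subgroup (Perm (Fin m → K))} {G : Type*} [Group G]

theorem card_sub (T : Submodule K (Fin m → K)) : Nat.card T = Nat.card K ^ finrank K T := Module.natCard_eq_pow_finrank
theorem odd_two {A : Type*} [Group A] {O : Subgroup A} {x : A} (o : Odd (Nat.card O)) (i : x ∈ O) (e : E2 x) : x = 1 :=
  e.odd o (congrArg Subtype.val (pow_card_eq_one' (x := (⟨x, i⟩ : O))))
theorem five {M : Type*} [CommGroup M] {A B : Subgroup M} (e : A ⊓ B = ⊥) (a : Fin 5 → M) (l : ∀ i, a i ∈ A ∨ a i ∈ B)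
    (p : ∏ i, a i = 1) (n : ∀ i, a i ≠ 1) (n' : ∀ i j, i ≠ j → a i * a j ≠ 1) : (∀ i, a i ∈ A) ∨ ∀ i, a i ∈ B := by
  classical
  have k : ∀ J : Finset (Fin 5), J.card ≤ 2 → ∏ i ∈ J, a i = 1 → J = ∅ := fun J c h => by
    obtain c | c | c : J.card = 0 ∨ J.card = 1 ∨ J.card = 2 := by omega
    · exact Finset.card_eq_zero.1 c
    · obtain ⟨i, rfl⟩ := Finset.card_eq_one.1 c; exact absurd (by simpa using h) (n i)
    · obtain ⟨i, j, c', rfl⟩ := Finset.card_eq_two.1 c; exact absurd (by rwa [Finset.prod_pair c'] at h) (n' i j c')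
  have h1 := Finset.prod_filter_mul_prod_filter_not Finset.univ (fun i => a i ∈ A) a
  have h2 := Finset.card_filter_add_card_filter_not (s := Finset.univ) (fun i => a i ∈ A)
  have h3 := A.prod_mem (t := Finset.univ.filter fun i => a i ∈ A) (f := a) fun i h => by simpa using h
  have h4 := B.prod_mem (t := Finset.univ.filter fun i => ¬ a i ∈ A) (f := a) fun i h => (l i).resolve_left (by simpa using h)
  rw [p, mul_eq_one_iff_eq_inv] at h1
  have h5 := mem_bot.1 (e.le (mem_inf.2 ⟨h3, h1 ▸ inv_mem h4⟩))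
  simp only [Finset.card_univ, Fintype.card_fin] at h2
  by_cases c : (Finset.univ.filter fun i => a i ∈ A).card ≤ 2
  · exact .inr fun i => (l i).resolve_left (by simpa using Finset.filter_eq_empty_iff.1 (k _ c h5) (Finset.mem_univ i))
  · exact .inl fun i => by
      simpa using Finset.filter_eq_empty_iff.1 (k _ (by omega) (inv_eq_one.1 (h1.symm.trans h5))) (Finset.mem_univ i)

namespace Dm
variable (d : Dm σ q m)
include d
theorem Q_cj (l : Sem σ θ ξ) (hv : hf σ v v = 0) (v0 : v ≠ 0) (e : ξ v = c • v) (i : g ∈ Q σ v) : ξ * g * ξ⁻¹ ∈ Q σ v := by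
  obtain ⟨n, ζ, o, rfl⟩ := (mem_Q d.iv hv).1 i
  have o' := o.cj l
  have c0 : σ c ≠ 0 := fun z => l.ne v0 (by simp [e, (map_eq_zero σ).1 z])
  rw [e] at o'
  rw [E_cj l, e, E_smul o' hv (by simpa [c0] using o'.nv)]; exact E_Q _ _ _
theorem Q_nor (l : Sem σ θ ξ) (hv : hf σ v v = 0) (v0 : v ≠ 0) (e : ξ v = c • v) : ξ ∈ 𝐍(Q σ v) :=
  mem_normalizer_fintype fun _ => d.Q_cj l hv v0 e
theorem Y_nor (hv : hf σ v v = 0) (v0 : v ≠ 0) : Y σ v ≤ 𝐍(Q σ v) := fun g i =>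
  d.Q_nor (su_sem i.1) hv v0 (c := 1) (i.2.trans (one_smul ..).symm)
theorem Q_two (hv : hf σ v v = 0) : IsPGroup 2 (Q σ v) := isPGroup_iff_forall.2 fun g i => by
  obtain ⟨n, ζ, o, rfl⟩ := (mem_Q d.iv hv).1 i
  exact ⟨2, by rw [show 2 ^ 2 = 2 * 2 from rfl, pow_mul, pow_two, pow_two, E_sq o, tv_sq]⟩
theorem Q_fix (hv : hf σ v v = 0) (hy : hf σ y y = 0) (e : hf σ y v = 1) (i : k ∈ Q σ v) (f : k y = y) : k = 1 := by
  refine d.ext_hyp hv hy e (Q_sem i) sem_one (d.Q_Y i).2 f fun x a b => ?_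
  have := (Q_sem i).form1 x y
  obtain ⟨n, ζ, o, rfl⟩ := (mem_Q d.iv hv).1 i
  rw [f, b, E_ap o] at this
  simp [a, b, ← d.sy y v, e] at this
  simp [E_ap o, a, this]
theorem Z_cent (hv : hf σ v v = 0) : Y σ v ≤ 𝐂(Z σ v) := fun g i => d.W_line hv ▸ d.toFd.W_cent (su_sem i.1) fun x k => by
  obtain ⟨c, rfl⟩ := Submodule.mem_span_singleton.1 k
  rw [(su_sem i.1).smul1, show g v = v from i.2]
theorem W_ab (l : Ti σ T) : WX σ T ≤ 𝐂(WX σ T) := fun w i => d.toFd.W_cent i.1 fun x j => W_fix i (l x j)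
theorem W_two (l : Ti σ T) : IsPGroup 2 (WX σ T) := isPGroup_iff_forall.2 fun g i => e2_inv (W_sq l i)
theorem cz (e : σ a = a) : ∃ g ∈ Q σ (bv 0 : Fin m → K), ∃ p ∈ Q σ (bv 0 : Fin m → K), g * g = 1 ∧ E σ (bv 0) 0 a = ⁅g, p⁆ := by
  obtain ⟨n, n', h, -, -, k, -, -, f⟩ := d.tv_comm d.b00 e (bv 0) nip_self
  exact ⟨_, E_Q _ _ _, _, E_Q _ _ _, by rw [E_sq (ok_iso d.iv d.b00 h k), h, E_zero], f⟩
theorem b2p (hx : x ∈ Vf K m (m / 2)) : hf σ x (bv 2) = 0 := by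
  obtain ⟨_, _, rfl⟩ := d.mem_Vl.1 hx; simp [d.fm0.h]
theorem W_der : WW σ m ≤ ⁅UT σ m ⊓ 𝐂(WW σ m), UT σ m ⊓ 𝐂(WW σ m)⁆ := d.W_gen (Vf_ti le_rfl) fun v hv => by
  obtain ⟨ω, o⟩ := d.om
  have k : ∀ c ζ : K, E σ v (c • bv 2) ζ ∈ UT σ m ⊓ 𝐂(WW σ m) := fun c ζ => d.E_UC hv (fun x i => by simp [d.b2p i]) ζ
  have vv := Vf_ti (σ := σ) le_rfl v hv v hv
  obtain ⟨ζ, o1⟩ := d.ok vv (n := ω • (bv 2 : Fin m → K)) (by simp [d.sw (d.b2p hv)])
  obtain ⟨ζ', o2⟩ := d.ok vv (n := (1 : K) • (bv 2 : Fin m → K)) (by simp [d.sw (d.b2p hv)])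
  have := commutator_mem_commutator (k ω ζ) (k 1 ζ')
  rw [E_comm o1 o2] at this; simpa [d.fm0.h, o] using this
theorem zd1 : E σ (bv 1 : Fin m → K) 0 1 ∈ ⁅UT σ m, UT σ m⁆ :=
  commutator_mono inf_le_left inf_le_left (d.W_der (E_W d.b1V (zero_mem _) _))
theorem sc_pow (s : Sem σ 1 g) (e : ∀ x, g x = c • w x) (l : Sem σ 1 w) (n : ℕ) (x : Fin m → K) : (g ^ n) x = c ^ n • (w ^ n) x := by
  induction n with
  | zero => simp
  | succ n ih => rw [pow_succ', pow_succ', pow_succ', Perm.mul_apply, ih, e, l.smul1, smul_smul]; rfl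
theorem sc_odd2 (s : Sem σ 1 g) (e : ∀ x, g x = c • w x) (l : Sem σ 1 w) (w2 : w * w = 1) (f : w v = v) (v0 : v ≠ 0) {n : ℕ}
    (o : Odd n) (h : g ^ n = 1) : w = 1 := by
  obtain ⟨k, rfl⟩ := o
  have := d.sc_pow s e l (2 * k + 1)
  rw [h, pow_succ w, pow_mul w, pow_two w, w2, one_pow, one_mul] at this
  exact (d.sc_W rfl f v0 this).symm
theorem five_W (hu : u ∈ T) (hv : v ∈ T) (l : Ti σ T) (r : LinearIndependent K ![u, v]) : ∃ a : Fin 5 → Fin m → K, a 0 = v ∧ a 4 = u ∧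
    (∀ i, a i ∈ T) ∧ (∀ i, a i ≠ 0) ∧ (∀ i j, i ≠ j → ∀ c : K, a j ≠ c • a i) ∧
    E σ (a 0) 0 1 * E σ (a 1) 0 1 * E σ (a 2) 0 1 * E σ (a 3) 0 1 * E σ (a 4) 0 1 = 1 := by
  obtain ⟨ω, o⟩ := d.om
  let s : Fin 5 → K := ![0, 1, ω, σ ω, 1]
  let t : Fin 5 → K := ![1, 1, 1, 1, 0]
  have := d.iv ω
  have : ω ≠ 0 := fun e => by simp [e] at o
  have : ω ≠ 1 := fun e => by simp [e, CharTwo.add_self_eq_zero] at o
  refine ⟨fun i => s i • u + t i • v, by simp [s, t], by simp [s, t], fun i => add_mem (T.smul_mem _ hu) (T.smul_mem _ hv),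
    fun i e => ?_, fun i j n c e => ?_, ?_⟩
  · have := LinearIndependent.pair_iff.1 r _ _ e
    fin_cases i <;> simp [s, t] at this
  · rw [smul_add, smul_smul, smul_smul] at e
    have := li_eq r e
    fin_cases i <;> fin_cases j <;> simp [s, t] at this n <;> grind
  · simp [s, t, tv_five d.iv (l u hu u hu) (l v hv v hv) (l u hu v hv) (map_one σ) o, tv_sq]
theorem sg (l : O ≤ SU σ m) (o : Odd (Nat.card O)) (n : UT σ m ≤ 𝐍(O)) : ∀ g ∈ O, Sc g := by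
  have t := Vf_ti (σ := σ) (m := m) le_rfl
  have cq : ∀ g ∈ O, ∀ v (c : K), hf σ v v = 0 → v ≠ 0 → g v = c • v → ∀ k ∈ Q σ v, k ∈ UT σ m → g * k = k * g :=
    fun g i v c a b e k j j' => commutatorElement_eq_one_iff_mul_comm.1 (odd_two o (by
      simpa only [commutatorElement_def, mul_assoc] using mul_mem i ((mem_normalizer_iff.1 (n j') _).1 (inv_mem i)))
      (e2_of (d.Q_two a) (mul_mem (d.Q_cj (su_sem (l i)) a b e j) (inv_mem j))))
  have po : ∀ g ∈ O, g ^ Nat.card O = 1 := fun g i => congrArg Subtype.val (pow_card_eq_one' (x := (⟨g, i⟩ : O)))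
  have cw : O ≤ 𝐂(WW σ m) := Ab2.le_of_hyp (BG.Abelem.mk' Nat.prime_two (d.W_ab t) fun a i => (pow_two a).trans (W_sq t i))
    (fun e => d.tv_ne d.b00 d.b0 (map_one σ) one_ne_zero (mem_bot.1 (e.le (E_W d.b0V (zero_mem _) 1)))) (d.W_le.trans n)
    (Bender.pi_of_odd o) fun D hD g ⟨i, j⟩ => by
    obtain ⟨v, a, v0, b⟩ : ∃ v ∈ Vf K m (m / 2), v ≠ 0 ∧ E σ v 0 1 ∈ D := by
      by_contra! z
      obtain ⟨u, a, v, b, r⟩ := exists_li (T := Vf K m (m / 2)) (by have := d.l3; have := d.Vl_dim; omega)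
      obtain ⟨a, -, -, h1, h2, -, h3⟩ := d.five_W a b t r
      have k := fun i j => hD.mul_mem (E_W (σ := σ) (h1 i) (zero_mem _) 1) (E_W (h1 j) (zero_mem _) 1) (z _ (h1 i) (h2 i)) (z _ (h1 j) (h2 j))
      rw [mul_eq_one_iff_eq_inv, mul_assoc] at h3
      exact z _ (h1 4) (h2 4) (inv_mem_iff.1 (h3 ▸ mul_mem (k 0 1) (k 2 3)))
    have s := su_sem (l i)
    obtain ⟨c, h1, h2⟩ := d.tv_fix s (t v a v a) v0 (mem_centralizer_iff'.1 j _ b).symm
    have h3 : σ c * σ (σ c) = 1 := by rw [d.iv, mul_comm, h2]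
    obtain ⟨g', hg⟩ : ∃ g', g' = sm _ h3 * g := ⟨_, rfl⟩
    have e : ∀ x, g x = c • g' x := fun x => by simp [hg, sm_ap, smul_smul, h2]
    have s' : Sem σ 1 g' := hg ▸ (sm_sem h3).mul1 s
    have f : g' v = v := by simp [hg, sm_ap, h1, smul_smul, mul_comm, h2]
    have k : ∀ y ∈ Vf K m (m / 2), ∃ a : K, g' y = y + a • v := fun y b => by
      have ok := ok_iso d.iv (t v a v a) (t y b y b) (t y b v a)
      obtain ⟨o', r⟩ := d.E_eig s h1 h2 ok
      exact (d.E_inj ok o' v0 ((conj_eq_iff.2 (cq g i v c ok.vv v0 h1 _ (E_Q _ _ _) (d.W_le (E_W a b _)))).symm.trans r)).imp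
        fun _ k => hg ▸ k.1
    have k' : ∀ y ∈ Vf K m (m / 2), g' y = y := fun y b => by
      obtain ⟨x, r⟩ := k y b
      have : ∀ n : ℕ, (g' ^ n) y = y + ((n : K) * x) • v ∧ (g' ^ n) v = v := fun n => by
        induction n with
        | zero => simp
        | succ n ih => rw [pow_succ', Perm.mul_apply, Perm.mul_apply, ih.1, ih.2, s'.add, s'.smul1, r, f]; simp [add_mul, add_smul]; abel
      have p := d.sc_pow s e s' (Nat.card O)
      have p1 := p v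
      rw [po g i, (this _).2] at p1
      have p2 := p y
      rw [po g i, (this _).1, ← smul_left_injective K v0 ((one_smul K v).trans p1), CharTwo.natCast_eq_ite, if_neg (by simpa using o),
        one_smul, one_mul] at p2
      exact r.trans p2.symm
    refine mem_centralizer_iff'.2 fun w j => ?_
    rw [show g = sm _ h2 * g' from Equiv.ext e, ← mul_assoc, ← sc_comm ⟨c, sm_ap h2⟩ j.1, mul_assoc,
      mem_centralizer_iff'.1 (d.toFd.W_cent s' k') w j, mul_assoc]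
  intro g i
  have s := su_sem (l i)
  obtain ⟨c, h1, -⟩ := d.tv_fix s d.b00 d.b0 (mem_centralizer_iff'.1 (cw i) _ (E_W d.b0V (zero_mem _) 1)).symm
  obtain ⟨c, w, a, -, b⟩ := d.cQ0 d.b00 d.b0 ⟨_, s⟩ (mem_centralizer_iff'.2 fun k j => (cq g i _ c d.b00 d.b0 h1 k j (d.Q_le j)).symm)
  exact ⟨c, by simpa [d.sc_odd2 s b (Q_sem (Z_le_Q a)) (d.Z_sq d.b00 a) (d.Q_Y (Z_le_Q a)).2 d.b0 o (po g i)] using b⟩
theorem cn5 {f : WW σ m →* G} (i : Function.Injective f) {S₁ S₂ : Subgroup G} (c : S₁ ≤ 𝐂(S₂)) (e : S₁ ⊓ S₂ = ⊥)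
    (l : ∀ v ∈ Vf K m (m / 2), up f (E σ v 0 1) ∈ S₁ ∨ up f (E σ v 0 1) ∈ S₂) : f.range ≤ S₁ ∨ f.range ≤ S₂ := by
  have t := Vf_ti (σ := σ) (m := m) le_rfl
  letI : CommGroup (WW σ m) := ⟨fun a b => Subtype.ext (mem_centralizer_iff'.1 (d.W_ab t b.2) _ a.2)⟩
  have key : ∀ {S₁ S₂ : Subgroup G}, S₁ ⊓ S₂ = ⊥ → (∀ v ∈ Vf K m (m / 2), up f (E σ v 0 1) ∈ S₁ ∨ up f (E σ v 0 1) ∈ S₂) →
      up f (E σ (bv 0) 0 1) ∈ S₁ → f.range ≤ S₁ := fun {S₁ S₂} e l h => by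
    have k : ∀ u ∈ Vf K m (m / 2), ∀ v ∈ Vf K m (m / 2), LinearIndependent K ![u, v] → up f (E σ u 0 1) ∈ S₁ →
        up f (E σ v 0 1) ∈ S₁ := fun u a v b r h => by
      obtain ⟨a, h0, h4, h1, h2, h3, h5⟩ := d.five_W a b t r
      have w := fun i => E_W (σ := σ) (h1 i) (zero_mem _) 1
      have ne := fun i => d.tv_ne (t _ (h1 i) _ (h1 i)) (h2 i) (map_one σ) one_ne_zero
      rcases five (A := S₁.comap f) (B := S₂.comap f) (by rw [← comap_inf, e, MonoidHom.comap_bot, (f.ker_eq_bot_iff).2 i])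
        (fun i => ⟨_, w i⟩) (fun i => by simpa [up_eq (w i)] using l _ (h1 i)) (Subtype.ext (by simpa [Fin.prod_univ_five] using h5))
        (fun i e => ne i (congrArg Subtype.val e)) (fun i j n e => by
          have := (mul_eq_one_iff_eq_inv.1 (congrArg Subtype.val e)).trans (inv_eq_of_mul_eq_one_left (tv_sq _ _))
          obtain ⟨c, k, -⟩ := d.tv_inj (t _ (h1 i) _ (h1 i)) (t _ (h1 j) _ (h1 j)) (map_one σ) (map_one σ) one_ne_zero (h2 i) this
          exact h3 i j n c k) with z | z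
      · rw [← h0, up_eq (w 0)]; exact z 0
      · rw [← h4, up_eq (w 4)] at h
        exact absurd (congrArg Subtype.val (i ((mem_bot.1 (e.le ⟨h, z 4⟩)).trans f.map_one.symm))) (ne 4)
    have : WW σ m ≤ (S₁.comap f).map (WW σ m).subtype := d.W_gen t fun v a => ⟨⟨_, E_W a (zero_mem _) 1⟩, by
      change f _ ∈ S₁
      rw [← up_eq]
      by_cases v0 : v = 0
      · simp [v0, E_zero_v]
      rcases d.ip_or d.b00 d.b0 (t v a v a) (t v a _ d.b0V) with ⟨c, rfl⟩ | r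
      · exact k _ d.b1V _ a (by simpa using (d.fm0.ip.comb (a := 0) (b := 1) (a' := c) (b' := 0) (by simpa [eq_comm, d.b0] using v0)).li)
          (k _ d.b0V _ d.b1V d.fm0.ip.li h)
      · exact k _ d.b0V v a r.li h, rfl⟩
    rintro _ ⟨w, rfl⟩
    obtain ⟨_, a, b⟩ := this w.2
    exact Subtype.ext b ▸ a
  exact (l _ d.b0V).imp (key e l) (key (inf_comm S₁ S₂ ▸ e) fun v a => (l v a).symm)
theorem Z_W : Z σ (bv 0) ≤ WW σ m := (closure_le _).2 fun _ ⟨_, e⟩ => e ▸ E_W d.b0V (zero_mem _) _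
end Dm

end CF.U5
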