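import Cfsg.Agent.U5.D2
import Cfsg.Agent.U5.B2
import Cfsg.Agent.Dbl.PG2

/-! Standard unitary subgroups: basic tools for the split case, construction of the two factors. -/

set_option autoImplicit false
set_option linter.unusedSectionVars false

namespace CF.U5

open Cfsg Subgroup Equiv CF.Loc CF.LX CF.Dbl Module
open scoped commutatorElement

namespace Sx
section gen
variable {A B : Type*} [Group A] [Group B]

theorem lift_e2 [Finite A] [Finite B] (f : A →* B) (a : A) (e : E2 (f a)) : ∃ b, E2 b ∧ f b = f a := by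
  obtain ⟨r, o, p⟩ := Ie.ex_odd' a
  obtain ⟨j, e⟩ := e
  obtain ⟨s, h⟩ := exists_pow_eq_self_of_coprime (x := f a) (n := r)
    (((Nat.coprime_two_right.2 o).pow_right j).coprime_dvd_right (orderOf_dvd_of_pow_eq_one e))
  exact ⟨(a ^ r) ^ s, e2_of p (pow_mem (mem_zpowers _) s), by simpa using h⟩

theorem syl_norm [Finite A] {L R : Subgroup A} (two : IsPGroup 2 R) (n : R ≤ 𝐍(L)) : ∃ U, IsSyl 2 U L ∧ R ≤ 𝐍(U) := by
  obtain ⟨T, s, l⟩ := exists_isSyl_ge two (le_sup_right : R ≤ L ⊔ R)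
  exact ⟨_, s.inf_of_le_normalizer le_sup_left (sup_le le_normalizer n), le_normalizer_inf (l.trans le_normalizer) n⟩

theorem cj_norm [Finite A] {U L R : Subgroup A} (s : IsSyl 2 U L) (two : IsPGroup 2 R) (n : R ≤ 𝐍(L)) :
    ∃ g ∈ L, cj[g] R ≤ 𝐍(U) := by
  obtain ⟨T, s', l⟩ := syl_norm two n
  obtain ⟨g, i, rfl⟩ := s'.conj s
  exact ⟨g, i, cj_normalizer g T ▸ cj_mono g l⟩

variable {H P C E : Subgroup A}

theorem card_im {φ : H →* B} (l : P ≤ H) (i : ∀ g ∈ P, up φ g = 1 → g = 1) : Nat.card (im φ P) = Nat.card P := by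
  rw [im, ← relIndex_ker, ← Nat.card_congr (subgroupOfEquivOfLe l).toEquiv, ← relIndex_bot_left, ← inf_relIndex_right]
  congr 1
  exact eq_bot_iff.2 fun x ⟨a, b⟩ => Subtype.ext (i x b ((up_coe x).trans a))

theorem card_im' {φ : H →* B} (l : E ≤ H) (i : ∀ r, φ r = 1 ↔ r.1 ∈ C) : Nat.card (im φ E) = (E ⊓ C).relIndex E := by
  rw [im, ← relIndex_ker, inf_relIndex_left, ← relIndex_subgroupOf l]
  congr 1
  exact Subgroup.ext i

theorem el_im {φ : H →* B} (e : El E) : El (im φ E) := fun x h => by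
  obtain ⟨g, a, b, rfl⟩ := mem_im.1 h
  rw [← up_mul b b, e g a, up_one]

theorem im_mono {φ : H →* B} (l : P ≤ E) : im φ P ≤ im φ E := map_mono fun _ h => l h

theorem two_im {φ : H →* B} (e : IsPGroup 2 P) : IsPGroup 2 (im φ P) := (isPGroup_subgroupOf e).map _

theorem im_comm {φ : H →* B} (a : P ≤ H) (b : E ≤ H) : im φ ⁅P, E⁆ = ⁅im φ P, im φ E⁆ := by
  rw [im, im, im, ← Subgroup.map_commutator]
  congr 1
  apply map_injective H.subtype_injective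
  rw [Subgroup.map_commutator, map_subgroupOf_eq_of_le a, map_subgroupOf_eq_of_le b,
    map_subgroupOf_eq_of_le ((commutator_le_sup _ _).trans (sup_le a b))]

end gen

variable {K : Type} [Field K] [Fintype K] [CharP K 2] {m : ℕ} {σ : K ≃+* K} {G : Type*} [Group G]
  {ρ ρ₁ : SU σ m →* G} {t h : G}

/-- a conjugate representation -/
abbrev ch (h : G) (ρ : SU σ m →* G) : SU σ m →* G := (MulAut.conj h).toMonoidHom.comp ρ

theorem up_ch (g : Perm (Fin m → K)) : up (ch h ρ) g = h * up ρ g * h⁻¹ := up_comp _ g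
theorem ch_range : (ch h ρ).range = cj[h] ρ.range := (MonoidHom.map_range _ _).symm
theorem ti (t2 : t * t = 1) : t⁻¹ = t := inv_eq_of_mul_eq_one_right t2
theorem cjtt (t2 : t * t = 1) (X : Subgroup G) : cj[t] (cj[t] X) = X := by rw [← cj_mul, t2, cj_one]

theorem sp_up (e : Sp1 ρ ρ₁ t) (g : Perm (Fin m → K)) : up ρ g = up ρ₁ g * (t * up ρ₁ g * t) ∨ g ∉ SU σ m := by
  by_cases h : g ∈ SU σ m
  · left; rw [up_eq h, up_eq h]; exact e.pr _
  · exact .inr h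

theorem sp_cm (t2 : t * t = 1) (e : Sp1 ρ ρ₁ t) : ρ₁.range ≤ 𝐂(cj[t] ρ₁.range) := by
  rintro _ ⟨g, rfl⟩ _ ⟨_, ⟨g', rfl⟩, rfl⟩
  simpa [ti t2] using (e.cm g g').symm

theorem sp_sym (t2 : t * t = 1) (e : Sp1 ρ ρ₁ t) : Sp1 ρ (ch t ρ₁) t := by
  have k : ∀ x : G, t * (t * x * t⁻¹) * t = x := fun x => by simp [← mul_assoc, t2]
  constructor
  · intro g g'
    change t * ρ₁ g * t⁻¹ * (t * (t * ρ₁ g' * t⁻¹) * t) = t * (t * ρ₁ g' * t⁻¹) * t * (t * ρ₁ g * t⁻¹)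
    rw [k, ti t2, e.cm]
  · intro g
    change _ = t * ρ₁ g * t⁻¹ * (t * (t * ρ₁ g * t⁻¹) * t)
    rw [k, ti t2, ← e.cm, e.pr]

theorem sp_ker (f : Fr ρ t) (e : Sp1 ρ ρ₁ t) : Ker ρ₁ := fun g i h =>
  f.ker g i (by rw [(sp_up e g).resolve_right (not_not.2 i), h]; simp [f.t2])

theorem sp_le (t2 : t * t = 1) (e : Sp1 ρ ρ₁ t) : ρ.range ≤ ρ₁.range ⊔ cj[t] ρ₁.range := by
  rintro _ ⟨g, rfl⟩
  rw [e.pr]
  exact mul_mem (mem_sup_left ⟨g, rfl⟩) (mem_sup_right (by simpa [ti t2] using conj_mem_cj (H := ρ₁.range) t ⟨g, rfl⟩))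

theorem e2_E (v n : Fin m → K) (a : K) : E2 (E σ v n a) := by
  by_cases o : Ok σ v n a
  · exact ⟨2, by rw [show 2 ^ 2 = 2 + 2 from rfl, pow_add, pow_two, E_sq o, tv_sq]⟩
  · exact ⟨0, by simp [E_junk o]⟩

end Sx

open Sx

variable {K : Type} [Field K] [Fintype K] [CharP K 2] {m q : ℕ} {σ θ : K ≃+* K} {a b c : K}
  {g ξ α p w : Perm (Fin m → K)} {u v : Fin m → K} {A B P H O : Subgroup (Perm (Fin m → K))}
  {G X : Type*} [Group G] [Finite G] [Group X] [Finite X] {ρ ρ₁ ρ₂ : SU σ m →* G} {ρ' : SU σ m →* X} {t h : G} {s : X}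
  {F N : Subgroup G} {π : N →* X}

namespace Dm
variable (d : Dm σ q m)
include d

theorem s_ker2 (k : Ker ρ) (i : g ∈ SU σ m) (j : p ∈ SU σ m) (e2 : E2 g) (e2' : E2 p) (e : up ρ g = up ρ p) : g = p := by
  have l := mul_mem i (inv_mem j)
  have o : up ρ (g * p⁻¹) = 1 := by rw [up_mul i (inv_mem j), up_inv j, e, mul_inv_cancel]
  have c := sc_comm (k _ l o) (su_sem (inv_mem j))
  exact mul_inv_eq_one.1 (d.ker_sc k l o (e2.mul e2'.inv (by
    rw [← mul_assoc] at c; exact mul_right_cancel c)))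

omit d in
theorem s_lift (i : h ∈ ρ.range) (e : E2 h) : ∃ g ∈ SU σ m, E2 g ∧ up ρ g = h := by
  obtain ⟨g, rfl⟩ := i
  obtain ⟨b, e, f⟩ := lift_e2 ρ g e
  exact ⟨b, b.2, e.map (SU σ m).subtype, (up_coe b).trans f⟩

theorem s_cen2 (k : Ker ρ) (i : h ∈ ρ.range) (c : h ∈ 𝐂(ρ.range)) (e : E2 h) : h = 1 := by
  obtain ⟨g, j, e', rfl⟩ := s_lift i e
  rw [d.sc_two (GU_le (SU_le j)) ((d.cen_iff k j).1 c) e', up_one]

theorem s_lin (k : Ker ρ) (l : Sem σ θ ξ) (i : Ind ρ h ξ) (e : h ∈ ρ.range ⊔ 𝐂(ρ.range)) : θ = 1 := by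
  obtain ⟨_, a, c, b, rfl⟩ := (mem_sup_of_le_normalizer (centralizer_le_normalizer _)).1 e
  obtain ⟨g, j, rfl⟩ := mem_range_up.1 a
  exact (d.ind_uq k l ((su_sem j).mul1 sem_one) i ((ind_up j).mul sem_one (ind_one b))).1

theorem s_card (k : Ker ρ) (two : IsPGroup 2 P) (l : P ≤ SU σ m) : Nat.card (im ρ P) = Nat.card P :=
  card_im l fun _ a e => d.ker_sc k (l a) e (e2_of two a)

theorem s_USU : UT σ m ≤ SU σ m := fun _ a => (d.U_le a).1
theorem s_WSU : WW σ m ≤ SU σ m := d.W_le.trans d.s_USU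
theorem s_Usyl : IsSyl 2 (UT σ m) (SU σ m) := ⟨d.s_USU, d.U_two, fun _ a b c => d.U_max a (c.trans SU_le) b⟩
theorem s_syl (ρ : SU σ m →* G) : IsSyl 2 (im ρ (UT σ m)) ρ.range := by
  rw [MonoidHom.range_eq_map]
  exact (isSyl_top d.s_Usyl.toSylow).map ρ

theorem s_tv1 (k : Ker ρ) (hv : hf σ v v = 0) (v0 : v ≠ 0) (e : σ a = a) (a0 : a ≠ 0) : tv ρ v a ≠ 1 := fun f =>
  d.tv_ne hv v0 e a0 (d.ker_sc k (tv_SU _ _) f (e2_E _ _ _))

theorem s_nab (k : Ker ρ) : ¬ ρ.range ≤ 𝐂(ρ.range) := fun l =>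
  d.s_tv1 k d.b00 d.b0 (map_one σ) one_ne_zero
    (d.s_cen2 k (up_range _) (l (up_range _)) ((e2_E _ _ _).up (tv_SU _ _)))

theorem s_perf (ρ : SU σ m →* G) : ρ.range ≤ ⁅ρ.range, ρ.range⁆ := by
  rw [MonoidHom.range_eq_map, ← Subgroup.map_commutator]
  exact map_mono d.perf.ge

theorem s_split {Γ : Subgroup G} (t2 : t * t = 1) (cm : t ∈ 𝐂(ρ.range)) (c : Γ ≤ 𝐂(cj[t] Γ)) (l : ρ.range ≤ Γ ⊔ cj[t] Γ) :
    ∃ ρ₁, Sp1 ρ ρ₁ t := by
  have cc : ∀ (x : Γ) (y : cj[t] Γ), Commute (Γ.subtype x) ((cj[t] Γ).subtype y) := fun x y => (c x.2 y y.2).symm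
  obtain ⟨r, e⟩ := d.lift (f := Γ.subtype.noncommCoprod (cj[t] Γ).subtype cc) (ρ' := ρ) (fun ⟨x, y⟩ k => by
    have k : (x : G) = (y : G)⁻¹ := eq_inv_of_mul_eq_one_left k
    refine mem_center_iff.2 fun ⟨x', y'⟩ => Prod.ext (Subtype.ext ?_) (Subtype.ext ?_)
    · change (x' : G) * x = x * x'
      rw [k]; exact (cc x' y⁻¹).eq
    · change (y' : G) * y = y * y'
      rw [← inv_inv (y : G), ← k]; exact (cc x⁻¹ y').eq.symm) (by
    rw [MonoidHom.noncommCoprod_range, range_subtype, range_subtype]; exact l)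
  have e : ∀ g, ((r g).1 : G) * (r g).2 = ρ g := fun g => DFunLike.congr_fun e g
  let r1 : SU σ m →* G := Γ.subtype.comp ((MonoidHom.fst _ _).comp r)
  let r2 : SU σ m →* G := (cj[t] Γ).subtype.comp ((MonoidHom.snd _ _).comp r)
  have m1 : ∀ g, t * r1 g * t⁻¹ ∈ cj[t] Γ := fun g => conj_mem_cj t (r g).1.2
  have m2 : ∀ g, t * r2 g * t⁻¹ ∈ Γ := fun g => by
    have := mem_cj.1 (r g).2.2; rw [ti t2] at this ⊢; exact this
  have key : ∀ g, (r1 g)⁻¹ * ch t r2 g ∈ cj[t] Γ := fun g => by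
    have : t * r2 g * t⁻¹ * (t * r1 g * t⁻¹) = r1 g * r2 g := by
      rw [← c (m2 g) _ (m1 g), ← conj_mul_conj]
      change t * ((r g).1 * (r g).2) * t⁻¹ = (r g).1 * (r g).2
      rw [e, conj_eq_of_mem_centralizer cm ⟨g, rfl⟩]
    have : (r1 g)⁻¹ * ch t r2 g = r2 g * (t * r1 g * t⁻¹)⁻¹ := by
      rw [inv_mul_eq_iff_eq_mul, ← mul_assoc, ← this, mul_inv_cancel_right]; rfl
    rw [this]; exact mul_mem (r g).2.2 (inv_mem (m1 g))
  have k := hom_eq d.perf (f := r1) (k := ch t r2) (fun x y => c (r y).1.2 _ (key x)) fun x y => c (m2 y) _ (key x)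
  refine ⟨r1, fun g g' => ?_, fun g => ?_⟩
  · have := (c (r g).1.2 _ (m1 g')).symm; rw [ti t2] at this; exact this
  · rw [← e]
    congr 1
    rw [k]
    change _ = t * (t * r2 g * t⁻¹) * t
    simp [← mul_assoc, t2]; rfl

theorem sp1 (f : Fr ρ t) (c : Cl ρ t N π ρ' s) {L₁ : Subgroup X} (e : Spl ρ' s L₁) : ∃ ρ₁, Sp1 ρ ρ₁ t := by
  have tN : t ∈ N := c.ct (mem_c1.2 rfl)
  have rN : ∀ g, ρ g ∈ N := fun g => c.ct (mem_c1.2 (f.cm _ ⟨g, rfl⟩))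
  let r : SU σ m →* N := ρ.codRestrict N rN
  let τ : N := ⟨t, tN⟩
  have πr : ∀ g, π (r g) = ρ' g := fun g => (up_eq (rN g)).symm.trans (c.rr g)
  have πt : π τ = s := (up_eq tN).symm.trans c.tt
  have τ2 : τ * τ = 1 := Subtype.ext f.t2
  have rC : ∀ g, r g ∈ 𝐂(π.ker) := fun g k i => Subtype.ext ((c.ker k i).2 _ ⟨g, rfl⟩).symm
  have tC : τ ∈ 𝐂(π.ker) := fun k i => Subtype.ext (mem_c1.1 (c.ker k i).1)
  have nC : ((𝐂(π.ker)).map π).Normal := Normal.map inferInstance π c.sur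
  have l1 : L₁ ≤ (𝐂(π.ker)).map π := e.ncl.trans (normalClosure_le_normal (by rintro _ ⟨g, rfl⟩; exact ⟨_, rC g, πr g⟩))
  let Γ := 𝐂(π.ker) ⊓ L₁.comap π
  have mΓ : Γ.map π = L₁ := le_antisymm (map_le_iff_le_comap.2 inf_le_right) fun x i => by
    obtain ⟨y, j, rfl⟩ := l1 i; exact ⟨y, ⟨j, i⟩, rfl⟩
  have m2 : (cj[τ] Γ).map π = cj[s] L₁ := by rw [map_cj, πt, mΓ]
  have c2 : cj[τ] Γ ≤ 𝐂(π.ker) := cj_le_of_mem tC inf_le_left
  have k1 : ⁅Γ, cj[τ] Γ⁆ ≤ π.ker := by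
    rw [← Subgroup.map_eq_bot_iff, Subgroup.map_commutator, mΓ, m2, commutator_comm, commutator_eq_bot_iff_le_centralizer']
    exact e.cm
  have k2 : ⁅⁅Γ, cj[τ] Γ⁆, Γ⁆ ≤ ⊥ := by
    rw [le_bot_iff, commutator_eq_bot_iff_le_centralizer']; exact inf_le_left.trans (centralizer_anti k1)
  have k3 : ⁅Γ, Γ⁆ ≤ 𝐂(cj[τ] Γ) := by
    rw [← commutator_eq_bot_iff_le_centralizer', commutator_comm, ← le_bot_iff]
    exact three_subgroups (le_normalizer_of_normal' _ _) (le_normalizer_of_normal' _ _) (le_normalizer_of_normal' _ _) k2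
      (by rwa [commutator_comm (cj[τ] Γ)])
  obtain ⟨r₁, p⟩ := d.s_split (ρ := r) (t := τ) (Γ := Γ) τ2 (by rintro _ ⟨g, rfl⟩; exact Subtype.ext (f.cm _ ⟨g, rfl⟩))
    (fun x i => by
      obtain ⟨y, j, k⟩ : π x ∈ ⁅Γ, Γ⁆.map π := by rw [Subgroup.map_commutator, mΓ]; exact e.perf i.2
      have : y⁻¹ * x ∈ 𝐂(cj[τ] Γ) := fun w l => (c2 l _ (by simp [k])).symm
      simpa using mul_mem (k3 j) this)
    (by
      rintro _ ⟨g, rfl⟩
      obtain ⟨y, j, k⟩ : π (r g) ∈ (Γ ⊔ cj[τ] Γ).map π := by rw [Subgroup.map_sup, mΓ, m2, πr]; exact e.le ⟨g, rfl⟩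
      have : y⁻¹ * r g ∈ Γ := ⟨(𝐂(π.ker)).mul_mem (inv_mem (sup_le inf_le_left c2 j)) (rC g), by
        simp [mem_comap, k, one_mem]⟩
      simpa using mul_mem j (mem_sup_left this))
  exact ⟨N.subtype.comp r₁, fun g g' => congrArg Subtype.val (p.cm g g'), fun g => congrArg Subtype.val (p.pr g)⟩

end Dm
end CF.U5
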