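import Cfsg.Agent.U5.S1

/-! Standard unitary subgroups: the two factors are permuted, the doubled group is unique. -/

set_option autoImplicit false
set_option linter.unusedSectionVars false

namespace CF.U5

open Cfsg Subgroup Equiv CF.Loc CF.LX CF.Dbl Module Sx
open scoped commutatorElement

variable {K : Type} [Field K] [Fintype K] [CharP K 2] {m q : ℕ} {σ θ : K ≃+* K} {a b c : K}
  {g ξ α p w : Perm (Fin m → K)} {u v : Fin m → K} {A B P H O : Subgroup (Perm (Fin m → K))}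
  {G : Type*} [Group G] [Finite G] {ρ ρ₁ ρ₂ : SU σ m →* G} {t h : G} {F N : Subgroup G}

namespace Dm
variable (d : Dm σ q m)
include d

theorem s_fac {G₂ J : Subgroup G} (c : ρ₁.range ≤ 𝐂(G₂)) (l : J ≤ ρ₁.range ⊔ G₂) (n : ρ₁.range ⊔ G₂ ≤ 𝐍(J)) (k : Ker ρ₁)
    (pf : J ≤ ⁅J, J⁆) : J ≤ G₂ ∨ ρ₁.range ≤ J := by
  have c' : G₂ ≤ 𝐂(ρ₁.range) := le_centralizer_iff.1 c
  have n1 : ρ₁.range ≤ 𝐍(J ⊔ G₂) := le_normalizer_sup (le_sup_left.trans n) (c.trans (centralizer_le_normalizer _))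
  have n2 : ρ₁.range ⊔ G₂ ≤ 𝐍(G₂) := sup_le (c.trans (centralizer_le_normalizer _)) le_normalizer
  have mem : ∀ g ∈ SU σ m, g ∈ ((J ⊔ G₂).comap ρ₁).map (SU σ m).subtype ↔ up ρ₁ g ∈ J ⊔ G₂ := fun g i =>
    ⟨fun ⟨x, a, e⟩ => by rw [← e]; exact (up_coe (φ := ρ₁) x).symm ▸ a, fun a => ⟨⟨g, i⟩, by rwa [up_eq i] at a, rfl⟩⟩
  rcases d.su_simple (map_subtype_le ((J ⊔ G₂).comap ρ₁)) (fun g i => mem_normalizer_of_conj_mem fun x a => by
    have j := map_subtype_le _ a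
    rw [mem _ ((su_sem i).su j), up_cj i j]
    exact conj_mem_of_mem_normalizer (n1 (up_range _)) ((mem _ j).1 a)) with e | e
  · have : J ≤ (ρ₁.range ⊓ 𝐂(ρ₁.range)) ⊔ G₂ := fun x a => by
      obtain ⟨_, b, y, b', rfl⟩ := (mem_sup_of_le_normalizer (c'.trans (centralizer_le_normalizer _))).1 (l a)
      obtain ⟨g, i, rfl⟩ := mem_range_up.1 b
      exact mul_mem (mem_sup_left ⟨b, (d.cen_iff k i).2 (e g ((mem g i).2 (by
        simpa using mul_mem (mem_sup_left a) (inv_mem (mem_sup_right b')))))⟩) (mem_sup_right b')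
    refine .inl (pf.trans ((commutator_mono this le_rfl).trans (commutator_sup_left_le ((inf_le_left.trans le_sup_left).trans n2)
      le_normalizer ?_ (commutator_le_left_of_le_normalizer (l.trans n2)))))
    rw [commutator_eq_bot_iff_le_centralizer'.2 (le_centralizer_iff.1 ?_)]
    · exact bot_le
    · refine le_trans ?_ (centralizer_anti l)
      rw [centralizer_sup]; exact le_inf inf_le_right (inf_le_left.trans c)
  · have : ρ₁.range ≤ J ⊔ G₂ := fun x a => by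
      obtain ⟨g, i, rfl⟩ := mem_range_up.1 a
      exact (mem g i).1 (e.symm ▸ i)
    refine .inr ((d.s_perf ρ₁).trans ((commutator_mono this le_rfl).trans (commutator_sup_left_le le_normalizer (le_sup_right.trans n)
      (commutator_le_left_of_le_normalizer (le_sup_left.trans n)) ?_)))
    rw [commutator_eq_bot_iff_le_centralizer'.2 c]; exact bot_le

theorem s_ne (f : Fr ρ t) (e : Sp1 ρ ρ₁ t) : ρ₁.range ≠ cj[t] ρ₁.range := fun k =>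
  d.s_nab (sp_ker f e) (by have := sp_cm f.t2 e; rwa [← k] at this)

theorem s_perm (f : Fr ρ t) (e : Sp1 ρ ρ₁ t) (i : h ∈ 𝐍(ρ₁.range ⊔ cj[t] ρ₁.range)) :
    cj[h] ρ₁.range = ρ₁.range ∨ cj[h] ρ₁.range = cj[t] ρ₁.range := by
  have c := sp_cm f.t2 e
  refine (d.s_fac c (J := cj[h] ρ₁.range) (cj_le_of_mem_normalizer i le_sup_left) ?_ (sp_ker f e) ?_).symm.imp
    (fun l => (eq_of_le_of_card_ge l (card_cj _ _).le).symm) fun l => eq_of_le_of_card_ge l (by rw [card_cj, card_cj])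
  · rw [← cj_eq_self i, ← cj_normalizer]
    exact cj_mono _ (sup_le le_normalizer ((le_centralizer_iff.1 c).trans (centralizer_le_normalizer _)))
  · rw [← cj_commutator]; exact cj_mono _ (d.s_perf _)

theorem perm (f : Fr ρ t) (e : Sp1 ρ ρ₁ t) (i : h ∈ 𝐍(ρ₁.range ⊔ cj[t] ρ₁.range)) :
    (cj[h] ρ₁.range = ρ₁.range ∧ cj[h] (cj[t] ρ₁.range) = cj[t] ρ₁.range) ∨
      (cj[h] ρ₁.range = cj[t] ρ₁.range ∧ cj[h] (cj[t] ρ₁.range) = ρ₁.range) := by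
  have a := d.s_perm f (sp_sym f.t2 e) (h := h) (by rwa [ch_range, cjtt f.t2, sup_comm])
  rw [ch_range, cjtt f.t2] at a
  have n := d.s_ne f e
  rcases d.s_perm f e i with b | b <;> rcases a with a | a
  exacts [.inl ⟨b, a⟩, (n (cj_inj.1 (b.trans a.symm))).elim, (n (cj_inj.1 (b.trans a.symm))).elim, .inr ⟨b, a⟩]

theorem s_tn (f : Fr ρ t) (e : Sp1 ρ ρ₁ t) : t ∉ 𝐍(ρ₁.range) := fun k => d.s_ne f e (cj_eq_self k).symm

omit d in
theorem s_tM (f : Fr ρ t) (J : Subgroup G) : t ∈ 𝐍(J ⊔ cj[t] J) := by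
  rw [← cj_eq_self_iff, cj_sup, cjtt f.t2, sup_comm]

omit d in
theorem s_t2 (t2 : t * t = 1) : IsPGroup 2 (zpowers t) := isPGroup_zpowers (k := 1) (by simpa [pow_two] using t2)

theorem codd (f : Fr ρ t) (r : R2 ρ t) (e : Sp1 ρ ρ₁ t) : Odd (Nat.card ↥(𝐂(ρ₁.range) ⊓ 𝐂(cj[t] ρ₁.range))) := by
  rw [← centralizer_sup]
  obtain ⟨U, s, n⟩ := syl_norm (s_t2 f.t2) (le_normalizer_centralizer (zpowers_le.2 (s_tM f ρ₁.range)))
  by_contra o
  obtain ⟨⟨x, i, j⟩, x1⟩ := (Subgroup.ne_bot_iff_exists_ne_one).1 (inf_centralizer_ne_bot s.isPGroup (s_t2 f.t2) n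
    (s.ne_bot_iff.2 (even_iff_two_dvd.1 (Nat.not_odd_iff_even.1 o))))
  rcases r x ⟨centralizer_zpowers t ▸ j, centralizer_anti (sp_le f.t2 e) (s.le i)⟩ (e2_of s.isPGroup i) with k | rfl
  · exact x1 (Subtype.ext k)
  · exact d.s_tn f e (centralizer_le_normalizer _ (centralizer_anti le_sup_left (s.le i)))

omit d in
theorem s_ct (f : Fr ρ t) : 𝐂₁(t) ≤ 𝐍(ρ.range) := fun g i => f.ti g (by rw [conj_eq_iff.2 (mem_c1.1 i)]; exact f.cm)

omit d in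
theorem s_tvY (v : Fin m → K) (a : K) : E σ v 0 a ∈ Y σ v ⊓ 𝐂(Y σ v) := by
  have : E σ v 0 a ∈ 𝐂(Y σ v) := fun y i => by
    rw [← mul_inv_eq_iff_eq_mul, tv_cj1 (su_sem i.1), (mem_Y.1 i).2]
  refine ⟨⟨tv_SU _ _, ?_⟩, this⟩
  by_cases o : Ok σ v 0 a
  · exact E_fix o.vv (by simp) a
  · simp [E_junk o]

omit d in
theorem s_tvim (ρ : SU σ m →* G) (v : Fin m → K) (a : K) : tv ρ v a ∈ im ρ (Y σ v) := up_im (s_tvY v a).1 (tv_SU _ _)

omit d in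
theorem s_tvsq (ρ : SU σ m →* G) (v : Fin m → K) (a : K) : tv ρ v a * tv ρ v a = 1 := by
  rw [← up_mul (tv_SU _ _) (tv_SU _ _), tv_sq, up_one]

theorem s_cY (k : Ker ρ) (hv : hf σ v v = 0) (v0 : v ≠ 0) (n : h ∈ 𝐍(ρ.range)) (c : h ∈ 𝐂(im ρ (Y σ v))) :
    ∃ b, h * tv ρ v b ∈ 𝐂(ρ.range) := by
  obtain ⟨ξ, ⟨θ, l⟩, i⟩ := d.ind_of k n
  obtain ⟨c, w, j, c1, e⟩ := d.cX (T := Submodule.span K {v}) (ξ := ξ) (fun x a y b => by
      obtain ⟨_, rfl⟩ := Submodule.mem_span_singleton.1 a; obtain ⟨_, rfl⟩ := Submodule.mem_span_singleton.1 b; simp [hv])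
    (by simpa using v0) ⟨θ, l⟩ fun x a n ζ o => by
      obtain ⟨y, rfl⟩ := Submodule.mem_span_singleton.1 a
      have j := d.E_SU (y • v) n ζ
      rw [← mul_inv_eq_iff_eq_mul]
      refine d.s_ker2 k (l.su j) j ((e2_E _ _ _).cj _) (e2_E _ _ _) ?_
      rw [← i _ j, conj_eq_of_mem_centralizer c (up_im ⟨j, E_fix (by simp [hv]) (o v (Submodule.mem_span_singleton_self v)) ζ⟩ j)]
  rw [d.W_line hv, mem_Z d.iv hv] at j
  obtain ⟨b, -, rfl⟩ := j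
  refine ⟨b, (d.ind_cen k ⟨_, l.mul (E_sem _ _ _)⟩ (i.mul (E_sem _ _ _) (ind_up (tv_SU _ _)))).2 ⟨c, fun x => ?_⟩⟩
  rw [Perm.mul_apply, e, ← Perm.mul_apply, tv_sq]; rfl

omit d in
theorem s_z1 (f : Fr ρ t) (e : Sp1 ρ ρ₁ t) (v : Fin m → K) (a : K) :
    tv ρ₁ v a ∈ 𝐂(im ρ (Y σ v)) ∧ tv ρ₁ v a * t * (tv ρ₁ v a)⁻¹ = t * tv ρ v a := by
  have p := fun g (i : g ∈ SU σ m) => (sp_up e g).resolve_right (not_not.2 i)
  have c : ∀ g g', up ρ₁ g * (t * up ρ₁ g' * t) = t * up ρ₁ g' * t * up ρ₁ g := fun g g' => by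
    obtain ⟨x, h⟩ := up_range (φ := ρ₁) g; obtain ⟨x', h'⟩ := up_range (φ := ρ₁) g'
    rw [← h, ← h', e.cm]
  refine ⟨fun x i => ?_, ?_⟩
  · obtain ⟨y, i', j, rfl⟩ := mem_im.1 i
    rw [p y j, mul_assoc, ← c, ← mul_assoc, ← mul_assoc, ← up_mul j (tv_SU _ _), (s_tvY v a).2 y i', up_mul (tv_SU _ _) j]
    simp only [mul_assoc]
  · rw [ti (s_tvsq _ _ _), tv, tv, p _ (tv_SU _ _), c, ← mul_assoc, ← mul_assoc, ← mul_assoc, f.t2, one_mul]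

theorem s_gen {J : Subgroup G} (k : ∀ v a, hf σ v v = 0 → v ≠ 0 → σ a = a → a ≠ 0 → tv ρ v a ∈ J) : ρ.range ≤ J := by
  rw [MonoidHom.range_eq_map, map_le_iff_le_comap, ← map_le_map_iff_of_injective (SU σ m).subtype_injective,
    ← MonoidHom.range_eq_map, range_subtype]
  refine SU_iso d.iv fun v a hv ha => ⟨⟨_, tv_SU v a⟩, mem_comap.2 ?_, rfl⟩
  rw [← up_eq (tv_SU v a)]
  by_cases v0 : v = 0
  · simp [v0, E_zero_v, one_mem]
  by_cases a0 : a = 0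
  · simp [a0, one_mem]
  exact k v a hv v0 ha a0

theorem s_nc (e : Sp1 ρ ρ₁ t) {J : Subgroup G} (l : ρ.range ≤ J) (n : ρ₁.range ≤ 𝐍(J)) : ρ₁.range ≤ J := by
  rw [MonoidHom.range_eq_map, map_le_iff_le_comap, ← d.perf]
  refine commutator_le.2 fun x _ y _ => ?_
  have : ρ₁ ⁅x, y⁆ = ⁅ρ x, ρ₁ y⁆ := by
    rw [map_commutatorElement, e.pr, commutatorElement_def, commutatorElement_def, mul_assoc (ρ₁ x) _ (ρ₁ y), ← e.cm]
    group
  rw [mem_comap, this]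
  exact commutator_le_left_of_le_normalizer n (commutator_mem_commutator (l ⟨x, rfl⟩) ⟨y, rfl⟩)

theorem s_odd (f : Fr ρ t) (e : Sp1 ρ ρ₁ t) : ρ₁.range ≤ 𝐂(𝐑[2](𝐂₁(t) ⊓ 𝐂(ρ.range))) := by
  have n : ρ₁.range ≤ 𝐍(𝐑[2](𝐂₁(t) ⊓ 𝐂(ρ.range))) := by
    refine d.s_gen fun v a hv v0 ha _ => ?_
    have : 𝐑[2](𝐂₁(t) ⊓ 𝐂(im ρ (Y σ v))) = 𝐑[2](𝐂₁(t) ⊓ 𝐂(ρ.range)) :=
      (pResidualOf_eq_of_le (pResidualOf_le_iff.2 fun x i o => by
        obtain ⟨b, k⟩ := d.s_cY f.ker hv v0 (s_ct f i.1) i.2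
        obtain ⟨n, e⟩ := exists_pow_eq_self_of_coprime o.symm
        refine ⟨i.1, e ▸ pow_mem ?_ n⟩
        have := mul_mem k k
        rwa [mul_assoc, ← mul_assoc (tv ρ v b), i.2 _ (s_tvim ρ v b), mul_assoc, s_tvsq, mul_one, ← pow_two] at this)
        (inf_le_inf_left _ (centralizer_anti im_le))).symm
    rw [← this]
    obtain ⟨z1, z2⟩ := s_z1 f e v a
    refine normalizer_le_normalizer_pResidualOf 2 _ (mem_normalizer_of_conj_mem fun x i => ?_)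
    have j := mul_mem (mul_mem z1 i.2) (inv_mem z1)
    refine ⟨?_, j⟩
    have k := conj_mem_cj (tv ρ₁ v a) i.1
    rw [cj_centralizer_singleton, z2] at k
    have := mul_mem (mem_c1.2 (mem_c1.1 k).symm) (mem_c1.2 (j _ (s_tvim ρ v a)))
    rw [mul_assoc t, s_tvsq, mul_one] at this
    exact mem_c1.2 (mem_c1.1 this).symm
  exact d.s_nc e (le_centralizer_iff.1 ((pResidualOf_le _ _).trans inf_le_right)) (le_normalizer_centralizer n)

theorem s_le (f : Fr ρ t) (r : R2 ρ t) (e : Sp1 ρ ρ₁ t) (e' : Sp1 ρ ρ₂ t) : ρ₂.range ≤ ρ₁.range ⊔ cj[t] ρ₁.range := by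
  refine d.s_gen fun v a hv v0 ha a0 => ?_
  obtain ⟨z1, z2⟩ := s_z1 f e v a
  obtain ⟨y1, y2⟩ := s_z1 f e' v a
  have zz := s_tvsq ρ₁ v a
  have yy := s_tvsq ρ₂ v a
  have zG : tv ρ₁ v a ∈ ρ₁.range := up_range _
  generalize tv ρ₁ v a = z at *
  generalize tv ρ₂ v a = y at *
  have ut : z * y ∈ 𝐂₁(t) := by
    rw [mem_c1, ← conj_eq_iff, mul_inv_rev, ← mul_assoc, mul_assoc z, mul_assoc z, y2, conj_mul_conj, z2,
      conj_eq_of_mem_centralizer z1 (s_tvim _ _ _), mul_assoc, s_tvsq, mul_one]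
  obtain ⟨b, k⟩ := d.s_cY f.ker hv v0 (s_ct f ut) (mul_mem z1 y1)
  have ww := s_tvsq ρ v b
  have wz := z1 _ (s_tvim ρ v b)
  have wy := y1 _ (s_tvim ρ v b)
  have wL : tv ρ v b ∈ ρ.range := up_range _
  generalize tv ρ v b = w at *
  have ct : z * y * w ∈ 𝐂₁(t) := mul_mem ut (mem_c1.2 (f.cm _ wL))
  have iv : z * (z * y * w) * z⁻¹ = (z * y * w)⁻¹ := by
    rw [mul_inv_rev, mul_inv_rev, ti zz, ti yy, ti ww, ← mul_assoc, ← mul_assoc, zz, one_mul, ← wy, mul_assoc]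
  obtain ⟨j, o⟩ := exists_pow_mem_pResidualOf (p := 2) (L := 𝐂₁(t) ⊓ 𝐂(ρ.range)) ⟨ct, k⟩
  have o2 := conj_eq_of_mem_centralizer (d.s_odd f e zG) o
  rw [← conj_pow, iv, inv_pow, inv_eq_iff_mul_eq_one] at o2
  rcases r _ ⟨ct, k⟩ ⟨j + 1, by rw [pow_succ, pow_mul, pow_two, o2]⟩ with k | k
  · have : y = z * w := by
      rw [mul_assoc, ← wy, ← mul_assoc] at k
      rw [eq_inv_of_mul_eq_one_right k, mul_inv_rev, ti zz, ti ww, wz]
    exact this ▸ mul_mem (mem_sup_left zG) (sp_le f.t2 e wL)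
  · rw [k, z2, ti f.t2, mul_eq_left] at iv
    exact (d.s_tv1 f.ker hv v0 ha a0 iv).elim

theorem dbl_uq (f : Fr ρ t) (r : R2 ρ t) (e : Sp1 ρ ρ₁ t) (e' : Sp1 ρ ρ₂ t) :
    ρ₁.range ⊔ cj[t] ρ₁.range = ρ₂.range ⊔ cj[t] ρ₂.range :=
  le_antisymm (sup_le (d.s_le f r e' e) (cj_le_of_mem_normalizer (s_tM f _) (d.s_le f r e' e)))
    (sup_le (d.s_le f r e e') (cj_le_of_mem_normalizer (s_tM f _) (d.s_le f r e e')))

end Dm
end CF.U5
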