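import Cfsg.Agent.U5.S2

/-! Standard unitary subgroups: `2`-groups acting on the standard subgroup. -/

set_option autoImplicit false
set_option linter.unusedSectionVars false

namespace CF.U5

open Cfsg Subgroup Equiv CF.Loc CF.LX CF.Dbl Module Sx
open scoped commutatorElement

variable {K : Type} [Field K] [Fintype K] [CharP K 2] {m q : ℕ} {σ θ : K ≃+* K} {a b a₀ : K}
  {g ξ α p w : Perm (Fin m → K)} {u v : Fin m → K} {A B P H O : Subgroup (Perm (Fin m → K))}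
  {G : Type*} [Group G] [Finite G] {ρ ρ₁ ρ₂ : SU σ m →* G} {t h x y : G} {F N S R J : Subgroup G}

namespace Tx

theorem icm (d : Dm σ q m) (k : Ker ρ) (l : Sem σ θ ξ) (i : Ind ρ h ξ) (j : p ∈ SU σ m) (e2 : E2 p)
    (e : h * up ρ p = up ρ p * h) : ξ * p = p * ξ :=
  conj_eq_iff.1 (d.s_ker2 k (l.su j) j (e2.cj _) e2 (by rw [← i _ j, conj_eq_iff.2 e]))

theorem inor (l : P ≤ SU σ m) (i : Ind ρ h ξ) (n : ξ ∈ 𝐍(P)) : h ∈ 𝐍(im ρ P) := mem_normalizer_of_conj_mem fun x j => by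
  obtain ⟨g, a, b, rfl⟩ := mem_im.1 j
  have := conj_mem_of_mem_normalizer n a
  rw [i g b]; exact up_im this (l this)

theorem nor (d : Dm σ q m) (k : Ker ρ) (l : P ≤ SU σ m) (two : IsPGroup 2 P) (s : Sem σ θ ξ) (i : Ind ρ h ξ)
    (n : h ∈ 𝐍(im ρ P)) : ξ ∈ 𝐍(P) := mem_normalizer_of_conj_mem fun g j => by
  obtain ⟨g', a, b, e⟩ := mem_im.1 (conj_mem_of_mem_normalizer n (up_im j (l j)))
  rwa [← d.s_ker2 k b (s.su (l j)) (e2_of two a) ((e2_of two j).cj _) (e.trans (i _ (l j)))]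

theorem two_zp {M : Type*} [Group M] {x : M} (e : E2 x) : IsPGroup 2 (zpowers x) := let ⟨_, e⟩ := e; isPGroup_zpowers e

theorem im_cent {M X : Type*} [Group M] [Group X] {H P : Subgroup M} {φ : H →* X} {g : M} (i : g ∈ H) (c : g ∈ 𝐂(P)) :
    up φ g ∈ 𝐂(im φ P) := fun x j => by
  obtain ⟨y, a, b, rfl⟩ := mem_im.1 j
  rw [← up_mul b i, c y a, up_mul i b]

theorem zt {C Q : Subgroup G} (s : IsSyl 2 Q C) (h1 : x ∈ Q) (h2 : x ∈ ⁅C, C⁆) (h3 : x ∈ 𝐂(C)) : x ∈ ⁅Q, Q⁆ := by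
  obtain ⟨P, rfl⟩ := s.exists_sylow
  obtain ⟨x, hx, rfl⟩ := h1
  have k : x ∈ _root_.commutator C := by
    rw [← map_subtype_commutator] at h2
    obtain ⟨y, hy, e⟩ := h2
    rwa [← Subtype.ext e]
  rw [← Subgroup.map_commutator]
  exact mem_map_of_mem _ (CF.Transfer.sylow_inf_center_inf_commutator_le P ⟨⟨hx, k⟩,
    mem_center_iff.2 fun g => Subtype.ext (mem_centralizer_iff'.1 h3 g g.2)⟩)

theorem der_sup {B : Subgroup G} (n : B ≤ 𝐍(J)) (ab : B ≤ 𝐂(B)) : ⁅J ⊔ B, J ⊔ B⁆ ≤ J :=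
  commutator_sup_left_le le_normalizer n (commutator_le_left_of_le_normalizer (sup_le le_normalizer n))
    (commutator_sup_right_le le_normalizer n (commutator_le_right_of_le_normalizer n)
      ((commutator_eq_bot_iff_le_centralizer'.2 ab).le.trans bot_le))

theorem fr_cj (f : Fr ρ t) (g : G) : Fr (ch g ρ) (g * t * g⁻¹) :=
  ⟨by rw [← conj_mul_conj, f.t2]; simp, fun e => f.t1 (by simpa using e), f.ker.cj g,
    by rw [ch_range, ← cj_centralizer]; exact conj_mem_cj g f.cm, fun x i => by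
      rw [ch_range, ← cj_centralizer, mem_cj] at i
      rw [ch_range, ← cj_normalizer, mem_cj]
      exact f.ti _ (by simpa [mul_assoc] using i), fun P l two => by
      rw [ch_range, ← cj_centralizer, le_cj_iff] at l
      have := f.cyc _ l (isPGroup_cj _ two)
      exact @isCyclic_of_surjective _ _ _ _ _ this _ _ _ ((MulAut.conj g⁻¹).subgroupMap P).symm.surjective⟩

theorem r2_cj (r : R2 ρ t) (g : G) : R2 (ch g ρ) (g * t * g⁻¹) := fun x i e => by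
  rw [ch_range, ← cj_centralizer, ← cj_centralizer_singleton, ← cj_inf, mem_cj] at i
  refine (r _ i (by simpa using e.cj g⁻¹)).imp (fun k => ?_) fun k => ?_
  · simpa [mul_assoc] using congrArg (fun y => g * y * g⁻¹) k
  · simpa [mul_assoc] using congrArg (fun y => g * y * g⁻¹) k

theorem inv1 (f : Fr ρ t) (i : x ∈ 𝐂₁(t)) (j : x ∈ 𝐂(ρ.range)) (e : x * x = 1) : x = 1 ∨ x = t := or_iff_not_imp_left.2 fun n =>
  have o : ∀ y : G, y * y = 1 → y ≠ 1 → orderOf y = 2 := fun y a b => orderOf_eq_prime (by rw [pow_two, a]) b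
  Invol.eq_of_invol_of_isCyclic (f.cyc (zpowers x ⊔ zpowers t) (sup_le (zpowers_le.2 j) (zpowers_le.2 f.cm))
    ((Dm.s_t2 e).to_sup_of_normal_right' (Dm.s_t2 f.t2) (zpowers_le.2 (centralizer_le_normalizer _ (centralizer_zpowers t ▸ i)))))
    (mem_sup_left (mem_zpowers x)) (mem_sup_right (mem_zpowers t)) (o x e n) (o t f.t2 f.t1)

theorem tL (d : Dm σ q m) (f : Fr ρ t) : t ∉ ρ.range := fun i => f.t1 (d.s_cen2 f.ker i f.cm (e2_inv f.t2))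

theorem lin (d : Dm σ q m) (k : Ker ρ) (n : h ∈ 𝐍(ρ.range)) (e : E2 h) (l : ∀ θ ξ, Sem σ θ ξ → Ind ρ h ξ → θ = 1) :
    ∃ g ∈ SU σ m, E2 g ∧ (up ρ g)⁻¹ * h ∈ 𝐂(ρ.range) ∧ E2 ((up ρ g)⁻¹ * h) := by
  obtain ⟨ψ, a, -, -⟩ := d.lift2 k (two_zp e) (zpowers_le.2 n)
  obtain ⟨⟨θ, s⟩, i⟩ := a ⟨h, mem_zpowers h⟩
  obtain rfl := l _ _ s i
  have e2 : E2 (ψ ⟨h, mem_zpowers h⟩) := (e2_of ((two_zp e).to_subgroup ⊤) trivial).map ψ
  have j := d.two_SU s e2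
  have c := (d.ind_cen k ⟨_, s.inv.mul s⟩ (((ind_up j).inv s).mul s i)).2 (by simpa using sc_one)
  exact ⟨_, j, e2, c, (e2.up j).inv.mul e (Commute.inv_left (i.cm j rfl).symm)⟩

theorem dlin (d : Dm σ q m) (k : Ker ρ) (n : J ≤ 𝐍(ρ.range)) (i : h ∈ ⁅J, J⁆) (s : Sem σ θ ξ) (j : Ind ρ h ξ) : θ = 1 := by
  obtain ⟨Θ, e⟩ := d.th k
  have := d.cyc
  have l := commutator_mono n n i
  rw [← map_subtype_commutator] at l
  obtain ⟨x, l, rfl⟩ := l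
  rw [← e x ξ θ s j, ← MonoidHom.mem_ker]
  refine (commutator_le (H₃ := Θ.ker)).2 (fun a _ b _ => ?_) l
  obtain ⟨γ, e⟩ := IsCyclic.exists_generator (α := K ≃+* K)
  obtain ⟨_, ea⟩ := e (Θ a); obtain ⟨_, eb⟩ := e (Θ b)
  rw [MonoidHom.mem_ker, map_commutatorElement, ← ea, ← eb]
  exact commutatorElement_eq_one_iff_commute.2 (Commute.zpow_zpow_self _ _ _)

theorem lin2 (d : Dm σ q m) (f : Fr ρ t) (r : R2 ρ t) (i : h ∈ 𝐂₁(t)) (e : E2 h) (l : ∀ θ ξ, Sem σ θ ξ → Ind ρ h ξ → θ = 1) :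
    h ∈ ρ.range ∨ h * t ∈ ρ.range := by
  obtain ⟨g, -, -, c, e⟩ := lin d f.ker (Dm.s_ct f i) e l
  have j := up_range (φ := ρ) g
  refine (r _ ⟨(𝐂₁(t)).mul_mem (inv_mem (mem_c1.2 (f.cm _ j))) i, c⟩ e).imp (fun k => by rwa [← inv_mul_eq_one.1 k]) fun k => ?_
  rwa [inv_mul_eq_iff_eq_mul.1 k, mul_assoc, f.t2, mul_one]

theorem der (d : Dm σ q m) (f : Fr ρ t) (r : R2 ρ t) (two : IsPGroup 2 J) (l : J ≤ 𝐂₁(t)) : ⁅J, J⁆ ≤ ρ.range := by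
  obtain ⟨Θ, e⟩ := d.th f.ker
  have := d.cyc
  have n := l.trans (Dm.s_ct f)
  obtain ⟨⟨_, x, rfl⟩, k⟩ := IsCyclic.exists_generator (α := (Θ.comp (inclusion n)).range)
  have c : zpowers t ≤ 𝐂(zpowers (x : G)) := by rw [centralizer_zpowers, zpowers_le]; exact mem_c1.2 (mem_c1.1 (l x.2)).symm
  have le : J ≤ ρ.range ⊔ (zpowers t ⊔ zpowers (x : G)) := fun y i => by
    obtain ⟨s, k⟩ := k ⟨_, ⟨y, i⟩, rfl⟩
    have k : (Θ.comp (inclusion n)) (⟨y, i⟩ * (x ^ s)⁻¹) = 1 := by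
      rw [map_mul, map_inv, map_zpow, mul_inv_eq_one]; exact (congrArg Subtype.val k).symm
    have j : y * ((x : G) ^ s)⁻¹ ∈ J := (⟨y, i⟩ * (x ^ s)⁻¹ : J).2
    have xs : (x : G) ^ s ∈ ρ.range ⊔ (zpowers t ⊔ zpowers (x : G)) := mem_sup_right (mem_sup_right (zpow_mem_zpowers _ s))
    rcases lin2 d f r (l j) (e2_of two j) fun θ ξ a b => (e ⟨_, n j⟩ ξ θ a b).symm.trans k with a | a
    · simpa using mul_mem (mem_sup_left a) xs
    · simpa using mul_mem (mul_mem (mem_sup_left a) (inv_mem (mem_sup_right (mem_sup_left (mem_zpowers t))))) xs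
  refine (commutator_mono le le).trans (der_sup (sup_le (zpowers_le.2 (centralizer_le_normalizer _ f.cm)) (zpowers_le.2 (n x.2))) ?_)
  rw [centralizer_sup]
  exact le_inf (sup_le le_centralizer_of_isMulCommutative (le_centralizer_iff.1 c)) (sup_le c le_centralizer_of_isMulCommutative)

end Tx

open Tx

theorem Dm.der2 (d : Dm σ q m) (f : Fr ρ t) (r : R2 ρ t) (i : h ∈ ⁅𝐂₁(t), 𝐂₁(t)⁆) (e : E2 h) : h ∈ ρ.range := by
  refine (lin2 d f r (commutator_le_self _ i) e fun _ _ => dlin d f.ker (Dm.s_ct f) i).resolve_right fun k => tL d f ?_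
  have l : ρ.range ≤ 𝐂₁(t) := fun x i => mem_c1.2 (f.cm x i)
  obtain ⟨T, s, j⟩ := exists_isSyl_ge (Dm.s_t2 f.t2) (zpowers_le.2 (mem_c1.2 rfl) : _ ≤ 𝐂₁(t))
  exact der d f r s.isPGroup s.le (zt s (j (mem_zpowers t))
    (by simpa using mul_mem (inv_mem i) (commutator_mono l l (d.s_perf ρ k))) fun _ i => mem_c1.1 i)

/-- a `2`-group acting on the standard subgroup and containing its Sylow subgroup -/
structure Lf (q : ℕ) (ρ : SU σ m →* G) (R : Subgroup G) (ψ : R →* Perm (Fin m → K)) : Prop where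
  d : Dm σ q m
  k : Ker ρ
  tw : IsPGroup 2 R
  le : R ≤ 𝐍(ρ.range)
  uR : im ρ (UT σ m) ≤ R
  p1 : ∀ r, ψ r ∈ Gam σ m ∧ Ind ρ r (ψ r)
  p2 : ∀ r, ψ r = 1 ↔ r.1 ∈ 𝐂(ρ.range)
  p3 : ∀ g ∈ SU σ m, E2 g → up ρ g ∈ R → up ψ (up ρ g) = g

theorem Dm.exists_lf (d : Dm σ q m) (k : Ker ρ) (tw : IsPGroup 2 R) (le : R ≤ 𝐍(ρ.range)) (uR : im ρ (UT σ m) ≤ R) :
    ∃ ψ, Lf q ρ R ψ :=
  let ⟨ψ, a, b, c⟩ := d.lift2 k tw le
  ⟨ψ, d, k, tw, le, uR, a, b, c⟩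

namespace Lf
variable {ψ : R →* Perm (Fin m → K)} (c : Lf q ρ R ψ)
include c

theorem cap : R ⊓ ρ.range = im ρ (UT σ m) := (c.d.s_syl ρ).eq_of_le c.tw.to_inf_left (le_inf c.uR im_le) inf_le_right
theorem u0 (i : g ∈ UT σ m) : up ρ g ∈ R := c.uR (up_im i (c.d.s_USU i))
theorem iml (l : P ≤ UT σ m) : im ρ P ≤ R := (im_mono l).trans c.uR
theorem pu (i : g ∈ UT σ m) : up ψ (up ρ g) = g := c.p3 g (c.d.s_USU i) (e2_of c.d.U_two i) (c.u0 i)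
theorem sem (i : x ∈ R) : ∃ θ, Sem σ θ (up ψ x) := up_eq (φ := ψ) i ▸ (c.p1 _).1
theorem ind (i : x ∈ R) : Ind ρ x (up ψ x) := up_eq (φ := ψ) i ▸ (c.p1 ⟨x, i⟩).2
theorem ker (i : x ∈ R) : up ψ x = 1 ↔ x ∈ 𝐂(ρ.range) := up_eq (φ := ψ) i ▸ c.p2 ⟨x, i⟩
theorem two (i : x ∈ R) : E2 (up ψ x) := (e2_of c.tw i).up i
theorem sq (i : x ∈ R) (e : x * x = 1) : up ψ x * up ψ x = 1 := by rw [← up_mul i i, e, up_one]
theorem gam : im ψ J ≤ Gam σ m := im_le.trans (by rintro _ ⟨r, rfl⟩; exact (c.p1 r).1)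

theorem fl (i : x ∈ R) : Fl (up ψ x) := by
  obtain ⟨θ, s⟩ := c.sem i
  refine (c.d.U_norm ⟨θ, s⟩).1 (nor c.d c.k c.d.s_USU c.d.U_two s (c.ind i) ?_)
  rw [← c.cap]; exact le_normalizer_inf le_normalizer c.le i

theorem cm (i : x ∈ R) (l : P ≤ UT σ m) (e : x ∈ 𝐂(im ρ P)) : up ψ x ∈ 𝐂(P) := fun g j => by
  obtain ⟨θ, s⟩ := c.sem i
  have j' := c.d.s_USU (l j)
  exact (icm c.d c.k s (c.ind i) j' (e2_of c.d.U_two (l j)) (e _ (up_im j j')).symm).symm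

theorem dec0 (i : x ∈ R) (e : up ψ x ∈ UT σ m) : (up ρ (up ψ x))⁻¹ * x ∈ R ⊓ 𝐂(ρ.range) := by
  have j := inv_mem (c.u0 e)
  refine ⟨mul_mem j i, (c.ker (mul_mem j i)).1 ?_⟩
  rw [up_mul j i, up_inv (c.u0 e), c.pu e, inv_mul_cancel]

theorem dec (i : x ∈ R) (l : P ≤ UT σ m) (e : up ψ x ∈ P) : x ∈ im ρ P ⊔ (R ⊓ 𝐂(ρ.range)) := by
  simpa using mul_mem (mem_sup_left (up_im (φ := ρ) e (c.d.s_USU (l e)))) (mem_sup_right (c.dec0 i (l e)))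

theorem lin (i : x ∈ R) (s : Sem σ 1 (up ψ x)) : up ψ x ∈ UT σ m := c.d.U_of s (c.fl i) (c.two i)
theorem nW (i : x ∈ R) : up ψ x ∈ 𝐍(WW σ m) := (c.d.W_norm (c.sem i)).2 (c.fl i _)
theorem nB : R ≤ 𝐍(im ρ (WW σ m)) := fun _ i => inor c.d.s_WSU (c.ind i) (c.nW i)

end Lf
end CF.U5
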