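import Cfsg.Agent.U5.T0
import Cfsg.Agent.U5.S3
import Cfsg.Agent.U5.Fr

/-! Standard unitary subgroups: fusion of `t`. -/

set_option autoImplicit false
set_option linter.unusedSectionVars false

namespace CF.U5

open Cfsg Subgroup Equiv CF.Loc CF.LX CF.Dbl Module Sx
open scoped commutatorElement

variable {K : Type} [Field K] [Fintype K] [CharP K 2] {m q : ℕ} {σ θ : K ≃+* K} {a b a₀ : K}
  {g ξ α p w : Perm (Fin m → K)} {u v : Fin m → K} {A B P H O : Subgroup (Perm (Fin m → K))}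
  {G : Type*} [Group G] [Finite G] {ρ ρ₁ ρ₂ : SU σ m →* G} {t h x y : G} {F N S R J : Subgroup G}

namespace Tx

theorem prod_fix {B : Subgroup G} (ab : J ≤ 𝐂(J)) (t2 : t * t = 1) (tJ : t ∈ J) (tB : t ∉ B) (ix : ∀ x ∈ J, x ∉ B → t * x ∈ B)
    {Ω : Set G} (l : Ω ⊆ J) (o : Odd (Ω \ B).ncard) :
    ∃ x ∈ J, x ∉ B ∧ ∀ n ∈ 𝐍(J), (∀ y ∈ Ω, n * y * n⁻¹ ∈ Ω) → n * x * n⁻¹ = x := by
  classical
  letI : CommGroup J := { (inferInstance : Group J) with mul_comm := fun a b => Subtype.ext (ab b.2 a a.2) }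
  have := Fintype.ofFinite J
  let s : Finset J := Finset.univ.filter fun y => y.1 ∈ Ω
  refine ⟨(∏ y ∈ s, y : J), Subtype.prop _, fun k => tB ?_, fun n i k => ?_⟩
  · let φ := QuotientGroup.mk' (B.subgroupOf J)
    have e : ∀ y : J, φ y = 1 ↔ y.1 ∈ B := fun y => QuotientGroup.eq_one_iff y
    have c : (s.filter fun y => y.1 ∉ B).card = (Ω \ B).ncard := by
      rw [← Set.ncard_coe_finset, ← Set.ncard_image_of_injective _ Subtype.val_injective]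
      congr 1
      ext y
      simp only [s, Set.mem_image, Finset.coe_filter, Finset.mem_filter, Finset.mem_univ, true_and, Set.mem_setOf_eq]
      exact ⟨fun ⟨_, a, b⟩ => b ▸ a, fun a => ⟨⟨y, l a.1⟩, a, rfl⟩⟩
    have p := (e _).2 k
    rw [map_prod, ← Finset.prod_filter_mul_prod_filter_not s fun y => y.1 ∈ B,
      Finset.prod_eq_one fun y i => (e y).2 (Finset.mem_filter.1 i).2, one_mul, Finset.prod_congr rfl (g := fun _ => φ ⟨t, tJ⟩)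
        fun y i => by
          have := (e (⟨t, tJ⟩ * y)).2 (ix y y.2 (Finset.mem_filter.1 i).2)
          rw [map_mul] at this
          rw [eq_inv_of_mul_eq_one_right this, ← map_inv]; exact congrArg φ (Subtype.ext (ti t2)),
      Finset.prod_const, c] at p
    exact (e ⟨t, tJ⟩).1 (E2.odd ((e2_inv (Subtype.ext t2)).map φ) o p)
  · have : s.map (cact J ⟨n, i⟩).toEquiv.toEmbedding = s := Finset.eq_of_subset_of_card_le (fun y j => by
      obtain ⟨y, j', rfl⟩ := Finset.mem_map.1 j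
      exact Finset.mem_filter.2 ⟨Finset.mem_univ _, k y (Finset.mem_filter.1 j').2⟩) (Finset.card_map _).ge
    rw [← coe_cact ⟨n, i⟩, map_prod]
    conv_rhs => rw [← this, Finset.prod_map]
    rfl

theorem good (d : Dm σ q m) (k : Ker ρ) (n : x ∈ 𝐍(ρ.range)) (e : x * x = 1) (c : x ∉ 𝐂(ρ.range)) : Good ρ.range x := by
  obtain ⟨ψ, a, b, -⟩ := d.lift2 k (Dm.s_t2 e) (zpowers_le.2 n)
  obtain ⟨⟨θ, s⟩, i⟩ := a ⟨x, mem_zpowers x⟩
  obtain ⟨R, two, l, r, j, r2, r1, g, y, o⟩ := d.good ⟨θ, s⟩ (by rw [← map_mul]; exact (congrArg ψ (Subtype.ext e)).trans ψ.map_one)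
    fun o => c ((b _).1 o)
  generalize ψ ⟨x, mem_zpowers x⟩ = α at *
  have l1 := l.trans inf_le_left
  have rS := (commutator_le_sup _ _).trans (sup_le l1 l1) j
  refine ⟨im ρ R, two_im two, le_inf im_le fun y a => ?_, U5.up ρ r, im_comm (φ := ρ) l1 l1 ▸ up_im j rS,
    by rw [← up_mul rS rS, r2, up_one], fun o => r1 (d.ker_sc k rS o (e2_inv r2)), U5.up ρ g, up_range _, ?_⟩
  · obtain ⟨y, b, b', rfl⟩ := mem_im.1 a
    exact mem_c1.2 (i.cm b' (mem_c1.1 (l b).2).symm).symm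
  · have : r = α⁻¹ * g * α⁻¹⁻¹ * g⁻¹ := by rw [inv_inv, mul_assoc, mul_assoc, ← mul_assoc g, o]; simp
    rw [this, up_mul (s.inv.su y) (inv_mem y), ← i.inv s g y, up_inv y]; group

theorem lin3 (d : Dm σ q m) (f : Fr ρ t) (i : h ∈ 𝐂₁(t)) (e : h * h = 1) (l : ∀ θ ξ, Sem σ θ ξ → Ind ρ h ξ → θ = 1) :
    ∃ r ∈ ρ.range, r * h * r⁻¹ ∈ im ρ (WW σ m) ⊔ zpowers t := by
  obtain ⟨g, j, g2, c, c2⟩ := lin d f.ker (Dm.s_ct f i) (e2_inv e) l
  have gL := up_range (φ := ρ) g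
  have ct := (𝐂₁(t)).mul_mem (inv_mem (mem_c1.2 (f.cm _ gL))) i
  obtain ⟨x, rfl⟩ : ∃ x, h = U5.up ρ g * x := ⟨_, (mul_inv_cancel_left _ _).symm⟩
  rw [inv_mul_cancel_left] at c c2 ct
  rw [mul_assoc, ← mul_assoc x, ← c _ gL, mul_assoc, ← mul_assoc] at e
  have x2 := d.s_cen2 f.ker (by rw [eq_inv_of_mul_eq_one_right e]; exact inv_mem (mul_mem gL gL)) (mul_mem c c) (c2.mul c2 rfl)
  rw [x2, mul_one, ← up_mul j j] at e
  obtain ⟨r, a, b⟩ := d.m3 (su_sem j) (d.ker_sc f.ker (mul_mem j j) e (g2.mul g2 rfl))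
  refine ⟨_, up_range r, ?_⟩
  rw [conj_mul_conj, ← up_cj a j, conj_eq_iff.2 (c _ (up_range r))]
  refine mul_mem (mem_sup_left (up_im b (d.s_WSU b))) (mem_sup_right ?_)
  rcases inv1 f ct c x2 with rfl | rfl
  exacts [one_mem _, mem_zpowers _]

theorem exA (d : Dm σ q m) (f : Fr ρ t) (o : Top ρ F) : ∃ g : G, g * t * g⁻¹ ∈ im ρ (WW σ m) ⊔ zpowers t ∧ g * t * g⁻¹ ≠ t := by
  obtain ⟨g, c, n⟩ : ∃ g, Commute t (g * t * g⁻¹) ∧ g * t * g⁻¹ ≠ t := by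
    by_contra! k
    have := (Char.inZStar_iff_mem_center o.oc).1 (Char.inZStar_of_isolated ⟨orderOf_eq_prime (by rw [pow_two, f.t2]) f.t1, k⟩)
    exact f.t1 (mem_bot.1 (o.cen ▸ fun x _ => mem_center_iff.1 this x))
  have s2 := (fr_cj f g).t2
  have i := mem_c1.2 c.eq.symm
  obtain ⟨R, -, l, a, j, a2, a1, x, -, e⟩ := good d f.ker (Dm.s_ct f i) s2 fun k => ((inv1 f i k s2).resolve_right n |> (fr_cj f g).t1)
  have l' : cj[g⁻¹] R ≤ 𝐂₁(t) := by rw [cj_le_iff, inv_inv, cj_centralizer_singleton]; exact l.trans inf_le_right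
  have j' : g⁻¹ * a * g⁻¹⁻¹ ∈ ⁅𝐂₁(t), 𝐂₁(t)⁆ := commutator_mono l' l' (cj_commutator g⁻¹ R R ▸ conj_mem_cj _ j)
  obtain ⟨r, b, k⟩ := lin3 d f (commutator_le_self _ j') (by rw [← conj_mul_conj, a2]; simp) fun _ _ => dlin d f.ker (Dm.s_ct f) j'
  have : r * (g⁻¹ * x * g) * t * (r * (g⁻¹ * x * g))⁻¹ = t * (r * (g⁻¹ * a * g⁻¹⁻¹) * r⁻¹) := by
    calc _ = r * g⁻¹ * (x * (g * t * g⁻¹) * x⁻¹) * g * r⁻¹ := by group
      _ = r * t * r⁻¹ * (r * (g⁻¹ * a * g⁻¹⁻¹) * r⁻¹) := by rw [e]; group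
      _ = _ := by rw [conj_eq_iff.2 (f.cm r b)]
  exact ⟨_, this ▸ mul_mem (mem_sup_right (mem_zpowers t)) k, fun k => a1 (conj_eq_one_iff.1 (conj_eq_one_iff.1 (mul_eq_left.1 (this.symm.trans k))))⟩

theorem cB (f : Fr ρ t) : zpowers t ≤ 𝐂(im ρ P) := zpowers_le.2 (centralizer_anti im_le f.cm)

theorem mzp (t2 : t * t = 1) (i : x ∈ zpowers t) : x = 1 ∨ x = t := by
  obtain ⟨n, rfl⟩ := mem_zpowers_iff.1 i
  obtain ⟨k, rfl | rfl⟩ := Int.even_or_odd' n <;> simp [zpow_add, zpow_mul, zpow_two, pow_two, t2]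

theorem elA (d : Dm σ q m) (f : Fr ρ t) : El (im ρ (WW σ m) ⊔ zpowers t) :=
  Dm.s_elsup (el_im (d.W_el (Vf_ti le_rfl))) (fun x i => by rcases mzp f.t2 i with rfl | rfl <;> simp [f.t2]) (cB f)

theorem memA (f : Fr ρ t) (i : x ∈ im ρ P ⊔ zpowers t) : x ∈ im ρ P ∨ t * x ∈ im ρ P := by
  obtain ⟨y, j, b, k, rfl⟩ := (mem_sup_of_le_normalizer' (H := zpowers t) ((cB f).trans (centralizer_le_normalizer _))).1 (sup_comm _ (zpowers t) ▸ i)
  rcases mzp f.t2 j with rfl | rfl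
  · simp [k]
  · simp [← mul_assoc, f.t2, k]

theorem cardA (d : Dm σ q m) (f : Fr ρ t) : 2 * q ^ ((m / 2) ^ 2) ≤ Nat.card ↥(im ρ (WW σ m) ⊔ zpowers t) := by
  have := card_sup_mul_card_inf' ((cB (P := WW σ m) f).trans (centralizer_le_normalizer _))
  rw [show im ρ (WW σ m) ⊓ zpowers t = ⊥ from eq_bot_iff.2 fun x i => (mzp f.t2 i.2).resolve_right fun k => tL d f (im_le (k ▸ i.1)),
    card_bot, mul_one, d.s_card f.ker (d.W_two (Vf_ti le_rfl)) d.s_WSU, d.card_W, Nat.card_zpowers,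
    orderOf_eq_prime (p := 2) (by rw [pow_two, f.t2]) f.t1] at this
  omega

theorem exT (d : Dm σ q m) (f : Fr ρ t) : ∃ T ψ, IsSyl 2 T 𝐂₁(t) ∧ t ∈ T ∧ Lf q ρ T ψ := by
  obtain ⟨T, s, l⟩ := exists_isSyl_ge (two_im d.U_two) (im_le.trans fun x i => mem_c1.2 (f.cm x i) : im ρ (UT σ m) ≤ 𝐂₁(t))
  obtain ⟨ψ, c⟩ := d.exists_lf f.ker s.isPGroup (s.le.trans (Dm.s_ct f)) l
  exact ⟨T, ψ, s, s.le_of_le_normalizer' (Dm.s_t2 f.t2) (zpowers_le.2 (mem_c1.2 rfl)) (zpowers_le.2 (centralizer_le_normalizer _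
    fun x i => mem_c1.1 (s.le i))) (mem_zpowers t), c⟩

variable {ψ : R →* Perm (Fin m → K)}

theorem sqs (d : Dm σ q m) (h : θ * θ = σ) : 2 < q := by
  by_contra! k
  have q2 : q = 2 := le_antisymm k d.two_le
  obtain ⟨ω, o⟩ := d.om
  have o' := congrArg θ o
  rw [map_add, d.com, map_one] at o'
  have f : σ (θ ω + ω) = θ ω + ω := by rw [map_add]; grind
  have e : (θ ω + ω) * (θ ω + ω) = θ ω + ω := by rw [← pow_two, ← q2, ← d.pw, f]
  have h2 : σ ω = θ (θ ω) := by rw [← h]; rfl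
  rcases eq_zero_or_one_of_sq_eq_self ((pow_two _).trans e) with k | k
  · have : θ ω = ω := by grind
    rw [this, this] at h2; grind
  · have : θ ω = ω + 1 := by grind
    rw [this, map_add, this, map_one] at h2; grind

theorem c2 (c : Lf q ρ R ψ) (f : Fr ρ t) (l : R ≤ 𝐂₁(t)) (i : J ≤ R) (e : El J) : Nat.card J ≤ 2 * Nat.card (im ψ J) := by
  have b := card_mul_relIndex (inf_le_left : J ⊓ 𝐂(ρ.range) ≤ J)
  have b2 : Nat.card ↥(J ⊓ 𝐂(ρ.range)) ≤ 2 := by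
    refine (card_le_card_of_le (K := zpowers t) fun x j => ?_).trans
      (by rw [Nat.card_zpowers, orderOf_eq_prime (p := 2) (by rw [pow_two, f.t2]) f.t1])
    rcases inv1 f (l (i j.1)) j.2 (e x j.1) with rfl | rfl
    exacts [one_mem _, mem_zpowers _]
  rw [← card_im' i c.p2] at b
  nlinarith

theorem wc (c : Lf q ρ R ψ) (f : Fr ρ t) (l : R ≤ 𝐂₁(t)) (i : J ≤ R) (e : El J) (k : 2 * q ^ ((m / 2) ^ 2) ≤ Nat.card J)
    (ln : ∀ x ∈ J, Sem σ 1 (U5.up ψ x)) : J ≤ im ρ (WW σ m) ⊔ zpowers t := by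
  have d := c.d
  have Wel := d.W_el (Vf_ti (m := m) le_rfl)
  have b := c2 c f l i e
  have u := d.ju (P := im ψ ⊤) c.gam ((c.tw.to_subgroup _).map ψ) (im_mono le_top)
    (fun y j => by obtain ⟨x, a, -, rfl⟩ := mem_im.1 j; exact ln x a) (el_im e) (by omega)
    (fun w j => c.pu (d.W_le j) ▸ up_im trivial (c.u0 (d.W_le j))) (d.s_WSU.trans SU_le) Wel d.card_W.ge
  intro x j
  have w : U5.up ψ x ∈ WW σ m := u ▸ up_im j (i j)
  have wB := up_im (φ := ρ) w (d.s_WSU w)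
  have k := c.dec0 (i j) (d.W_le w)
  have : (U5.up ρ (U5.up ψ x))⁻¹ * x ∈ zpowers t := by
    rcases inv1 f (l k.1) k.2 (Pg.sqm (by rw [← mul_inv_rev, el_im Wel _ wB, inv_one]) (e x j)
      (by simpa [mul_assoc] using k.2 _ (inv_mem (im_le wB)))) with k | k <;> rw [k]
    exacts [one_mem _, mem_zpowers _]
  simpa using mul_mem (mem_sup_left wB) (mem_sup_right this)

theorem ex4 (f : Fr ρ t) (s : IsSyl 2 R 𝐂₁(t)) (n : ¬ R2 ρ t) : ∃ r' ∈ R, r' ∈ 𝐂(ρ.range) ∧ r' * r' = t := by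
  obtain ⟨r, i, r2, k⟩ : ∃ r ∈ 𝐂₁(t) ⊓ 𝐂(ρ.range), E2 r ∧ r ≠ 1 ∧ r ≠ t := by
    by_contra! k
    exact n fun r i e => or_iff_not_imp_left.2 (k r i e)
  obtain ⟨y, j, l⟩ := s.exists_cj_le (two_zp r2) (zpowers_le.2 i.1)
  have a := l (conj_mem_cj y (mem_zpowers r))
  have b := conj_mem_of_mem_normalizer (normalizer_le_normalizer_centralizer _ (Dm.s_ct f j)) i.2
  have k1 : y * r * y⁻¹ ≠ 1 := by simpa using k.1
  have k2 : y * r * y⁻¹ ≠ t := fun o => k.2 (by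
    rw [mul_inv_eq_iff_eq_mul, ← mem_c1.1 j] at o; exact mul_left_cancel o)
  obtain ⟨n, o⟩ := r2.cj y
  generalize y * r * y⁻¹ = r at *
  induction n generalizing r with
  | zero => exact (k1 (by simpa using o)).elim
  | succ n ih =>
    by_cases p : r * r = t
    · exact ⟨r, a, b, p⟩
    · exact ih _ (mul_mem a a) (mul_mem b b) (fun p => (inv1 f (s.le a) b p).elim k1 k2) p
        (by rw [← pow_two, ← pow_mul, ← pow_succ', o])

theorem ctl (c : Lf q ρ R ψ) (f : Fr ρ t) (s : IsSyl 2 R 𝐂₁(t)) (tR : t ∈ R) (i : x * t * x⁻¹ ∈ im ρ (WW σ m) ⊔ zpowers t) :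
    ∃ n ∈ 𝐍(im ρ (WW σ m) ⊔ zpowers t), n * t * n⁻¹ = x * t * x⁻¹ := by
  have d := c.d
  have el := elA d f
  have Wel := d.W_el (Vf_ti (m := m) le_rfl)
  obtain ⟨r, rR, rC, rt⟩ : ∃ r ∈ R, r ∈ 𝐂(ρ.range) ∧ (r = t ∧ R2 ρ t ∨ r * r = t) := by
    by_cases k : R2 ρ t
    · exact ⟨t, tR, f.cm, .inl ⟨rfl, k⟩⟩
    · obtain ⟨r, a, b, e⟩ := ex4 f s k
      exact ⟨r, a, b, .inr e⟩
  have tr : t ∈ zpowers r := by
    rcases rt with ⟨rfl, -⟩ | rfl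
    exacts [mem_zpowers _, mul_mem (mem_zpowers r) (mem_zpowers r)]
  have PR : im ρ (UT σ m ⊓ 𝐂(WW σ m)) ⊔ zpowers r ≤ R := sup_le (c.iml inf_le_left) (zpowers_le.2 rR)
  have AP : im ρ (WW σ m) ⊔ zpowers t ≤ im ρ (UT σ m ⊓ 𝐂(WW σ m)) ⊔ zpowers r :=
    sup_le_sup (im_mono (le_inf d.W_le (d.W_ab (Vf_ti le_rfl)))) (zpowers_le.2 tr)
  have PA : im ρ (UT σ m ⊓ 𝐂(WW σ m)) ⊔ zpowers r ≤ 𝐂(im ρ (WW σ m) ⊔ zpowers t) := by
    rw [centralizer_sup, centralizer_zpowers]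
    refine le_inf (sup_le (fun y j => ?_) (zpowers_le.2 (centralizer_anti im_le rC))) (PR.trans s.le)
    obtain ⟨g, a, b, rfl⟩ := mem_im.1 j
    exact im_cent b a.2
  obtain ⟨k, j, l⟩ := s.exists_cj_le (isPGroup_cj x⁻¹ (c.tw.to_le PR)) (by
    rw [cj_le_iff, inv_inv, cj_centralizer_singleton]; exact fun y j => mem_c1.2 (PA j _ i).symm)
  rw [← cj_mul] at l
  have e1 : (k * x⁻¹)⁻¹ * t * (k * x⁻¹)⁻¹⁻¹ = x * t * x⁻¹ := by
    calc _ = x * (k⁻¹ * t * k⁻¹⁻¹) * x⁻¹ := by group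
      _ = _ := by rw [conj_eq_iff.2 (mem_c1.1 (inv_mem j))]
  rw [← e1] at i ⊢
  generalize k * x⁻¹ = g at *
  have lA := (cj_mono g AP).trans l
  have lB := (cj_mono g le_sup_left).trans lA
  have dB : cj[g] (im ρ (WW σ m)) ≤ ⁅R, R⁆ := by
    have a := (inf_le_left (b := 𝐂(WW σ m))).trans d.s_USU
    have b := (cj_mono g le_sup_left).trans l
    refine (cj_mono g (im_mono d.W_der)).trans ?_
    rw [im_comm a a, cj_commutator]; exact commutator_mono b b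
  have ln : ∀ y ∈ cj[g] (im ρ (WW σ m)), Sem σ 1 (U5.up ψ y) := fun y a => by
    obtain ⟨θ, o⟩ := c.sem (lB a)
    exact dlin d c.k c.le (dB a) o (c.ind (lB a)) ▸ o
  have sR : g * t * g⁻¹ ∈ R := lA (conj_mem_cj g (mem_sup_right (mem_zpowers t)))
  have mA : ∀ y ∈ cj[g] (im ρ (WW σ m) ⊔ zpowers t), y ∈ cj[g] (im ρ (WW σ m)) ∨ g * t * g⁻¹ * y ∈ cj[g] (im ρ (WW σ m)) := fun y a =>
    (memA f (mem_cj.1 a)).imp mem_cj.2 fun b => mem_cj.2 (by simpa [mul_assoc] using b)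
  have ls : Sem σ 1 (U5.up ψ (g * t * g⁻¹)) := by
    rcases rt with ⟨rfl, r2⟩ | rt
    · rcases mA r (mem_cj.2 (by simpa using i)) with a | a
      · exact absurd (der d f r2 c.tw s.le (dB a)) (tL d f)
      · have := ln _ a
        rwa [up_mul sR tR, (c.ker tR).2 f.cm, mul_one] at this
    have r' : g * r * g⁻¹ ∈ R := l (conj_mem_cj g (mem_sup_right (mem_zpowers r)))
    obtain ⟨θ, o⟩ := c.sem r'
    have o2 := o.mul o
    rw [← up_mul r' r', ← conj_mul_conj, rt] at o2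
    have s2 := c.sq sR (fr_cj f g).t2
    rcases d.inv_th o2 s2 with e | e
    · exact e ▸ o2
    have q2 := sqs d e
    rw [e] at o2
    have b := c2 c f s.le lB (Pg.el_cj (el_im Wel) g)
    rw [card_cj, d.s_card f.ker (d.W_two (Vf_ti le_rfl)) d.s_WSU, d.card_W] at b
    have := d.jG (A := im ψ (cj[g] (im ρ (WW σ m)))) (fun y a => by
      obtain ⟨x, a', b, rfl⟩ := mem_im.1 a; exact c.lin b (ln x a')) (el_im (Pg.el_cj (el_im Wel) g)) o2 s2 (c.fl sR) fun y a => by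
        obtain ⟨x, a', b, rfl⟩ := mem_im.1 a
        rw [← up_mul b sR, ← up_mul sR b, Pg.el_ab (Pg.el_cj el g) (conj_mem_cj g (mem_sup_right (mem_zpowers t))) x
          (cj_mono g le_sup_left a')]
    have := d.s_Q
    nlinarith
  refine ⟨_, inv_mem (mem_normalizer_of_cj_le (wc c f s.le lA (Pg.el_cj el _) (by rw [card_cj]; exact cardA c.d f) fun y a => ?_)), rfl⟩
  rcases mA y a with b | b
  · exact ln y b
  · have := ls.inv1.mul1 (ln _ b)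
    rwa [up_mul sR (lA a), inv_mul_cancel_left] at this

theorem r2 (c : Lf q ρ R ψ) (f : Fr ρ t) (s : IsSyl 2 R 𝐂₁(t)) (tR : t ∈ R) (n : x ∈ 𝐍(im ρ (WW σ m) ⊔ zpowers t))
    (e : x * t * x⁻¹ ≠ t) : R2 ρ t := by
  have d := c.d
  by_contra k
  obtain ⟨r', a, b, r4⟩ := ex4 f s k
  have nA : R ≤ 𝐍(im ρ (WW σ m) ⊔ zpowers t) := le_normalizer_sup c.nB fun y j =>
    centralizer_le_normalizer _ (centralizer_zpowers t ▸ s.le j)
  have cA : 𝐂(im ρ (WW σ m) ⊔ zpowers t) = 𝐂(im ρ (WW σ m)) ⊓ 𝐂₁(t) := by rw [centralizer_sup, centralizer_zpowers]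
  have s1 := (s.mono (le_inf s.le nA) inf_le_left).inf_of_le_normalizer (le_inf (cA.le.trans inf_le_right) (centralizer_le_normalizer _))
    (le_normalizer_centralizer inf_le_right)
  obtain ⟨y, j, z, l, rfl⟩ := s1.frattini (normalizer_le_normalizer_centralizer _ n)
  have ab := Loc.isMulCommutative_iff.1 (f.cyc _ inf_le_right c.tw.to_inf_left).isMulCommutative
  have rP : r' ∈ R ⊓ 𝐂(im ρ (WW σ m) ⊔ zpowers t) := ⟨a, cA ▸ ⟨centralizer_anti im_le b, s.le a⟩⟩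
  have cw : ∀ y ∈ R ⊓ 𝐂(im ρ (WW σ m) ⊔ zpowers t), U5.up ψ y ∈ UT σ m ⊓ 𝐂(WW σ m) := fun y j =>
    have := c.cm j.1 d.W_le (centralizer_anti le_sup_left j.2)
    ⟨c.lin j.1 (d.cW (c.sem j.1) this).1, this⟩
  have rZ : r' ∈ 𝐂(R ⊓ 𝐂(im ρ (WW σ m) ⊔ zpowers t)) := fun y j => by
    have := mul_mem (mem_c1.2 (b _ (up_range (U5.up ψ y)))) (mem_c1.2 (ab ⟨a, b⟩ _ (c.dec0 j.1 (cw y j).1)))
    rw [mul_inv_cancel_left] at this
    exact mem_c1.1 this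
  have uP := conj_mem_of_mem_normalizer l rP
  have uZ := conj_mem_of_mem_normalizer (normalizer_le_normalizer_centralizer _ l) rZ
  have := d.zR (cw _ uP) (c.cm uP.1 inf_le_left (centralizer_anti (le_inf (c.iml inf_le_left) (by
    rw [cA]
    refine le_inf (fun y j => ?_) (im_le.trans fun x i => mem_c1.2 (f.cm x i))
    obtain ⟨g, a, b, rfl⟩ := mem_im.1 j
    exact im_cent b a.2)) uZ))
  rw [← up_mul uP.1 uP.1, c.ker (mul_mem uP.1 uP.1), ← conj_mul_conj, r4] at this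
  have tP : t ∈ R ⊓ 𝐂(im ρ (WW σ m) ⊔ zpowers t) := by have := mul_mem rP rP; rwa [r4] at this
  rcases inv1 f (s.le (conj_mem_of_mem_normalizer l tP).1) this (fr_cj f z).t2 with k | k
  · exact (fr_cj f z).t1 k
  · exact e (by rw [mul_inv_rev, ← mul_assoc, mul_assoc y, mul_assoc y, k, conj_eq_iff.2 (mem_c1.1 (cA.le j).2)])

theorem nz (d : Dm σ q m) (f : Fr ρ t) (r : R2 ρ t) (e : σ a = a) : x * t * x⁻¹ ≠ tv ρ (bv 0) a := fun k => by
  obtain ⟨g, i, p, j, -, o⟩ := d.cz e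
  have l : ∀ g ∈ Q σ (bv 0), U5.up ρ g ∈ 𝐂₁(x * t * x⁻¹) := fun g i => k ▸ mem_c1.2 (by
    rw [← up_mul (d.Q_SU i) (tv_SU _ _), (Dm.s_tvY _ a).2 g (d.Q_Y i), up_mul (tv_SU _ _) (d.Q_SU i)])
  exact tL d (fr_cj f x) (d.der2 (fr_cj f x) (r2_cj r x)
    (by have := commutator_mem_commutator (l g i) (l p j); rwa [← up_comm (d.Q_SU i) (d.Q_SU j), ← o, ← tv.eq_1, ← k] at this) (e2_inv (fr_cj f x).t2))

theorem tr (d : Dm σ q m) (hv : hf σ v v = 0) (v0 : v ≠ 0) (e : σ a = a) (a0 : a ≠ 0) :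
    ∃ g ∈ SU σ m, g * E σ v 0 a * g⁻¹ = E σ (bv 0) 0 1 := by
  obtain ⟨c, k⟩ := d.tv_one hv e
  obtain ⟨g, i, j⟩ := d.witt1 (u := c • v) (by simp [hv]) (fun o => d.tv_ne hv v0 e a0 (by rw [k, o, E_zero_v])) d.b00 d.b0
  exact ⟨g, i, by rw [k, tv_cj1 (su_sem i), j]⟩

end Tx

open Tx

theorem Dm.tz (d : Dm σ q m) (f : Fr ρ t) (o : Top ρ F) : R2 ρ t ∧ IsConj t (t * tv ρ (bv 0) 1) := by
  obtain ⟨T, ψ, s, tT, c⟩ := exT d f
  obtain ⟨g, i, e⟩ := exA d f o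
  obtain ⟨n, i, k⟩ := ctl c f s tT i
  rw [← k] at e
  have r := r2 c f s tT i e
  refine ⟨r, by_contra fun nc => ?_⟩
  have tA : t ∈ im ρ (WW σ m) ⊔ zpowers t := mem_sup_right (mem_zpowers t)
  have tB : t ∉ im ρ (WW σ m) := fun k => tL d f (im_le k)
  have st : ∀ n ∈ 𝐍(im ρ (WW σ m) ⊔ zpowers t), ∀ y ∈ {y | y ∈ im ρ (WW σ m) ⊔ zpowers t ∧ IsConj t y},
      n * y * n⁻¹ ∈ {y | y ∈ im ρ (WW σ m) ⊔ zpowers t ∧ IsConj t y} := fun n i y j =>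
    ⟨conj_mem_of_mem_normalizer i j.1, j.2.trans (Pg.ic _ _)⟩
  have nA : ∀ x ∈ ρ.range, x ∈ 𝐍(im ρ (WW σ m)) → x ∈ 𝐍(im ρ (WW σ m) ⊔ zpowers t) := fun x i j =>
    le_normalizer_sup (zpowers_le.2 j) (zpowers_le.2 (centralizer_le_normalizer _ (centralizer_zpowers t ▸ mem_c1.2 (f.cm x i))))
      (mem_zpowers x)
  obtain ⟨x, xA, xB, k⟩ := prod_fix (Pg.el_ab (elA d f)) f.t2 tA tB (fun x i => (memA f i).resolve_left)
    (Ω := {y | y ∈ im ρ (WW σ m) ⊔ zpowers t ∧ IsConj t y}) (fun _ i => i.1) (by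
      have := Ab2.ncard_modEq Nat.prime_two (BG.piGrp_of_isPGroup Nat.prime_two (two_im (φ := ρ) d.U_two))
        (s := {y | y ∈ im ρ (WW σ m) ⊔ zpowers t ∧ IsConj t y} \ im ρ (WW σ m)) fun u i y j =>
          ⟨st u (nA u (im_le i) (c.nB (c.uR i))) y j.1, fun k => j.2 (by
            simpa [mul_assoc] using conj_mem_of_mem_normalizer' (c.nB (c.uR i)) k)⟩
      refine Nat.odd_iff.2 (Eq.trans this (congrArg (· % 2) (Set.ncard_eq_one.2 ⟨t, ?_⟩)))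
      refine Set.eq_singleton_iff_unique_mem.2 ⟨⟨⟨⟨tA, IsConj.refl t⟩, tB⟩, centralizer_anti im_le f.cm⟩, fun y j => ?_⟩
      obtain ⟨w, a, b, k⟩ := mem_im.1 ((memA f j.1.1.1).resolve_left j.1.2)
      have := c.cm (c.u0 (d.W_le a)) le_rfl (k ▸ mul_mem (centralizer_anti im_le f.cm) j.2)
      rw [c.pu (d.W_le a)] at this
      obtain ⟨a', e, rfl⟩ := (mem_Z d.iv d.b00).1 (d.cU (GU_le (SU_le b)) this (e2_of d.U_two (d.W_le a)))
      have k : y = t * tv ρ (bv 0) a' := by rw [tv, k, ← mul_assoc, f.t2, one_mul]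
      by_contra y1
      obtain ⟨g, i, l⟩ := tr d d.b00 d.b0 e fun a0 => y1 (by simp [k, a0, tv])
      refine nc (j.1.1.2.trans ?_)
      rw [k, tv, tv, ← l, up_cj i (tv_SU _ _), ← conj_eq_iff.2 (f.cm _ (up_range g)), ← conj_mul_conj, conj_eq_iff.2 (f.cm _ (up_range g))]
      exact Pg.ic _ _)
  obtain ⟨w, a, b, l⟩ := mem_im.1 ((memA f xA).resolve_left xB)
  have : w = 1 := d.PP_fix a fun g j => icm d f.ker (su_sem j.1) (ind_up j.1) b (e2_of d.U_two (d.W_le a)) (by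
    have n := nA _ (up_range g) (inor d.s_WSU (ind_up j.1) j.2)
    rw [l, ← mul_assoc, f.cm _ (up_range g), mul_assoc, conj_eq_iff.1 (k _ n (st _ n)), mul_assoc])
  rw [this, up_one, eq_comm, mul_eq_one_iff_inv_eq, ti f.t2] at l
  exact e (l ▸ k n i (st n i))

end CF.U5
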