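import Cfsg.Agent.U5.Q1
import Cfsg.Agent.U5.B2

/-! Automorphisms of the vector stabiliser. -/

set_option autoImplicit false
set_option linter.unusedSectionVars false

namespace CF.U5

open Cfsg Subgroup Equiv CF.Loc CF.LX CF.Dbl Module
open scoped commutatorElement

variable {K : Type} [Field K] [Fintype K] [CharP K 2] {m q : ℕ} {σ θ : K ≃+* K} {a c ζ ζ' : K}
  {g p ξ : Perm (Fin m → K)} {u v w x y n n' : Fin m → K} {b b' : Perm (Fin m → K) → Perm (Fin m → K)}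

namespace Yx

variable (σ v y) in
/-- projection to the complement of a hyperbolic pair -/
def pj (x : Fin m → K) : Fin m → K := x + hf σ x y • v + hf σ x v • y

variable (σ v y) in
/-- vector part of an Eichler transformation -/
def nv (g : Perm (Fin m → K)) : Fin m → K := pj σ v y (g y)

variable (σ v y) in
/-- an Eichler transformation with given vector part -/
noncomputable def sx (n : Fin m → K) : Perm (Fin m → K) := E σ v (pj σ v y n) (Classical.epsilon (Ok σ v (pj σ v y n)))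

/-- the induced map -/
noncomputable def fm (σ : K ≃+* K) (v y : Fin m → K) (b : Perm (Fin m → K) → Perm (Fin m → K)) (n : Fin m → K) : Fin m → K := nv σ v y (b (sx σ v y n))

variable (σ v b) in
/-- endomorphisms of the stabiliser -/
structure Hm : Prop where
  mY : ∀ g ∈ Y σ v, b g ∈ Y σ v
  mul : ∀ g ∈ Y σ v, ∀ p ∈ Y σ v, b (g * p) = b g * b p
  mQ : ∀ g ∈ Q σ v, b g ∈ Q σ v
  mZ : ∀ g ∈ Z σ v, b g ∈ Z σ v

/-- a hyperbolic pair -/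
structure Hp (σ : K ≃+* K) (q m : ℕ) (v y : Fin m → K) : Prop extends Dm σ q m where
  hv : hf σ v v = 0
  hy : hf σ y y = 0
  e : hf σ y v = 1

theorem pj_add (x x' : Fin m → K) : pj σ v y (x + x') = pj σ v y x + pj σ v y x' := by simp only [pj, hf_add_l]; module
theorem pj_smul (c : K) (x : Fin m → K) : pj σ v y (c • x) = c • pj σ v y x := by simp only [pj, hf_smul_l]; module
theorem pj_of (h : hf σ x v = 0) (k : hf σ x y = 0) : pj σ v y x = x := by simp [pj, h, k]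
theorem sx_Q (x : Fin m → K) : sx σ v y x ∈ Q σ v := E_Q _ _ _
theorem Hm.one (h : Hm σ v b) : b 1 = 1 := by simpa using h.mul 1 (one_mem _) 1 (one_mem _)
theorem Hm.inv (h : Hm σ v b) (i : g ∈ Y σ v) : b g⁻¹ = (b g)⁻¹ :=
  eq_inv_of_mul_eq_one_left (by rw [← h.mul _ (inv_mem i) _ i, inv_mul_cancel, h.one])
theorem Hm.cj (h : Hm σ v b) (i : g ∈ Y σ v) (j : p ∈ Y σ v) : b (g * p * g⁻¹) = b g * b p * (b g)⁻¹ := by
  rw [h.mul _ (mul_mem i j) _ (inv_mem i), h.mul _ i _ j, h.inv i]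
theorem Hm.comm (h : Hm σ v b) (i : g ∈ Y σ v) (j : p ∈ Y σ v) : b ⁅g, p⁆ = ⁅b g, b p⁆ := by
  rw [commutatorElement_def, h.mul _ (mul_mem (mul_mem i j) (inv_mem i)) _ (inv_mem j), h.cj i j, h.inv j]; rfl

namespace Hp
variable (d : Hp σ q m v y)
include d

theorem e' : hf σ v y = 1 := by rw [← d.sy, d.e, map_one]
theorem v0 : v ≠ 0 := fun o => by simpa [o] using d.e
theorem pv (x : Fin m → K) : hf σ (pj σ v y x) v = 0 := by simp [pj, d.hv, d.e, CharTwo.add_self_eq_zero]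
theorem py (x : Fin m → K) : hf σ (pj σ v y x) y = 0 := by simp [pj, d.hy, d.e', CharTwo.add_self_eq_zero]
theorem pp (x : Fin m → K) : pj σ v y (pj σ v y x) = pj σ v y x := pj_of (d.pv x) (d.py x)
theorem p_v : pj σ v y v = 0 := by simp [pj, d.hv, d.e', vv]
theorem p_y : pj σ v y y = 0 := by simp [pj, d.hy, d.e, vv]
theorem p_eq (h : hf σ x v = 0) : x = pj σ v y x + hf σ x y • v := by simp [pj, h, add_assoc, vv]
theorem nv_E (o : Ok σ v n ζ) : nv σ v y (E σ v n ζ) = pj σ v y n := by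
  simp [nv, E_ap o, pj_add, pj_smul, d.p_v, d.p_y, d.e]
theorem exE (i : g ∈ Q σ v) : ∃ ζ, Ok σ v (nv σ v y g) ζ ∧ g = E σ v (nv σ v y g) ζ := by
  obtain ⟨n, ζ, o, rfl⟩ := (mem_Q d.iv d.hv).1 i
  have : nv σ v y (E σ v n ζ) = n + hf σ n y • v := by rw [d.nv_E o, pj, o.nv, zero_smul, add_zero]
  exact ⟨_, this ▸ o.shift _, this ▸ (E_shift o _).symm⟩
theorem nv_mul (i : g ∈ Q σ v) (j : p ∈ Q σ v) : nv σ v y (g * p) = nv σ v y g + nv σ v y p := by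
  obtain ⟨n, ζ, o, rfl⟩ := (mem_Q d.iv d.hv).1 i
  obtain ⟨n', ζ', o', rfl⟩ := (mem_Q d.iv d.hv).1 j
  rw [E_mul o o', d.nv_E (o.mul o'), d.nv_E o, d.nv_E o', pj_add]
theorem nv_inv (i : g ∈ Q σ v) : nv σ v y g⁻¹ = nv σ v y g := by
  obtain ⟨n, ζ, o, rfl⟩ := (mem_Q d.iv d.hv).1 i
  rw [E_inv o, d.nv_E o.inv, d.nv_E o]
theorem nv_Z (i : g ∈ Z σ v) : nv σ v y g = 0 := by
  obtain ⟨a, e, rfl⟩ := (mem_Z d.iv d.hv).1 i
  rw [d.nv_E (ok_tv d.iv d.hv e), pj_of (by simp) (by simp)]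
theorem Z_of (i : g ∈ Q σ v) (j : p ∈ Q σ v) (e : nv σ v y g = nv σ v y p) : g * p⁻¹ ∈ Z σ v := by
  obtain ⟨ζ, -, k⟩ := d.exE (mul_mem i (inv_mem j))
  rw [k, d.nv_mul i (inv_mem j), d.nv_inv j, e, vv]; exact tv_Z _ _
theorem pj_Y (i : g ∈ Y σ v) (h : hf σ x v = 0) : pj σ v y (g (pj σ v y x)) = pj σ v y (g x) := by
  conv_rhs => rw [d.p_eq h, (su_sem i.1).add, (su_sem i.1).smul1, (mem_Y.1 i).2, pj_add, pj_smul, d.p_v, smul_zero, add_zero]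
theorem pe_Y (i : g ∈ Y σ v) (h : hf σ x v = 0) : hf σ (g x) v = 0 := by rw [← (mem_Y.1 i).2, (su_sem i.1).form1, h]
theorem E_Y (i : g ∈ Y σ v) (n : Fin m → K) (ζ : K) : g * E σ v n ζ * g⁻¹ = E σ v (g n) ζ := by rw [E_cj1 (su_sem i.1), (mem_Y.1 i).2]
theorem ok_Y (i : g ∈ Y σ v) (o : Ok σ v n ζ) : Ok σ v (g n) ζ := by simpa [(mem_Y.1 i).2] using o.cj (su_sem i.1)
theorem nv_cj (i : g ∈ Y σ v) (j : p ∈ Q σ v) : nv σ v y (g * p * g⁻¹) = pj σ v y (g (nv σ v y p)) := by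
  obtain ⟨n, ζ, o, rfl⟩ := (mem_Q d.iv d.hv).1 j
  rw [d.E_Y i, d.nv_E (d.ok_Y i o), d.nv_E o, d.pj_Y i o.nv]
theorem sx_ok (n : Fin m → K) : Ok σ v (pj σ v y n) (Classical.epsilon (Ok σ v (pj σ v y n))) :=
  Classical.epsilon_spec (d.ok d.hv (d.pv n))
theorem nv_sx (n : Fin m → K) : nv σ v y (sx σ v y n) = pj σ v y n := by rw [sx, d.nv_E (d.sx_ok n), d.pp]
theorem QY : Q σ v ≤ Y σ v := d.Q_Y
theorem ZY : Z σ v ≤ Y σ v := Z_le_Q.trans d.Q_Y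
theorem ZC (i : g ∈ Y σ v) (e : g ∈ 𝐂(Q σ v)) : g ∈ Z σ v := by
  obtain ⟨c, w, j, -, k⟩ := d.cQ0 d.hv d.v0 (GU_le (SU_le i.1)) e
  rwa [d.sc_W i.2 (d.ZY j).2 d.v0 k]
theorem tv_eq (e : σ a = a) (e' : σ c = c) (k : E σ v 0 a = E σ v 0 c) : a = c := by
  have := congrArg (fun g : Perm (Fin m → K) => hf σ (g y) y) k
  simpa [E_ap (ok_tv d.iv d.hv e), E_ap (ok_tv d.iv d.hv e'), d.e, d.e'] using this
theorem tr0 (k : ∀ c, c * a + σ (c * a) = 0) : a = 0 := by_contra fun o => by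
  obtain ⟨ω, e⟩ := d.om
  simpa [o, e] using k (ω / a)
theorem exw : ∃ w n, w ∉ Submodule.span K {v} ∧ hf σ w w = 0 ∧ hf σ w v = 0 ∧ pj σ v y w = w ∧ hf σ n v = 0 ∧
    E σ w 0 1 ∈ Y σ v ∧ hf σ n w = 1 ∧ ∀ x, E σ w 0 1 x = x + hf σ x w • w := by
  obtain ⟨w, a, b, c, e⟩ := d.out v y (nip_ne (by simp [d.e']))
  have a' : w ∉ Submodule.span K {v} := fun k => a (Submodule.span_mono (by simp) k)
  obtain ⟨n, -, f, -, k⟩ := d.iso_val (u := v) (v := v) nip_self (by simpa using a') 1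
  exact ⟨w, n, a', b, c, pj_of c e, f, ⟨tv_SU _ _, E_fix (d.sw c) (by simp) _⟩, by rw [← d.sy, k, map_one],
    fun x => by simp [E_ap (ok_tv d.iv b (map_one σ))]⟩

theorem cmt {μ : (Fin m → K) → Fin m → K} (add : ∀ x x', μ (x + x') = μ x + μ x') (l : ∀ x, μ (pj σ v y x) = μ x)
    (r : ∀ x, pj σ v y (μ x) = μ x) (k : ∀ g ∈ Y σ v, ∀ x, hf σ x v = 0 → μ (g x) = pj σ v y (g (μ x))) :
    ∃ s : K, ∀ x, μ x = s • pj σ v y x := by
  obtain ⟨w, n, a, -, c, e, f, i, o, t⟩ := d.exw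
  have := k _ i n f
  rw [t, t, o, one_smul, add, pj_add, r, pj_smul, add_right_inj, e] at this
  refine ⟨hf σ (μ n) w, fun x => ?_⟩
  have z : μ 0 = 0 := by simpa using add 0 0
  rw [← l]
  refine Eq.trans ?_ (congrArg _ (d.pp x))
  exact (d.Y_irr d.hv d.v0 (p := fun x => hf σ x v = 0 ∧ μ x = hf σ (μ n) w • pj σ v y x)
    (fun x y a b => ⟨by simp [a.1, b.1], by rw [add, a.2, b.2, pj_add, smul_add]⟩)
    (fun c => ⟨by simp [d.hv], by rw [← l, pj_smul, d.p_v, smul_zero, z, smul_zero]⟩)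
    (fun g i x a => ⟨d.pe_Y i a.1, by rw [k g i x a.1, a.2, (su_sem i.1).smul1, pj_smul, d.pj_Y i a.1]⟩) c a ⟨c, this.trans (by rw [e])⟩ (d.pv x)).2

variable (h : Hm σ v b)
include h

theorem f_nv (i : g ∈ Q σ v) : fm σ v y b (nv σ v y g) = nv σ v y (b g) := by
  have j : sx σ v y (nv σ v y g) ∈ Q σ v := E_Q _ _ _
  have := d.nv_Z (h.mZ _ (d.Z_of j i ((d.nv_sx _).trans (d.pp _))))
  rw [h.mul _ (d.QY j) _ (inv_mem (d.QY i)), h.inv (d.QY i), d.nv_mul (h.mQ _ j) (inv_mem (h.mQ _ i)), d.nv_inv (h.mQ _ i),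
    ← vsub, sub_eq_zero] at this
  exact this
theorem f_pj (x : Fin m → K) : fm σ v y b (pj σ v y x) = fm σ v y b x := by rw [fm, fm, sx, sx, d.pp]
theorem pj_f (x : Fin m → K) : pj σ v y (fm σ v y b x) = fm σ v y b x := d.pp _
theorem fv (x : Fin m → K) : hf σ (fm σ v y b x) v = 0 := d.pv _
theorem fy (x : Fin m → K) : hf σ (fm σ v y b x) y = 0 := d.py _
theorem f_add (x x' : Fin m → K) : fm σ v y b (x + x') = fm σ v y b x + fm σ v y b x' := by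
  have i : ∀ x, sx σ v y x ∈ Q σ v := fun _ => E_Q _ _ _
  rw [← d.f_pj h, pj_add, ← d.nv_sx, ← d.nv_sx, ← d.nv_mul (i _) (i _), d.f_nv h (mul_mem (i _) (i _)),
    h.mul _ (d.QY (i _)) _ (d.QY (i _)), d.nv_mul (h.mQ _ (i _)) (h.mQ _ (i _))]; rfl
theorem f_Y (i : g ∈ Y σ v) (e : hf σ x v = 0) : fm σ v y b (g x) = pj σ v y (b g (fm σ v y b x)) := by
  have j : sx σ v y x ∈ Q σ v := E_Q _ _ _
  rw [← d.f_pj h, ← d.pj_Y i e, ← d.nv_sx x, ← d.nv_cj i j, d.f_nv h (conj_mem_of_mem_normalizer (d.Y_nor d.hv d.v0 i) j),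
    h.cj i (d.QY j), d.nv_cj (h.mY _ i) (h.mQ _ j)]; rfl
theorem b_E (o : Ok σ v n ζ) : ∃ ζ', Ok σ v (fm σ v y b n) ζ' ∧ b (E σ v n ζ) = E σ v (fm σ v y b n) ζ' := by
  rw [← d.f_pj h, ← d.nv_E o, d.f_nv h (E_Q _ _ _)]; exact d.exE (h.mQ _ (E_Q _ _ _))

theorem semi (h' : Hm σ v b') (e : ∀ g ∈ Y σ v, b (b' g) = g) :
    ∃ θ : K ≃+* K, ∀ c x, fm σ v y b (c • x) = θ c • fm σ v y b x := by
  have ff : ∀ x, fm σ v y b (fm σ v y b' x) = pj σ v y x := fun x => by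
    rw [fm.eq_1 σ v y b', d.f_nv h (h'.mQ _ (sx_Q x)), e _ (d.QY (sx_Q x)), d.nv_sx]
  choose s hs using fun c : K => d.cmt (μ := fun x => fm σ v y b (c • fm σ v y b' x))
    (fun x x' => by rw [d.f_add h', smul_add, d.f_add h]) (fun x => by rw [d.f_pj h']) (fun x => d.pj_f h _) fun g i x a => by
      have j := h'.mY g i
      rw [d.f_Y h' i a, ← pj_smul, d.f_pj h, ← (su_sem j.1).smul1, d.f_Y h j (by simp [d.fv h']), e g i]
  obtain ⟨w, -, a, -, -, k, -⟩ := d.exw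
  have w0 : w ≠ 0 := fun o => a (o ▸ zero_mem _)
  have sj : ∀ x, ∃ x', fm σ v y b' x' = pj σ v y x := by
    have : Function.Injective fun x : {x // pj σ v y x = x} => (⟨_, d.pj_f h' x⟩ : {x // pj σ v y x = x}) := fun x x' o =>
      Subtype.ext (by rw [← x.2, ← x'.2, ← ff, ← ff]; exact congrArg _ (Subtype.ext_iff.1 o))
    exact fun x => let ⟨x', o⟩ := Finite.surjective_of_injective this ⟨_, d.pp x⟩; ⟨x', Subtype.ext_iff.1 o⟩
  have key : ∀ c x, fm σ v y b (c • x) = s c • fm σ v y b x := fun c x => by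
    obtain ⟨x', o⟩ := sj x
    rw [← d.f_pj h, pj_smul, ← o, hs, ← d.f_pj h x, ← o, ff]
  have inj : ∀ a c : K, a • fm σ v y b (fm σ v y b' w) = c • fm σ v y b (fm σ v y b' w) → a = c := fun a c o =>
    smul_left_injective K w0 (by rwa [ff, k] at o)
  let φ : K →+* K :=
    { toFun := s
      map_one' := inj _ _ (by rw [← key, one_smul, one_smul])
      map_mul' := fun a c => inj _ _ (by rw [← key, mul_smul, key, key, mul_smul])
      map_zero' := inj _ _ (by have := d.f_add h 0 0; rw [← key, zero_smul, zero_smul]; simpa using this)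
      map_add' := fun a c => inj _ _ (by rw [← key, add_smul, d.f_add h, key, key, add_smul]) }
  exact ⟨RingEquiv.ofBijective φ (Finite.injective_iff_bijective.1 φ.injective), key⟩

theorem form (s : ∀ c x, fm σ v y b (c • x) = θ c • fm σ v y b x) (i : ∀ g ∈ Y σ v, b g = 1 → g = 1) : ∃ φ : K, σ φ = φ ∧ φ ≠ 0 ∧
    (∀ a, σ a = a → b (E σ v 0 a) = E σ v 0 (φ * θ a)) ∧
      ∀ x x', hf σ (fm σ v y b x) (fm σ v y b x') = φ * θ (hf σ (pj σ v y x) (pj σ v y x')) := by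
  have k : ∀ x x', b (E σ v 0 (hf σ (pj σ v y x) (pj σ v y x') + hf σ (pj σ v y x') (pj σ v y x))) =
      E σ v 0 (hf σ (fm σ v y b x) (fm σ v y b x') + hf σ (fm σ v y b x') (fm σ v y b x)) := fun x x' => by
    obtain ⟨_, o, e⟩ := d.b_E h (d.sx_ok x)
    obtain ⟨_, o', e'⟩ := d.b_E h (d.sx_ok x')
    rw [← E_comm (d.sx_ok x) (d.sx_ok x'), h.comm (d.QY (E_Q _ _ _)) (d.QY (E_Q _ _ _)), e, e', E_comm o o', d.f_pj h, d.f_pj h]
  obtain ⟨w, n, -, -, c, e, f, -, o, -⟩ := d.exw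
  obtain ⟨ω, t⟩ := d.om
  have o : hf σ (pj σ v y n) w = 1 := by rw [← o]; conv_rhs => rw [d.p_eq f]; simp [d.sw c]
  have fx : ∀ x x' : Fin m → K, σ (hf σ x x' + hf σ x' x) = hf σ x x' + hf σ x' x := fun x x' => by rw [map_add, d.sy, d.sy, add_comm]
  have k1 : ∀ a, σ a = a → b (E σ v 0 a) = E σ v 0 ((hf σ (fm σ v y b (ω • n)) (fm σ v y b w) +
      hf σ (fm σ v y b w) (fm σ v y b (ω • n))) * θ a) := fun a r => by
    have := k (a • ω • n) w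
    rw [s, pj_smul, pj_smul, e, ← d.sy _ w, hf_smul_l, hf_smul_l, o, hf_smul_l, hf_smul_r, ← d.com, r, ← mul_add, mul_one, map_mul, r,
      ← mul_add, t, mul_one] at this
    rw [this, mul_comm]
  refine ⟨_, fx _ _, fun z => d.tv_ne d.hv d.v0 (map_one σ) one_ne_zero (i _ (d.ZY (tv_Z _ _)) (by simp [k1 1 (map_one σ), z])), k1,
    fun x x' => ?_⟩
  generalize hφ : hf σ (fm σ v y b (ω • n)) (fm σ v y b w) + hf σ (fm σ v y b w) (fm σ v y b (ω • n)) = φ at *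
  have φ1 : σ φ = φ := hφ ▸ fx _ _
  rw [← sub_eq_zero, CharTwo.sub_eq_add]
  refine d.tr0 fun c => ?_
  obtain ⟨c, rfl⟩ := θ.surjective c
  have := d.tv_eq (fx _ _) (by rw [map_mul, φ1, ← d.com, fx]) ((k (c • x) x').symm.trans (k1 _ (fx _ _)))
  rw [s, pj_smul, ← d.sy _ (fm σ v y b x'), ← d.sy _ (pj σ v y x')] at this
  simp only [hf_smul_l, map_add, map_mul, d.com, φ1] at this ⊢
  grind

theorem mkξ (s : ∀ c x, fm σ v y b (c • x) = θ c • fm σ v y b x) (i : ∀ g ∈ Y σ v, b g = 1 → g = 1) : ∃ ξ, ∃ β : K, Sem σ θ ξ ∧ ξ v = β • v ∧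
    (∀ g ∈ Q σ v, ξ * g * ξ⁻¹ ∈ Q σ v ∧ nv σ v y (ξ * g * ξ⁻¹) = nv σ v y (b g)) ∧ ∀ g ∈ Z σ v, ξ * g * ξ⁻¹ = b g := by
  obtain ⟨φ, φ1, φ0, k, l⟩ := d.form h s i
  obtain ⟨β, rfl⟩ := d.nrm φ1
  have β0 : β ≠ 0 := left_ne_zero_of_mul φ0
  have β1 : σ β ≠ 0 := right_ne_zero_of_mul φ0
  let F : (Fin m → K) → Fin m → K := fun x => (θ (hf σ x y) * β) • v + (θ (hf σ x v) * (σ β)⁻¹) • y + (σ β)⁻¹ • fm σ v y b x
  have fo : ∀ x x', hf σ (F x) (F x') = θ (hf σ x x') := fun x x' => by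
    have : hf σ x x' = hf σ x y * σ (hf σ x' v) + hf σ x v * σ (hf σ x' y) + hf σ (pj σ v y x) (pj σ v y x') := by
      simp only [pj, hf_add_l, hf_add_r, hf_smul_l, hf_smul_r, d.hv, d.hy, d.e, d.e', d.sy]; grind
    simp only [F, this, hf_add_l, hf_add_r, hf_smul_l, hf_smul_r, d.hv, d.hy, d.e, d.e', d.fv h, d.fy h, d.sw (d.fv h _), d.sw (d.fy h _),
      l, map_add, map_mul, map_inv₀, d.com, d.iv β]
    field_simp; ring
  have ad : ∀ x x', F (x + x') = F x + F x' := fun x x' => by simp only [F, hf_add_l, map_add, d.f_add h]; module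
  have inj : Function.Injective F := fun x x' o => hf_ext (σ := σ) fun w => θ.injective (by rw [← fo, ← fo, o])
  let ξ : Perm (Fin m → K) := Equiv.ofBijective F (Finite.injective_iff_bijective.1 inj)
  have S : Sem σ θ ξ := ⟨ad, fun c x => by change F _ = _ • F _; simp only [F, hf_smul_l, map_mul, s]; module, fo, d.com θ⟩
  have f0 : fm σ v y b v = 0 := by rw [← d.f_pj h, d.p_v]; simpa using s 0 0
  have ξv : ξ v = β • v := by change F v = _; simp [F, d.hv, d.e', f0]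
  refine ⟨ξ, β, S, ξv, fun g j => ⟨d.Q_cj S d.hv d.v0 ξv j, ?_⟩, fun g j => ?_⟩
  · obtain ⟨n, ζ, o, rfl⟩ := (mem_Q d.iv d.hv).1 j
    have o' := o.cj S
    have nn : ξ n = (θ (hf σ n y) * β) • v + (σ β)⁻¹ • fm σ v y b n := by change F n = _; simp [F, o.nv]
    have pe : hf σ (ξ n) v = 0 := by simp [nn, d.hv, d.fv h]
    rw [ξv] at o'
    rw [E_cj S, ξv, E_smul o' d.hv pe, d.nv_E (o'.smul d.hv pe), ← d.f_nv h j, d.nv_E o, d.f_pj h, nn, pj_smul, pj_add, pj_smul, pj_smul,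
      d.p_v, d.pj_f h, smul_zero, zero_add, smul_smul, mul_inv_cancel₀ β1, one_smul]
  · obtain ⟨a, e, rfl⟩ := (mem_Z d.iv d.hv).1 j
    rw [tv_cj S, ξv, tv_smul d.iv d.hv (by rw [← d.com, e]), k a e]

omit h

theorem inner (mY : ∀ g ∈ Y σ v, b g ∈ Y σ v) (mul : ∀ g ∈ Y σ v, ∀ p ∈ Y σ v, b (g * p) = b g * b p)
    (hq : ∀ g ∈ Q σ v, b g * g⁻¹ ∈ Z σ v) (hz : ∀ g ∈ Z σ v, b g = g) : ∃ k ∈ Q σ v, ∀ g ∈ Q σ v, b g = k * g * k⁻¹ := by
  have h : Hm σ v b := ⟨mY, mul, fun g i => by simpa using mul_mem (Z_le_Q (hq g i)) i, fun g i => (hz g i).symm ▸ i⟩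
  have zc : ∀ g ∈ Y σ v, ∀ a, g * E σ v 0 a = E σ v 0 a * g := fun g i a => (d.Z_cent d.hv i _ (tv_Z _ _)).symm
  choose ψ ψ1 ψ2 using fun x => (mem_Z d.iv d.hv).1 (hq _ (sx_Q (y := y) x))
  have ψE : ∀ n ζ, Ok σ v n ζ → b (E σ v n ζ) = E σ v 0 (ψ n) * E σ v n ζ := fun n ζ o => by
    have z := d.Z_of (E_Q v n ζ) (sx_Q n) ((d.nv_E o).trans (d.nv_sx n).symm)
    have := mul _ (d.ZY z) _ (d.QY (sx_Q (y := y) n))
    rw [inv_mul_cancel_right, hz _ z, ← inv_mul_cancel_right (b (sx σ v y n)) (sx σ v y n), ψ2, ← mul_assoc, zc _ (d.ZY z)] at this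
    rw [this]; group
  have ψp : ∀ x, ψ (pj σ v y x) = ψ x := fun x => d.tv_eq (ψ1 _) (ψ1 _) (by rw [← ψ2, ← ψ2, sx, sx, d.pp])
  have ad : ∀ x x', ψ (x + x') = ψ x + ψ x' := fun x x' => by
    have o := d.sx_ok x
    have o' := d.sx_ok x'
    have := mul _ (d.QY (E_Q _ _ _)) _ (d.QY (E_Q _ _ _)) |>.symm.trans (congrArg b (E_mul o o'))
    rw [ψE _ _ o, ψE _ _ o', ψE _ _ (o.mul o'), ← E_mul o o', mul_assoc, ← mul_assoc (E σ v (pj σ v y x) _), zc _ (d.QY (E_Q _ _ _)),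
      mul_assoc, ← mul_assoc, mul_left_inj, tv_mul d.iv d.hv (ψ1 _) (ψ1 _), ← pj_add, ψp, ψp, ψp] at this
    exact (d.tv_eq (by rw [map_add, ψ1, ψ1]) (ψ1 _) this).symm
  have ψv : ∀ c : K, ψ (c • v) = 0 := fun c => by rw [← ψp, pj_smul, d.p_v, smul_zero]; simpa using ad 0 0
  have fx : ∀ x x' : Fin m → K, σ (hf σ x x' + hf σ x' x) = hf σ x x' + hf σ x' x := fun x x' => by rw [map_add, d.sy, d.sy, add_comm]
  have ac : ∀ g ∈ Y σ v, ∃ u, ∀ n, hf σ n v = 0 → ψ (g n) = ψ n + (hf σ u (g n) + hf σ (g n) u) := fun g i => by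
    have j := mul_mem (mY g i) (inv_mem i)
    have cj : ∀ n ζ, Ok σ v n ζ → ⁅b g * g⁻¹, E σ v (g n) ζ⁆ = E σ v 0 (ψ (g n) + ψ n) := fun n ζ o => by
      have := h.cj i (d.QY (E_Q v n ζ))
      rw [d.E_Y i, ψE _ _ (d.ok_Y i o), ψE _ _ o, conj_mul_conj, conj_eq_iff.2 (zc _ (mY g i) _)] at this
      rw [← tv_mul d.iv d.hv (ψ1 _) (ψ1 _), ← zc _ (d.ZY (tv_Z _ _)), eq_mul_inv_of_mul_eq this, ← mul_assoc, ← mul_assoc, ← mul_assoc,
        ← mul_assoc, tv_sq, ← d.E_Y i, commutatorElement_def]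
      group
    obtain ⟨c, k, a, -, e⟩ := d.cQ d.hv d.v0 (GU_le (SU_le j.1)) (d.Z_cent d.hv j) fun p a => by
      obtain ⟨n, ζ, o, e⟩ := (mem_Q d.iv d.hv).1 (conj_mem_of_mem_normalizer' (d.Y_nor d.hv d.v0 i) a)
      rw [show p = E σ v (g n) ζ by rw [← d.E_Y i, ← e]; group, cj n ζ o]; exact tv_Z _ _
    obtain ⟨u, ζ, o, rfl⟩ := (mem_Q d.iv d.hv).1 a
    refine ⟨u, fun n a' => ?_⟩
    obtain ⟨ζ', o'⟩ := d.ok d.hv a'
    have := cj n ζ' o'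
    rw [d.sc_W j.2 (d.QY a).2 d.v0 e, E_comm o (d.ok_Y i o')] at this
    rw [d.tv_eq (fx _ _) (by rw [map_add, ψ1, ψ1]) this]; grind
  have li : ∀ a, σ a = a → ∀ x, ψ (a • x) = a * ψ x := fun a r x => by
    have st : ∀ g ∈ Y σ v, ∀ n, hf σ n v = 0 → ψ (a • g n) + a * ψ (g n) = ψ (a • n) + a * ψ n := fun g i n o => by
      obtain ⟨u, k⟩ := ac g i
      rw [← (su_sem i.1).smul1, k _ o, k _ (by simp [o]), (su_sem i.1).smul1, hf_smul_l, hf_smul_r, r]; grind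
    obtain ⟨w, n, a1, -, a2, -, a3, i, o, t⟩ := d.exw
    have := st _ i n a3
    rw [t, o, one_smul, smul_add, ad, ad] at this
    have := (d.Y_irr d.hv d.v0 (p := fun x => hf σ x v = 0 ∧ ψ (a • x) + a * ψ x = 0)
      (fun x y p r => ⟨by simp [p.1, r.1], by rw [smul_add, ad, ad]; grind⟩) (fun c => ⟨by simp [d.hv], by simp [smul_smul, ψv]⟩)
      (fun g i x p => ⟨d.pe_Y i p.1, (st g i x p.1).trans p.2⟩) a2 a1 ⟨a2, by grind⟩ (d.pv x)).2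
    rw [← pj_smul, ψp, ψp] at this; grind
  obtain ⟨ω, t⟩ := d.om
  let χ : (Fin m → K) →ₗ[K] K :=
    { toFun := fun x => ψ (ω • x) + σ ω * ψ x
      map_add' := fun x x' => by rw [smul_add, ad, ad]; ring
      map_smul' := fun c x => by
        have c1 : σ (c + σ c) = c + σ c := by rw [map_add, d.iv, add_comm]
        have c0 : σ (c * σ ω + σ c * ω) = c * σ ω + σ c * ω := by rw [map_add, map_mul, map_mul, d.iv, d.iv]; ring
        have N : σ (ω * σ ω) = ω * σ ω := by rw [map_mul, d.iv, mul_comm]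
        have e1 : c • x = (c * σ ω + σ c * ω) • x + (c + σ c) • ω • x := by rw [smul_smul, ← add_smul]; congr 1; grind
        have e2 : ω • c • x = ((c + σ c) * (ω * σ ω)) • x + (c * σ ω + σ c * ω + (c + σ c)) • ω • x := by
          rw [smul_smul, smul_smul, ← add_smul]; congr 1; grind
        rw [e2, e1, ad, ad, li _ c0, li _ c1, li _ (by rw [map_mul, c1, N]), li _ (by rw [map_add, c0, c1])]
        simp only [RingHom.id_apply, smul_eq_mul]; grind }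
  obtain ⟨u, e⟩ := d.dual (li_bv le_rfl) fun i => χ (bv i.val)
  have e : ∀ x, hf σ x u = χ x := fun x => by rw [← sum_bv x, hf_sum_l, map_sum]; simp [e]
  obtain ⟨ζ, o⟩ := d.ok d.hv (d.sw ((e v).trans (by simpa [χ, ψv] using .inr (by simpa using ψv 1))))
  refine ⟨_, E_Q v u ζ, fun g j => ?_⟩
  obtain ⟨n, ζ', o', rfl⟩ := (mem_Q d.iv d.hv).1 j
  rw [ψE _ _ o', mul_inv_eq_iff_eq_mul.1 (E_comm o o'), ← d.sy n u, e]
  congr 2
  simp only [χ, LinearMap.coe_mk, AddHom.coe_mk, map_add, map_mul, ψ1, d.iv ω]; grind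

omit d in
theorem cmc {M : Type*} [Group M] {a b c e : M} (h1 : Commute c a) (h2 : Commute c b) (h3 : Commute e a) (h4 : Commute e b) :
    ⁅a * c, b * e⁆ = ⁅a, b⁆ * ⁅c, e⁆ := by
  have k1 : Commute (c * e * c⁻¹) a⁻¹ := ((h1.mul_left h3).mul_left h1.inv_left).inv_right
  have k2 : Commute (c * e * c⁻¹ * e⁻¹) b⁻¹ := (((h2.mul_left h4).mul_left h2.inv_left).mul_left h4.inv_left).inv_right
  calc _ = a * (c * b) * e * c⁻¹ * a⁻¹ * e⁻¹ * b⁻¹ := by rw [commutatorElement_def]; group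
    _ = a * b * (c * e * c⁻¹ * a⁻¹) * e⁻¹ * b⁻¹ := by rw [h2.eq]; group
    _ = a * b * a⁻¹ * (c * e * c⁻¹ * e⁻¹ * b⁻¹) := by rw [k1.eq]; group
    _ = _ := by rw [k2.eq, commutatorElement_def, commutatorElement_def]; group

theorem triv (γ : Y σ v →* Perm (Fin m → K)) (mY : ∀ g, γ g ∈ Y σ v) (e : ∀ g : Y σ v, g.1 ∈ Q σ v → γ g = g) :
    (∀ g : Y σ v, g.1⁻¹ * γ g ∈ Z σ v) ∧ ∀ g : Y σ v, g.1 ∈ ⁅Y σ v, Y σ v⁆ → γ g = g := by
  have k0 : ∀ g : Y σ v, g.1⁻¹ * γ g ∈ Z σ v := fun g =>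
    d.ZC (mul_mem (inv_mem g.2) (mY g)) (mem_centralizer_of_conj_eq fun p i => by
      have := e (g * ⟨p, d.QY i⟩ * g⁻¹) (conj_mem_of_mem_normalizer (d.Y_nor d.hv d.v0 g.2) i)
      rw [map_mul, map_mul, map_inv, e ⟨p, d.QY i⟩ i] at this
      calc _ = g.1⁻¹ * (γ g * p * (γ g)⁻¹) * g := by group
        _ = _ := by rw [this]; simp [mul_assoc])
  have k : ∀ g : Y σ v, ∀ p ∈ Y σ v, Commute (g.1⁻¹ * γ g) p := fun g p i => d.Z_cent d.hv i _ (k0 g)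
  refine ⟨k0, fun g i => ?_⟩
  rw [← map_subtype_commutator] at i
  obtain ⟨x, i, o⟩ := i
  obtain rfl : x = g := Subtype.ext o
  refine (commutator_le (H₃ := γ.eqLocus (Y σ v).subtype)).2 (fun a _ b _ => ?_) i
  change γ _ = (Y σ v).subtype _
  rw [map_commutatorElement, map_commutatorElement, ← mul_inv_cancel_left a.1 (γ a), ← mul_inv_cancel_left b.1 (γ b),
    cmc (k a _ a.2) (k a _ b.2) (k b _ a.2) (k b _ b.2), commutatorElement_eq_one_iff_commute.2 (k a _ (d.ZY (k0 b))), mul_one]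
  rfl

theorem hom (β : MulAut (Y σ v)) : Hm σ v (up ((Y σ v).subtype.comp β.toMonoidHom)) := by
  have mY : ∀ (β : MulAut (Y σ v)) g, up ((Y σ v).subtype.comp β.toMonoidHom) g ∈ Y σ v := fun β g => by
    obtain ⟨x, e⟩ := up_range (φ := (Y σ v).subtype.comp β.toMonoidHom) g
    exact e ▸ (β x).2
  have mQ : ∀ (β : MulAut (Y σ v)), ∀ g ∈ Q σ v, up ((Y σ v).subtype.comp β.toMonoidHom) g ∈ Q σ v := fun β g i =>
    d.o2Y d.hv d.v0 (P := im _ (Q σ v)) ((isPGroup_subgroupOf (d.Q_two d.hv)).map _)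
      (by rintro _ ⟨x, -, rfl⟩; exact (β x).2) (fun y j => mem_normalizer_of_conj_mem (by
        rintro _ ⟨x, a, rfl⟩
        exact ⟨β⁻¹ ⟨y, j⟩ * x * (β⁻¹ ⟨y, j⟩)⁻¹, conj_mem_of_mem_normalizer (H := Q σ v) (d.Y_nor d.hv d.v0 (β⁻¹ ⟨y, j⟩).2) a, by simp⟩))
      (up_im i (d.QY i))
  refine ⟨fun g _ => mY β g, fun _ i _ j => up_mul i j, mQ β, fun g i => d.ZC (mY β g) fun p j => ?_⟩
  have a := mQ β⁻¹ p j
  have : p = up ((Y σ v).subtype.comp β.toMonoidHom) (up ((Y σ v).subtype.comp β⁻¹.toMonoidHom) p) := by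
    rw [up_eq (d.QY a)]; simp [up_eq (d.QY j)]
  rw [this, ← up_mul (d.QY a) (d.ZY i), ← d.Z_cent d.hv (d.QY a) g i, up_mul (d.ZY i) (d.QY a)]

theorem a1 (β : MulAut (Y σ v)) : ∃ ξ ∈ Gam σ m, (∀ g : Y σ v, ∃ z ∈ Z σ v, (β g : Perm (Fin m → K)) = ξ * g * ξ⁻¹ * z) ∧
    ∀ g : Y σ v, g.1 ∈ ⁅Y σ v, Y σ v⁆ → (β g : Perm (Fin m → K)) = ξ * g * ξ⁻¹ := by
  have h := d.hom β
  obtain ⟨θ, s⟩ := d.semi h (d.hom β⁻¹) fun g i => by rw [up_eq ((d.hom β⁻¹).mY g i)]; simp [up_eq i]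
  obtain ⟨ξ, c, S, e, a, z⟩ := d.mkξ h s fun g i o => by rw [up_eq i] at o; simpa [Subtype.ext_iff] using o
  generalize hb : up ((Y σ v).subtype.comp β.toMonoidHom) = b at *
  have c0 : c ≠ 0 := fun o => S.ne d.v0 (by rw [e, o, zero_smul])
  have e' : ξ⁻¹ v = θ⁻¹ c⁻¹ • v := by
    have := S.inv.smul c⁻¹ (c • v)
    rw [inv_smul_smul₀ c0, ← e] at this
    simpa using this
  have nY : ∀ g ∈ Y σ v, ξ⁻¹ * g * ξ ∈ Y σ v := fun g i => ⟨by simpa using S.inv.su i.1, by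
    change ξ⁻¹ (g (ξ v)) = v
    rw [e, (su_sem i.1).smul1, (mem_Y.1 i).2, ← e]; simp⟩
  obtain ⟨k, i, o⟩ := d.inner (b := fun g => ξ⁻¹ * b g * ξ) (fun g i => nY _ (h.mY g i))
    (fun g i p j => by rw [h.mul g i p j]; group) (fun g i => by
      obtain ⟨a, r, o⟩ := (mem_Z d.iv d.hv).1 (d.Z_of (h.mQ g i) (a g i).1 (a g i).2.symm)
      rw [show ξ⁻¹ * b g * ξ * g⁻¹ = ξ⁻¹ * (b g * (ξ * g * ξ⁻¹)⁻¹) * ξ⁻¹⁻¹ by group, o, tv_cj S.inv, e',
        tv_smul d.iv d.hv (by rw [← d.com, r])]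
      exact tv_Z _ _) fun g i => by rw [← z g i]; group
  have bu : ∀ g : Y σ v, b g = β g := fun g => hb ▸ up_coe g
  have := d.triv ((MulAut.conj (ξ * k)⁻¹).toMonoidHom.comp ((Y σ v).subtype.comp β.toMonoidHom)) (fun g => by
    simpa [mul_assoc] using mul_mem (mul_mem (inv_mem (d.QY i)) (nY _ (β g).2)) (d.QY i)) fun g j => by
      have := o g j
      simp only [bu] at this
      change (ξ * k)⁻¹ * β g * (ξ * k)⁻¹⁻¹ = g
      calc _ = k⁻¹ * (ξ⁻¹ * β g * ξ) * k := by group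
        _ = _ := by rw [this]; group
  refine ⟨ξ * k, mul_mem ⟨θ, S⟩ (GU_le (SU_le (d.QY i).1)), fun g => ?_, fun g j => ?_⟩
  · have j : g.1⁻¹ * ((ξ * k)⁻¹ * β g * (ξ * k)⁻¹⁻¹) ∈ Z σ v := this.1 g
    refine ⟨ξ * (g.1⁻¹ * ((ξ * k)⁻¹ * β g * (ξ * k)⁻¹⁻¹)) * ξ⁻¹, z _ j ▸ h.mZ _ j, ?_⟩
    rw [← conj_eq_iff.2 (d.Z_cent d.hv (d.QY i) _ j).symm]; group
  · have : (ξ * k)⁻¹ * β g * (ξ * k)⁻¹⁻¹ = g := this.2 g j
    rw [← this]; group

end Hp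
end Yx

theorem Dm.a1 (d : Dm σ q m) (β : MulAut (Y σ (bv 0 : Fin m → K))) : ∃ ξ ∈ Gam σ m,
    (∀ g : Y σ (bv 0 : Fin m → K), ∃ z ∈ Z σ (bv 0 : Fin m → K), (β g).1 = ξ * g.1 * ξ⁻¹ * z) ∧
    ∀ g : Y σ (bv 0 : Fin m → K), g.1 ∈ ⁅Y σ (bv 0 : Fin m → K), Y σ (bv 0 : Fin m → K)⁆ → (β g).1 = ξ * g.1 * ξ⁻¹ :=
  Yx.Hp.a1 ⟨d, d.b00, d.bll, d.bl0⟩ β

end CF.U5
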