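import Cfsg.Agent.U5.T1
import Cfsg.Agent.U5.Y1

/-! Standard unitary subgroups: the doubling element and the clean section. -/

set_option autoImplicit false
set_option linter.unusedSectionVars false

namespace CF.U5

open Cfsg Subgroup Equiv CF.Loc CF.LX CF.Dbl Module Sx
open scoped commutatorElement

variable {K : Type} [Field K] [Fintype K] [CharP K 2] {m q : ℕ} {σ θ : K ≃+* K} {a b a₀ : K}
  {g ξ α p w : Perm (Fin m → K)} {u v : Fin m → K} {A B P H O : Subgroup (Perm (Fin m → K))}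
  {G : Type*} [Group G] [Finite G] {ρ ρ₁ ρ₂ : SU σ m →* G} {t h x y : G} {F N S R J : Subgroup G}

namespace Tx

theorem genY (d : Dm σ q m) (hv : hf σ v v = 0) (v0 : v ≠ 0) (k : ∀ g ∈ Y σ v, E2 g → U5.up ρ g ∈ J) :
    im ρ (Y σ v) ≤ J := fun y i => by
  obtain ⟨g, j, j', rfl⟩ := mem_im.1 i
  obtain ⟨g, a, rfl⟩ := d.Y_gen hv v0 (H := (J.comap ρ).map (SU σ m).subtype)
    (fun w n ζ _ a b => ⟨⟨_, d.E_SU w n ζ⟩, mem_comap.2 (up_eq (φ := ρ) (d.E_SU w n ζ) ▸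
      k _ ⟨d.E_SU w n ζ, E_fix (d.sw a) (d.sw b) ζ⟩ (e2_E _ _ _)), rfl⟩) j
  exact (up_coe (φ := ρ) g).symm ▸ a

theorem YsS : Ys σ v ≤ SU σ m := fun _ i => i.1

theorem YsZ (d : Dm σ q m) (hv : hf σ v v = 0) : Ys σ v ≤ 𝐂(Z σ v) := fun g ⟨i, c, e, k⟩ => mem_centralizer_of_conj_eq fun w j => by
  obtain ⟨a, r, rfl⟩ := (mem_Z d.iv hv).1 j
  rw [tv_cj1 (su_sem i), k, tv_smul d.iv hv r, e, one_mul]

theorem perfY (d : Dm σ q m) (hv : hf σ v v = 0) (v0 : v ≠ 0) : im ρ (Y σ v) ≤ ⁅im ρ (Ys σ v), im ρ (Ys σ v)⁆ :=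
  im_comm (φ := ρ) (P := Ys σ v) YsS YsS ▸ im_mono (d.Y_der hv v0)

theorem tvs (d : Dm σ q m) (hv : hf σ v v = 0) (a : K) : tv ρ v a ∈ 𝐂(im ρ (Ys σ v)) :=
  im_cent (tv_SU v a) (le_centralizer_iff.1 (YsZ d hv) (tv_Z v a))

theorem cz1 (d : Dm σ q m) (hv : hf σ v v = 0) (f : Fr ρ t) (e : x * t * x⁻¹ = t * tv ρ v a) :
    im ρ (Ys σ v) ≤ 𝐂₁(x * t * x⁻¹) := fun y i =>
  e ▸ mem_c1.2 (mul_mem (centralizer_anti im_le f.cm) (tvs d hv a) y i)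

theorem Yle (d : Dm σ q m) (f : Fr ρ t) (r : R2 ρ t) (e : x * t * x⁻¹ = t * tv ρ (bv 0) a) :
    im ρ (Y σ (bv 0)) ≤ cj[x] ρ.range := genY d d.b00 d.b0 fun _ b b2 => ch_range (h := x) (ρ := ρ) ▸
  d.der2 (fr_cj f x) (r2_cj r x) (commutator_mono (cz1 d d.b00 f e) (cz1 d d.b00 f e) (perfY d d.b00 d.b0 (up_im b b.1)))
    (b2.up b.1)

theorem sylU (d : Dm σ q m) (f : Fr ρ t) (r : R2 ρ t) (e : x * t * x⁻¹ = t * tv ρ (bv 0) a) :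
    IsSyl 2 (im ρ (UT σ m)) (cj[x] ρ.range) :=
  ((d.s_syl ρ).cj x).of_card_le (two_im d.U_two) ((im_mono d.U_le).trans (Yle d f r e)) (card_cj _ _).le

theorem fixt (f : Fr ρ t) (i : y ∈ cj[x] ρ.range) : y * x * t * (y * x)⁻¹ = x * t * x⁻¹ := by
  have := (fr_cj f x).cm y (ch_range (h := x) (ρ := ρ) ▸ i)
  rw [← conj_eq_iff.2 this]; group

theorem cenU (d : Dm σ q m) (k : Ker ρ) : im ρ (UT σ m) ⊓ 𝐂(im ρ (UT σ m)) = im ρ (Z σ (bv 0)) := by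
  refine le_antisymm (fun y i => ?_) (le_inf (im_mono (Z_le_Q.trans d.Q_le)) fun y i => ?_)
  · obtain ⟨g, a, b, rfl⟩ := mem_im.1 i.1
    exact up_im (d.cU (GU_le (SU_le b)) (fun u c => (icm d k (su_sem b) (ind_up b) (d.s_USU c) (e2_of d.U_two c)
      (i.2 _ (up_im c (d.s_USU c))).symm).symm) (e2_of d.U_two a)) b
  · obtain ⟨g, a, b, rfl⟩ := mem_im.1 i
    exact im_cent b (le_centralizer_iff.1 (d.U_le.trans (d.Z_cent d.b00)) a)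

theorem norY (d : Dm σ q m) (f : Fr ρ t) (r : R2 ρ t) (n : x ∈ 𝐍(im ρ (UT σ m))) (e : x * t * x⁻¹ = t * tv ρ (bv 0) a) :
    x ∈ 𝐍(im ρ (Y σ (bv 0))) := by
  have n1 : x ∈ 𝐍(im ρ (Z σ (bv 0))) := cenU d f.ker ▸
    le_normalizer_inf (zpowers_le.2 n) (le_normalizer_centralizer (zpowers_le.2 n)) (mem_zpowers x)
  have n2 : x ∈ 𝐍(𝐂(im ρ (Z σ (bv 0)) ⊔ zpowers t)) := normalizer_le_normalizer_centralizer _ (mem_normalizer_of_cj_le (by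
    rw [cj_sup, cj_eq_self n1, cj_zpowers, e]
    exact sup_le le_sup_left (zpowers_le.2 (mul_mem (mem_sup_right (mem_zpowers t)) (mem_sup_left (up_im (tv_Z _ _) (tv_SU _ _)))))))
  have l : im ρ (Ys σ (bv 0)) ≤ 𝐂(im ρ (Z σ (bv 0)) ⊔ zpowers t) := by
    rw [centralizer_sup]
    refine le_inf (fun y i => ?_) (le_centralizer_iff.1 (cB f))
    obtain ⟨g, a, b, rfl⟩ := mem_im.1 i
    exact im_cent b (YsZ d d.b00 a)
  refine mem_normalizer_of_cj_le (cj_le_iff.2 (genY d d.b00 d.b0 fun w b b2 => mem_cj.2 ?_))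
  rw [inv_inv]
  have j := conj_mem_of_mem_normalizer (le_normalizer_commutator (zpowers_le.2 n2) (zpowers_le.2 n2) (mem_zpowers x))
    (commutator_mono l l (perfY d d.b00 d.b0 (up_im b b.1)))
  have e2 := (b2.up (f := ρ) b.1).cj x
  have ct : 𝐂(im ρ (Z σ (bv 0)) ⊔ zpowers t) ≤ 𝐂₁(t) := centralizer_zpowers t ▸ centralizer_anti le_sup_right
  obtain ⟨g, i, g2, k⟩ := Dm.s_lift (d.der2 f r (commutator_mono ct ct j) e2) e2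
  rw [← k] at j ⊢
  obtain ⟨c, o, -⟩ := d.tv_fix (su_sem i) d.b00 d.b0 (icm d f.ker (su_sem i) (ind_up i) (tv_SU _ _) (e2_E _ _ _)
    (commutator_le_self _ j _ (mem_sup_left (up_im (tv_Z _ _) (tv_SU _ _)))).symm)
  obtain ⟨n, g2⟩ := g2
  have : ∀ n : ℕ, (g ^ n) (bv 0) = c ^ n • bv 0 := fun n => by
    induction n with
    | zero => simp
    | succ n ih => rw [pow_succ', Perm.mul_apply, ih, (su_sem i).smul1, o, smul_smul, pow_succ]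
  have c1 : c = 1 := pow_two_inj (smul_left_injective K d.b0 ((this (2 ^ n)).symm.trans (by simp [g2])))
  exact up_im ⟨i, by simpa [c1] using o⟩ i

theorem injY (d : Dm σ q m) (k : Ker ρ) (i : g ∈ Y σ (bv 0)) (j : p ∈ Y σ (bv 0)) (e : U5.up ρ g = U5.up ρ p) : g = p :=
  have l := mul_mem (inv_mem j) i
  (inv_mul_eq_one.1 (d.sc_fix (k _ l.1 (by rw [up_mul (inv_mem j.1) i.1, up_inv j.1, e, inv_mul_cancel])) d.b0 l.2)).symm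

theorem actY (d : Dm σ q m) (k : Ker ρ) (n : x ∈ 𝐍(im ρ (Y σ (bv 0)))) : ∃ ξ θ, Sem σ θ ξ ∧ (∀ g ∈ Y σ (bv 0), ∃ z ∈ Z σ (bv 0),
    ξ * g * ξ⁻¹ * z ∈ Y σ (bv 0) ∧ x * U5.up ρ g * x⁻¹ = U5.up ρ (ξ * g * ξ⁻¹ * z)) ∧ ∀ g ∈ ⁅Y σ (bv 0 : Fin m → K), Y σ (bv 0 : Fin m → K)⁆,
    ξ * g * ξ⁻¹ ∈ Y σ (bv 0) ∧ x * U5.up ρ g * x⁻¹ = U5.up ρ (ξ * g * ξ⁻¹) := by
  let φ : Y σ (bv 0) →* im ρ (Y σ (bv 0)) := (ρ.comp (inclusion inf_le_left)).codRestrict _ fun g => ⟨⟨g, g.2.1⟩, g.2, rfl⟩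
  have φu : ∀ g, (φ g : G) = U5.up ρ g := fun g => (up_eq (φ := ρ) g.2.1).symm
  let e := MulEquiv.ofBijective φ ⟨fun a b o => Subtype.ext (injY d k a.2 b.2 (by rw [← φu, ← φu, o])), fun ⟨y, i⟩ => by
    obtain ⟨g, a, b, rfl⟩ := mem_im.1 i
    exact ⟨⟨g, a⟩, Subtype.ext (φu _)⟩⟩
  obtain ⟨ξ, ⟨θ, s⟩, o, o'⟩ := d.a1 ((e.trans (cact _ ⟨x, n⟩)).trans e.symm)
  have k : ∀ g : Y σ (bv 0), x * U5.up ρ g * x⁻¹ = U5.up ρ (((e.trans (cact _ ⟨x, n⟩)).trans e.symm) g).1 := fun g => by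
    rw [← φu, ← φu]
    exact (congrArg Subtype.val (e.apply_symm_apply (cact _ ⟨x, n⟩ (e g)))).symm
  refine ⟨ξ, θ, s, fun g i => ?_, fun g i => ?_⟩
  · obtain ⟨z, a, b⟩ := o ⟨g, i⟩
    exact ⟨z, a, b ▸ Subtype.prop _, b ▸ k ⟨g, i⟩⟩
  · have b := o' ⟨g, commutator_le_self _ i⟩ i
    exact ⟨b ▸ Subtype.prop _, b ▸ k ⟨g, _⟩⟩

theorem WYY (d : Dm σ q m) : WW σ m ≤ ⁅Y σ (bv 0 : Fin m → K), Y σ (bv 0 : Fin m → K)⁆ :=
  d.W_der.trans (commutator_mono (inf_le_left.trans d.U_le) (inf_le_left.trans d.U_le))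

theorem QYY (d : Dm σ q m) : Q σ (bv 0 : Fin m → K) ≤ ⁅Y σ (bv 0 : Fin m → K), Y σ (bv 0 : Fin m → K)⁆ :=
  (d.Q_der d.b00 d.b0).trans (commutator_mono le_rfl d.Q_Y)

theorem exW (d : Dm σ q m) (f : Fr ρ t) (r : R2 ρ t) (n : x ∈ 𝐍(im ρ (UT σ m))) (e : x * t * x⁻¹ = t * tv ρ (bv 0) 1) :
    ∃ y ∈ 𝐂(im ρ (WW σ m)), y * t * y⁻¹ = t * tv ρ (bv 0) 1 := by
  obtain ⟨ξ, θ, s, o0, o⟩ := actY d f.ker (norY d f r n e)
  have WY := WYY d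
  have nU : ξ ∈ 𝐍(UT σ m) := mem_normalizer_of_conj_mem fun g j => by
    obtain ⟨g', a, b, e⟩ := mem_im.1 (conj_mem_of_mem_normalizer n (up_im j (d.s_USU j)))
    obtain ⟨z, z1, z2, z3⟩ := o0 g (d.U_le j)
    rw [injY d f.ker (d.U_le a) z2 (e.trans z3)] at a
    simpa using mul_mem a (inv_mem (d.Q_le (Z_le_Q z1)))
  have nW := (d.W_norm ⟨θ, s⟩).2 ((d.U_norm ⟨θ, s⟩).1 nU _)
  have o' : ∀ w ∈ WW σ m, x⁻¹ * U5.up ρ w * x = U5.up ρ (ξ⁻¹ * w * ξ) := fun w i => by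
    have := (o _ (WY (conj_mem_of_mem_normalizer' nW i))).2
    rw [show ξ * (ξ⁻¹ * w * ξ) * ξ⁻¹ = w by group] at this
    rw [← this]; group
  have tW : ∀ v ∈ Vf K m (m / 2), E σ v 0 1 ∈ WW σ m := fun v i => E_W i (zero_mem _) 1
  have key : ∀ v ∈ Vf K m (m / 2), v ≠ 0 → ∃ y ∈ 𝐂(im ρ (WW σ m)), y * t * y⁻¹ = t * tv ρ (bv 0) 1 * tv ρ v 1 := fun v i v0 => by
    obtain ⟨p, j, k⟩ := d.PP_tr d.b0V d.b0 i v0
    have j1 : ξ⁻¹ * p * ξ ∈ SU σ m := by simpa using s.inv.su j.1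
    have j2 : ξ⁻¹ * p * ξ ∈ 𝐍(WW σ m) := mul_mem (mul_mem (inv_mem nW) j.2) nW
    have act : ∀ w ∈ WW σ m, x * U5.up ρ (ξ⁻¹ * p * ξ) * x⁻¹ * U5.up ρ w * (x * U5.up ρ (ξ⁻¹ * p * ξ) * x⁻¹)⁻¹ = U5.up ρ (p * w * p⁻¹) :=
      fun w i => by
      have a := conj_mem_of_mem_normalizer' nW i
      calc _ = x * (U5.up ρ (ξ⁻¹ * p * ξ) * (x⁻¹ * U5.up ρ w * x) * (U5.up ρ (ξ⁻¹ * p * ξ))⁻¹) * x⁻¹ := by group
        _ = _ := by
          rw [o' w i, ← up_cj j1 (d.s_WSU a), (o _ (WY (conj_mem_of_mem_normalizer j2 a))).2]; congr 1; group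
    refine ⟨x * U5.up ρ (ξ⁻¹ * p * ξ) * x⁻¹ * (U5.up ρ p)⁻¹, mem_centralizer_of_conj_eq fun y l => ?_, ?_⟩
    · obtain ⟨w, a, b, rfl⟩ := mem_im.1 l
      have := act _ (conj_mem_of_mem_normalizer' j.2 a)
      rw [show p * (p⁻¹ * w * p) * p⁻¹ = w by group, up_mul (mul_mem (inv_mem j.1) b) j.1, up_mul (inv_mem j.1) b, up_inv j.1] at this
      simpa only [mul_assoc, mul_inv_rev, inv_inv] using this
    · have a := act _ (tW _ d.b0V)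
      rw [tv_cj1 (su_sem j.1), k] at a
      have b : x * U5.up ρ (ξ⁻¹ * p * ξ) * x⁻¹ * (t * tv ρ (bv 0) 1) * (x * U5.up ρ (ξ⁻¹ * p * ξ) * x⁻¹)⁻¹ = t * tv ρ (bv 0) 1 := by
        rw [← e]
        calc _ = x * (U5.up ρ (ξ⁻¹ * p * ξ) * t * (U5.up ρ (ξ⁻¹ * p * ξ))⁻¹) * x⁻¹ := by group
          _ = _ := by rw [conj_eq_iff.2 (f.cm _ (up_range _))]
      rw [tv.eq_1 ρ v, ← a, ← b, ← conj_mul_conj, mul_assoc t, Dm.s_tvsq, mul_one]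
      calc _ = x * U5.up ρ (ξ⁻¹ * p * ξ) * x⁻¹ * ((U5.up ρ p)⁻¹ * t * (U5.up ρ p)⁻¹⁻¹) * (x * U5.up ρ (ξ⁻¹ * p * ξ) * x⁻¹)⁻¹ := by group
        _ = _ := by rw [conj_eq_iff.2 (f.cm _ (inv_mem (up_range _)))]
  have mul : ∀ a ∈ im ρ (WW σ m), ∀ b ∈ im ρ (WW σ m), (∃ y ∈ 𝐂(im ρ (WW σ m)), y * t * y⁻¹ = t * a) →
      (∃ y ∈ 𝐂(im ρ (WW σ m)), y * t * y⁻¹ = t * b) → ∃ y ∈ 𝐂(im ρ (WW σ m)), y * t * y⁻¹ = t * (a * b) :=
    fun a _ b j ⟨y, i, e⟩ ⟨y', i', e'⟩ => ⟨y * y', mul_mem i i', by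
      rw [← mul_assoc, ← e, ← conj_eq_of_mem_centralizer i j, ← conj_mul_conj, ← e']; group⟩
  have pair : ∀ u ∈ Vf K m (m / 2), ∀ v ∈ Vf K m (m / 2), u ≠ 0 → v ≠ 0 →
      ∃ y ∈ 𝐂(im ρ (WW σ m)), y * t * y⁻¹ = t * U5.up ρ (E σ u 0 1 * E σ v 0 1) := fun u i v j u0 v0 => by
    have z := up_im (φ := ρ) (tW _ d.b0V) (tv_SU _ _)
    have a := up_im (φ := ρ) (tW _ i) (tv_SU _ _)
    have := mul _ (mul_mem z a) _ (mul_mem z (up_im (tW _ j) (tv_SU _ _))) (mul_assoc t _ _ ▸ key u i u0) (mul_assoc t _ _ ▸ key v j v0)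
    rwa [Pg.el_ab (el_im (d.W_el (Vf_ti le_rfl))) a _ z, mul_assoc, ← mul_assoc (U5.up ρ (E σ (bv 0) 0 1)), Dm.s_tvsq, one_mul,
      ← up_mul (tv_SU _ _) (tv_SU _ _)] at this
  obtain ⟨ω, ω1⟩ := d.om
  have b1 : (bv 1 : Fin m → K) ∈ Vf K m (m / 2) := bv_mem (by have := d.l3; omega)
  have mem : ∀ c : K, c • bv 0 + bv 1 ∈ Vf K m (m / 2) := fun c => add_mem (Submodule.smul_mem _ c d.b0V) b1
  have ne : ∀ c : K, c • bv 0 + bv 1 ≠ (0 : Fin m → K) := fun c o => by simpa [bv] using congrFun o ⟨1, by have := d.hm; omega⟩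
  have a1 := mul_mem (tW _ b1) (tW _ (add_mem d.b0V b1))
  have a2 := mul_mem (tW _ (mem ω)) (tW _ (mem (σ ω)))
  have := mul _ (up_im a1 (d.s_WSU a1)) _ (up_im a2 (d.s_WSU a2))
    (pair _ b1 _ (add_mem d.b0V b1) (by simpa using ne 0) (by simpa using ne 1)) (pair _ (mem ω) _ (mem (σ ω)) (ne _) (ne _))
  rwa [← up_mul (d.s_WSU a1) (d.s_WSU a2), ← mul_assoc, tv_five d.iv d.b00 (Vf_ti le_rfl _ b1 _ b1) (Vf_ti le_rfl _ d.b0V _ b1)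
    (map_one σ) ω1] at this

theorem nO (d : Dm σ q m) (f : Fr ρ t) (hv : hf σ v v = 0) (v0 : v ≠ 0) (i : x ∈ 𝐂(im ρ (Y σ v)))
    (e : x * t * x⁻¹ = t * tv ρ v a) : x ∈ 𝐍(𝐑[2](𝐂₁(t) ⊓ 𝐂(ρ.range))) := by
  have : 𝐑[2](𝐂₁(t) ⊓ 𝐂(im ρ (Y σ v))) = 𝐑[2](𝐂₁(t) ⊓ 𝐂(ρ.range)) :=
    (pResidualOf_eq_of_le (pResidualOf_le_iff.2 fun x i o => by
      obtain ⟨b, k⟩ := d.s_cY f.ker hv v0 (Dm.s_ct f i.1) i.2
      obtain ⟨n, e⟩ := exists_pow_eq_self_of_coprime o.symm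
      refine ⟨i.1, e ▸ pow_mem ?_ n⟩
      have := mul_mem k k
      rwa [mul_assoc, ← mul_assoc (tv ρ v b), i.2 _ (Dm.s_tvim ρ v b), mul_assoc, Dm.s_tvsq, mul_one, ← pow_two] at this)
      (inf_le_inf_left _ (centralizer_anti im_le))).symm
  rw [← this]
  refine normalizer_le_normalizer_pResidualOf 2 _ (mem_normalizer_of_conj_mem fun y l => ?_)
  have j := mul_mem (mul_mem i l.2) (inv_mem i)
  refine ⟨?_, j⟩
  have k := conj_mem_cj x l.1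
  rw [cj_centralizer_singleton, e] at k
  have := mul_mem (mem_c1.2 (mem_c1.1 k).symm) (mem_c1.2 (j _ (Dm.s_tvim ρ v a)))
  rw [mul_assoc t, Dm.s_tvsq, mul_one] at this
  exact mem_c1.2 (mem_c1.1 this).symm

theorem cQ1 (d : Dm σ q m) (k : Ker ρ) (hv : hf σ v v = 0) (v0 : v ≠ 0) (n : h ∈ 𝐍(ρ.range)) (c : h ∈ 𝐂(im ρ (Q σ v))) :
    ∃ b, h * tv ρ v b ∈ 𝐂(ρ.range) := by
  obtain ⟨ξ, ⟨θ, l⟩, i⟩ := d.ind_of k n
  obtain ⟨c, w, j, -, e⟩ := d.cQ0 hv v0 ⟨θ, l⟩ fun p a =>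
    (icm d k l i (d.Q_SU a) (e2_of (d.Q_two hv) a) (c _ (up_im a (d.Q_SU a))).symm).symm
  obtain ⟨b, -, rfl⟩ := (mem_Z d.iv hv).1 j
  refine ⟨b, (d.ind_cen k ⟨_, l.mul (E_sem _ _ _)⟩ (i.mul (E_sem _ _ _) (ind_up (tv_SU _ _)))).2 ⟨c, fun x => ?_⟩⟩
  rw [Perm.mul_apply, e, ← Perm.mul_apply, tv_sq]; rfl

theorem cYQ (d : Dm σ q m) (f : Fr ρ t) (hv : hf σ v v = 0) (v0 : v ≠ 0) (c : x ∈ 𝐂(im ρ (Q σ v))) (n : x ∈ 𝐍(im ρ (Y σ v)))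
    (e : x * t * x⁻¹ = t * tv ρ v 1) : x ∈ 𝐂(im ρ (Y σ v)) := by
  have zQ : ∀ a, tv ρ v a ∈ im ρ (Q σ v) := fun a => up_im (Z_le_Q (tv_Z v a)) (tv_SU v a)
  have e' : x⁻¹ * t * x⁻¹⁻¹ = t * tv ρ v 1 := by
    rw [eq_comm, ← mul_left_inj x⁻¹, ← mul_right_inj x, ← mul_assoc, conj_mul_conj, e, conj_eq_of_mem_centralizer c (zQ 1), mul_assoc,
      Dm.s_tvsq]; group
  have k : ∀ h ∈ im ρ (Ys σ v), ∃ b, ∃ y ∈ 𝐂(ρ.range), x * h * x⁻¹ = h * tv ρ v b * y := fun h i => by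
    have nQ : h ∈ 𝐍(im ρ (Q σ v)) := by
      obtain ⟨g, ⟨a, s, -, o⟩, -, rfl⟩ := mem_im.1 i
      exact inor d.Q_SU (ind_up a) (d.Q_nor (su_sem a) hv v0 o)
    have ct : x * h * x⁻¹ ∈ 𝐂₁(t) := by
      have := conj_mem_cj x (cz1 d hv f e' i)
      rw [cj_centralizer_singleton] at this
      simpa [mul_assoc] using this
    obtain ⟨b, o⟩ := cQ1 d f.ker hv v0 (h := h⁻¹ * (x * h * x⁻¹))
      (Dm.s_ct f (mul_mem (inv_mem (mem_c1.2 (f.cm _ (im_le i)))) ct)) (by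
        simpa [mul_assoc] using mul_mem (conj_mem_of_mem_normalizer' (normalizer_le_normalizer_centralizer _ nQ) c) (inv_mem c))
    refine ⟨b, _, o, ?_⟩
    rw [mul_assoc h, o (tv ρ v b) (up_range _), mul_assoc _ (tv ρ v b), Dm.s_tvsq]; group
  let S : Subgroup G :=
    { carrier := {h | h ∈ ρ.range ∧ h⁻¹ * (x * h * x⁻¹) ∈ 𝐂(ρ.range)}
      one_mem' := ⟨one_mem _, by simp⟩
      mul_mem' := fun {a b} i j => ⟨mul_mem i.1 j.1, by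
        simpa [mul_assoc] using mul_mem (conj_mem_of_mem_normalizer' (le_normalizer_centralizer le_normalizer j.1) i.2) j.2⟩
      inv_mem' := fun {a} i => ⟨inv_mem i.1, by
        simpa [mul_assoc] using conj_mem_of_mem_normalizer (le_normalizer_centralizer le_normalizer i.1) (inv_mem i.2)⟩ }
  have l : im ρ (Y σ v) ≤ S := (perfY d hv v0).trans (commutator_le.2 fun a i b j => by
    have aL := im_le i
    have bL := im_le j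
    refine ⟨commutator_le_self _ (commutator_mem_commutator aL bL), ?_⟩
    obtain ⟨r, y, yc, ea⟩ := k a i
    obtain ⟨s, z, zc, eb⟩ := k b j
    have ar := mul_mem aL (up_range (φ := ρ) (E σ v 0 r))
    have bs := mul_mem bL (up_range (φ := ρ) (E σ v 0 s))
    have rs : tv ρ v r ∈ im ρ (Ys σ v) := im_mono d.Y_Ys (Dm.s_tvim ρ v r)
    rw [show x * ⁅a, b⁆ * x⁻¹ = ⁅x * a * x⁻¹, x * b * x⁻¹⁆ by simp [commutatorElement_def, mul_assoc], ea, eb,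
      Yx.Hp.cmc (yc _ ar).symm (yc _ bs).symm (zc _ ar).symm (zc _ bs).symm,
      Yx.Hp.cmc (tvs d hv r _ i).symm (tvs d hv r _ j).symm (tvs d hv s _ i).symm (tvs d hv s _ j).symm,
      commutatorElement_eq_one_iff_mul_comm.2 (tvs d hv s _ rs), mul_one, inv_mul_cancel_left]
    exact commutator_le_self _ (commutator_mem_commutator yc zc))
  refine mem_centralizer_of_conj_eq fun y i => ?_
  obtain ⟨g, a, b, o⟩ := mem_im.1 (mul_mem (inv_mem i) (conj_mem_of_mem_normalizer n i))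
  have := d.sc_fix ((d.cen_iff f.ker b).1 (o ▸ (l i).2)) v0 a.2
  rw [this, up_one, eq_comm, inv_mul_eq_one] at o
  exact o.symm

end Tx

open Tx

theorem Dm.exx (d : Dm σ q m) (f : Fr ρ t) (r : R2 ρ t) (c : IsConj t (t * tv ρ (bv 0) 1)) :
    ∃ x ∈ 𝐂(im ρ (Y σ (bv 0))), x * t * x⁻¹ = t * tv ρ (bv 0) 1 := by
  obtain ⟨g, e⟩ := isConj_iff.1 c
  obtain ⟨l, i, k⟩ := ((d.s_syl ρ).cj g).conj (sylU d f r e)
  obtain ⟨y, j, e⟩ := exW d f r (cj_eq_self_iff.1 ((cj_mul l g _).trans k)) ((fixt f i).trans e)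
  have nW : im ρ (UT σ m) ≤ 𝐍(im ρ (WW σ m)) := fun u i => by
    obtain ⟨u, a, b, rfl⟩ := mem_im.1 i
    exact inor d.s_WSU (ind_up b) ((d.W_norm (GU_le (SU_le b))).2 (UT_fl a _))
  have s := sylU d f r e
  have n1 : im ρ (UT σ m) ≤ 𝐍(cj[y] ρ.range ⊓ 𝐂(im ρ (WW σ m))) :=
    le_normalizer_inf (s.le.trans le_normalizer) (le_normalizer_centralizer nW)
  have l1 := sup_le s.le (inf_le_left : cj[y] ρ.range ⊓ 𝐂(im ρ (WW σ m)) ≤ _)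
  obtain ⟨x, i, k⟩ := (((d.s_syl ρ).cj y).mono (cj_le_iff_forall.2 fun u a => by
    have : y * u * y⁻¹ * u⁻¹ ∈ cj[y] ρ.range ⊓ 𝐂(im ρ (WW σ m)) := ⟨(cj[y] ρ.range).mul_mem (conj_mem_cj y (im_le a)) (inv_mem (s.le a)), by
      simpa [mul_assoc] using mul_mem j (conj_mem_of_mem_normalizer (le_normalizer_centralizer nW a) (inv_mem j))⟩
    simpa using mul_mem (mem_sup_right this) (mem_sup_left a)) l1).conj (s.mono le_sup_left l1)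
  obtain ⟨u, a, x, b, rfl⟩ := (mem_sup_of_le_normalizer' n1).1 i
  rw [cj_mul, cj_eq_iff, cj_eq_self_of_mem (inv_mem a), ← cj_mul] at k
  have e1 := (fixt f b.1).trans e
  have c1 := mul_mem b.2 j
  obtain ⟨n, o, two⟩ := Ie.ex_odd' (x * y)
  have zW : tv ρ (bv 0) 1 ∈ im ρ (WW σ m) := up_im (d.Z_W (tv_Z _ _)) (tv_SU _ _)
  have e2 : (x * y) ^ n * t * ((x * y) ^ n)⁻¹ = t * tv ρ (bv 0) 1 := by
    obtain ⟨n, rfl⟩ := o
    have : (x * y) ^ 2 ∈ 𝐂₁(t) := by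
      rw [mem_c1, ← conj_eq_iff, pow_two, mul_inv_rev, ← mul_assoc, mul_assoc (x * y), mul_assoc (x * y), e1, conj_mul_conj, e1,
        conj_eq_of_mem_centralizer c1 zW, mul_assoc, Dm.s_tvsq, mul_one]
    rw [pow_succ', pow_mul, mul_inv_rev, ← mul_assoc, mul_assoc (x * y), mul_assoc (x * y), conj_eq_iff.2 (mem_c1.1 (pow_mem this n)), e1]
  have c2 := pow_mem c1 n
  have nY := norY d f r (pow_mem (cj_eq_self_iff.1 k) n) e2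
  obtain ⟨ξ, θ, s, -, o⟩ := actY d f.ker nY
  obtain ⟨j, two⟩ := e2_of two (mem_zpowers _)
  generalize (x * y) ^ n = x at *
  have WY := WYY d
  have QY := QYY d
  obtain ⟨s1, c, c1, k⟩ := d.cW1 ⟨θ, s⟩ (mem_centralizer_of_conj_eq fun w i => injY d f.ker (o w (WY i)).1 (d.U_le (d.W_le i))
    ((o w (WY i)).2.symm.trans (conj_eq_of_mem_centralizer c2 (up_im i (d.s_WSU i)))))
  have s2 := (sm_sem (m := m) c1).inv1.mul1 s1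
  have cj2 : ∀ g ∈ SU σ m, (sm c c1)⁻¹ * ξ * g * ((sm c c1)⁻¹ * ξ)⁻¹ = ξ * g * ξ⁻¹ := fun g i => by
    have := sc_comm ⟨c, sm_ap c1⟩ (s1.cj (su_sem i))
    calc _ = (sm c c1)⁻¹ * (ξ * g * ξ⁻¹ * sm c c1) := by group
      _ = _ := by rw [← this, inv_mul_cancel_left]
  have fx : ((sm c c1)⁻¹ * ξ : Perm (Fin m → K)) (bv 0) = bv 0 := by rw [Perm.mul_apply, k _ d.b0V, ← sm_ap c1]; simp
  generalize (sm c c1)⁻¹ * ξ = η at *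
  have nQ : η ∈ 𝐍(Q σ (bv 0)) := d.Q_nor (c := 1) s2 d.b00 d.b0 (by rw [fx, one_smul])
  have pw : ∀ n : ℕ, ∀ g ∈ Q σ (bv 0), x ^ n * U5.up ρ g * (x ^ n)⁻¹ = U5.up ρ (η ^ n * g * (η ^ n)⁻¹) :=
    fun n g i => by
    induction n with
    | zero => simp
    | succ n ih =>
      have j := conj_mem_of_mem_normalizer (pow_mem nQ n) i
      have := (o _ (QY j)).2
      rw [← cj2 _ (d.Q_SU j), ← ih] at this
      simpa [pow_succ', mul_assoc] using this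
  obtain ⟨c', w, a, -, b⟩ := d.cQ0 d.b00 d.b0 (pow_mem (GU_le s2) (2 ^ j)) (mem_centralizer_of_conj_eq fun g i =>
    injY d f.ker (d.Q_Y (conj_mem_of_mem_normalizer (pow_mem nQ _) i)) (d.Q_Y i) (by rw [← pw _ g i, two]; simp))
  have ηS := d.two_SU s2 ⟨j + 1, by
    rw [pow_succ, pow_mul, d.sc_W (Perm.pow_apply_eq_self_of_apply_eq_self fx _) (d.Q_Y (Z_le_Q a)).2 d.b0 b, pow_two, d.Z_sq d.b00 a]⟩
  have e3 : x * (U5.up ρ η)⁻¹ * t * (x * (U5.up ρ η)⁻¹)⁻¹ = t * tv ρ (bv 0) 1 := by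
    rw [← e2, mul_inv_rev, ← mul_assoc, mul_assoc x, mul_assoc x, conj_eq_iff.2 (f.cm _ (inv_mem (up_range _)))]
  refine ⟨x * (U5.up ρ η)⁻¹, cYQ d f d.b00 d.b0 (mem_centralizer_of_conj_eq fun y i => ?_)
    (mul_mem nY (inv_mem (le_normalizer (up_im ⟨ηS, fx⟩ ηS)))) e3, e3⟩
  obtain ⟨g, a, b, rfl⟩ := mem_im.1 i
  have j : η⁻¹ * g * η⁻¹⁻¹ ∈ Q σ (bv 0) := conj_mem_of_mem_normalizer (inv_mem nQ) a
  have := (o _ (QY j)).2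
  rw [← cj2 _ (d.Q_SU j), up_cj (inv_mem ηS) b, up_inv ηS] at this
  simpa [mul_assoc] using this

universe u

theorem Dm.clean (d : Dm σ q m) {G : Type u} [Group G] [Finite G] {ρ : SU σ m →* G} {t x : G} (f : Fr ρ t) (r : R2 ρ t)
    (i : x ∈ 𝐂(im ρ (Y σ (bv 0)))) (e : x * t * x⁻¹ = t * tv ρ (bv 0) 1) :
    ∃ (N : Subgroup G) (X : Type u) (_ : Group X) (_ : Finite X) (π : N →* X) (ρ' : SU σ m →* X) (s : X), Cl ρ t N π ρ' s := by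
  obtain ⟨O, hO⟩ : ∃ O, O = 𝐑[2](𝐂₁(t) ⊓ 𝐂(ρ.range)) := ⟨_, rfl⟩
  have l : O ≤ 𝐂₁(t) ⊓ 𝐂(ρ.range) := hO ▸ pResidualOf_le _ _
  have tC : zpowers t ≤ 𝐂₁(t) ⊓ 𝐂(ρ.range) := zpowers_le.2 ⟨mem_c1.2 rfl, f.cm⟩
  have od : Odd (Nat.card O) := hO ▸ Nat.coprime_two_right.1 (IsSyl.burnside (T := zpowers t) ⟨tC, s_t2 f.t2, fun Q a b c =>
    le_antisymm (fun y j => by
      rcases r y (c j) (e2_of a j) with rfl | rfl
      exacts [one_mem _, mem_zpowers _]) b⟩ (centralizer_zpowers t ▸ inf_le_left.trans inf_le_left))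
  have mo : ∀ y ∈ 𝐂₁(t) ⊓ 𝐂(ρ.range), ∀ n, Odd n → y ^ n = 1 → y ∈ O := fun y j n o k =>
    hO ▸ mem_pResidualOf j ((Nat.coprime_two_right.2 o).coprime_dvd_left (orderOf_dvd_of_pow_eq_one k))
  have ct : 𝐂₁(t) ≤ 𝐍(O) := hO ▸ (le_normalizer_inf le_normalizer (le_normalizer_centralizer (s_ct f))).trans
    (normalizer_le_normalizer_pResidualOf 2 _)
  have tt : t * t ∈ O := f.t2 ▸ one_mem O
  have tN : t ∈ 𝐍(O) := ct (mem_c1.2 rfl)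
  have rN : ∀ g, ρ g ∈ 𝐍(O) := fun g => ct (mem_c1.2 (f.cm _ ⟨g, rfl⟩))
  have := normal_subgroupOf_of_le_normalizer' (le_refl 𝐍(O))
  let π := QuotientGroup.mk' (O.subgroupOf 𝐍(O))
  have k : ∀ n : 𝐍(O), π n = 1 ↔ n.1 ∈ O := fun n => QuotientGroup.eq_one_iff n
  let ρ' := π.comp (ρ.codRestrict _ rN)
  have ur : ∀ g, U5.up ρ' g = π ⟨U5.up ρ g, ct (mem_c1.2 (f.cm _ (up_range g)))⟩ := fun g => by
    rw [up_comp]; congr 1; exact Subtype.ext (up_comp (φ := ρ.codRestrict _ rN) (𝐍(O)).subtype g).symm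
  have c1 : ∀ n : 𝐍(O), π n ∈ 𝐂₁(π ⟨t, tN⟩) → n.1 ∈ 𝐂₁(t) := fun n j => by
    have a : n.1 * t * n.1⁻¹ * t ∈ O := (k (n * ⟨t, tN⟩ * n⁻¹ * ⟨t, tN⟩)).1 (by
      rw [map_mul, map_mul, map_mul, map_inv, conj_eq_iff.2 (mem_c1.1 j), ← map_mul]; exact (k _).2 tt)
    have b := mem_c1.1 (l a).1
    have := odd_two od a ((e2_inv (fr_cj f n).t2).mul (e2_inv f.t2) (mul_right_cancel (b := t) (by rw [b, mul_assoc t])))
    exact mem_c1.2 (conj_eq_iff.1 ((eq_inv_of_mul_eq_one_left this).trans (ti f.t2)))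
  refine ⟨𝐍(O), _, inferInstance, inferInstance, π, ρ', π ⟨t, tN⟩, ct, QuotientGroup.mk'_surjective _, ?_, fun n j => l ((k n).1 j),
    fun g => up_eq (rN g), up_eq tN, by rw [← map_mul]; exact (k _).2 tt,
    fun j => f.t1 (odd_two od ((k _).1 j) (e2_inv f.t2)), fun g a b => (d.cen_iff f.ker a).1 (l ((k _).1 ((ur g).symm.trans b))).2,
    fun g a b => (ur g).trans ((k _).2 (mo _ ⟨mem_c1.2 (f.cm _ (up_range g)), (d.cen_iff f.ker a).2 b⟩ _ d.oddq ?_)), ?_,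
    fun y j => ?_, fun y j => ?_, π ⟨x, hO ▸ nO d f d.b00 d.b0 i e⟩, fun y j => ?_, ?_⟩
  · rw [QuotientGroup.ker_mk', Nat.card_congr (subgroupOfEquivOfLe le_normalizer).toEquiv]; exact od
  · change U5.up ρ g ^ _ = 1
    rw [up_eq a, ← map_pow]; exact (congrArg ρ (Subtype.ext (d.sc_odd (GU_le (SU_le a)) b))).trans ρ.map_one
  · rintro _ ⟨g, rfl⟩
    exact (map_mul π _ _).symm.trans ((congrArg π (Subtype.ext (f.cm _ ⟨g, rfl⟩))).trans (map_mul π _ _))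
  · obtain ⟨n, rfl⟩ := QuotientGroup.mk'_surjective _ y
    refine mem_normalizer_of_conj_mem ?_
    rintro _ ⟨g, rfl⟩
    obtain ⟨g', o⟩ := conj_mem_of_mem_normalizer (s_ct f (c1 n j)) (⟨g, rfl⟩ : ρ g ∈ ρ.range)
    exact ⟨g', (congrArg π (Subtype.ext o : _ = n * ⟨_, rN g⟩ * n⁻¹)).trans (by rw [map_mul, map_mul, map_inv]; rfl)⟩
  · obtain ⟨n, rfl⟩ := QuotientGroup.mk'_surjective _ y
    have a := c1 n j.1
    obtain ⟨ξ, ⟨θ, s⟩, o⟩ := d.ind_of f.ker (s_ct f a)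
    obtain ⟨-, c, -, b⟩ := d.sc_of ⟨θ, s⟩ fun g i => (d.cen_iff f.ker (mul_mem (s.su i) (inv_mem i))).1 (by
      rw [up_mul (s.su i) (inv_mem i), up_inv i, ← o g i]
      refine (l ((k (n * ⟨_, ct (mem_c1.2 (f.cm _ (up_range g)))⟩ * n⁻¹ * ⟨_, ct (mem_c1.2 (f.cm _ (up_range g)))⟩⁻¹)).1 ?_)).2
      rw [map_mul, map_mul, map_mul, map_inv, map_inv, ← ur, conj_eq_of_mem_centralizer j.2 (up_range g), mul_inv_cancel])
    have b := (d.ind_cen f.ker ⟨θ, s⟩ o).2 ⟨c, b⟩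
    obtain ⟨j, o, two⟩ := Ie.ex_odd' n.1
    have ab := mem_inf.2 ⟨a, b⟩
    refine (r _ (pow_mem ab j) (e2_of two (mem_zpowers _))).imp (fun e => (k n).2 (mo _ ab j o e)) fun e => ?_
    have := (k (n * ⟨t, tN⟩⁻¹)).2 (mo _ (mul_mem ab (inv_mem (tC (mem_zpowers t)))) j o (by
      obtain ⟨j, rfl⟩ := o
      change (n.1 * t⁻¹) ^ _ = 1
      rw [(Commute.inv_right (mem_c1.1 a)).mul_pow, e, ti f.t2, pow_succ, pow_mul, pow_two, f.t2, one_pow, one_mul, f.t2]))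
    rwa [map_mul, map_inv, mul_inv_eq_one] at this
  · obtain ⟨g, a, b, rfl⟩ := mem_im.1 j
    rw [ur, ← map_mul, ← map_mul]; exact congrArg π (Subtype.ext (i _ (up_im a b)))
  · rw [tv, ur, ← map_inv, ← map_mul, ← map_mul, ← map_mul]; exact congrArg π (Subtype.ext e)

end CF.U5
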