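import Cfsg.Agent.U5.S3
import Cfsg.Agent.Dbl.SEb
import Cfsg.Agent.U5.Z0
import Cfsg.Agent.U5.Fr

/-! Standard unitary subgroups: the Sylow subgroup of the split case. -/

set_option autoImplicit false
set_option linter.unusedSectionVars false

namespace CF.U5

open Cfsg Subgroup Equiv CF.Loc CF.LX CF.Dbl Module Sx
open scoped commutatorElement

variable {K : Type} [Field K] [Fintype K] [CharP K 2] {m q : ℕ} {σ θ : K ≃+* K} {a b a₀ : K}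
  {g ξ α p w : Perm (Fin m → K)} {u v : Fin m → K} {A B P H O : Subgroup (Perm (Fin m → K))}
  {G : Type*} [Group G] [Finite G] {ρ ρ₁ ρ₂ : SU σ m →* G} {t h x y : G} {F N S : Subgroup G}

namespace Dm
variable (d : Dm σ q m)
include d

theorem s_icm (k : Ker ρ) (l : Sem σ θ ξ) (i : Ind ρ h ξ) (j : p ∈ SU σ m) (e2 : E2 p) (e : h * U5.up ρ p = U5.up ρ p * h) :
    ξ * p = p * ξ :=
  conj_eq_iff.1 (d.s_ker2 k (l.su j) j (e2.cj _) e2 (by rw [← i _ j, conj_eq_iff.2 e]))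

omit d in
theorem s_inor (l : P ≤ SU σ m) (i : Ind ρ h ξ) (n : ξ ∈ 𝐍(P)) : h ∈ 𝐍(im ρ P) := mem_normalizer_of_conj_mem fun x j => by
  obtain ⟨g, a, b, rfl⟩ := mem_im.1 j
  have := conj_mem_of_mem_normalizer n a
  rw [i g b]; exact up_im this (l this)

theorem s_nor (k : Ker ρ) (l : P ≤ SU σ m) (two : IsPGroup 2 P) (s : Sem σ θ ξ) (i : Ind ρ h ξ) (n : h ∈ 𝐍(im ρ P)) :
    ξ ∈ 𝐍(P) := mem_normalizer_of_conj_mem fun g j => by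
  obtain ⟨g', a, b, e⟩ := mem_im.1 (conj_mem_of_mem_normalizer n (up_im j (l j)))
  rwa [← d.s_ker2 k b (s.su (l j)) (e2_of two a) ((e2_of two j).cj _) (e.trans (i _ (l j)))]

theorem s_nrm (h0 : σ a₀ = a₀) (n0 : a₀ ≠ 0) (e : σ a = a) (a0 : a ≠ 0) : ∃ c : K, c ≠ 0 ∧ c * σ c * a₀ = a := by
  obtain ⟨c, k⟩ := d.nrm (a := a / a₀) (by rw [map_div₀, e, h0])
  have : c * σ c * a₀ = a := by rw [k, div_mul_cancel₀ _ n0]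
  exact ⟨c, fun o => a0 (by rw [← this, o]; simp), this⟩

theorem s_tr (h0 : σ a₀ = a₀) (n0 : a₀ ≠ 0) (hv : hf σ v v = 0) (v0 : v ≠ 0) (e : σ a = a) (a0 : a ≠ 0) :
    ∃ g ∈ SU σ m, g * E σ (bv 0) 0 a₀ * g⁻¹ = E σ v 0 a := by
  obtain ⟨c, c0, k⟩ := d.s_nrm h0 n0 e a0
  obtain ⟨g, i, j⟩ := d.witt1 d.b00 d.b0 (v := c • v) (by simp [hv]) (smul_ne_zero c0 v0)
  exact ⟨g, i, by rw [tv_cj1 (su_sem i), j, tv_smul d.iv hv h0, k]⟩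

theorem s_b0 : (bv 0 : Fin m → K) ∈ Vf K m (m / 2) := bv_mem (by have := d.hm; omega)

theorem s_trP (h0 : σ a₀ = a₀) (n0 : a₀ ≠ 0) (hv : v ∈ Vf K m (m / 2)) (v0 : v ≠ 0) (e : σ a = a) (a0 : a ≠ 0) :
    ∃ g ∈ PP σ m, g * E σ (bv 0) 0 a₀ * g⁻¹ = E σ v 0 a := by
  obtain ⟨c, c0, k⟩ := d.s_nrm h0 n0 e a0
  obtain ⟨g, i, j⟩ := d.PP_tr d.s_b0 d.b0 (Submodule.smul_mem _ c hv) (smul_ne_zero c0 v0)
  exact ⟨g, i, by rw [tv_cj1 (su_sem i.1), j, tv_smul d.iv (Vf_ti le_rfl v hv v hv) h0, k]⟩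

theorem s_PP (ρ : SU σ m →* G) (i : g ∈ PP σ m) : U5.up ρ g ∈ ρ.range ⊓ 𝐍(im ρ (WW σ m)) :=
  ⟨up_range _, s_inor d.s_WSU (ind_up i.1) i.2⟩

theorem s_ZU : Z σ (bv 0) ≤ UT σ m := Z_le_Q.trans d.Q_le
theorem s_Wel : El (WW σ m) := d.W_el (Vf_ti le_rfl)
theorem s_cardB (k : Ker ρ) : Nat.card (im ρ (WW σ m)) = q ^ ((m / 2) ^ 2) := by
  rw [d.s_card k (s_el2 d.s_Wel) d.s_WSU, d.card_W]

end Dm

/-- a Sylow subgroup adapted to the two factors -/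
structure Zf (q : ℕ) (ρ ρ₁ : SU σ m →* G) (t : G) (S : Subgroup G) (ψ : ↥(S ⊓ 𝐍(ρ₁.range)) →* Perm (Fin m → K)) : Prop where
  d : Dm σ q m
  f : Fr ρ t
  r : R2 ρ t
  e : Sp1 ρ ρ₁ t
  syl : IsSyl 2 S ⊤
  le : S ≤ 𝐍(ρ₁.range ⊔ cj[t] ρ₁.range)
  tS : t ∈ S
  uS : im ρ₁ (UT σ m) ≤ S
  p1 : ∀ r, ψ r ∈ Gam σ m ∧ Ind ρ₁ r (ψ r)
  p2 : ∀ r, ψ r = 1 ↔ r.1 ∈ 𝐂(ρ₁.range)
  p3 : ∀ g ∈ SU σ m, E2 g → U5.up ρ₁ g ∈ S ⊓ 𝐍(ρ₁.range) → U5.up ψ (U5.up ρ₁ g) = g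

theorem Dm.exists_zf (d : Dm σ q m) (f : Fr ρ t) (r : R2 ρ t) (e : Sp1 ρ ρ₁ t) : ∃ S ψ, Zf q ρ ρ₁ t S ψ := by
  have c : cj[t] (im ρ₁ (UT σ m)) ≤ 𝐂(im ρ₁ (UT σ m)) :=
    (cj_mono t im_le).trans ((le_centralizer_iff.1 (sp_cm f.t2 e)).trans (centralizer_anti im_le))
  have two : IsPGroup 2 ↥((im ρ₁ (UT σ m) ⊔ cj[t] (im ρ₁ (UT σ m))) ⊔ zpowers t) :=
    ((two_im d.U_two).to_sup_of_normal_left' (isPGroup_cj t (two_im d.U_two)) (c.trans (centralizer_le_normalizer _))).to_sup_of_normal_left'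
      (Dm.s_t2 f.t2) (zpowers_le.2 (Dm.s_tM f _))
  obtain ⟨S, s, l⟩ := exists_isSyl_ge two (L := 𝐍(ρ₁.range ⊔ cj[t] ρ₁.range))
    (sup_le ((sup_le_sup im_le (cj_mono t im_le)).trans le_normalizer) (zpowers_le.2 (Dm.s_tM f _)))
  have tS : t ∈ S := l (mem_sup_right (mem_zpowers t))
  obtain ⟨ψ, a, b, c⟩ := d.lift2 (sp_ker f e) (s.isPGroup.to_inf_left (K := 𝐍(ρ₁.range))) inf_le_right
  exact ⟨S, ψ, d, f, r, e, isSyl_of_normalizer (s.mono (le_inf le_top le_normalizer) fun g i =>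
    (d.uq f r e g (s.le (conj_mem_of_mem_normalizer i.2 tS))).1), s.le, tS, (le_sup_left.trans le_sup_left).trans l, a, b, c⟩

namespace Zf
variable {ψ : ↥(S ⊓ 𝐍(ρ₁.range)) →* Perm (Fin m → K)} (c : Zf q ρ ρ₁ t S ψ)
include c

theorem k : Ker ρ₁ := sp_ker c.f c.e
theorem cap : S ⊓ ρ₁.range = im ρ₁ (UT σ m) :=
  (c.d.s_syl ρ₁).eq_of_le c.syl.isPGroup.to_inf_left (le_inf c.uS im_le) inf_le_right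
theorem u1 (i : g ∈ UT σ m) : U5.up ρ₁ g ∈ S ⊓ ρ₁.range := c.cap ▸ up_im i (c.d.s_USU i)
theorem u0 (i : g ∈ UT σ m) : U5.up ρ₁ g ∈ S ⊓ 𝐍(ρ₁.range) := ⟨(c.u1 i).1, le_normalizer (c.u1 i).2⟩
theorem iml (l : P ≤ UT σ m) : im ρ₁ P ≤ S ⊓ ρ₁.range := c.cap ▸ im_mono l
theorem pu (i : g ∈ UT σ m) : U5.up ψ (U5.up ρ₁ g) = g := c.p3 g (c.d.s_USU i) (e2_of c.d.U_two i) (c.u0 i)
theorem sem (i : x ∈ S ⊓ 𝐍(ρ₁.range)) : ∃ θ, Sem σ θ (U5.up ψ x) := up_eq (φ := ψ) i ▸ (c.p1 _).1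
theorem ind (i : x ∈ S ⊓ 𝐍(ρ₁.range)) : Ind ρ₁ x (U5.up ψ x) := up_eq (φ := ψ) i ▸ (c.p1 ⟨x, i⟩).2
theorem ker (i : x ∈ S ⊓ 𝐍(ρ₁.range)) : U5.up ψ x = 1 ↔ x ∈ 𝐂(ρ₁.range) := up_eq (φ := ψ) i ▸ c.p2 ⟨x, i⟩
theorem two (i : x ∈ S ⊓ 𝐍(ρ₁.range)) : E2 (U5.up ψ x) := (e2_of c.syl.isPGroup i.1).up i
theorem sq (i : x ∈ S ⊓ 𝐍(ρ₁.range)) (e : x * x = 1) : U5.up ψ x * U5.up ψ x = 1 := by rw [← up_mul i i, e, up_one]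

theorem fl (i : x ∈ S ⊓ 𝐍(ρ₁.range)) : Fl (U5.up ψ x) := by
  obtain ⟨θ, s⟩ := c.sem i
  refine (c.d.U_norm ⟨θ, s⟩).1 (c.d.s_nor c.k c.d.s_USU c.d.U_two s (c.ind i) ?_)
  rw [← c.cap]; exact le_normalizer_inf (inf_le_left.trans le_normalizer) inf_le_right i

theorem cm (i : x ∈ S ⊓ 𝐍(ρ₁.range)) (l : P ≤ UT σ m) (e : x ∈ 𝐂(im ρ₁ P)) : U5.up ψ x ∈ 𝐂(P) := fun g j => by
  obtain ⟨θ, s⟩ := c.sem i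
  have j' := c.d.s_USU (l j)
  exact (c.d.s_icm c.k s (c.ind i) j' (e2_of c.d.U_two (l j)) (e _ (up_im j j')).symm).symm

theorem dec0 (i : x ∈ S ⊓ 𝐍(ρ₁.range)) (e : U5.up ψ x ∈ UT σ m) : (U5.up ρ₁ (U5.up ψ x))⁻¹ * x ∈ S ⊓ 𝐂(ρ₁.range) := by
  have j := inv_mem (c.u0 e)
  refine ⟨mul_mem j.1 i.1, (c.ker (mul_mem j i)).1 ?_⟩
  rw [up_mul j i, up_inv (c.u0 e), c.pu e, inv_mul_cancel]

theorem dec (i : x ∈ S ⊓ 𝐍(ρ₁.range)) (l : P ≤ UT σ m) (e : U5.up ψ x ∈ P) : x ∈ im ρ₁ P ⊔ (S ⊓ 𝐂(ρ₁.range)) := by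
  simpa using mul_mem (mem_sup_left (up_im (φ := ρ₁) e (c.d.s_USU (l e)))) (mem_sup_right (c.dec0 i (l e)))

theorem lin1 (i : x ∈ S ⊓ 𝐍(ρ₁.range)) (s : Sem σ 1 (U5.up ψ x)) : x ∈ (S ⊓ ρ₁.range) ⊔ (S ⊓ 𝐂(ρ₁.range)) :=
  c.cap ▸ c.dec i le_rfl (c.d.U_of s (c.fl i) (c.two i))

theorem nW (i : x ∈ S ⊓ 𝐍(ρ₁.range)) : U5.up ψ x ∈ 𝐍(WW σ m) := (c.d.W_norm (c.sem i)).2 (c.fl i _)

theorem exz : ∃ a₀, σ a₀ = a₀ ∧ a₀ ≠ 0 ∧ Sw ρ₁.range (cj[t] ρ₁.range) S t (tv ρ₁ (bv 0) a₀) := by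
  have d := c.d
  have n : S ⊓ 𝐍(ρ₁.range) ≤ 𝐍(im ρ₁ (Z σ (bv 0))) := fun x i => by
    obtain ⟨θ, s⟩ := c.sem i
    refine Dm.s_inor (d.s_ZU.trans d.s_USU) (c.ind i) (mem_normalizer_of_conj_mem fun g j => ?_)
    obtain ⟨a, e, rfl⟩ := (mem_Z d.iv d.b00).1 j
    obtain ⟨b, k⟩ := Vf_one.1 (c.fl i 1 _ (bv_mem one_pos))
    rw [tv_cj s, k, tv_smul d.iv d.b00 (by rw [← s.com, e])]
    exact tv_Z _ _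
  obtain ⟨⟨z, i, j⟩, z1⟩ := (Subgroup.ne_bot_iff_exists_ne_one).1 (inf_centralizer_ne_bot (two_im (d.U_two.to_le d.s_ZU))
    c.syl.isPGroup.to_inf_left n fun e => d.s_tv1 c.k d.b00 d.b0 (map_one σ) one_ne_zero
      (mem_bot.1 (e ▸ up_im (tv_Z _ _) (tv_SU _ _))))
  obtain ⟨g, i', -, rfl⟩ := mem_im.1 i
  obtain ⟨a, e, rfl⟩ := (mem_Z d.iv d.b00).1 i'
  have a0 : a ≠ 0 := fun o => z1 (Subtype.ext (by simp [o]))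
  refine ⟨a, e, a0, c.syl, c.tS, c.f.t2, rfl, sp_cm c.f.t2 c.e, fun s i => d.perm c.f c.e (c.le i), ?_, c.u1 (d.s_ZU i'),
    Dm.s_tvsq _ _ _, d.s_tv1 c.k d.b00 d.b0 e a0, fun s i => mem_c1.2 (j s i)⟩
  rw [inf_assoc]
  exact inf_eq_bot_of_coprime_card c.syl.isPGroup (Nat.coprime_two_right.2 (d.codd c.f c.r c.e))

variable {z : G} (s : Sw ρ₁.range (cj[t] ρ₁.range) S t z)
include s

theorem both (a : x ∈ (S ⊓ ρ₁.range) ⊔ (S ⊓ 𝐂(ρ₁.range))) (b : t * x * t⁻¹ ∈ (S ⊓ ρ₁.range) ⊔ (S ⊓ 𝐂(ρ₁.range))) :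
    x ∈ (S ⊓ ρ₁.range) ⊔ (S ⊓ cj[t] ρ₁.range) := by
  refine Pg.meet s le_rfl le_rfl a ?_
  have := (Ie.mem_t s).2 b
  rwa [cj_sup, cj_inf, cj_inf, cj_centralizer, cj_eq_self_of_mem s.tS] at this

theorem der : ⁅S ⊓ 𝐍(ρ₁.range), S ⊓ 𝐍(ρ₁.range)⁆ ≤ (S ⊓ ρ₁.range) ⊔ (S ⊓ cj[t] ρ₁.range) := by
  have k : ∀ x ∈ S ⊓ 𝐍(ρ₁.range), ∀ y ∈ S ⊓ 𝐍(ρ₁.range), ⁅x, y⁆ ∈ (S ⊓ ρ₁.range) ⊔ (S ⊓ 𝐂(ρ₁.range)) := fun x i y j => by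
    obtain ⟨θ, a⟩ := c.sem i
    obtain ⟨θ', b⟩ := c.sem j
    have := c.d.cyc
    have e : θ * θ' * θ⁻¹ * θ'⁻¹ = 1 := by
      obtain ⟨γ, e⟩ := IsCyclic.exists_generator (α := K ≃+* K)
      obtain ⟨_, rfl⟩ := e θ; obtain ⟨_, rfl⟩ := e θ'
      exact commutatorElement_eq_one_iff_commute.2 (Commute.zpow_zpow_self _ _ _)
    refine c.lin1 (mul_mem (mul_mem (mul_mem i j) (inv_mem i)) (inv_mem j)) ?_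
    rw [up_comm i j, ← e]
    exact ((a.mul b).mul a.inv).mul b.inv
  refine commutator_le.2 fun x i y j => c.both s (k x i y j) ?_
  rw [conjugate_commutatorElement]
  exact k _ (Ie.tS0 s i) _ (Ie.tS0 s j)

theorem c0 : S ⊓ 𝐂(cj[t] ρ₁.range) ≤ S ⊓ 𝐍(ρ₁.range) := fun x i => ⟨i.1, by_contra fun n =>
  Ie.gne s ((Ie.swp s i.1 n).2.symm.trans (cj_eq_self (centralizer_le_normalizer _ i.2)))⟩

theorem dec2 (i : y ∈ S ⊓ 𝐂(cj[t] ρ₁.range)) (e : U5.up ψ y ∈ UT σ m) : U5.up ρ₁ (U5.up ψ y) = y := by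
  have k := c.dec0 (c.c0 s i) e
  exact inv_mul_eq_one.1 (Ie.triv s k.1 k.2 (mul_mem (inv_mem (s.com (up_range _))) i.2))

theorem zs : S ⊓ 𝐂(S) ≤ (S ⊓ ρ₁.range) ⊔ (S ⊓ cj[t] ρ₁.range) := fun x i => by
  have n : x ∈ S ⊓ 𝐍(ρ₁.range) := ⟨i.1, by_contra fun n => s.z1 (Pg.int s s.zm.1 s.zm.2 (by
    rw [← (Ie.swp s i.1 n).1, ← conj_eq_of_mem_centralizer i.2 s.zm.1]; exact conj_mem_cj x s.zm.2))⟩
  have k := c.lin1 n (su_sem (c.d.s_USU (c.d.s_ZU (c.d.cU (c.sem n) (c.cm n le_rfl (centralizer_anti c.uS i.2)) (c.two n)))))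
  exact c.both s k (by rwa [conj_eq_iff.2 (i.2 t s.tS)])

end Zf
end CF.U5
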