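import Cfsg.Agent.U5.Z1

/-! Standard unitary subgroups: the split case is impossible. -/

set_option autoImplicit false
set_option linter.unusedSectionVars false

namespace CF.U5

open Cfsg Subgroup Equiv CF.Loc CF.LX CF.Dbl Module Sx
open scoped commutatorElement

variable {K : Type} [Field K] [Fintype K] [CharP K 2] {m q : ℕ} {σ θ : K ≃+* K} {a b a₀ : K}
  {g ξ α p w : Perm (Fin m → K)} {u v : Fin m → K} {A B P H O : Subgroup (Perm (Fin m → K))}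
  {G : Type*} [Group G] [Finite G] {ρ ρ₁ ρ₂ : SU σ m →* G} {t h x y : G} {F N S J : Subgroup G}

namespace Dm
variable (d : Dm σ q m)
include d

theorem z_fix (i : g ∈ UT σ m ⊓ 𝐂(WW σ m)) (j : v ∈ Vf K m (m / 2)) : g v = v := by
  obtain ⟨-, c, -, e⟩ := d.cW1 ⟨_, i.1.1⟩ i.2
  have : c = 1 := smul_left_injective K d.b0 ((e _ d.b0V).symm.trans ((d.U_le i.1).2.trans (one_smul _ _).symm))
  rw [e v j, this, one_smul]

theorem z_x (i : g ∈ UT σ m) : g (bv 2) + bv 2 ∈ Vf K m (m / 2) := by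
  rw [d.l3]; exact UT_D i (bv_mem (by omega))

theorem z_dec (i : ∀ z ∈ Vf K m (m / 2), hf σ v z = 0) : ∃ u ∈ Vf K m (m / 2), v = u + hf σ v (bv 2) • bv 2 := by
  obtain ⟨a, b, c, rfl⟩ := d.fp2 d.fm0 (i _ d.b0V) (i _ d.b1V)
  exact ⟨_, d.mem_Vl.2 ⟨a, b, rfl⟩, by simp [d.fm0.h]⟩

theorem z_mul (i : g ∈ UT σ m ⊓ 𝐂(WW σ m)) (j : p ∈ UT σ m ⊓ 𝐂(WW σ m)) (v : Fin m → K) :
    p (g v) = p v + g v + v + hf σ v (g (bv 2) + bv 2) • (p (bv 2) + bv 2) := by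
  have s : Sem σ 1 g := i.1.1
  have s' : Sem σ 1 p := j.1.1
  have f : ∀ z ∈ Vf K m (m / 2), hf σ (g v) z = hf σ v z := fun z k => by rw [← s.form1 v z, d.z_fix i k]
  obtain ⟨u, k, e⟩ := d.z_dec (v := g v + v) fun z k => by rw [hf_add_l, f z k, CharTwo.add_self_eq_zero]
  have : hf σ (g v + v) (bv 2) = hf σ v (g (bv 2) + bv 2) := by
    rw [← f _ (d.z_x i.1), hf_add_l, hf_add_r, s.form1, add_comm]
  rw [this] at e
  generalize hf σ v (g (bv 2) + bv 2) = c at e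
  have e' : g v = v + (u + c • bv 2) := by rw [← e, add_comm (g v), ← add_assoc, vv, zero_add]
  rw [e', s'.add, s'.add, s'.smul1, d.z_fix j k, smul_add]
  linear_combination (norm := skip) vv v + vv (c • bv 2 : Fin m → K) - vv v - vv v - vv (c • bv 2 : Fin m → K) - vv (c • bv 2 : Fin m → K)
  abel

theorem z_cm (i : g ∈ UT σ m ⊓ 𝐂(WW σ m)) (j : p ∈ UT σ m ⊓ 𝐂(WW σ m)) : g * p = p * g ↔
    ∀ v, hf σ v (g (bv 2) + bv 2) • (p (bv 2) + bv 2) = hf σ v (p (bv 2) + bv 2) • (g (bv 2) + bv 2) := by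
  simp only [Equiv.ext_iff, Perm.mul_apply, d.z_mul i j, d.z_mul j i, add_comm (g _) (p _), add_right_inj]
  exact forall_congr' fun _ => eq_comm

theorem z_ab (i : g ∈ UT σ m ⊓ 𝐂(WW σ m)) (n : g ∉ WW σ m) (j : p ∈ UT σ m ⊓ 𝐂(WW σ m)) (k : w ∈ UT σ m ⊓ 𝐂(WW σ m))
    (e : g * p = p * g) (f : g * w = w * g) : p * w = w * p := by
  have x0 : g (bv 2) + bv 2 ≠ 0 := fun o => n (d.toFd.mem_W i.1.1 fun v l => by
    obtain ⟨u, a, b⟩ := d.z_dec l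
    have s : Sem σ 1 g := i.1.1
    rw [← vsub, sub_eq_zero] at o
    rw [b, s.add, s.smul1, d.z_fix i a, o])
  rw [d.z_cm i j] at e
  rw [d.z_cm i k] at f
  rw [d.z_cm j k]
  generalize g (bv 2) + bv 2 = x at *
  generalize p (bv 2) + bv 2 = y at *
  generalize w (bv 2) + bv 2 = z at *
  obtain ⟨r, o, -⟩ := d.toFd.part (T := ⊥) (x := x) x0
  have key : ∀ y, (∀ v, hf σ v x • y = hf σ v y • x) → ∃ a, σ a = a ∧ y = a • x := fun y e => by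
    have a := e r
    rw [o, one_smul] at a
    refine ⟨_, ?_, a⟩
    conv_rhs => rw [a, hf_smul_r, o, mul_one]
  obtain ⟨a, a1, rfl⟩ := key y e
  obtain ⟨b, b1, rfl⟩ := key z f
  intro v
  rw [hf_smul_r, hf_smul_r, a1, b1, smul_smul, smul_smul]
  congr 1; ring

end Dm

namespace Zf
variable {ψ : ↥(S ⊓ 𝐍(ρ₁.range)) →* Perm (Fin m → K)} (c : Zf q ρ ρ₁ t S ψ)
include c

theorem rk (l : J ≤ S ⊓ 𝐍(ρ₁.range)) (e : El J) : (J ⊓ 𝐂(ρ₁.range)).relIndex J ≤ Nat.card (im ρ₁ (WW σ m)) := by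
  rw [c.d.s_cardB c.k]; exact c.d.s_rk0 c.k e (l.trans inf_le_right)

theorem rk1 (l : J ≤ (S ⊓ ρ₁.range) ⊔ (S ⊓ 𝐂(ρ₁.range))) (e : El J)
    (k : (J ⊓ 𝐂(ρ₁.range)).relIndex J = Nat.card (im ρ₁ (WW σ m))) : J ≤ im ρ₁ (WW σ m) ⊔ (S ⊓ 𝐂(ρ₁.range)) := by
  have l' : J ≤ S ⊓ 𝐍(ρ₁.range) :=
    l.trans (sup_le (inf_le_inf_left _ le_normalizer) (inf_le_inf_left _ (centralizer_le_normalizer _)))
  rw [c.d.s_cardB c.k, ← card_im' l' c.p2] at k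
  refine fun x i => c.dec (l' i) c.d.W_le (c.d.jE (fun g j => ?_) (el_im e) k.ge (up_im i (l' i)))
  obtain ⟨y, a, a', rfl⟩ := mem_im.1 j
  obtain ⟨θ, s⟩ := c.sem a'
  exact c.d.U_of (c.d.s_lin c.k s (c.ind a') ((l.trans (sup_le_sup inf_le_right inf_le_right)) a) ▸ s) (c.fl a') (c.two a')

theorem gen (h0 : σ a₀ = a₀) (n0 : a₀ ≠ 0) (l : ∀ g ∈ ρ₁.range ⊓ 𝐍(im ρ₁ (WW σ m)), g * tv ρ₁ (bv 0) a₀ * g⁻¹ ∈ J) :
    im ρ₁ (WW σ m) ≤ J := by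
  have := c.d.W_gen (Vf_ti (σ := σ) le_rfl) (H := (J.comap ρ₁).map (SU σ m).subtype) fun v i => by
    refine ⟨⟨_, tv_SU v 1⟩, mem_comap.2 ?_, rfl⟩
    rw [← up_eq (tv_SU v 1)]
    by_cases v0 : v = 0
    · simp [v0, E_zero_v, one_mem]
    obtain ⟨g, j, e⟩ := c.d.s_trP h0 n0 i v0 (map_one σ) one_ne_zero
    rw [← e, up_cj j.1 (tv_SU _ _)]; exact l _ (c.d.s_PP ρ₁ j)
  intro y i
  obtain ⟨g, j, j', rfl⟩ := mem_im.1 i
  obtain ⟨g, k, rfl⟩ := this j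
  exact (up_coe (φ := ρ₁) g).symm ▸ k

theorem zcj (h0 : σ a₀ = a₀) (n0 : a₀ ≠ 0) (i : w ∈ Z σ (bv 0)) (y1 : U5.up ρ₁ w ≠ 1) :
    ∃ g ∈ ρ₁.range ⊓ 𝐍(im ρ₁ (WW σ m)), g * tv ρ₁ (bv 0) a₀ * g⁻¹ = U5.up ρ₁ w := by
  obtain ⟨a, e, rfl⟩ := (mem_Z c.d.iv c.d.b00).1 i
  obtain ⟨g, j, k⟩ := c.d.s_trP h0 n0 c.d.s_b0 c.d.b0 e fun o => y1 (by simp [o])
  exact ⟨_, c.d.s_PP ρ₁ j, by rw [← k, up_cj j.1 (tv_SU _ _)]⟩

theorem ip {z : G} (s : Sw ρ₁.range (cj[t] ρ₁.range) S t z) : IP ρ₁.range (cj[t] ρ₁.range) := by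
  have d := c.d
  have RS : UT σ m ⊓ 𝐂(WW σ m) ≤ SU σ m := inf_le_left.trans d.s_USU
  have q2 := d.two_le
  refine IW.ip (B := im ρ₁ (WW σ m)) (R := im ρ₁ (UT σ m ⊓ 𝐂(WW σ m)))
    ⟨s, c.iml inf_le_left, el_im d.s_Wel, im_comm (φ := ρ₁) RS RS ▸ im_mono d.W_der, fun x i y j => ?_, ?_, fun _ => c.rk,
      fun _ l => c.rk1 (l.trans (sup_le_sup_left (inf_le_inf_left _ (Ie.com' s)) _)), c.der s, fun x i e => ?_,
      fun x i n y j y' j' e e' => ?_, fun a i e => ?_⟩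
  · obtain ⟨g, a, a', rfl⟩ := mem_im.1 i
    obtain ⟨w, b, b', rfl⟩ := mem_im.1 j
    rw [← up_mul a' b', ← up_mul b' a', a.2 w b]
  · rw [d.s_cardB c.k, d.l3]
    exact lt_of_lt_of_le (by nlinarith) (Nat.pow_le_pow_right (by omega) (by norm_num : 2 ≤ 2 ^ 2))
  · have k := c.cm i d.W_le e
    exact c.dec i inf_le_left ⟨d.U_of (d.cW (c.sem i) k).1 (c.fl i) (c.two i), k⟩
  · obtain ⟨g, a, a', rfl⟩ := mem_im.1 i
    obtain ⟨p, b, b', rfl⟩ := mem_im.1 j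
    obtain ⟨w, k, k', rfl⟩ := mem_im.1 j'
    rw [← up_mul b' k', ← up_mul k' b', d.z_ab a (fun o => n (up_im o a')) b k
      (d.s_icm c.k (su_sem a') (ind_up a') b' (e2_of d.U_two b.1) e) (d.s_icm c.k (su_sem a') (ind_up a') k' (e2_of d.U_two k.1) e')]
  · obtain ⟨g, j, k, rfl⟩ := Dm.s_lift i (e2_inv e)
    obtain ⟨r, a, b⟩ := d.m3 (su_sem j) (d.ker_sc c.k (mul_mem j j) (by rw [up_mul j j, e]) (k.mul k rfl))
    exact ⟨_, up_range r, up_cj (φ := ρ₁) a j ▸ up_im b (d.s_WSU b)⟩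

theorem good (i : x ∈ S ⊓ 𝐍(ρ₁.range)) (e : x * x = 1) (n : x ∉ 𝐂(ρ₁.range)) : Good ρ₁.range x := by
  obtain ⟨R, two, l, r, j, r2, r1, g, k, o⟩ := c.d.good (c.sem i) (c.sq i e) fun o => n ((c.ker i).1 o)
  have l1 := l.trans inf_le_left
  have rS := (commutator_le_sup _ _).trans (sup_le l1 l1) j
  obtain ⟨θ, s⟩ := c.sem i
  refine ⟨im ρ₁ R, two_im two, le_inf im_le fun y a => ?_, U5.up ρ₁ r, im_comm (φ := ρ₁) l1 l1 ▸ up_im j rS, by rw [← up_mul rS rS, r2, up_one],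
    fun o => r1 (c.d.ker_sc c.k rS o (e2_inv r2)), U5.up ρ₁ g, up_range _, ?_⟩
  · obtain ⟨y, b, b', rfl⟩ := mem_im.1 a
    exact mem_c1.2 ((c.ind i).cm b' (mem_c1.1 (l b).2).symm).symm
  · have : r = (U5.up ψ x)⁻¹ * g * (U5.up ψ x)⁻¹⁻¹ * g⁻¹ := by rw [inv_inv, mul_assoc, mul_assoc, ← mul_assoc g, o]; simp
    rw [this, up_mul (s.inv.su k) (inv_mem k), ← (c.ind i).inv s g k, up_inv k]; group

theorem sg (l : J ≤ 𝐍(ρ₁.range ⊔ cj[t] ρ₁.range)) (o : Odd (Nat.card J)) (n : S ≤ 𝐍(J)) : J ≤ 𝐂(S ⊓ ρ₁.range) := by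
  have d := c.d
  have od : ∀ y ∈ J, (orderOf y).Coprime 2 := fun y => orderOf_coprime_of_mem (Nat.coprime_two_right.2 o)
  have n1 : J ≤ 𝐍(ρ₁.range) := fun y i => by
    obtain ⟨k, e⟩ := exists_pow_eq_self_of_coprime (od y i).symm
    refine e ▸ pow_mem (cj_eq_self_iff.1 ?_) k
    rw [pow_two, cj_mul]
    rcases d.perm c.f c.e (l i) with a | a
    · rw [a.1, a.1]
    · rw [a.1, a.2]
  have mem : ∀ g ∈ SU σ m, g ∈ (J.comap ρ₁).map (SU σ m).subtype ↔ U5.up ρ₁ g ∈ J := fun g i =>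
    ⟨fun ⟨x, a, e⟩ => by rw [← e]; exact (up_coe (φ := ρ₁) x).symm ▸ a, fun a => ⟨⟨g, i⟩, by rwa [up_eq i] at a, rfl⟩⟩
  have sc := d.sg (map_subtype_le (J.comap ρ₁)) (Nat.coprime_two_right.1 (coprime_card_of_forall fun g i e => by
      have j := map_subtype_le _ i
      have g2 : g ^ 2 ^ 1 = 1 := by rw [pow_one, ← e, pow_orderOf_eq_one]
      have := d.ker_sc c.k j (E2.odd (E2.up ⟨1, g2⟩ j) (Nat.coprime_two_right.1 (od _ ((mem g j).1 i))) (pow_orderOf_eq_one _)) ⟨1, g2⟩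
      simp [this] at e))
    fun u i => mem_normalizer_of_conj_mem fun g a => by
      have j := map_subtype_le _ a
      have i' := d.s_USU i
      rw [mem _ ((su_sem i').su j), up_cj i' j]
      exact conj_mem_of_mem_normalizer (n (c.u1 i).1) ((mem g j).1 a)
  intro y i u j
  have a : y * u⁻¹ * y⁻¹ ∈ ρ₁.range := conj_mem_of_mem_normalizer (n1 i) (inv_mem j.2)
  have b : u * (y * u⁻¹ * y⁻¹) ∈ 𝐂(ρ₁.range) := by
    obtain ⟨g, k, e⟩ := mem_range_up.1 (mul_mem j.2 a)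
    rw [← e]
    refine (d.cen_iff c.k k).2 (sc g ((mem g k).2 ?_))
    rw [e]
    simpa [mul_assoc] using mul_mem (conj_mem_of_mem_normalizer (n j.1) i) (inv_mem i)
  have u2 := e2_of c.syl.isPGroup j.1
  have := d.s_cen2 c.k (mul_mem j.2 a) b (u2.mul (u2.inv.cj y) (mul_left_cancel (a := u) (by rw [b u j.2, mul_assoc u])))
  rw [← mul_inv_eq_one]; simpa [mul_assoc] using this

end Zf

theorem Dm.split (d : Dm σ q m) (f : Fr ρ t) (o : Top ρ F) (r : R2 ρ t) (e : Sp1 ρ ρ₁ t) : False := by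
  obtain ⟨S, ψ, c⟩ := d.exists_zf f r e
  obtain ⟨a₀, h0, n0, s⟩ := c.exz
  have ip := c.ip s
  have QS := d.Q_le.trans d.s_USU
  obtain ⟨g, i, p, j, g2, k⟩ := d.cz h0
  have zc : tv ρ₁ (bv 0) a₀ = ⁅U5.up ρ₁ g, U5.up ρ₁ p⁆ := by rw [tv, k, up_comm (QS i) (QS j)]
  have b1 : hf σ (bv 1 : Fin m → K) (bv 1) = 0 := hf_Vf (bv_mem one_lt_two) (bv_mem one_lt_two) (by have := d.hm; omega)
  have n1 : (bv 1 : Fin m → K) ≠ 0 := fun o => by simpa [bv] using congrFun o ⟨1, by have := d.hm; omega⟩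
  have cj1 : ∀ v, hf σ v v = 0 → v ≠ 0 → ∃ g ∈ ρ₁.range, g * tv ρ₁ (bv 0) a₀ * g⁻¹ = tv ρ₁ v 1 := fun v a b => by
    obtain ⟨g, i, e⟩ := d.s_tr h0 n0 a b (map_one σ) one_ne_zero
    exact ⟨_, up_range g, by rw [tv, tv, ← e, up_cj i (tv_SU _ _)]⟩
  have l12 : S ⊓ ρ₁.range ≤ S ⊓ 𝐂(cj[t] ρ₁.range) := inf_le_inf_left _ s.com
  have := o.nor
  refine SE.false (X := F) (B := im ρ₁ (WW σ m)) ⟨s, o.nor, o.sim, o.nab, d.s_nc e o.le (le_normalizer_of_normal' _ _),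
    zc ▸ commutator_mem_commutator (c.u1 (d.Q_le i)) (c.u1 (d.Q_le j)), ⟨tv ρ₁ (bv 1) 1, ?_, Dm.s_tvsq _ _ _,
      d.s_tv1 c.k b1 n1 (map_one σ) one_ne_zero, fun k => ?_⟩, c.der s, ip,
    PG.pur (Γ := fun _ => False) ⟨s, c.der s, ip, c.zs s, fun x i e n _ => c.good i e n, fun _ _ => False.elim,
      fun _ _ _ _ => False.elim, fun ⟨_, k⟩ => k.elim, fun x i j => ?_, fun _ _ _ => False.elim, fun ⟨_, k⟩ => k.elim⟩,
    c.iml d.W_le, el_im d.s_Wel, fun J l el => ?_, fun g k => ?_, fun y i y2 y1 k => ?_, fun y i zy k => ?_,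
    s.sig_of c.le (fun g i => (d.uq f r e g (by rw [conj_eq_iff.2 (mem_c1.1 i)]; exact Dm.s_tM f _)).1) (fun _ => c.sg)
      (c.u1 (d.Q_le i)) (c.u1 (d.Q_le j)) (by rw [← up_mul (QS i) (QS i), g2, up_one]) zc⟩
  · rw [c.cap, ← im_comm d.s_USU d.s_USU]; exact up_im d.zd1 (tv_SU _ _)
  · obtain ⟨a, k, -⟩ := d.tv_inj b1 d.b00 (map_one σ) h0 one_ne_zero n1
      (d.s_ker2 c.k (tv_SU _ _) (tv_SU _ _) (e2_E _ _ _) (e2_E _ _ _) k)
    simpa [bv] using congrFun k ⟨0, by have := d.hm; omega⟩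
  · have n : x ∈ S ⊓ 𝐍(ρ₁.range) := ⟨i, sup_le le_normalizer (centralizer_le_normalizer _) j⟩
    obtain ⟨θ, a⟩ := c.sem n
    exact c.lin1 n (d.s_lin c.k a (c.ind n) j ▸ a)
  · have := c.rk (l.trans (c.c0 s)) el
    rwa [show J ⊓ 𝐂(ρ₁.range) = ⊥ from eq_bot_iff.2 fun x i => Ie.triv s (l i.1).1 i.2 (l i.1).2, relIndex_bot_left] at this
  · let φ : WW σ m →* G := (ch g ρ₁).comp (inclusion d.s_WSU)
    have φu : ∀ w ∈ WW σ m, U5.up φ w = g * U5.up ρ₁ w * g⁻¹ := fun w i => by rw [up_eq i, up_eq (d.s_WSU i)]; rfl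
    have φr : φ.range = cj[g] (im ρ₁ (WW σ m)) := by
      ext y
      rw [mem_range_up, mem_cj, mem_im]
      exact ⟨fun ⟨w, i, e⟩ => ⟨w, i, d.s_WSU i, by rw [← e, φu w i]; group⟩, fun ⟨w, i, _, e⟩ => ⟨w, i, by rw [φu w i, e]; group⟩⟩
    rw [← φr]
    refine d.cn5 ((injective_iff_map_eq_one _).2 fun w k => Subtype.ext (d.ker_sc (c.k.cj g) (d.s_WSU w.2)
      ((up_eq _).trans k) (e2_inv (d.s_Wel _ w.2)))) ?_ (eq_bot_iff.2 fun x i => Ie.triv s i.1.1 i.1.2 i.2.2)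
      fun v i => ?_
    · rw [← commutator_eq_bot_iff_le_centralizer', ← le_bot_iff, ← s.fai, inf_assoc, inf_inf_distrib_left]
      have n1 : S ⊓ 𝐂(ρ₁.range) ≤ S ⊓ 𝐍(ρ₁.range) := inf_le_inf_left _ (centralizer_le_normalizer _)
      exact le_inf (commutator_le_right_of_le_normalizer (le_normalizer_inf (inf_le_left.trans le_normalizer)
        (le_normalizer_centralizer ((c.c0 s).trans inf_le_right)))) (commutator_le_left_of_le_normalizer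
          (le_normalizer_inf (inf_le_left.trans le_normalizer) (le_normalizer_centralizer fun x i => Ie.n0 s (n1 i))))
    · by_cases v0 : v = 0
      · simp [v0, E_zero_v, one_mem]
      obtain ⟨a, j, e⟩ := d.s_trP h0 n0 i v0 (map_one σ) one_ne_zero
      have zW : E σ (bv 0) 0 a₀ ∈ WW σ m := (d.Z_W (tv_Z _ _))
      have vW : E σ v 0 1 ∈ WW σ m := e ▸ conj_mem_of_mem_normalizer j.2 zW
      rw [φu _ vW]
      exact k _ (c.u1 (d.W_le vW)) (by rw [← e, up_cj j.1 (tv_SU _ _)]; exact Pg.ic _ _)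
  · have n := c.c0 s i
    have a := d.cU (c.sem n) (c.cm n le_rfl (c.cap ▸ k)) (c.two n)
    have b := c.dec2 s i (d.s_ZU a)
    obtain ⟨g, j, e⟩ := c.zcj h0 n0 a (b.symm ▸ y1)
    exact ⟨g, j.1, e.trans b⟩
  · have n := c.c0 s i
    have a := d.cW2 (c.sem n) (c.cm n d.W_le (le_centralizer_iff.1 (centralizer_zpowers y ▸ c.gen h0 n0 fun g j =>
      mem_c1.2 (k _ (l12 (c.iml d.W_le (conj_mem_of_mem_normalizer j.2 (up_im (d.Z_W (tv_Z _ _)) (tv_SU _ _)))))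
        (Pg.ic _ _)).symm) (mem_zpowers y))) (c.sq n (Pg.sqc zy s.z2))
    have b := c.dec2 s i (d.W_le a)
    rcases d.j2m a (fun o => Pg.nec zy s.z1 (by rw [← b, o, up_one])) with ⟨v, hv, v0, e⟩ | ⟨g, j, l, e⟩
    · rw [← b, e]; exact cj1 v hv v0
    · have aS := d.s_WSU a
      refine (e (mem_c1.2 (d.s_icm c.k (su_sem aS) (ind_up aS) (d.s_USU l) (e2_of d.U_two l) ?_).symm)).elim
      rw [b]
      exact k _ (l12 (c.u1 l)) (zy.trans (by rw [up_cj j aS, b]; exact Pg.ic _ _))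

end CF.U5
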